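import Mathlib.GroupTheory.Index
import Mathlib.GroupTheory.Sylow
import Mathlib.GroupTheory.Subgroup.Centralizer
import Mathlib.Tactic.Group
import Cfsg.Agent.Lib.H75.Basic

set_option autoImplicit false
set_option linter.all false

namespace H75.UnionConj

open Subgroup

/-- A proper subgroup of a finite group has an element conjugate into no... : some `g` lies in no conjugate. -/
theorem exists_not_mem_conj {G : Type*} [Group G] [Finite G] (H : Subgroup G) (hH : H ≠ ⊤) :
    ∃ g : G, ∀ x : G, x⁻¹ * g * x ∉ H := by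
  by_contra hcon
  push Not at hcon
  let f : (G ⧸ H) × H → G := fun z => z.1.out * z.2 * z.1.out⁻¹
  have hsurj : Function.Surjective f := by
    intro g
    obtain ⟨x, hx⟩ := hcon g
    have h1 : x⁻¹ * (QuotientGroup.mk x : G ⧸ H).out ∈ H := by
      rw [← QuotientGroup.eq]
      exact (QuotientGroup.out_eq' _).symm
    set y := (QuotientGroup.mk x : G ⧸ H).out with hy
    have h2 : y⁻¹ * g * y ∈ H := by
      have e : y⁻¹ * g * y = (x⁻¹ * y)⁻¹ * (x⁻¹ * g * x) * (x⁻¹ * y) := by group
      rw [e]
      exact H.mul_mem (H.mul_mem (H.inv_mem h1) hx) h1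
    refine ⟨(QuotientGroup.mk x, ⟨y⁻¹ * g * y, h2⟩), ?_⟩
    show y * (y⁻¹ * g * y) * y⁻¹ = g
    group
  have hcard : Nat.card ((G ⧸ H) × H) = Nat.card G := by
    rw [Nat.card_prod, ← H.card_eq_card_quotient_mul_card_subgroup]
  have hbij := (Nat.bijective_iff_surjective_and_card f).2 ⟨hsurj, hcard⟩
  apply hH
  rw [← index_eq_one, Subgroup.index, Nat.card_eq_one_iff_unique]
  refine ⟨⟨fun a b => ?_⟩, ⟨QuotientGroup.mk 1⟩⟩
  have h3 : f (a, 1) = f (b, 1) := by
    show a.out * ((1 : H) : G) * a.out⁻¹ = b.out * ((1 : H) : G) * b.out⁻¹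
    simp
  exact congrArg Prod.fst (hbij.1 h3)

/-- If no class size is divisible by the prime `q`, the Sylow `q`-subgroups are central. -/
theorem sylow_le_center {G : Type*} [Group G] [Finite G] (q : ℕ) [Fact q.Prime]
    (h : ∀ x : G, ¬ q ∣ (centralizer ({x} : Set G)).index) (Q : Sylow q G) : (Q : Subgroup G) ≤ center G := by
  have hC : centralizer (Q : Set G) = ⊤ := by
    by_contra hne
    obtain ⟨g, hg⟩ := exists_not_mem_conj _ hne
    -- a Sylow subgroup inside the centralizer of g
    obtain ⟨R⟩ : Nonempty (Sylow q (centralizer ({g} : Set G))) := inferInstance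
    have h2 : IsPGroup q ((R : Subgroup (centralizer ({g} : Set G))).map (centralizer ({g} : Set G)).subtype) :=
      R.isPGroup'.map _
    have h3 : ¬ q ∣ ((R : Subgroup (centralizer ({g} : Set G))).map (centralizer ({g} : Set G)).subtype).index := by
      rw [Subgroup.index_map_subtype]
      intro h'
      rcases (Fact.out : q.Prime).dvd_mul.1 h' with h' | h'
      · exact R.not_dvd_index h'
      · exact h g h'
    let R' : Sylow q G := h2.toSylow h3
    obtain ⟨x, hx⟩ := MulAction.exists_smul_eq G Q R'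
    apply hg x
    rw [mem_centralizer_iff]
    intro z hz
    have h4 : x * z * x⁻¹ ∈ (R' : Subgroup G) := by
      rw [← hx, Sylow.coe_subgroup_smul]
      exact (H75.Basic.mem_conj_smul _ _ _).2 ⟨z, hz, rfl⟩
    obtain ⟨w, _, hw⟩ := h4
    have h5 : (w : G) * g = g * w := mem_centralizer_singleton_iff.1 w.2
    have hw' : (w : G) = x * z * x⁻¹ := hw
    rw [hw'] at h5
    calc z * (x⁻¹ * g * x) = x⁻¹ * ((x * z * x⁻¹) * g) * x := by group
      _ = x⁻¹ * (g * (x * z * x⁻¹)) * x := by rw [h5]
      _ = x⁻¹ * g * x * z := by group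
  intro z hz
  rw [mem_center_iff]
  intro g
  have : g ∈ centralizer (Q : Set G) := by rw [hC]; trivial
  exact (mem_centralizer_iff.1 this z hz).symm

end H75.UnionConj
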