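import Mathlib.Data.Set.Finite.Lemmas
import Mathlib.GroupTheory.IndexNormal
import Mathlib.GroupTheory.SpecificGroups.Cyclic
import Cfsg.Agent.Lib.H75.SylowNumber

set_option autoImplicit false

/-! Brodkey's theorem and groups with fewer than `p ^ 2` Sylow `p`-subgroups. -/

namespace H75.Brodkey

open Subgroup H75.SylowNumber

variable {G : Type*} [Group G] {p : ℕ} [Fact p.Prime]

/-- Brodkey: commutative Sylow `p`-subgroups; then some two of them meet in the intersection of all. -/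
theorem exists_inf_le [Finite G]
    (hab : ∀ P : Sylow p G, ∀ a ∈ (P : Subgroup G), ∀ b ∈ (P : Subgroup G), a * b = b * a) :
    ∃ P Q : Sylow p G, ∀ R : Sylow p G, (P : Subgroup G) ⊓ (Q : Subgroup G) ≤ (R : Subgroup G) := by
  classical
  obtain ⟨P₀⟩ : Nonempty (Sylow p G) := inferInstance
  have hne : (Set.univ : Set (Sylow p G × Sylow p G)).Nonempty := ⟨(P₀, P₀), trivial⟩
  obtain ⟨⟨P, Q⟩, -, hmin'⟩ := Set.exists_min_image Set.univ
    (fun x : Sylow p G × Sylow p G => Nat.card ((x.1 : Subgroup G) ⊓ (x.2 : Subgroup G) : Subgroup G))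
    Set.finite_univ hne
  have hmin := fun x => hmin' x trivial
  refine ⟨P, Q, fun R => ?_⟩
  set D : Subgroup G := (P : Subgroup G) ⊓ (Q : Subgroup G) with hD
  set N : Subgroup G := normalizer (D : Set G) with hN
  have hcent : ∀ S : Sylow p G, D ≤ (S : Subgroup G) → (S : Subgroup G) ≤ N := by
    intro S hS a ha
    apply H75.Basic.mem_normalizer_of_conj_mem
    intro z hz
    rw [hab S a ha z (hS hz), mul_inv_cancel_right]
    exact hz
  have hPN : (P : Subgroup G) ≤ N := hcent P inf_le_left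
  have hQN : (Q : Subgroup G) ≤ N := hcent Q inf_le_right
  have h1 : IsPGroup p (((R : Subgroup G) ⊓ N).subgroupOf N) :=
    (R.isPGroup'.to_inf_left (K := N)).comap_of_injective N.subtype (Subgroup.subtype_injective N)
  obtain ⟨S, hS⟩ := h1.exists_le_sylow
  obtain ⟨n, hn⟩ := MulAction.exists_smul_eq N (P.subtype hPN) S
  have hRN : ∀ z ∈ (R : Subgroup G), z ∈ N → (n : G)⁻¹ * z * n ∈ (P : Subgroup G) := by
    intro z hz hzN
    have h2 : (⟨z, hzN⟩ : N) ∈ (S : Subgroup N) := hS ⟨hz, hzN⟩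
    rw [← hn, Sylow.coe_subgroup_smul] at h2
    have h3 := (H75.Basic.mem_conj_smul' _ _ _).1 h2
    exact h3
  have hDn : ∀ z, z ∈ D ↔ (n : G) * z * (n : G)⁻¹ ∈ D := fun z => (mem_normalizer_iff.1 n.2) z
  have hle : (R : Subgroup G) ⊓ (((n : G) • Q : Sylow p G) : Subgroup G) ≤ D := by
    rintro z ⟨hz1, hz2⟩
    rw [Sylow.coe_subgroup_smul] at hz2
    have hz3 := (H75.Basic.mem_conj_smul' _ _ _).1 hz2
    have hzN : z ∈ N := by
      have h4 : (n : G) * ((n : G)⁻¹ * z * n) * (n : G)⁻¹ ∈ N := N.mul_mem (N.mul_mem n.2 (hQN hz3)) (N.inv_mem n.2)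
      have h5 : (n : G) * ((n : G)⁻¹ * z * n) * (n : G)⁻¹ = z := by group
      rwa [h5] at h4
    have h6 := hRN z hz1 hzN
    have h7 : (n : G)⁻¹ * z * n ∈ D := ⟨h6, hz3⟩
    have h8 := (hDn _).1 h7
    have h5 : (n : G) * ((n : G)⁻¹ * z * n) * (n : G)⁻¹ = z := by group
    rwa [h5] at h8
  have hcard := hmin (R, (n : G) • Q)
  have heq := Subgroup.eq_of_le_of_card_ge hle hcard
  rw [← heq]
  exact inf_le_left

/-- if `n_p(G) < p^2`, any two different Sylow subgroups meet in a subgroup of index `p`. -/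
theorem relIndex_eq_of_card_lt [Finite G] (hn : Nat.card (Sylow p G) < p ^ 2) (P Q : Sylow p G) (hne : P ≠ Q) :
    (Q : Subgroup G).relIndex P = p := by
  have h1 : Nat.card (MulAction.orbit P Q) = (Q : Subgroup G).relIndex P := by
    rw [Nat.card_congr (MulAction.orbitEquivQuotientStabilizer P Q)]
    have e : MulAction.stabilizer P Q = (Q : Subgroup G).subgroupOf P := by
      ext g
      rw [MulAction.mem_stabilizer_iff, Subgroup.mem_subgroupOf]
      have h2 : g • Q = (g : G) • Q := rfl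
      rw [h2, Sylow.smul_eq_iff_mem_normalizer]
      have h3 := P.isPGroup'.inf_normalizer_sylow Q
      constructor
      · intro h
        have : (g : G) ∈ (P : Subgroup G) ⊓ normalizer (Q : Set G) := ⟨g.2, h⟩
        rw [h3] at this
        exact this.2
      · intro h
        exact Subgroup.le_normalizer h
    rw [e]
    rfl
  obtain ⟨k, hk⟩ := P.isPGroup'.card_orbit Q
  have h2 : Nat.card (MulAction.orbit P Q) ≤ Nat.card (Sylow p G) :=
    Nat.card_le_card_of_injective _ Subtype.val_injective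
  rw [hk] at h1 h2
  have h3 : p ^ k < p ^ 2 := lt_of_le_of_lt h2 hn
  have h4 : k < 2 := (Nat.pow_lt_pow_iff_right (Fact.out : p.Prime).one_lt).1 h3
  interval_cases k
  · exfalso
    rw [pow_zero] at h1
    have h5 := relIndex_eq_one.1 h1.symm
    exact hne (Sylow.ext (P.3 Q.2 h5).symm)
  · rw [← h1, pow_one]

/-- A subgroup of index `p` in a `p`-group contains the commutators. -/
theorem commutator_mem_of_index [Finite G] (P D : Subgroup G) (hP : IsPGroup p P) (hD : D.relIndex P = p) :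
    ∀ a ∈ P, ∀ b ∈ P, a * b * a⁻¹ * b⁻¹ ∈ D := by
  have hidx : (D.subgroupOf P).index = p := hD
  have hnorm : (D.subgroupOf P).Normal := by
    apply Subgroup.normal_of_index_eq_minFac_card
    rw [hidx]
    obtain ⟨k, hk⟩ := IsPGroup.iff_card.1 hP
    rw [hk]
    have hk0 : k ≠ 0 := by
      rintro rfl
      have h1 := Subgroup.index_dvd_card (D.subgroupOf P)
      rw [hk, hidx, pow_zero] at h1
      exact (Fact.out : p.Prime).one_lt.ne' (Nat.dvd_one.1 h1)
    rw [(Fact.out : p.Prime).pow_minFac hk0]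
  intro a ha b hb
  have hcomm : IsMulCommutative (P ⧸ D.subgroupOf P) := by
    have : Nat.card (P ⧸ D.subgroupOf P) = p := hidx
    have : IsCyclic (P ⧸ D.subgroupOf P) := isCyclic_of_prime_card this
    let _ := IsCyclic.commGroup (α := P ⧸ D.subgroupOf P)
    exact ⟨⟨fun x y => mul_comm x y⟩⟩
  have h1 := isMulCommutative_iff.1 hcomm (QuotientGroup.mk ⟨a, ha⟩) (QuotientGroup.mk ⟨b, hb⟩)
  have h2 : (QuotientGroup.mk ((⟨b, hb⟩ : P) * ⟨a, ha⟩) : P ⧸ D.subgroupOf P) = QuotientGroup.mk (⟨a, ha⟩ * ⟨b, hb⟩) := h1.symm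
  have h3 := QuotientGroup.eq.1 h2
  have h4 := hnorm.conj_mem _ h3 (⟨b, hb⟩ * ⟨a, ha⟩)
  have h5 : (⟨b, hb⟩ * ⟨a, ha⟩ : P) * ((⟨b, hb⟩ * ⟨a, ha⟩ : P)⁻¹ * (⟨a, ha⟩ * ⟨b, hb⟩)) * (⟨b, hb⟩ * ⟨a, ha⟩ : P)⁻¹ =
     ⟨a, ha⟩ * ⟨b, hb⟩ * (⟨a, ha⟩)⁻¹ * (⟨b, hb⟩)⁻¹ := by group
  rw [h5] at h4
  exact h4

/-- `n_p(G) < p^2` and the Sylow subgroups have trivial intersection: then they have order dividing `p`. -/
theorem card_eq_of_card_lt [Finite G] (hn : Nat.card (Sylow p G) < p ^ 2)
    (hcore : ∀ x : G, (∀ R : Sylow p G, x ∈ (R : Subgroup G)) → x = 1) (P : Sylow p G) :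
    Nat.card P = p ∨ Nat.card P = 1 := by
  have hab : ∀ P : Sylow p G, ∀ a ∈ (P : Subgroup G), ∀ b ∈ (P : Subgroup G), a * b = b * a := by
    intro P a ha b hb
    have h1 : a * b * a⁻¹ * b⁻¹ = 1 := by
      apply hcore
      intro R
      by_cases hR : P = R
      · rw [← hR]
        exact (P : Subgroup G).mul_mem ((P : Subgroup G).mul_mem ((P : Subgroup G).mul_mem ha hb)
          ((P : Subgroup G).inv_mem ha)) ((P : Subgroup G).inv_mem hb)
      · exact commutator_mem_of_index (P : Subgroup G) (R : Subgroup G) P.isPGroup'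
          (relIndex_eq_of_card_lt hn P R hR) a ha b hb
    exact mul_inv_eq_iff_eq_mul.1 (mul_inv_eq_one.1 h1)
  obtain ⟨P1, Q1, h1⟩ := exists_inf_le hab
  have h2 : (P1 : Subgroup G) ⊓ Q1 = ⊥ := by
    rw [eq_bot_iff]
    intro x hx
    rw [mem_bot]
    exact hcore x (fun R => h1 R hx)
  have hcard : Nat.card P = Nat.card P1 := Nat.card_congr (Sylow.equiv P P1).toEquiv
  rw [hcard]
  by_cases hne : P1 = Q1
  · right
    rw [← hne, inf_idem] at h2
    rw [Subgroup.card_eq_one]; exact h2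
  · left
    have h3 := relIndex_eq_of_card_lt hn P1 Q1 hne
    have h4 := relIndex_mul_card_inf (Q1 : Subgroup G) (P1 : Subgroup G)
    rw [inf_comm, h2, h3, Subgroup.card_bot, mul_one] at h4
    exact h4.symm

end H75.Brodkey
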