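import Mathlib
import Cfsg.Agent.S4035
import Cfsg.Agent.Lib.H75.ClassGraph
import Cfsg.Agent.Lib.H75.SylowNumber
import Cfsg.Agent.Lib.H71.Basic

set_option autoImplicit false
set_option linter.all false

/-! Groups all of whose noncentral class sizes have the same `p`-part. -/

namespace H75.CS

open Subgroup H75.ClassGraph

variable {G : Type*} [Group G]

def Reg (p : ℕ) (x : G) : Prop := (orderOf x).Coprime p

theorem decomp [Finite G] {p : ℕ} (hp : p.Prime) (g : G) : ∃ x y : G, x ∈ zpowers g ∧ y ∈ zpowers g ∧ x * y = g ∧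
    Commute x y ∧ Pel p x ∧ Reg p y := by
  obtain ⟨x, y, h1, h2, h3, h4, h5, h6, -⟩ := H71.Basic.exists_pPart g (isOfFinOrder_of_finite g) p hp
  exact ⟨x, y, h1, h2, h3, h4, h5, ((Nat.Prime.coprime_iff_not_dvd hp).2 h6).symm⟩

theorem Reg.conj {p : ℕ} {x : G} (h : Reg p x) (g : G) : Reg p (g * x * g⁻¹) := by
  unfold Reg at *
  rwa [show orderOf (g * x * g⁻¹) = orderOf x from
    orderOf_injective (MulAut.conj g).toMonoidHom (MulAut.conj g).injective x]

theorem coprime_of {p : ℕ} {a b : G} (ha : Pel p a) (hb : Reg p b) : (orderOf a).Coprime (orderOf b) := by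
  obtain ⟨k, hk⟩ := ha
  rw [hk]
  exact (Nat.Coprime.pow_right k hb).symm

theorem commute_left {a b g : G} (hab : Commute a b) (hc : (orderOf a).Coprime (orderOf b))
    (h : Commute g (a * b)) : Commute g a := by
  obtain ⟨m, hm⟩ := exists_pow_eq_self_of_coprime (x := a) hc.symm
  have h1 : (a * b) ^ orderOf b = a ^ orderOf b := by
    rw [hab.mul_pow, pow_orderOf_eq_one, mul_one]
  have h2 : Commute g ((a * b) ^ orderOf b) := h.pow_right _
  rw [h1] at h2
  rw [← hm]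
  exact h2.pow_right m

theorem commute_right {a b g : G} (hab : Commute a b) (hc : (orderOf a).Coprime (orderOf b))
    (h : Commute g (a * b)) : Commute g b := by
  rw [hab.eq] at h
  exact commute_left hab.symm hc.symm h

theorem eq_one_of_pel_reg {p : ℕ} {x : G} (h1 : Pel p x) (h2 : Reg p x) : x = 1 := by
  rw [← orderOf_eq_one_iff]
  have := coprime_of h1 h2
  rwa [Nat.coprime_self] at this

theorem Pel.one (p : ℕ) : Pel p (1 : G) := ⟨0, by simp⟩

theorem Reg.one (p : ℕ) : Reg p (1 : G) := by unfold Reg; simp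

theorem Reg.inv {p : ℕ} {x : G} (h : Reg p x) : Reg p x⁻¹ := by
  unfold Reg at *; rwa [orderOf_inv]

theorem Reg.pow {p : ℕ} {x : G} (h : Reg p x) (k : ℕ) : Reg p (x ^ k) := by
  unfold Reg at *
  exact Nat.Coprime.coprime_dvd_left (orderOf_pow_dvd k) h

theorem Reg.zpow {p : ℕ} {x y : G} (h : Reg p x) (hy : y ∈ zpowers x) : Reg p y := by
  unfold Reg at *
  exact Nat.Coprime.coprime_dvd_left (orderOf_dvd_of_mem_zpowers hy) h

theorem Pel.zpow {p : ℕ} (hp : p.Prime) {x y : G} (h : Pel p x) (hy : y ∈ zpowers x) : Pel p y := by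
  obtain ⟨k, hk⟩ := h
  have := orderOf_dvd_of_mem_zpowers hy
  rw [hk] at this
  obtain ⟨j, -, hj⟩ := (Nat.dvd_prime_pow hp).1 this
  exact ⟨j, hj⟩

/-- the centralizer inside a subgroup -/
theorem index_cent_sub (H : Subgroup G) (x : H) :
    (centralizer ({x} : Set H)).index = (centralizer ({(x : G)} : Set G)).relIndex H := by
  unfold Subgroup.relIndex
  congr 1
  ext y
  rw [mem_centralizer_singleton_iff, mem_subgroupOf, mem_centralizer_singleton_iff]
  constructor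
  · intro h; exact congrArg Subtype.val h
  · intro h; exact Subtype.ext h

/-- `K` is the product of its `p`-part and its `p'`-part -/
def Spl (p : ℕ) (K : Subgroup G) : Prop :=
  (∀ a ∈ K, ∀ b ∈ K, Pel p a → Reg p b → Commute a b) ∧
  (∀ a ∈ K, ∀ b ∈ K, Pel p a → Pel p b → Pel p (a * b)) ∧
  (∀ a ∈ K, ∀ b ∈ K, Reg p a → Reg p b → Reg p (a * b))

theorem pel_coe {p : ℕ} {K : Subgroup G} {x : K} : Pel p (x : G) ↔ Pel p x := by
  unfold Pel; rw [Subgroup.orderOf_coe]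

theorem reg_coe {p : ℕ} {K : Subgroup G} {x : K} : Reg p (x : G) ↔ Reg p x := by
  unfold Reg; rw [Subgroup.orderOf_coe]

/-- the splitting criterion for a whole group -/
theorem spl_aux {K : Type*} [Group K] [Finite K] {p : ℕ} [Fact p.Prime]
    (h : ∀ x : K, Reg p x → ¬ p ∣ (centralizer ({x} : Set K)).index) :
    (∀ a b : K, Pel p a → Reg p b → Commute a b) ∧
    (∀ a b : K, Pel p a → Pel p b → Pel p (a * b)) ∧
    (∀ a b : K, Reg p a → Reg p b → Reg p (a * b)) := by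
  have hp : p.Prime := Fact.out
  obtain ⟨P⟩ : Nonempty (Sylow p K) := inferInstance
  obtain ⟨hPn, H, hHn, hpH, hdis, hsup⟩ := Cfsg.Agent.S4035.result (p := p) (fun x hx => by
    have h1 := h x hx
    rw [← H70.Basic.ncard_class] at h1; exact h1) P
  have hP : ∀ a : K, Pel p a → a ∈ (P : Subgroup K) := by
    intro a ha
    obtain ⟨g, hg⟩ := exists_conj_mem P ha
    have := hPn.conj_mem _ hg g⁻¹
    convert this using 1; group
  have hH : ∀ b : K, Reg p b → b ∈ H := by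
    intro b hb
    obtain ⟨x, hx, y, hy, rfl⟩ := (Subgroup.mem_sup_of_normal_left (s := (P : Subgroup K)) (t := H)).1
      (by rw [hsup]; trivial : b ∈ (P : Subgroup K) ⊔ H)
    have hc : Commute x y := Subgroup.commute_of_normal_of_disjoint _ _ hPn hHn (disjoint_iff.2 hdis) x y hx hy
    have hxp : Pel p x := Pel.of_mem P.isPGroup' hx
    have hyr : Reg p y := by
      unfold Reg
      have h1 : orderOf y ∣ Nat.card H := Subgroup.orderOf_dvd_natCard H hy
      exact Nat.Coprime.coprime_dvd_left h1 ((Nat.Prime.coprime_iff_not_dvd hp).2 hpH).symm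
    have hx1 : x ∈ zpowers (x * y) := by
      obtain ⟨m, hm⟩ := exists_pow_eq_self_of_coprime (x := x) (coprime_of hxp hyr).symm
      have h1 : (x * y) ^ orderOf y = x ^ orderOf y := by
        rw [hc.mul_pow, pow_orderOf_eq_one, mul_one]
      have h2 := Subgroup.pow_mem (zpowers (x * y)) (Subgroup.pow_mem _ (mem_zpowers (x * y)) (orderOf y)) m
      rw [h1, hm] at h2
      exact h2
    have : x = 1 := eq_one_of_pel_reg hxp (hb.zpow hx1)
    rw [this, one_mul]; exact hy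
  refine ⟨fun a b ha hb => ?_, fun a b ha hb => ?_, fun a b ha hb => ?_⟩
  · exact Subgroup.commute_of_normal_of_disjoint _ _ hPn hHn (disjoint_iff.2 hdis) a b (hP a ha) (hH b hb)
  · exact Pel.of_mem P.isPGroup' (mul_mem (hP a ha) (hP b hb))
  · unfold Reg
    exact Nat.Coprime.coprime_dvd_left (Subgroup.orderOf_dvd_natCard H (mul_mem (hH a ha) (hH b hb)))
      ((Nat.Prime.coprime_iff_not_dvd hp).2 hpH).symm

theorem spl_of [Finite G] {p : ℕ} [Fact p.Prime] (K : Subgroup G)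
    (h : ∀ x ∈ K, Reg p x → ¬ p ∣ (centralizer ({x} : Set G)).relIndex K) : Spl p K := by
  obtain ⟨h1, h2, h3⟩ := spl_aux (K := K) (p := p) (fun x hx => by
    rw [index_cent_sub]
    exact h x x.2 (reg_coe.2 hx))
  refine ⟨fun a ha b hb hpa hrb => ?_, fun a ha b hb hpa hpb => ?_, fun a ha b hb hra hrb => ?_⟩
  · have := h1 ⟨a, ha⟩ ⟨b, hb⟩ (pel_coe.1 hpa) (reg_coe.1 hrb)
    exact congrArg Subtype.val this
  · exact pel_coe.2 (h2 ⟨a, ha⟩ ⟨b, hb⟩ (pel_coe.1 hpa) (pel_coe.1 hpb))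
  · exact reg_coe.2 (h3 ⟨a, ha⟩ ⟨b, hb⟩ (reg_coe.1 hra) (reg_coe.1 hrb))

/-- the `p`-part -/
def Sp {p : ℕ} {K : Subgroup G} (h : Spl p K) : Subgroup G where
  carrier := {a | a ∈ K ∧ Pel p a}
  mul_mem' := fun ha hb => ⟨mul_mem ha.1 hb.1, h.2.1 _ ha.1 _ hb.1 ha.2 hb.2⟩
  one_mem' := ⟨one_mem _, Pel.one p⟩
  inv_mem' := fun ha => ⟨inv_mem ha.1, ha.2.inv⟩

/-- the `p'`-part -/
def Yp {p : ℕ} {K : Subgroup G} (h : Spl p K) : Subgroup G where
  carrier := {a | a ∈ K ∧ Reg p a}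
  mul_mem' := fun ha hb => ⟨mul_mem ha.1 hb.1, h.2.2 _ ha.1 _ hb.1 ha.2 hb.2⟩
  one_mem' := ⟨one_mem _, Reg.one p⟩
  inv_mem' := fun ha => ⟨inv_mem ha.1, ha.2.inv⟩

theorem mem_Sp {p : ℕ} {K : Subgroup G} (h : Spl p K) {a : G} : a ∈ Sp h ↔ a ∈ K ∧ Pel p a := Iff.rfl
theorem mem_Yp {p : ℕ} {K : Subgroup G} (h : Spl p K) {a : G} : a ∈ Yp h ↔ a ∈ K ∧ Reg p a := Iff.rfl

theorem isPGroup_Sp [Finite G] {p : ℕ} (hp : p.Prime) {K : Subgroup G} (h : Spl p K) : IsPGroup p (Sp h) := by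
  haveI := Fact.mk hp
  rw [IsPGroup.iff_orderOf]
  rintro ⟨x, hx⟩
  obtain ⟨k, hk⟩ := hx.2
  exact ⟨k, by rw [Subgroup.orderOf_mk]; exact hk⟩

theorem not_dvd_card_of_reg {H : Type*} [Group H] [Finite H] {p : ℕ} (hp : p.Prime) (h : ∀ x : H, Reg p x) :
    ¬ p ∣ Nat.card H := by
  haveI := Fact.mk hp
  intro hd
  obtain ⟨x, hx⟩ := exists_prime_orderOf_dvd_card' p hd
  have := h x
  unfold Reg at this
  rw [hx, Nat.coprime_self] at this
  exact hp.one_lt.ne' this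

theorem not_dvd_card_Yp [Finite G] {p : ℕ} (hp : p.Prime) {K : Subgroup G} (h : Spl p K) :
    ¬ p ∣ Nat.card (Yp h) :=
  not_dvd_card_of_reg hp fun x => reg_coe.1 x.2.2

theorem card_eq [Finite G] {p : ℕ} (hp : p.Prime) {K : Subgroup G} (h : Spl p K) :
    Nat.card K = Nat.card (Sp h) * Nat.card (Yp h) := by
  rw [← Nat.card_prod]
  symm
  refine Nat.card_congr (Equiv.ofBijective
    (fun x : (Sp h) × (Yp h) => (⟨x.1 * x.2, mul_mem x.1.2.1 x.2.2.1⟩ : K)) ⟨?_, ?_⟩)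
  · rintro ⟨⟨a, ha⟩, ⟨b, hb⟩⟩ ⟨⟨a', ha'⟩, ⟨b', hb'⟩⟩ heq
    have h1 : a * b = a' * b' := congrArg Subtype.val heq
    have h2 : a'⁻¹ * a = b' * b⁻¹ := by
      have : a'⁻¹ * (a * b) * b⁻¹ = a'⁻¹ * (a' * b') * b⁻¹ := by rw [h1]
      simpa [mul_assoc] using this
    have h3 : a'⁻¹ * a ∈ Sp h := mul_mem (inv_mem ha') ha
    have h4 : a'⁻¹ * a ∈ Yp h := by rw [h2]; exact mul_mem hb' (inv_mem hb)
    have h5 : a'⁻¹ * a = 1 := eq_one_of_pel_reg h3.2 h4.2
    have h6 : b' * b⁻¹ = 1 := by rw [← h2]; exact h5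
    have h7 : a = a' := by
      rw [← mul_one a', ← h5, mul_inv_cancel_left]
    have h8 : b = b' := (mul_inv_eq_one.1 h6).symm
    subst h7; subst h8; rfl
  · rintro ⟨x, hx⟩
    obtain ⟨a, b, ha, hb, hab, -, hpa, hrb⟩ := decomp hp x
    have hzK : zpowers x ≤ K := by rwa [zpowers_le]
    exact ⟨⟨⟨a, hzK ha, hpa⟩, ⟨b, hzK hb, hrb⟩⟩, Subtype.ext hab⟩

theorem card_Sp [Finite G] {p : ℕ} (hp : p.Prime) {K : Subgroup G} (h : Spl p K) :
    Nat.card (Sp h) = p ^ (Nat.card K).factorization p := by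
  haveI := Fact.mk hp
  obtain ⟨n, hn⟩ := (IsPGroup.iff_card.1 (isPGroup_Sp hp h))
  rw [card_eq hp h, Nat.factorization_mul Nat.card_pos.ne' Nat.card_pos.ne', Finsupp.add_apply,
    Nat.factorization_eq_zero_of_not_dvd (not_dvd_card_Yp hp h), add_zero, hn, hp.factorization_pow,
    Finsupp.single_eq_same]

end H75.CS
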