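import Cfsg.Agent.Lib.H75.CS2
import Cfsg.Agent.Lib.H65.PBasic
import Cfsg.Agent.Lib.H59.CopAct

set_option autoImplicit false
set_option linter.all false

namespace H75.CS

open Subgroup H75.ClassGraph

variable {G : Type*} [Group G]

theorem mk_eq_one_iff {x : G} : QuotientGroup.mk' (center G) x = 1 ↔ x ∈ center G := by
  rw [QuotientGroup.mk'_apply, QuotientGroup.eq_one_iff]

/-- special elements -/
theorem exists_special [Finite G] {p : ℕ} [Fact p.Prime] (P V : Subgroup G) (hP : IsPGroup p P) (hV : IsPGroup p V)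
    (hn : P ≤ normalizer (V : Set G)) (hVZ : ¬ V ≤ center G) :
    ∃ w ∈ V, w ∉ center G ∧ w ^ p ∈ center G ∧ ∀ g ∈ P, g * w * g⁻¹ * w⁻¹ ∈ center G := by
  set π := QuotientGroup.mk' (center G) with hπ
  have h1 : V.map π ≠ ⊥ := by
    intro h
    apply hVZ
    intro x hx
    have : π x ∈ V.map π := mem_map_of_mem _ hx
    rw [h, mem_bot] at this
    exact mk_eq_one_iff.1 this
  have h2 := H65.PBasic.inf_centralizer_ne_bot (P.map π) (V.map π) (hP.map π) (hV.map π) (by
    rintro _ ⟨g, hg, rfl⟩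
    refine H75.Basic.mem_normalizer_of_conj_mem _ _ ?_
    rintro _ ⟨v, hv, rfl⟩
    rw [← map_mul, ← map_inv, ← map_mul]
    exact mem_map_of_mem _ ((mem_normalizer_iff.1 (hn hg) v).1 hv)) h1
  rw [Subgroup.ne_bot_iff_exists_ne_one] at h2
  obtain ⟨⟨_, ⟨⟨x, hx, rfl⟩, hc⟩⟩, hx1⟩ := h2
  have hx1' : π x ≠ 1 := fun h => hx1 (Subtype.ext h)
  have hxZ : x ∉ center G := fun h => hx1' (mk_eq_one_iff.2 h)
  -- minimal power in the center
  have hex : ∃ k : ℕ, x ^ p ^ k ∈ center G := by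
    obtain ⟨k, hk⟩ := hV ⟨x, hx⟩
    refine ⟨k, ?_⟩
    have : x ^ p ^ k = 1 := congrArg Subtype.val hk
    rw [this]; exact one_mem _
  classical
  obtain ⟨k, hk, hmin⟩ : ∃ k : ℕ, x ^ p ^ k ∈ center G ∧ ∀ j < k, x ^ p ^ j ∉ center G :=
    ⟨Nat.find hex, Nat.find_spec hex, fun j hj => Nat.find_min hex hj⟩
  obtain _ | j := k
  · rw [pow_zero, pow_one] at hk; exact absurd hk hxZ
  refine ⟨x ^ p ^ j, pow_mem hx _, hmin j (Nat.lt_succ_self j), ?_, ?_⟩
  · rw [← pow_mul, ← pow_succ]; exact hk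
  · intro g hg
    rw [← mk_eq_one_iff]
    have h3 : Commute (π g) (π x) := (mem_centralizer_iff.1 hc) (π g) (mem_map_of_mem _ hg)
    have h4 : Commute (π g) (π (x ^ p ^ j)) := by rw [map_pow]; exact h3.pow_right _
    show π (g * x ^ p ^ j * g⁻¹ * (x ^ p ^ j)⁻¹) = 1
    rw [map_mul, map_mul, map_mul, map_inv, map_inv, h4.eq]
    group

/-- `p'`-elements commuting with a noncentral `p`-element centralize normal `p`-subgroups -/
theorem Hp.centralizes [Finite G] {p c : ℕ} (h : Hp G p c) (V : Subgroup G) [V.Normal] (hV : IsPGroup p V)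
    {b : G} (hb : Reg p b) : ∀ x ∈ V, Commute b x := by
  haveI := Fact.mk h.prime
  by_cases hbZ : b ∈ center G
  · intro x _
    exact (mem_center_iff.1 hbZ x).symm
  obtain ⟨u, hu, hpu, hub⟩ := h.exists_comm hbZ
  have key := H59.CopAct.AxB (p := p) (zpowers u) hpu.isPGroup b hb (by
    rintro _ ⟨k, rfl⟩
    exact hub.zpow_left k) (Nat.card V) V le_rfl hV
    (by rw [normalizer_eq_top_iff.2 ‹V.Normal›]; exact le_top) (by rw [normalizer_eq_top_iff.2 ‹V.Normal›]; trivial)
    (by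
      intro x hx hcx
      have hux : Commute x u := (hcx u (mem_zpowers u)).symm
      exact (h.comm hu hpu hux hub.symm (Pel.of_mem hV hx) hb).symm)
  exact key

/-- If there is a noncentral normal `p`-subgroup then the `p'`-elements form a normal subgroup centralizing it. -/
theorem Hp.exists_compl [Finite G] {p c : ℕ} (h : Hp G p c) (V : Subgroup G) [V.Normal] (hV : IsPGroup p V)
    (hVZ : ¬ V ≤ center G) : ∃ H : Subgroup G, H.Normal ∧ (∀ b, b ∈ H ↔ Reg p b) ∧ ¬ p ∣ Nat.card H ∧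
      Nat.card G = p ^ (Nat.card G).factorization p * Nat.card H ∧
      ∀ w ∈ V, w ∉ center G → Nat.card (centralizer ({w} : Set G)) = p ^ c * Nat.card H := by
  haveI := Fact.mk h.prime
  obtain ⟨w, hw, hwZ⟩ := SetLike.not_le_iff_exists.1 hVZ
  have hpw : Pel p w := Pel.of_mem hV hw
  let H := Yp (h.spl hwZ hpw)
  have hH : ∀ b, b ∈ H ↔ Reg p b := by
    intro b
    refine ⟨fun hb => hb.2, fun hb => ⟨mem_cent.2 (h.centralizes V hV hb w hw), hb⟩⟩
  have hHn : H.Normal := ⟨fun b hb g => (hH _).2 (((hH b).1 hb).conj g)⟩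
  have hpH : ¬ p ∣ Nat.card H := not_dvd_card_Yp h.prime _
  have hquot : IsPGroup p (G ⧸ H) := by
    intro x
    obtain ⟨g, rfl⟩ := QuotientGroup.mk'_surjective H x
    obtain ⟨a, b, -, -, hab, hc, ⟨k, hk⟩, hb⟩ := decomp h.prime g
    refine ⟨k, ?_⟩
    rw [← map_pow, QuotientGroup.mk'_apply, QuotientGroup.eq_one_iff, ← hab, hc.mul_pow, ← hk, pow_orderOf_eq_one,
      one_mul]
    exact pow_mem ((hH b).2 hb) _
  have hcard : Nat.card G = p ^ (Nat.card G).factorization p * Nat.card H := by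
    obtain ⟨n, hn⟩ := IsPGroup.iff_card.1 hquot
    have h1 : Nat.card G = p ^ n * Nat.card H := by
      rw [Subgroup.card_eq_card_quotient_mul_card_subgroup H, hn]
    have h2 : (Nat.card G).factorization p = n := by
      rw [h1, Nat.factorization_mul (pow_ne_zero _ h.prime.ne_zero) Nat.card_pos.ne', Finsupp.add_apply,
        Nat.factorization_eq_zero_of_not_dvd hpH, h.prime.factorization_pow, Finsupp.single_eq_same, add_zero]
    rw [h2]; exact h1
  refine ⟨H, hHn, hH, hpH, hcard, fun w' hw' hw'Z => ?_⟩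
  have hpw' : Pel p w' := Pel.of_mem hV hw'
  have h1 : Yp (h.spl hw'Z hpw') = H := by
    ext b
    rw [hH]
    exact ⟨fun hb => hb.2, fun hb => ⟨mem_cent.2 (h.centralizes V hV hb w' hw'), hb⟩⟩
  rw [card_eq h.prime (h.spl hw'Z hpw'), h1]
  congr 1
  exact h.card_S hw'Z hpw'

end H75.CS
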