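import Cfsg.Agent.Lib.H75.CS9
import Cfsg.Agent.Lib.H75.CS3

set_option autoImplicit false
set_option linter.all false

namespace H75.CS

open Subgroup H75.ClassGraph Cfsg

variable {G : Type*} [Group G]

/-- a noncentral element has a noncentral primary power -/
theorem exists_primary [Finite G] : ∀ (N : ℕ) (x : G), orderOf x ≤ N → x ∉ center G →
    ∃ r : ℕ, r.Prime ∧ ∃ y ∈ zpowers x, Pel r y ∧ y ∉ center G := by
  intro N
  induction N with
  | zero =>
    intro x hx
    exact absurd (orderOf_pos x) (by omega)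
  | succ N ih =>
    intro x hx hxZ
    have hne : orderOf x ≠ 1 := by
      intro h
      rw [orderOf_eq_one_iff] at h
      exact hxZ (h ▸ one_mem _)
    set r := (orderOf x).minFac with hr
    have hrp : r.Prime := Nat.minFac_prime hne
    obtain ⟨a, b, ha, hb, hab, hcab, hpa, hrb, hdb, -⟩ :=
      (H71.Basic.exists_pPart x (isOfFinOrder_of_finite x) r hrp)
    by_cases haZ : a ∈ center G
    · have hbZ : b ∉ center G := fun h => hxZ (hab ▸ mul_mem haZ h)
      have h1 : orderOf b < orderOf x := by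
        refine lt_of_le_of_ne (Nat.le_of_dvd (orderOf_pos x) hdb) fun he => ?_
        apply hrb
        rw [he]; exact Nat.minFac_dvd _
      obtain ⟨s, hs, y, hy, hpy, hyZ⟩ := ih b (by omega) hbZ
      exact ⟨s, hs, y, (zpowers_le.2 hb) hy, hpy, hyZ⟩
    · exact ⟨r, hrp, a, ha, hpa, haZ⟩

theorem relIndex_le_index' [Finite G] (H K : Subgroup G) : H.relIndex K ≤ H.index := by
  rw [← Subgroup.relIndex_top_right]
  exact Subgroup.relIndex_le_of_le_right le_top (by rw [Subgroup.relIndex_top_right]; exact Subgroup.index_ne_zero_of_finite)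

section
variable [Finite G] {p c a m n : ℕ} [Fact p.Prime] (d : Dat G m n) (hm : m = p ^ a) (hpm : p ∣ m) (h : Hp G p c)
  (hO : ∀ V : Subgroup G, V.Normal → IsPGroup p V → V ≤ center G)

include hm hO in
theorem mem_W {x : G} (hx : Reg p x) (h1 : x ∈ center G ∨ cs x = m) : x ∈ W G p := by
  refine ⟨?_, hx⟩
  rcases h1 with h1 | h1
  · exact center_le_ZF h1
  · exact mem_ZF hO (by rw [h1, hm])

include d hm hpm hO h in
theorem exists_b0 : ∃ b ∈ W G p, b ∉ center G ∧ cs b = m := by
  have hp : p.Prime := Fact.out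
  obtain ⟨x, hx⟩ := d.e1
  obtain ⟨u, b, hu, hb, hab, hcab, hpu, hrb⟩ := decomp hp x
  have huZ : u ∈ center G := by
    by_contra huZ
    have h1 : centralizer ({x} : Set G) ≤ centralizer ({u} : Set G) := by
      intro g hg
      rw [mem_cent] at hg ⊢
      obtain ⟨k, hk⟩ := hu
      rw [← hk]; exact hg.zpow_right k
    have h2 : cs u ∣ cs x := Subgroup.index_dvd_of_le h1
    rw [cs_pel d hm hpm hO huZ hpu, hx] at h2
    exact not_dvd_m d h2
  have h1 : cs b = m := by
    unfold cs at *
    rw [← hx, ← hab, cent_mul_central huZ]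
  refine ⟨b, mem_W hm hO hrb (Or.inr h1), fun hbZ => ?_, h1⟩
  rw [cs_eq_one_iff.2 hbZ] at h1
  have := d.hm; omega

include d hm hpm hO h in
/-- (B4) -/
theorem no_pel_cent {t : G} (ht : t ∉ center G) (hpt : Pel p t) : ∃ y ∈ W G p, ¬ Commute t y := by
  have hp : p.Prime := Fact.out
  by_contra hcon
  push Not at hcon
  obtain ⟨b, hbW, hbZ, hcb⟩ := exists_b0 d hm hpm h hO
  have htb := hcon b hbW
  have hXv : (Nat.card (centralizer ({b} : Set G))).factorization p = c := h.val b hbZ
  have hSX : h.S ht hpt ≤ centralizer ({b} : Set G) := h.S_le ht hpt htb hbW.2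
  have hspl : Spl p (centralizer ({b} : Set G)) := by
    refine spl_of _ fun w hw hrw => not_dvd_relIndex hp ?_
    rw [hXv]
    by_cases hwZ : w ∈ center G
    · have h1 : centralizer ({w} : Set G) = ⊤ := by
        rw [Subgroup.centralizer_eq_top_iff_subset, Set.singleton_subset_iff]; exact hwZ
      rw [h1, top_inf_eq, hXv]
    rcases d.sz' hwZ with h1 | h1
    · have hwW : w ∈ W G p := mem_W hm hO hrw (Or.inr h1)
      have h2 : h.S ht hpt ≤ centralizer ({w} : Set G) ⊓ centralizer ({b} : Set G) :=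
        le_inf (h.S_le ht hpt (hcon w hwW) hrw) hSX
      have h3 := Subgroup.card_dvd_of_le h2
      rw [h.card_S] at h3
      refine le_antisymm ?_ ((hp.pow_dvd_iff_le_factorization Nat.card_pos.ne').1 h3)
      rw [← hXv]
      exact (Nat.factorization_le_iff_dvd Nat.card_pos.ne' Nat.card_pos.ne').2
        (Subgroup.card_dvd_of_le inf_le_right) p
    · obtain ⟨t', ht', hpt', hct'⟩ := exists_t d hm hpm h hO h1
      have h2 : b ∈ centralizer ({t'} : Set G) := by
        rw [← hct']; exact mem_cent.2 (mem_cent.1 hw).symm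
      have h3 := cent_le_reg d hm hpm hO ht' hpt' hbW.2 (mem_cent.1 h2).symm
      rw [← hct'] at h3
      rw [inf_eq_left.2 h3]
      exact h.val w hwZ
  -- the centralizer of `b` is contained in the centralizer of `t`
  have hSeq : h.S ht hpt = Sp hspl := by
    refine Subgroup.eq_of_le_of_card_ge ?_ ?_
    · intro x hx
      exact ⟨hSX hx, ((h.mem_S ht hpt).1 hx).2⟩
    · rw [card_Sp hp hspl, hXv, h.card_S]
  have hle : centralizer ({b} : Set G) ≤ centralizer ({t} : Set G) := by
    intro y hy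
    obtain ⟨u, v, hu, hv, huv, -, hpu, hrv⟩ := decomp hp y
    have hz : zpowers y ≤ centralizer ({b} : Set G) := by rwa [zpowers_le]
    have h1 : u ∈ h.S ht hpt := by rw [hSeq]; exact ⟨hz hu, hpu⟩
    have h2 : Commute u t := ((h.mem_S ht hpt).1 h1).1
    have h3 : Commute t v := hspl.1 t (mem_cent.2 htb) v (hz hv) hpt hrv
    rw [mem_cent, ← huv]
    exact h2.mul_left h3.symm
  have h1 : cs t ∣ cs b := Subgroup.index_dvd_of_le hle
  rw [cs_pel d hm hpm hO ht hpt, hcb] at h1
  exact not_dvd_m d h1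

include d hm hpm hO h in
/-- (B5) -/
theorem cs_W {v : G} (hv : v ∈ W G p) (hvZ : v ∉ center G) : cs v = m := by
  rcases d.sz' hvZ with h1 | h1
  · exact h1
  exfalso
  obtain ⟨t, ht, hpt, hct⟩ := exists_t d hm hpm h hO h1
  obtain ⟨y, hy, hty⟩ := no_pel_cent d hm hpm h hO ht hpt
  apply hty
  have h2 : y ∈ centralizer ({v} : Set G) := mem_cent.2 (ZF_comm hy.1 hv.1)
  rw [hct] at h2
  exact (mem_cent.1 h2).symm

end

end H75.CS
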