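import Cfsg.Agent.Lib.H75.CS10

set_option autoImplicit false
set_option linter.all false

namespace H75.CS

open Subgroup H75.ClassGraph Cfsg

variable {G : Type*} [Group G]

theorem conj_pow_eq' {x w z : G} (hz : z ∈ center G) (hx : x * w * x⁻¹ = z * w) (k : ℕ) :
    x ^ k * w * (x ^ k)⁻¹ = z ^ k * w := by
  induction k with
  | zero => simp
  | succ k ih =>
    have e : x ^ (k + 1) * w * (x ^ (k + 1))⁻¹ = x * (x ^ k * w * (x ^ k)⁻¹) * x⁻¹ := by
      rw [pow_succ' x k]; group
    rw [e, ih]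
    have hzk : z ^ k ∈ center G := pow_mem hz k
    calc x * (z ^ k * w) * x⁻¹ = (x * z ^ k) * w * x⁻¹ := by group
      _ = (z ^ k * x) * w * x⁻¹ := by rw [mem_center_iff.1 hzk x]
      _ = z ^ k * (x * w * x⁻¹) := by group
      _ = z ^ k * (z * w) := by rw [hx]
      _ = z ^ (k + 1) * w := by rw [pow_succ]; group

section
variable [Finite G] {p c a m n : ℕ} [Fact p.Prime] (d : Dat G m n) (hm : m = p ^ a) (hpm : p ∣ m) (h : Hp G p c)
  (hO : ∀ V : Subgroup G, V.Normal → IsPGroup p V → V ≤ center G)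

include d hm hpm hO h in
/-- (B6) -/
theorem card_inf (P : Sylow p G) {v : G} (hv : v ∈ W G p) (hvZ : v ∉ center G) :
    Nat.card (centralizer ({v} : Set G) ⊓ P : Subgroup G) = p ^ c := by
  have hp : p.Prime := Fact.out
  have h1 := cs_W d hm hpm h hO hv hvZ
  refine le_antisymm (h.card_le hvZ (P.isPGroup'.to_le inf_le_right) inf_le_left) ?_
  have h2 : (Nat.card G).factorization p = c + a := by
    have h3 := card_mul_cs v
    rw [← h3, h1, hm, Nat.factorization_mul Nat.card_pos.ne' (pow_ne_zero _ hp.ne_zero), Finsupp.add_apply,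
      h.val v hvZ, hp.factorization_pow, Finsupp.single_eq_same]
  have h3 := H75.SylowNumber.relIndex_mul_card_inf (centralizer ({v} : Set G)) (P : Subgroup G)
  have h4 : (centralizer ({v} : Set G)).relIndex P ≤ p ^ a := by
    refine (relIndex_le_index' _ _).trans (le_of_eq ?_)
    rw [← hm]; exact h1
  rw [P.card_eq_multiplicity, h2, pow_add, mul_comm (p ^ c)] at h3
  have h5 : p ^ a * p ^ c ≤ p ^ a * Nat.card (centralizer ({v} : Set G) ⊓ P : Subgroup G) := by
    rw [← h3]; exact Nat.mul_le_mul_right _ h4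
  exact Nat.le_of_mul_le_mul_left h5 (pow_pos hp.pos _)

include d hm hpm hO h in
theorem inf_eq_of_le (P : Sylow p G) {v v' : G} (hv : v ∈ W G p) (hvZ : v ∉ center G)
    (hv' : v' ∈ W G p) (hvZ' : v' ∉ center G)
    (hle : centralizer ({v} : Set G) ⊓ P ≤ centralizer ({v'} : Set G) ⊓ (P : Subgroup G)) :
    centralizer ({v} : Set G) ⊓ P = centralizer ({v'} : Set G) ⊓ (P : Subgroup G) :=
  Subgroup.eq_of_le_of_card_ge hle
    (by rw [card_inf d hm hpm h hO P hv hvZ, card_inf d hm hpm h hO P hv' hvZ'])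

include d hm hpm hO h in
/-- (B8) -/
theorem central_of_comm (P : Sylow p G) {u : G} (hu : u ∉ center G) (huP : u ∈ (P : Subgroup G))
    (hsp : ∀ g ∈ (P : Subgroup G), g * u * g⁻¹ * u⁻¹ ∈ center G) {v : G} (hv : v ∈ W G p) (huv : Commute u v) :
    v ∈ center G := by
  have hp : p.Prime := Fact.out
  have hpu : Pel p u := Pel.of_mem P.isPGroup' huP
  by_contra hvZ
  obtain ⟨y, hy, huy⟩ := no_pel_cent d hm hpm h hO hu hpu
  set e := u * y * u⁻¹ * y⁻¹ with he
  have heW : e ∈ W G p := mul_mem (W_conj hy u) (inv_mem hy)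
  have hue : u * y * u⁻¹ = e * y := by rw [he]; group
  have hvy : Commute v y := ZF_comm hv.1 hy.1
  have hve : Commute v e := ZF_comm hv.1 heW.1
  -- e is not central
  have heZ : e ∉ center G := by
    intro heZ
    have h1 := conj_pow_eq' heZ hue (orderOf u)
    rw [pow_orderOf_eq_one] at h1
    have h2 : e ^ orderOf u = 1 := by
      have h3 : y = e ^ orderOf u * y := by simpa using h1
      have h4 : e ^ orderOf u * y = 1 * y := by rw [one_mul]; exact h3.symm
      exact mul_right_cancel h4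
    have h3 : e = 1 := by
      have h4 := orderOf_dvd_of_pow_eq_one h2
      have h5 := (coprime_of hpu heW.2)
      have h6 : orderOf e ∣ 1 := by rw [← h5]; exact Nat.dvd_gcd h4 dvd_rfl
      exact orderOf_eq_one_iff.1 (Nat.dvd_one.1 h6)
    rw [h3, one_mul] at hue
    apply huy
    show u * y = y * u
    calc u * y = (u * y * u⁻¹) * u := by group
      _ = y * u := by rw [hue]
  have hyZ : y ∉ center G := fun hZ => huy (mem_center_iff.1 hZ u)
  have hvyW : v * y ∈ W G p := mul_mem hv hy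
  have hvyZ : v * y ∉ center G := by
    intro hZ
    apply huy
    have h1 : Commute u (v * y) := mem_center_iff.1 hZ u
    have h2 : y = v⁻¹ * (v * y) := by group
    rw [h2]
    exact huv.inv_right.mul_right h1
  -- elements of P centralizing y centralize e
  have key : ∀ x : G, x ∈ W G p → u * x * u⁻¹ * x⁻¹ = e →
      centralizer ({x} : Set G) ⊓ P ≤ centralizer ({e} : Set G) ⊓ (P : Subgroup G) := by
    intro x hx hxe g hg
    have hgx : Commute g x := mem_cent.1 hg.1
    have hz := hsp g hg.2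
    set z := g * u * g⁻¹ * u⁻¹ with hzdef
    have hgu : g * u * g⁻¹ = z * u := by rw [hzdef]; group
    have hgx' : g * x * g⁻¹ = x := by rw [hgx.eq]; group
    refine ⟨mem_cent.2 ?_, hg.2⟩
    have h1 : g * e * g⁻¹ = e := by
      calc g * e * g⁻¹ = g * (u * x * u⁻¹ * x⁻¹) * g⁻¹ := by rw [hxe]
        _ = (g * u * g⁻¹) * (g * x * g⁻¹) * (g * u * g⁻¹)⁻¹ * (g * x * g⁻¹)⁻¹ := by group
        _ = (z * u) * x * (z * u)⁻¹ * x⁻¹ := by rw [hgu, hgx']
        _ = z * (u * x * u⁻¹) * z⁻¹ * x⁻¹ := by group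
        _ = (u * x * u⁻¹ * z) * z⁻¹ * x⁻¹ := by rw [mem_center_iff.1 hz (u * x * u⁻¹)]
        _ = u * x * u⁻¹ * x⁻¹ := by group
        _ = e := hxe
    show g * e = e * g
    calc g * e = (g * e * g⁻¹) * g := by group
      _ = e * g := by rw [h1]
  have h1 := inf_eq_of_le d hm hpm h hO P hy hyZ heW heZ (key y hy rfl)
  have h2 := inf_eq_of_le d hm hpm h hO P hvyW hvyZ heW heZ (key (v * y) hvyW (by
    calc u * (v * y) * u⁻¹ * (v * y)⁻¹ = (u * v) * y * u⁻¹ * y⁻¹ * v⁻¹ := by group
      _ = (v * u) * y * u⁻¹ * y⁻¹ * v⁻¹ := by rw [huv.eq]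
      _ = v * e * v⁻¹ := by rw [he]; group
      _ = e * v * v⁻¹ := by rw [hve.eq]
      _ = e := by group))
  have h3 : centralizer ({y} : Set G) ⊓ P ≤ centralizer ({v} : Set G) ⊓ (P : Subgroup G) := by
    intro g hg
    refine ⟨mem_cent.2 ?_, hg.2⟩
    have h4 : Commute g y := mem_cent.1 hg.1
    have h5 : Commute g (v * y) := by
      rw [h1, ← h2] at hg
      exact mem_cent.1 hg.1
    have h6 : v = (v * y) * y⁻¹ := by group
    rw [h6]
    exact h5.mul_right h4.inv_right
  have h4 := inf_eq_of_le d hm hpm h hO P hy hyZ hv hvZ h3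
  have h5 : u ∈ centralizer ({v} : Set G) ⊓ (P : Subgroup G) := ⟨mem_cent.2 huv, huP⟩
  rw [← h4] at h5
  exact huy (mem_cent.1 h5.1)

include d hm hpm hO h in
theorem case2_false : False := by
  have hp : p.Prime := Fact.out
  obtain ⟨b, hbW, hbZ, hcb⟩ := exists_b0 d hm hpm h hO
  obtain ⟨t, ht, hpt, htb⟩ := h.exists_comm hbZ
  obtain ⟨P⟩ : Nonempty (Sylow p G) := inferInstance
  have hPZ : ¬ (P : Subgroup G) ≤ center G := by
    intro hle
    obtain ⟨g, hg⟩ := exists_conj_mem P hpt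
    apply ht
    have := (inferInstance : (center G).Normal).conj_mem _ (hle hg) g⁻¹
    convert this using 1; group
  obtain ⟨u, huP, hu, -, hsp⟩ := exists_special (P : Subgroup G) (P : Subgroup G) P.isPGroup' P.isPGroup'
    le_normalizer hPZ
  have hpu : Pel p u := Pel.of_mem P.isPGroup' huP
  have key := fun {v : G} (hv : v ∈ W G p) (huv : Commute u v) => central_of_comm d hm hpm h hO P hu huP hsp hv huv
  -- there is a noncentral `p'`-element in `C(u)`
  obtain ⟨w, hwu, hrw, hwZ⟩ : ∃ w : G, Commute w u ∧ Reg p w ∧ w ∉ center G := by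
    by_contra hcon
    push Not at hcon
    have h1 : Yp (h.spl hu hpu) ≤ Yp (h.spl ht hpt) := by
      intro x hx
      have hxZ := hcon x (mem_cent.1 hx.1) hx.2
      exact ⟨center_le_cent t hxZ, hx.2⟩
    have e1 := card_mul_cs u
    have e2 := card_mul_cs t
    rw [cs_pel d hm hpm hO hu hpu] at e1
    rw [cs_pel d hm hpm hO ht hpt, ← e1] at e2
    have hmn : 0 < m * n := by have := d.hm; have := d.hn; positivity
    have e3 := Nat.eq_of_mul_eq_mul_right hmn e2
    rw [card_eq hp (h.spl hu hpu), card_eq hp (h.spl ht hpt), card_Sp hp (h.spl hu hpu), card_Sp hp (h.spl ht hpt),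
      h.val u hu, h.val t ht] at e3
    have e4 := Nat.eq_of_mul_eq_mul_left (pow_pos hp.pos _) e3
    have h2 := Subgroup.eq_of_le_of_card_ge h1 (le_of_eq e4)
    have h3 : b ∈ Yp (h.spl ht hpt) := ⟨mem_cent.2 htb.symm, hbW.2⟩
    rw [← h2] at h3
    exact hbZ (hcon b (mem_cent.1 h3.1) h3.2)
  obtain ⟨s, hs, x, hx, hpx, hxZ⟩ := exists_primary (orderOf w) w le_rfl hwZ
  haveI := Fact.mk hs
  have hrx : Reg p x := hrw.zpow hx
  have hxu : Commute x u := by
    obtain ⟨k, hk⟩ := hx
    rw [← hk]; exact hwu.zpow_left k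
  have hxW : x ∉ W G p := fun hxW => hxZ (key hxW hxu.symm)
  have hcx : cs x = m * n := by
    rcases d.sz' hxZ with h1 | h1
    · exact absurd (mem_W hm hO hrx (Or.inr h1)) hxW
    · exact h1
  have hcxu : centralizer ({u} : Set G) = centralizer ({x} : Set G) :=
    cent_eq_of_le (cent_le_reg d hm hpm hO hu hpu hrx hxu.symm) (by rw [cs_pel d hm hpm hO hu hpu, hcx])
  -- a Sylow `s`-subgroup centralizing `b`
  have hsp' : s ≠ p := by
    rintro rfl
    exact hxZ (by rw [eq_one_of_pel_reg hpx hrx]; exact one_mem _)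
  have h1 : ¬ s ∣ (centralizer ({b} : Set G)).index := by
    rw [show (centralizer ({b} : Set G)).index = p ^ a by rw [← hm]; exact hcb]
    intro h3
    exact hsp' ((Nat.prime_dvd_prime_iff_eq hs hp).1 (hs.dvd_of_dvd_pow h3))
  obtain ⟨R, -, hR⟩ := H75.PCentral.exists_sylow_between (p := s) _ ⊥ h1 IsPGroup.of_bot bot_le
  obtain ⟨g, hg⟩ := exists_conj_mem R hpx
  have h2 : Commute (g * x * g⁻¹) b := mem_cent.1 (hR hg)
  have h3 : Commute x (g⁻¹ * b * g) := by
    show x * (g⁻¹ * b * g) = g⁻¹ * b * g * x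
    calc x * (g⁻¹ * b * g) = g⁻¹ * ((g * x * g⁻¹) * b) * g := by group
      _ = g⁻¹ * (b * (g * x * g⁻¹)) * g := by rw [h2.eq]
      _ = _ := by group
  have h4 : g⁻¹ * b * g ∈ centralizer ({u} : Set G) := by rw [hcxu]; exact mem_cent.2 h3.symm
  have h5 : g⁻¹ * b * g ∈ W G p := by
    have := W_conj hbW g⁻¹
    rwa [inv_inv] at this
  have h6 := key h5 (mem_cent.1 h4).symm
  apply hbZ
  have := (inferInstance : (center G).Normal).conj_mem _ h6 g
  convert this using 1; group

end

end H75.CS
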