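import Cfsg.Agent.Lib.H75.CS3

set_option autoImplicit false
set_option linter.all false

namespace H75.CS

open Subgroup H75.ClassGraph

variable {G : Type*} [Group G]

theorem conj_pow_eq'' {x w z : G} (hz : z ∈ center G) (hx : x * w * x⁻¹ = z * w) (k : ℕ) :
    x ^ k * w * (x ^ k)⁻¹ = z ^ k * w := by
  induction k with
  | zero => simp
  | succ k ih =>
    have e : x ^ (k + 1) * w * (x ^ (k + 1))⁻¹ = x * (x ^ k * w * (x ^ k)⁻¹) * x⁻¹ := by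
      rw [pow_succ' x k]; group
    rw [e, ih]
    have hzk : z ^ k ∈ center G := pow_mem hz k
    calc x * (z ^ k * w) * x⁻¹ = (x * z ^ k) * w * x⁻¹ := by group
      _ = (z ^ k * x) * w * x⁻¹ := by rw [mem_center_iff.1 hzk x]
      _ = z ^ k * (x * w * x⁻¹) := by group
      _ = z ^ k * (z * w) := by rw [hx]
      _ = z ^ (k + 1) * w := by rw [pow_succ]; group

/-- the image of `y ↦ [a, y]` on an abelian group normalized by `a` -/
def Im (U : Subgroup G) (hab : ∀ x ∈ U, ∀ y ∈ U, Commute x y) (a : G) (ha : ∀ y ∈ U, a * y * a⁻¹ ∈ U) : Subgroup G where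
  carrier := {x | ∃ y ∈ U, x = a * y * a⁻¹ * y⁻¹}
  mul_mem' := by
    rintro _ _ ⟨y, hy, rfl⟩ ⟨y', hy', rfl⟩
    refine ⟨y * y', mul_mem hy hy', ?_⟩
    have h1 : Commute y⁻¹ (a * y' * a⁻¹ * y'⁻¹) :=
      (hab _ (inv_mem hy) _ (mul_mem (ha y' hy') (inv_mem hy')))
    calc a * y * a⁻¹ * y⁻¹ * (a * y' * a⁻¹ * y'⁻¹) = a * y * a⁻¹ * (y⁻¹ * (a * y' * a⁻¹ * y'⁻¹)) := by group
      _ = a * y * a⁻¹ * ((a * y' * a⁻¹ * y'⁻¹) * y⁻¹) := by rw [h1.eq]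
      _ = a * (y * y') * a⁻¹ * (y * y')⁻¹ := by group
  one_mem' := ⟨1, one_mem _, by group⟩
  inv_mem' := by
    rintro _ ⟨y, hy, rfl⟩
    refine ⟨y⁻¹, inv_mem hy, ?_⟩
    have h1 : Commute y (a * y⁻¹ * a⁻¹) := hab _ hy _ (ha _ (inv_mem hy))
    calc (a * y * a⁻¹ * y⁻¹)⁻¹ = y * (a * y⁻¹ * a⁻¹) := by group
      _ = (a * y⁻¹ * a⁻¹) * y := h1.eq
      _ = _ := by group

theorem D3 [Finite G] {p : ℕ} [Fact p.Prime] (C N U : Subgroup G) (hU : IsPGroup p U)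
    (hab : ∀ x ∈ U, ∀ y ∈ U, Commute x y) (hUC : ∀ y ∈ U, ∀ c ∈ C, Commute y c)
    (hCN : ∀ g ∈ N, ∀ x ∈ C, g * x * g⁻¹ ∈ C)
    (hUN : ∀ g ∈ N, ∀ y ∈ U, g * y * g⁻¹ ∈ U)
    (semi : ∀ g ∈ N, ∀ y ∈ U, y ∉ center G → Commute g y → g ∈ C) {u : G} (hu : u ∈ U) (huZ : u ∉ center G)
    {g : G} (hg : g ∈ N) (hpg : Pel p g) (hgC : g ∉ C) {a : G} (ha : a ∈ N) (haC : a ∉ C)
    {M : ℕ} (hM : M.Coprime p) (haM : a ^ M ∈ C)
    (hcomm : (a * (g * a * g⁻¹)) * ((g * a * g⁻¹) * a)⁻¹ ∈ C) : False := by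
  have hp : p.Prime := Fact.out
  set b := g * a * g⁻¹ with hb
  have hbN : b ∈ N := mul_mem (mul_mem hg ha) (inv_mem hg)
  have hbC : b ∉ C := by
    intro h
    apply haC
    have := hCN g⁻¹ (inv_mem hg) b h
    rw [hb] at this
    convert this using 1; group
  have hpU : ∀ x ∈ U, Pel p x := fun x hx => Pel.of_mem hU hx
  -- trivial intersection with the center
  have htriv : ∀ x ∈ Im U hab a (hUN a ha), x ∈ center G → x = 1 := by
    rintro x ⟨y, hy, hxy⟩ hxZ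
    have h1 : a * y * a⁻¹ = x * y := by rw [hxy]; group
    have h2 := conj_pow_eq'' hxZ h1 M
    have h3 : a ^ M * y * (a ^ M)⁻¹ = y := by
      rw [(hUC y hy _ haM).symm.eq]; group
    rw [h3] at h2
    have h4 : x ^ M = 1 := by
      have h5 : x ^ M * y = 1 * y := by rw [one_mul]; exact h2.symm
      exact mul_right_cancel h5
    have hxU : x ∈ U := by rw [hxy]; exact mul_mem (hUN a ha y hy) (inv_mem hy)
    obtain ⟨k, hk⟩ := hpU x hxU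
    have h6 := orderOf_dvd_of_pow_eq_one h4
    rw [hk] at h6
    have h7 : (p ^ k).Coprime (p ^ k) := Nat.Coprime.coprime_dvd_left h6 (Nat.Coprime.pow_right k hM)
    rw [Nat.coprime_self] at h7
    rw [h7] at hk
    exact orderOf_eq_one_iff.1 hk
  have hIU : ∀ x ∈ Im U hab a (hUN a ha), x ∈ U := by
    rintro x ⟨y, hy, rfl⟩
    exact mul_mem (hUN a ha y hy) (inv_mem hy)
  -- `b` maps `Im a` to itself bijectively
  have hmap : ∀ x ∈ Im U hab a (hUN a ha), b * x * b⁻¹ * x⁻¹ ∈ Im U hab a (hUN a ha) := by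
    rintro x ⟨y, hy, rfl⟩
    refine ⟨b * y * b⁻¹ * y⁻¹, mul_mem (hUN b hbN y hy) (inv_mem hy), ?_⟩
    have hbyU := hUN b hbN y hy
    have hayU := hUN a ha y hy
    -- conjugation by `a b` and `b a` agree on `U`
    have h1 : a * (b * y * b⁻¹) * a⁻¹ = b * (a * y * a⁻¹) * b⁻¹ := by
      have h2 := (hUC (b * (a * y * a⁻¹) * b⁻¹) (hUN b hbN _ hayU) _ hcomm).eq
      have h3 : a * (b * y * b⁻¹) * a⁻¹ =
          ((a * b) * (b * a)⁻¹) * (b * (a * y * a⁻¹) * b⁻¹) * ((a * b) * (b * a)⁻¹)⁻¹ := by group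
      rw [h3, ← h2]; group
    have e1 : Commute y⁻¹ (b⁻¹) ∨ True := Or.inr trivial
    have h4 : Commute (a * y⁻¹ * a⁻¹) (b * y * b⁻¹) := hab _ (hUN a ha _ (inv_mem hy)) _ hbyU
    calc b * (a * y * a⁻¹ * y⁻¹) * b⁻¹ * (a * y * a⁻¹ * y⁻¹)⁻¹
        = (b * (a * y * a⁻¹) * b⁻¹) * ((b * y⁻¹ * b⁻¹) * (y * (a * y⁻¹ * a⁻¹))) := by group
      _ = (b * (a * y * a⁻¹) * b⁻¹) * ((b * y⁻¹ * b⁻¹) * ((a * y⁻¹ * a⁻¹) * y)) := by
          rw [(hab _ hy _ (hUN a ha _ (inv_mem hy))).eq]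
      _ = (b * (a * y * a⁻¹) * b⁻¹) * (((b * y⁻¹ * b⁻¹) * (a * y⁻¹ * a⁻¹)) * y) := by group
      _ = (b * (a * y * a⁻¹) * b⁻¹) * (((a * y⁻¹ * a⁻¹) * (b * y⁻¹ * b⁻¹)) * y) := by
          rw [(hab _ (hUN b hbN _ (inv_mem hy)) _ (hUN a ha _ (inv_mem hy))).eq]
      _ = (a * (b * y * b⁻¹) * a⁻¹) * (((a * y⁻¹ * a⁻¹) * (b * y⁻¹ * b⁻¹)) * y) := by rw [h1]
      _ = (a * (b * y * b⁻¹) * a⁻¹) * ((a * y⁻¹ * a⁻¹) * ((b * y⁻¹ * b⁻¹) * y)) := by group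
      _ = (a * (b * y * b⁻¹) * a⁻¹) * ((a * y⁻¹ * a⁻¹) * (y * (b * y⁻¹ * b⁻¹))) := by
          rw [(hab _ (hUN b hbN _ (inv_mem hy)) _ hy).eq]
      _ = a * (b * y * b⁻¹ * y⁻¹) * a⁻¹ * (b * y * b⁻¹ * y⁻¹)⁻¹ := by group
  have hle : Im U hab a (hUN a ha) ≤ Im U hab b (hUN b hbN) := by
    intro x hx
    let φ : Im U hab a (hUN a ha) → Im U hab a (hUN a ha) := fun t => ⟨b * t * b⁻¹ * (t : G)⁻¹, hmap t t.2⟩
    have hinj : Function.Injective φ := by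
      rintro ⟨t, ht⟩ ⟨s, hs⟩ hts
      have h1 : b * t * b⁻¹ * t⁻¹ = b * s * b⁻¹ * s⁻¹ := congrArg Subtype.val hts
      have htU := hIU t ht
      have hsU := hIU s hs
      have h2 : Commute b (s⁻¹ * t) := by
        have h3 : (b * s⁻¹ * b⁻¹) * (b * t * b⁻¹) = s⁻¹ * t := by
          calc (b * s⁻¹ * b⁻¹) * (b * t * b⁻¹) = (b * s * b⁻¹)⁻¹ * ((b * t * b⁻¹ * t⁻¹) * t) := by group
            _ = (b * s * b⁻¹)⁻¹ * ((b * s * b⁻¹ * s⁻¹) * t) := by rw [h1]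
            _ = s⁻¹ * t := by group
        show b * (s⁻¹ * t) = s⁻¹ * t * b
        calc b * (s⁻¹ * t) = ((b * s⁻¹ * b⁻¹) * (b * t * b⁻¹)) * b := by group
          _ = s⁻¹ * t * b := by rw [h3]
      have h4 : s⁻¹ * t ∈ center G := by
        by_contra hZ
        exact hbC (semi b hbN _ (mul_mem (inv_mem hsU) htU) hZ h2)
      have h5 := htriv _ (mul_mem (inv_mem hs) ht) h4
      exact Subtype.ext (inv_mul_eq_one.1 h5).symm
    obtain ⟨t, ht⟩ := (Finite.injective_iff_surjective.1 hinj) ⟨x, hx⟩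
    have h1 : b * (t : G) * b⁻¹ * (t : G)⁻¹ = x := congrArg Subtype.val ht
    exact ⟨t, hIU t t.2, h1.symm⟩
  -- the conjugate of `Im a` by `g` is `Im b`
  have hconj : ∀ x, x ∈ Im U hab a (hUN a ha) ↔ g * x * g⁻¹ ∈ Im U hab b (hUN b hbN) := by
    intro x
    constructor
    · rintro ⟨y, hy, rfl⟩
      exact ⟨g * y * g⁻¹, hUN g hg y hy, by rw [hb]; group⟩
    · rintro ⟨y, hy, hxy⟩
      refine ⟨g⁻¹ * y * g, ?_, ?_⟩
      · have := hUN g⁻¹ (inv_mem hg) y hy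
        rwa [inv_inv] at this
      · have h1 : x = g⁻¹ * (g * x * g⁻¹) * g := by group
        rw [h1, hxy, hb]; group
  have hcard : Nat.card (Im U hab a (hUN a ha)) = Nat.card (Im U hab b (hUN b hbN)) := by
    refine Nat.card_congr ⟨fun x => ⟨g * x * g⁻¹, (hconj x).1 x.2⟩, fun x => ⟨g⁻¹ * x * g, (hconj _).2 (by
      have : g * (g⁻¹ * (x : G) * g) * g⁻¹ = x := by group
      rw [this]; exact x.2)⟩, fun x => Subtype.ext (by group), fun x => Subtype.ext (by group)⟩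
  have heq : Im U hab a (hUN a ha) = Im U hab b (hUN b hbN) := Subgroup.eq_of_le_of_card_ge hle hcard.ge
  have hnorm : g ∈ normalizer (Im U hab a (hUN a ha) : Set G) := by
    refine H75.Basic.mem_normalizer_of_conj_mem _ g fun x hx => ?_
    rw [heq]; exact (hconj x).1 hx
  have hIp : IsPGroup p (Im U hab a (hUN a ha)) := hU.to_le hIU
  have hne : Im U hab a (hUN a ha) ≠ ⊥ := by
    intro h
    have h1 : a * u * a⁻¹ * u⁻¹ ∈ Im U hab a (hUN a ha) := ⟨u, hu, rfl⟩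
    rw [h, mem_bot] at h1
    apply haC
    refine semi a ha u hu huZ ?_
    have h2 : a * u * a⁻¹ = u := by
      calc a * u * a⁻¹ = (a * u * a⁻¹ * u⁻¹) * u := by group
        _ = u := by rw [h1, one_mul]
    show a * u = u * a
    calc a * u = (a * u * a⁻¹) * a := by group
      _ = u * a := by rw [h2]
  have hfix := H65.PBasic.inf_centralizer_ne_bot (zpowers g) _ hpg.isPGroup hIp (by rwa [zpowers_le]) hne
  rw [Subgroup.ne_bot_iff_exists_ne_one] at hfix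
  obtain ⟨⟨y, hy, hyc⟩, hy1⟩ := hfix
  have hyZ : y ∉ center G := fun hZ => hy1 (Subtype.ext (htriv y hy hZ))
  exact hgC (semi g hg y (hIU y hy) hyZ (mem_centralizer_iff.1 hyc g (mem_zpowers g)))

end H75.CS
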