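import Cfsg.Agent.Lib.H75.CS2
import Cfsg.Agent.S0033
import Cfsg.Agent.Lib.H73.Nilp

set_option autoImplicit false
set_option linter.all false

namespace H75.CS

open Subgroup H75.ClassGraph

variable {G : Type*} [Group G]

section
variable [Finite G] {p c : ℕ} [Fact p.Prime] (h : Hp G p c) {u : G} (hu : u ∉ center G) (hpu : Pel p u)

include hpu in
theorem Hp.mem_S_self : u ∈ h.S hu hpu := (h.mem_S hu hpu).2 ⟨Commute.refl u, hpu⟩

theorem conj_nc {x : G} (hx : x ∉ center G) (g : G) : g * x * g⁻¹ ∉ center G := by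
  intro hZ
  apply hx
  have := (inferInstance : (center G).Normal).conj_mem _ hZ g⁻¹
  convert this using 1; group

/-- there is a `p`-element outside `S = O_p(C(u))` normalizing `S`, with `p`-th power in `S` -/
theorem Hp.exists_norm : ∃ g : G, Pel p g ∧ g ∉ h.S hu hpu ∧ g ∈ normalizer ((h.S hu hpu : Subgroup G) : Set G) ∧
    g ^ p ∈ h.S hu hpu := by
  have hp : p.Prime := Fact.out
  obtain ⟨P, hP⟩ := (h.isPGroup_S hu hpu).exists_le_sylow
  have hlt : h.S hu hpu < (P : Subgroup G) := by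
    refine lt_of_le_of_ne hP fun he => ?_
    have h1 := h.card_S hu hpu
    rw [he, P.card_eq_multiplicity] at h1
    have := Nat.pow_right_injective hp.two_le h1
    have := h.lt
    omega
  obtain ⟨x, hx, hxS, hxn⟩ := H71.Basic.exists_mem_normalizer_of_lt P.isPGroup' hlt
  have hpx : Pel p x := Pel.of_mem P.isPGroup' hx
  have hex : ∃ k : ℕ, x ^ p ^ k ∈ h.S hu hpu := by
    obtain ⟨k, hk⟩ := hpx
    exact ⟨k, by rw [← hk, pow_orderOf_eq_one]; exact one_mem _⟩
  classical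
  obtain ⟨k, hk, hmin⟩ : ∃ k : ℕ, x ^ p ^ k ∈ h.S hu hpu ∧ ∀ j < k, x ^ p ^ j ∉ h.S hu hpu :=
    ⟨Nat.find hex, Nat.find_spec hex, fun j hj => Nat.find_min hex hj⟩
  obtain _ | j := k
  · rw [pow_zero, pow_one] at hk; exact absurd hk hxS
  refine ⟨x ^ p ^ j, Pel.of_mem P.isPGroup' (pow_mem hx _), hmin j (Nat.lt_succ_self j), pow_mem hxn _, ?_⟩
  rw [← pow_mul, ← pow_succ]; exact hk

theorem Hp.conj_comm {g : G} (hg : g ∈ normalizer ((h.S hu hpu : Subgroup G) : Set G)) :
    Commute (g * u * g⁻¹) u :=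
  ((h.mem_S hu hpu).1 ((mem_normalizer_iff.1 hg u).1 (h.mem_S_self hu hpu))).1

/-- `g` normalizes the `p'`-part of `C(u)` -/
theorem Hp.conj_Y {g : G} (hg : g ∈ normalizer ((h.S hu hpu : Subgroup G) : Set G)) {w : G} (hw : Commute w u)
    (hrw : Reg p w) : Commute (g * w * g⁻¹) u := by
  have h1 := h.conj_comm hu hpu hg
  have h2 : Commute (g * w * g⁻¹) (g * u * g⁻¹) := by
    show g * w * g⁻¹ * (g * u * g⁻¹) = g * u * g⁻¹ * (g * w * g⁻¹)
    calc g * w * g⁻¹ * (g * u * g⁻¹) = g * (w * u) * g⁻¹ := by group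
      _ = g * (u * w) * g⁻¹ := by rw [hw.eq]
      _ = _ := by group
  exact (h.comm (conj_nc hu g) (hpu.conj g) h1.symm h2 hpu (hrw.conj g)).symm

/-- no noncentral `p'`-element of `C(u)` commutes with `g` -/
theorem Hp.not_comm {g : G} (hpg : Pel p g) (hgS : g ∉ h.S hu hpu)
    (hg : g ∈ normalizer ((h.S hu hpu : Subgroup G) : Set G)) {w : G} (hw : Commute w u)
    (hrw : Reg p w) (hgw : Commute g w) : w ∈ center G := by
  have hp : p.Prime := Fact.out
  by_contra hwZ
  have h1 : IsPGroup p (zpowers g ⊔ h.S hu hpu : Subgroup G) := by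
    exact IsPGroup.to_sup_of_normal_right' hpg.isPGroup (h.isPGroup_S hu hpu) (by rwa [zpowers_le])
  have h2 : zpowers g ⊔ h.S hu hpu ≤ centralizer ({w} : Set G) :=
    sup_le (by rw [zpowers_le]; exact mem_cent.2 hgw) (h.S_le hu hpu hw.symm hrw)
  have h3 := h.card_le hwZ h1 h2
  have h4 : h.S hu hpu = zpowers g ⊔ h.S hu hpu :=
    Subgroup.eq_of_le_of_card_ge le_sup_right (by rw [h.card_S]; exact h3)
  apply hgS
  rw [h4]
  exact (le_sup_left : zpowers g ≤ _) (mem_zpowers g)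

/-- (F5) -/
theorem Hp.nilp : Group.IsNilpotent (Yp (h.spl hu hpu)) := by
  have hp : p.Prime := Fact.out
  obtain ⟨g, hpg, hgS, hgn, hgp⟩ := h.exists_norm hu hpu
  set Y := Yp (h.spl hu hpu) with hY
  have hYm : ∀ w, w ∈ Y ↔ Commute w u ∧ Reg p w := fun w => by rw [hY, mem_Yp, mem_cent]
  have hgY : g ∈ normalizer (Y : Set G) := by
    refine H75.Basic.mem_normalizer_of_conj_mem _ g fun w hw => ?_
    rw [hYm] at hw ⊢
    exact ⟨h.conj_Y hu hpu hgn hw.1 hw.2, hw.2.conj g⟩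
  let f : normalizer (Y : Set G) →* MulAut Y := Subgroup.normalizerMonoidHom Y
  have hf : ∀ (n : normalizer (Y : Set G)) (v : Y), ((f n v : Y) : G) = n * v * (n : G)⁻¹ := fun n v => rfl
  let φ : MulAut Y := f ⟨g, hgY⟩
  have hφ : ∀ v : Y, ((φ v : Y) : G) = g * v * g⁻¹ := fun v => rfl
  let Z0 : Subgroup Y := (center G).subgroupOf Y
  have hZ0 : Z0 ≤ center Y := by
    intro z hz
    rw [mem_center_iff]
    intro y
    exact Subtype.ext (mem_center_iff.1 (mem_subgroupOf.1 hz) y)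
  have hφZ : Z0.map (φ : Y →* Y) = Z0 := by
    refine le_antisymm ?_ ?_
    · rintro _ ⟨z, hz, rfl⟩
      have : (φ z) = z := by
        apply Subtype.ext
        rw [hφ, mem_center_iff.1 (mem_subgroupOf.1 hz) g]
        group
      show φ z ∈ Z0
      rw [this]; exact hz
    · intro z hz
      refine ⟨z, hz, ?_⟩
      apply Subtype.ext
      show ((φ z : Y) : G) = z
      rw [hφ, mem_center_iff.1 (mem_subgroupOf.1 hz) g]
      group
  let ψ : (Y ⧸ Z0) ≃* (Y ⧸ Z0) := QuotientGroup.congr Z0 Z0 φ hφZ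
  have hψ : ∀ y : Y, ψ (QuotientGroup.mk' Z0 y) = QuotientGroup.mk' Z0 (φ y) := fun y => rfl
  -- fixed point free
  have hfpf : ∀ y : Y, ψ (QuotientGroup.mk' Z0 y) = QuotientGroup.mk' Z0 y → QuotientGroup.mk' Z0 y = 1 := by
    intro y hy
    rw [hψ, QuotientGroup.mk'_apply, QuotientGroup.mk'_apply, QuotientGroup.eq] at hy
    rw [mem_subgroupOf] at hy
    rw [QuotientGroup.mk'_apply, QuotientGroup.eq_one_iff, mem_subgroupOf]
    have hyY := (hYm y).1 y.2
    set z : G := (((φ y)⁻¹ * y : Y) : G) with hz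
    have hzZ : z ∈ center G := hy
    have h1 : g * y * g⁻¹ = z⁻¹ * y := by
      have h2 : z = (g * y * g⁻¹)⁻¹ * y := by rw [hz]; simp [hφ]
      have h3 := mem_center_iff.1 hzZ (g * y * g⁻¹)
      have h4 : z * (g * y * g⁻¹) = y := by rw [← h3, h2]; group
      calc g * y * g⁻¹ = z⁻¹ * (z * (g * y * g⁻¹)) := by group
        _ = z⁻¹ * y := by rw [h4]
    have hzi : z⁻¹ ∈ center G := inv_mem hzZ
    -- g^p centralizes y
    have h5 : ∀ k : ℕ, g ^ k * y * (g ^ k)⁻¹ = (z⁻¹) ^ k * y := by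
      intro k
      induction k with
      | zero => simp
      | succ k ih =>
        have e : g ^ (k + 1) * y * (g ^ (k + 1))⁻¹ = g * (g ^ k * y * (g ^ k)⁻¹) * g⁻¹ := by
          rw [pow_succ' g k]; group
        rw [e, ih]
        have hzk : (z⁻¹) ^ k ∈ center G := pow_mem hzi k
        calc g * ((z⁻¹) ^ k * y) * g⁻¹ = (g * (z⁻¹) ^ k) * y * g⁻¹ := by group
          _ = ((z⁻¹) ^ k * g) * y * g⁻¹ := by rw [mem_center_iff.1 hzk g]
          _ = (z⁻¹) ^ k * (g * y * g⁻¹) := by group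
          _ = (z⁻¹) ^ k * (z⁻¹ * y) := by rw [h1]
          _ = (z⁻¹) ^ (k + 1) * y := by rw [pow_succ]; group
    have h6 : Commute (g ^ p) (y : G) :=
      h.comm hu hpu ((h.mem_S hu hpu).1 hgp).1 hyY.1 ((h.mem_S hu hpu).1 hgp).2 hyY.2
    have h7 := h5 p
    rw [h6.eq] at h7
    have h8 : (z⁻¹) ^ p = 1 := by
      have h9 : (z⁻¹) ^ p * (y : G) = 1 * y := by rw [← h7]; group
      exact mul_right_cancel h9
    have hzr : Reg p z := by
      have : z ∈ Y := by rw [hz]; exact SetLike.coe_mem _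
      exact ((hYm z).1 this).2
    have h9 : z⁻¹ = 1 := by
      refine eq_one_of_pel_reg (Pel.of_pow hp (k := 1) ?_) hzr.inv
      rw [pow_one]; exact h8
    rw [h9, one_mul] at h1
    refine h.not_comm hu hpu hpg hgS hgn hyY.1 hyY.2 ?_
    show g * (y : G) = y * g
    calc g * (y : G) = (g * y * g⁻¹) * g := by group
      _ = y * g := by rw [h1]
  have hQ : Group.IsNilpotent (Y ⧸ Z0) := by
    by_cases htriv : ∀ x : Y ⧸ Z0, x = 1
    · haveI : Subsingleton (Y ⧸ Z0) := ⟨fun a b => by rw [htriv a, htriv b]⟩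
      infer_instance
    push Not at htriv
    obtain ⟨x0, hx0⟩ := htriv
    have hψp : ψ ^ p = 1 := by
      apply MulEquiv.ext
      intro x
      obtain ⟨y, rfl⟩ := QuotientGroup.mk'_surjective Z0 x
      have h1 : ∀ k : ℕ, (ψ ^ k) (QuotientGroup.mk' Z0 y) = QuotientGroup.mk' Z0 ((φ ^ k) y) := by
        intro k
        induction k with
        | zero => rfl
        | succ k ih =>
          rw [pow_succ', pow_succ', MulAut.mul_apply, ih, hψ, MulAut.mul_apply]
      rw [h1 p]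
      have h2 : φ ^ p = 1 := by
        have h3 : φ ^ p = f (⟨g, hgY⟩ ^ p) := (map_pow f _ _).symm
        rw [h3]
        apply MulEquiv.ext
        intro v
        apply Subtype.ext
        rw [hf]
        have hvY := (hYm v).1 v.2
        have h6 : Commute (g ^ p) (v : G) :=
          h.comm hu hpu ((h.mem_S hu hpu).1 hgp).1 hvY.1 ((h.mem_S hu hpu).1 hgp).2 hvY.2
        show g ^ p * (v : G) * (g ^ p)⁻¹ = v
        rw [h6.eq]; group
      rw [h2]; rfl
    have hψ1 : ψ ≠ 1 := by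
      intro h1
      obtain ⟨y, rfl⟩ := QuotientGroup.mk'_surjective Z0 x0
      exact hx0 (hfpf y (by rw [h1]; rfl))
    have hord : orderOf (ψ : MulAut (Y ⧸ Z0)) = p := orderOf_eq_prime hψp hψ1
    refine Cfsg.Agent.S0033.result ψ ?_ p hp hord
    intro x hx
    obtain ⟨y, rfl⟩ := QuotientGroup.mk'_surjective Z0 x
    exact hfpf y hx
  haveI := hQ
  exact Subgroup.isNilpotent_of_ker_le_center (QuotientGroup.mk' Z0) (by rw [QuotientGroup.ker_mk']; exact hZ0)

end

end H75.CS
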