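import Cfsg.Agent.Lib.H75.CS13

set_option autoImplicit false
set_option linter.all false

namespace H75.CS

open Subgroup H75.ClassGraph

variable {G : Type*} [Group G]

theorem reg_of_pel {p q : ℕ} (hp : p.Prime) (hq : q.Prime) (hpq : p ≠ q) {x : G} (hx : Pel q x) : Reg p x := by
  obtain ⟨k, hk⟩ := hx
  unfold Reg
  rw [hk]
  exact Nat.Coprime.pow_left k ((Nat.coprime_primes hq hp).2 hpq.symm)

theorem spl_of_nilp [Finite G] {q : ℕ} [Fact q.Prime] (Y : Subgroup G) (hY : Group.IsNilpotent Y) : Spl q Y := by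
  refine spl_of _ fun x hx hrx => ?_
  obtain ⟨R⟩ : Nonempty (Sylow q Y) := inferInstance
  intro hd
  refine R.not_dvd_index (hd.trans (Subgroup.index_dvd_of_le ?_))
  intro r hr
  rw [mem_subgroupOf, mem_cent]
  have h1 : Commute r (⟨x, hx⟩ : Y) :=
    H73.Nilp.commute_of_coprime (p := q) (Pel.of_mem R.isPGroup' hr) (reg_coe.1 hrx)
  exact congrArg Subtype.val h1

theorem cent_le_two [Finite G] {p q c e : ℕ} [Fact p.Prime] [Fact q.Prime] (hP : Hp G p c) (hQ : Hp G q e) (hpq : p ≠ q)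
    {u v : G} (hu : u ∉ center G) (hpu : Pel p u) (hv : v ∉ center G) (hqv : Pel q v) (huv : Commute u v) :
    centralizer ({u} : Set G) ≤ centralizer ({v} : Set G) := by
  have hp : p.Prime := Fact.out
  have hq : q.Prime := Fact.out
  have hnil := hP.nilp hu hpu
  have hrv : Reg p v := reg_of_pel hp hq hpq hqv
  have hru : Reg q u := reg_of_pel hq hp hpq.symm hpu
  have hvY : v ∈ Yp (hP.spl hu hpu) := ⟨mem_cent.2 huv.symm, hrv⟩
  intro x hx
  have hzx : zpowers x ≤ centralizer ({u} : Set G) := by rwa [zpowers_le]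
  obtain ⟨a, b, ha, hb, hab, -, hqa, hrb⟩ := decomp hq x
  have hau := mem_cent.1 (hzx ha)
  have hbu := mem_cent.1 (hzx hb)
  -- the part `b`
  have h1 : Commute b v := by
    obtain ⟨s, t, hs, ht, hst, -, hps, hrt⟩ := decomp hp b
    have hzb : zpowers b ≤ centralizer ({u} : Set G) := by rw [zpowers_le]; exact mem_cent.2 hbu
    have h2 : Commute s v := hP.comm hu hpu (mem_cent.1 (hzb hs)) huv.symm hps hrv
    have htq : Reg q t := hrb.zpow ht
    have h3 : Commute (⟨v, hvY⟩ : Yp (hP.spl hu hpu)) ⟨t, hzb ht, hrt⟩ :=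
      H73.Nilp.commute_of_coprime (p := q) (pel_coe.1 hqv) (reg_coe.1 htq)
    have h4 : Commute v t := congrArg Subtype.val h3
    rw [← hst]
    exact h2.mul_left h4.symm
  -- the part `a`
  have h2 : Commute a v := by
    have hspl := spl_of_nilp (q := q) (Yp (hP.spl hu hpu)) hnil
    have hle : hQ.S hv hqv ≤ Sp hspl := by
      intro y hy
      have hyu := hQ.S_le hv hqv huv.symm hru hy
      have hy' := (hQ.mem_S hv hqv).1 hy
      exact ⟨⟨hyu, reg_of_pel hp hq hpq hy'.2⟩, hy'.2⟩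
    have hTle : Sp hspl ≤ centralizer ({u} : Set G) := fun y hy => hy.1.1
    have hcard := hQ.card_le hu (isPGroup_Sp hq hspl) hTle
    have heq : hQ.S hv hqv = Sp hspl :=
      Subgroup.eq_of_le_of_card_ge hle (by rw [hQ.card_S]; exact hcard)
    have haT : a ∈ Sp hspl := ⟨⟨mem_cent.2 hau, reg_of_pel hp hq hpq hqa⟩, hqa⟩
    rw [← heq] at haT
    exact ((hQ.mem_S hv hqv).1 haT).1
  rw [mem_cent, ← hab]
  exact h2.mul_left h1

theorem cent_eq_two [Finite G] {p q c e : ℕ} [Fact p.Prime] [Fact q.Prime] (hP : Hp G p c) (hQ : Hp G q e) (hpq : p ≠ q)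
    {u v : G} (hu : u ∉ center G) (hpu : Pel p u) (hv : v ∉ center G) (hqv : Pel q v) (huv : Commute u v) :
    centralizer ({u} : Set G) = centralizer ({v} : Set G) :=
  le_antisymm (cent_le_two hP hQ hpq hu hpu hv hqv huv) (cent_le_two hQ hP hpq.symm hv hqv hu hpu huv.symm)

/-- the configuration at one prime: `C` is the centralizer of all its noncentral `p`-elements -/
structure Cfg (G : Type*) [Group G] (p : ℕ) (C : Subgroup G) : Prop where
  cent : ∀ x ∈ C, x ∉ center G → Pel p x → centralizer ({x} : Set G) = C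
  ex : ∃ u ∈ C, u ∉ center G ∧ Pel p u
  ex' : ∃ g ∈ normalizer (C : Set G), Pel p g ∧ g ∉ C

theorem exists_cfg [Finite G] {p q c e : ℕ} [Fact p.Prime] [Fact q.Prime] (hP : Hp G p c) (hQ : Hp G q e) (hpq : p ≠ q) :
    ∃ C : Subgroup G, Cfg G p C ∧ Cfg G q C := by
  have hp : p.Prime := Fact.out
  have hq : q.Prime := Fact.out
  obtain ⟨x, hx⟩ := hP.ne
  obtain ⟨u, hu, hpu, -⟩ := hP.exists_comm hx
  obtain ⟨v, hv, hqv, hvu⟩ := hQ.exists_comm hu
  have h0 := cent_eq_two hP hQ hpq hu hpu hv hqv hvu.symm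
  have main : ∀ {p q c e : ℕ} (_ : Fact p.Prime) (_ : Fact q.Prime) (hP : Hp G p c) (hQ : Hp G q e) (hpq : p ≠ q)
      {u v : G} (hu : u ∉ center G) (hpu : Pel p u) (hv : v ∉ center G) (hqv : Pel q v) (huv : Commute u v),
      Cfg G p (centralizer ({u} : Set G)) := by
    intro p q c e _ _ hP hQ hpq u v hu hpu hv hqv huv
    have h0 := cent_eq_two hP hQ hpq hu hpu hv hqv huv
    have hcent : ∀ x ∈ centralizer ({u} : Set G), x ∉ center G → Pel p x →
        centralizer ({x} : Set G) = centralizer ({u} : Set G) := by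
      intro x hx hxZ hpx
      rw [h0] at hx ⊢
      exact cent_eq_two hP hQ hpq hxZ hpx hv hqv (mem_cent.1 hx)
    refine ⟨hcent, ⟨u, mem_cent.2 (Commute.refl u), hu, hpu⟩, ?_⟩
    obtain ⟨g, hpg, hgS, hgn, -⟩ := hP.exists_norm hu hpu
    refine ⟨g, ?_, hpg, fun hgC => hgS ((hP.mem_S hu hpu).2 ⟨mem_cent.1 hgC, hpg⟩)⟩
    have h1 := hP.conj_comm hu hpu hgn
    have h2 := hcent _ (mem_cent.2 h1) (conj_nc hu g) (hpu.conj g)
    refine H75.Basic.mem_normalizer_of_conj_mem _ g fun y hy => ?_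
    rw [← h2, mem_cent]
    have h3 := (mem_cent.1 hy).eq
    show g * y * g⁻¹ * (g * u * g⁻¹) = g * u * g⁻¹ * (g * y * g⁻¹)
    calc g * y * g⁻¹ * (g * u * g⁻¹) = g * (y * u) * g⁻¹ := by group
      _ = g * (u * y) * g⁻¹ := by rw [h3]
      _ = _ := by group
  refine ⟨centralizer ({u} : Set G), main inferInstance inferInstance hP hQ hpq hu hpu hv hqv hvu.symm, ?_⟩
  rw [h0]
  exact main inferInstance inferInstance hQ hP hpq.symm hv hqv hu hpu hvu

end H75.CS
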