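import Cfsg.Agent.Lib.H75.CS14
import Cfsg.Agent.Lib.H75.CS12
import Cfsg.Agent.Lib.H3.RankTwo
import Cfsg.Agent.Lib.H27.Gen

set_option autoImplicit false
set_option linter.all false

namespace H75.CS

open Subgroup H75.ClassGraph
open scoped commutatorElement

variable {G : Type*} [Group G]

section
variable {p : ℕ} {C : Subgroup G} (cfg : Cfg G p C)

include cfg in
theorem Cfg.comm {x y : G} (hx : x ∈ C) (hpx : Pel p x) (hy : y ∈ C) : Commute x y := by
  by_cases hxZ : x ∈ center G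
  · exact (mem_center_iff.1 hxZ y).symm
  · rw [← cfg.cent x hx hxZ hpx] at hy
    exact (mem_cent.1 hy).symm

/-- `p`-elements of `C` -/
def Cfg.U [Fact p.Prime] (cfg : Cfg G p C) : Subgroup G where
  carrier := {x | x ∈ C ∧ Pel p x}
  mul_mem' := fun hx hy => ⟨mul_mem hx.1 hy.1, hx.2.mul Fact.out hy.2 (cfg.comm hx.1 hx.2 hy.1)⟩
  one_mem' := ⟨one_mem _, Pel.one p⟩
  inv_mem' := fun hx => ⟨inv_mem hx.1, hx.2.inv⟩

theorem Cfg.mem_U [Fact p.Prime] (cfg : Cfg G p C) {x : G} : x ∈ cfg.U ↔ x ∈ C ∧ Pel p x := Iff.rfl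

theorem conj_mem_C {g : G} (hg : g ∈ normalizer (C : Set G)) {x : G} (hx : x ∈ C) : g * x * g⁻¹ ∈ C :=
  (mem_normalizer_iff.1 hg x).1 hx

theorem Cfg.conj_U [Fact p.Prime] (cfg : Cfg G p C) {g : G} (hg : g ∈ normalizer (C : Set G)) {x : G} (hx : x ∈ cfg.U) :
    g * x * g⁻¹ ∈ cfg.U :=
  ⟨conj_mem_C hg hx.1, hx.2.conj g⟩

theorem Cfg.semi [Fact p.Prime] (cfg : Cfg G p C) {g y : G} (hy : y ∈ cfg.U) (hyZ : y ∉ center G) (hgy : Commute g y) :
    g ∈ C := by
  rw [← cfg.cent y hy.1 hyZ hy.2]; exact mem_cent.2 hgy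

theorem Cfg.no [Finite G] [Fact p.Prime] (cfg : Cfg G p C) {a : G} (ha : a ∈ normalizer (C : Set G)) (haC : a ∉ C)
    {M : ℕ} (hM : M.Coprime p) (haM : a ^ M ∈ C)
    (hcomm : ∀ g ∈ normalizer (C : Set G), (a * (g * a * g⁻¹)) * ((g * a * g⁻¹) * a)⁻¹ ∈ C) : False := by
  obtain ⟨g, hg, hpg, hgC⟩ := cfg.ex'
  obtain ⟨u, hu, huZ, hpu⟩ := cfg.ex
  refine D3 (p := p) C (normalizer (C : Set G)) cfg.U ?_ (fun x hx y hy => cfg.comm hx.1 hx.2 hy.1)
    (fun y hy c hc => cfg.comm hy.1 hy.2 hc) (fun g hg x hx => conj_mem_C hg hx) (fun g hg y hy => cfg.conj_U hg hy)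
    (fun g _ y hy hyZ hgy => cfg.semi hy hyZ hgy) (u := u) ⟨hu, hpu⟩ huZ hg hpg hgC ha haC hM haM (hcomm g hg)
  rw [IsPGroup.iff_orderOf]
  rintro ⟨x, hx⟩
  obtain ⟨k, hk⟩ := hx.2
  exact ⟨k, by rw [Subgroup.orderOf_mk]; exact hk⟩

end

theorem comm_comm' {x y w : G} (hx : x * w * x⁻¹ * w⁻¹ ∈ center G) (hy : y * w * y⁻¹ * w⁻¹ ∈ center G) :
    Commute ((x * y) * (y * x)⁻¹) w := by
  set z := x * w * x⁻¹ * w⁻¹ with hz
  set t := y * w * y⁻¹ * w⁻¹ with ht
  have h1 : x * w * x⁻¹ = z * w := by rw [hz]; group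
  have h2 : y * w * y⁻¹ = t * w := by rw [ht]; group
  have h3 : (x * y) * w * (x * y)⁻¹ = t * z * w := by
    calc (x * y) * w * (x * y)⁻¹ = x * (y * w * y⁻¹) * x⁻¹ := by group
      _ = (x * t) * w * x⁻¹ := by rw [h2]; group
      _ = (t * x) * w * x⁻¹ := by rw [mem_center_iff.1 hy x]
      _ = t * (x * w * x⁻¹) := by group
      _ = t * z * w := by rw [h1]; group
  have h4 : (y * x) * w * (y * x)⁻¹ = t * z * w := by
    calc (y * x) * w * (y * x)⁻¹ = y * (x * w * x⁻¹) * y⁻¹ := by group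
      _ = (y * z) * w * y⁻¹ := by rw [h1]; group
      _ = (z * y) * w * y⁻¹ := by rw [mem_center_iff.1 hx y]
      _ = z * (y * w * y⁻¹) := by group
      _ = z * t * w := by rw [h2]; group
      _ = t * z * w := by rw [mem_center_iff.1 hx t]
  have hc : t * z ∈ center G := mul_mem hy hx
  have h5 : Commute ((x * y) * (y * x)⁻¹) (t * z * w) := by
    show (x * y) * (y * x)⁻¹ * (t * z * w) = t * z * w * ((x * y) * (y * x)⁻¹)
    calc (x * y) * (y * x)⁻¹ * (t * z * w) = (x * y) * (y * x)⁻¹ * ((y * x) * w * (y * x)⁻¹) := by rw [h4]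
      _ = ((x * y) * w * (x * y)⁻¹) * ((x * y) * (y * x)⁻¹) := by group
      _ = t * z * w * ((x * y) * (y * x)⁻¹) := by rw [h3]
  have h6 : w = (t * z)⁻¹ * (t * z * w) := by group
  rw [h6]
  have h7 : Commute ((x * y) * (y * x)⁻¹) (t * z) := mem_center_iff.1 hc _
  exact h7.inv_right.mul_right h5

section
variable [Finite G] {p q : ℕ} [Fact p.Prime] [Fact q.Prime] (hpq : p ≠ q) {C : Subgroup G} (cp : Cfg G p C) (cq : Cfg G q C)

include hpq cp cq in
/-- (1) -/
theorem ker_eq {a : G} (ha : a ∈ normalizer (C : Set G)) (hL : ∀ y ∈ cp.U, a * y * a⁻¹ * y⁻¹ ∈ center G) : a ∈ C := by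
  have hp : p.Prime := Fact.out
  have hq : q.Prime := Fact.out
  by_contra haC
  obtain ⟨u, hu, huZ, hpu⟩ := cp.ex
  have huU : u ∈ cp.U := ⟨hu, hpu⟩
  -- a power of `a` with `p`-power exponent lies in `C`
  obtain ⟨k, hk⟩ : ∃ k : ℕ, a ^ p ^ k ∈ C := by
    set z := a * u * a⁻¹ * u⁻¹ with hz
    have hzU : z ∈ cp.U := mul_mem (cp.conj_U ha huU) (inv_mem huU)
    obtain ⟨k, hk⟩ := hzU.2
    refine ⟨k, cp.semi huU huZ ?_⟩
    have h1 : a * u * a⁻¹ = z * u := by rw [hz]; group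
    have h2 := conj_pow_eq'' (hL u huU) h1 (p ^ k)
    rw [← hk, pow_orderOf_eq_one, one_mul] at h2
    rw [← hk]
    show a ^ orderOf z * u = u * a ^ orderOf z
    calc a ^ orderOf z * u = (a ^ orderOf z * u * (a ^ orderOf z)⁻¹) * a ^ orderOf z := by group
      _ = _ := by rw [h2]
  refine cq.no ha haC (M := p ^ k) (Nat.Coprime.pow_left k ((Nat.coprime_primes hp hq).2 hpq)) hk fun g hg => ?_
  refine cp.semi huU huZ (comm_comm' (hL u huU) ?_)
  -- `g a g⁻¹` has the same property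
  have hgu : g⁻¹ * u * g ∈ cp.U := by
    have := cp.conj_U (inv_mem hg) huU
    rwa [inv_inv] at this
  have h1 := hL _ hgu
  have h2 := (inferInstance : (center G).Normal).conj_mem _ h1 g
  convert h2 using 1
  group

include hpq cp cq in
/-- (2) -/
theorem no_two (hp2 : p ≠ 2) {j : G} (hj : j ∈ normalizer (C : Set G)) (hjC : j ∉ C) (hj2 : j ^ 2 ∈ C) : False := by
  have hp : p.Prime := Fact.out
  have hinv : ∀ t ∈ normalizer (C : Set G), t ∉ C → t ^ 2 ∈ C → ∀ y ∈ cp.U, y * (t * y * t⁻¹) ∈ center G := by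
    intro t ht htC ht2 y hy
    by_contra hZ
    have hty := cp.conj_U ht hy
    refine htC (cp.semi (mul_mem hy hty) hZ ?_)
    have h1 : t ^ 2 * y * (t ^ 2)⁻¹ = y := by
      rw [(cp.comm hy.1 hy.2 ht2).symm.eq]; group
    have h2 : t * (y * (t * y * t⁻¹)) * t⁻¹ = y * (t * y * t⁻¹) := by
      calc t * (y * (t * y * t⁻¹)) * t⁻¹ = (t * y * t⁻¹) * (t ^ 2 * y * (t ^ 2)⁻¹) := by group
        _ = (t * y * t⁻¹) * y := by rw [h1]
        _ = y * (t * y * t⁻¹) := (cp.comm hty.1 hty.2 hy.1).eq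
    show t * (y * (t * y * t⁻¹)) = y * (t * y * t⁻¹) * t
    calc t * (y * (t * y * t⁻¹)) = (t * (y * (t * y * t⁻¹)) * t⁻¹) * t := by group
      _ = _ := by rw [h2]
  refine cp.no hj hjC (M := 2) ((Nat.coprime_primes Nat.prime_two hp).2 hp2.symm) hj2 fun g hg => ?_
  set t := g * j * g⁻¹ with ht
  have htN : t ∈ normalizer (C : Set G) := mul_mem (mul_mem hg hj) (inv_mem hg)
  have htC : t ∉ C := by
    intro h
    apply hjC
    have := conj_mem_C (inv_mem hg) h
    rw [ht] at this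
    convert this using 1; group
  have ht2 : t ^ 2 ∈ C := by
    have := conj_mem_C hg hj2
    rw [ht, conj_pow]
    exact this
  have hc : t * j⁻¹ ∈ C := by
    refine ker_eq hpq cp cq (mul_mem htN (inv_mem hj)) fun y hy => ?_
    have hy1 : j⁻¹ * y * j ∈ cp.U := by
      have := cp.conj_U (inv_mem hj) hy
      rwa [inv_inv] at this
    have h1 := hinv j hj hjC hj2 _ hy1
    have h2 := hinv t htN htC ht2 _ hy1
    have e1 : (j⁻¹ * y * j) * (j * (j⁻¹ * y * j) * j⁻¹) = (j⁻¹ * y * j) * y := by group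
    rw [e1] at h1
    have h3 := mul_mem (inv_mem h1) h2
    have e2 : ((j⁻¹ * y * j) * y)⁻¹ * ((j⁻¹ * y * j) * (t * (j⁻¹ * y * j) * t⁻¹)) =
        y⁻¹ * (t * j⁻¹ * y * (t * j⁻¹)⁻¹) := by group
    rw [e2] at h3
    have h4 := (inferInstance : (center G).Normal).conj_mem _ h3 y
    convert h4 using 1
    group
  have hcj : j * (t * j⁻¹) * j⁻¹ ∈ C := conj_mem_C hj hc
  have h1 := mul_mem hcj (inv_mem hc)
  convert h1 using 1
  group

end

section
variable [Finite G] {p : ℕ} [Fact p.Prime] {C : Subgroup G} (cfg : Cfg G p C)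

include cfg in
/-- no subgroup of type `(s,s)` in `N(C)/C`, `s ≠ p` -/
theorem no_rank2 {s : ℕ} [Fact s.Prime] (hsp : s ≠ p) {x y : G} (hx : x ∈ normalizer (C : Set G))
    (hy : y ∈ normalizer (C : Set G)) (hxC : x ∉ C) (hxs : x ^ s ∈ C) (hys : y ^ s ∈ C)
    (hxy : (y * x)⁻¹ * (x * y) ∈ C) (hi : ∀ i : ℕ, x ^ i * y ∉ C) : False := by
  have hp : p.Prime := Fact.out
  have hs : s.Prime := Fact.out
  haveI : Group.IsNilpotent cfg.U := by
    letI : CommGroup cfg.U :=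
      { (inferInstance : Group cfg.U) with
        mul_comm := fun a b => Subtype.ext (cfg.comm a.2.1 a.2.2 b.2.1) }
    exact CommGroup.isNilpotent
  have hUp : IsPGroup p cfg.U := by
    rw [IsPGroup.iff_orderOf]
    rintro ⟨x, hx⟩
    obtain ⟨k, hk⟩ := hx.2
    exact ⟨k, by rw [Subgroup.orderOf_mk]; exact hk⟩
  have hsU : ¬ s ∣ Nat.card cfg.U := by
    obtain ⟨n, hn⟩ := IsPGroup.iff_card.1 hUp
    rw [hn]
    intro hd
    exact hsp ((Nat.prime_dvd_prime_iff_eq hs hp).1 (hs.dvd_of_dvd_pow hd))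
  have hNU : normalizer (C : Set G) ≤ normalizer (cfg.U : Set G) := fun g hg =>
    H75.Basic.mem_normalizer_of_conj_mem _ g fun z hz => cfg.conj_U hg hz
  let f : normalizer (cfg.U : Set G) →* MulAut cfg.U := Subgroup.normalizerMonoidHom cfg.U
  have hf : ∀ (n : normalizer (cfg.U : Set G)) (v : cfg.U), ((f n v : cfg.U) : G) = n * v * (n : G)⁻¹ := fun n v => rfl
  let x' : normalizer (cfg.U : Set G) := ⟨x, hNU hx⟩
  let y' : normalizer (cfg.U : Set G) := ⟨y, hNU hy⟩
  have hker : ∀ n : normalizer (cfg.U : Set G), (n : G) ∈ C → f n = 1 := by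
    intro n hn
    apply MulEquiv.ext
    intro v
    apply Subtype.ext
    rw [hf, MulAut.one_apply, (cfg.comm v.2.1 v.2.2 hn).symm.eq]
    group
  have hX : f x' ^ s = 1 := by
    rw [← map_pow]; exact hker _ hxs
  have hY : f y' ^ s = 1 := by
    rw [← map_pow]; exact hker _ hys
  have hXY : Commute (f x') (f y') := by
    show f x' * f y' = f y' * f x'
    have h1 := hker ((y' * x')⁻¹ * (x' * y')) hxy
    rw [map_mul, map_inv, inv_mul_eq_one] at h1
    rw [← map_mul, ← map_mul]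
    exact h1.symm
  have hfix : ∀ n : normalizer (cfg.U : Set G), (n : G) ∉ C → ∀ v : cfg.U, f n v = v →
      v ∈ (center G).subgroupOf cfg.U := by
    intro n hn v hv
    rw [mem_subgroupOf]
    by_contra hZ
    refine hn (cfg.semi v.2 hZ ?_)
    have h3 : (n : G) * v * (n : G)⁻¹ = v := by rw [← hf, hv]
    show (n : G) * v = v * n
    calc (n : G) * v = (n * v * (n : G)⁻¹) * n := by group
      _ = v * n := by rw [h3]
  have key := H27.Gen.gen_nilpotent (Q := cfg.U) s hsU (f x') (f y') hXY hX hY ((center G).subgroupOf cfg.U)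
    (fun v hv => hfix x' hxC v hv)
    (fun i v hv => hfix (x' ^ i * y') (hi i) v (by rw [map_mul, map_pow]; exact hv))
  obtain ⟨u, hu, huZ, hpu⟩ := cfg.ex
  rw [Subgroup.subgroupOf_eq_top] at key
  exact huZ (key ⟨hu, hpu⟩)

end

theorem exists_comm_normal {B : Type*} [Group B] [Finite B] (hs : Group.IsSolvable B) [Nontrivial B] :
    ∃ K : Subgroup B, K.Normal ∧ K ≠ ⊥ ∧ ∀ x ∈ K, ∀ y ∈ K, Commute x y := by
  classical
  obtain ⟨n, hn⟩ := hs.solvable
  have hex : ∃ n, derivedSeries B n = ⊥ := ⟨n, hn⟩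
  obtain ⟨k, hk, hmin⟩ : ∃ k, derivedSeries B k = ⊥ ∧ ∀ j < k, derivedSeries B j ≠ ⊥ :=
    ⟨Nat.find hex, Nat.find_spec hex, fun j hj => Nat.find_min hex hj⟩
  obtain _ | j := k
  · rw [derivedSeries_zero] at hk
    exact absurd hk top_ne_bot
  · refine ⟨derivedSeries B j, inferInstance, hmin j (Nat.lt_succ_self j), fun x hx y hy => ?_⟩
    rw [derivedSeries_succ] at hk
    have h1 : ⁅x, y⁆ ∈ ⁅derivedSeries B j, derivedSeries B j⁆ := Subgroup.commutator_mem_commutator hx hy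
    rw [hk, mem_bot] at h1
    exact commutatorElement_eq_one_iff_commute.1 h1

/-- (3) two primes are impossible -/
theorem two_primes_false [Finite G] {p q : ℕ} [Fact p.Prime] [Fact q.Prime] (hpq : p ≠ q) {C : Subgroup G}
    (cp : Cfg G p C) (cq : Cfg G q C) : False := by
  have hp : p.Prime := Fact.out
  have hq : q.Prime := Fact.out
  let N := normalizer (C : Set G)
  haveI hCn : (C.subgroupOf N).Normal := Subgroup.normal_in_normalizer
  let B := N ⧸ C.subgroupOf N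
  let π : N →* B := QuotientGroup.mk' (C.subgroupOf N)
  have hπs : Function.Surjective π := QuotientGroup.mk'_surjective _
  have hπ : ∀ n : N, π n = 1 ↔ (n : G) ∈ C := by
    intro n
    rw [show π n = QuotientGroup.mk' (C.subgroupOf N) n from rfl, QuotientGroup.mk'_apply,
      QuotientGroup.eq_one_iff, mem_subgroupOf]
  -- no involution
  have hodd : ¬ 2 ∣ Nat.card B := by
    intro hd
    obtain ⟨j, hj⟩ := exists_prime_orderOf_dvd_card' 2 hd
    obtain ⟨n, rfl⟩ := hπs j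
    have h1 : (n : G) ∉ C := by
      rw [← hπ]
      intro h1
      rw [h1, orderOf_one] at hj
      exact absurd hj (by norm_num)
    have h2 : (n : G) ^ 2 ∈ C := by
      have h3 : π (n ^ 2) = 1 := by rw [map_pow, ← hj, pow_orderOf_eq_one]
      exact (hπ _).1 h3
    by_cases hp2 : p = 2
    · exact no_two (p := q) (q := p) hpq.symm cq cp (fun h => hpq (hp2.trans h.symm)) n.2 h1 h2
    · exact no_two (p := p) (q := q) hpq cp cq hp2 n.2 h1 h2
  -- Sylow subgroups are cyclic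
  have hZ : IsZGroup B := by
    refine ⟨fun s hs S => ?_⟩
    haveI := Fact.mk hs
    by_contra hnc
    have hs2 : s ≠ 2 := by
      rintro rfl
      obtain ⟨k, hk⟩ := IsPGroup.iff_card.1 S.isPGroup'
      have hk0 : k ≠ 0 := by
        rintro rfl
        rw [pow_zero, Subgroup.card_eq_one] at hk
        apply hnc
        rw [hk]; infer_instance
      exact hodd ((dvd_pow_self 2 hk0).trans (hk ▸ Subgroup.card_subgroup_dvd_card (S : Subgroup B)))
    obtain ⟨A, -, hA, hAc⟩ := H3.RankTwo.exists_normal_rank_two hs2 S.isPGroup' hnc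
    have hne : A ≠ ⊥ := by
      intro h
      rw [h, Subgroup.card_bot] at hAc
      have := hs.one_lt
      nlinarith
    rw [Subgroup.ne_bot_iff_exists_ne_one] at hne
    obtain ⟨⟨x, hxA⟩, hx1⟩ := hne
    have hx1' : x ≠ 1 := fun h => hx1 (Subtype.ext h)
    have hxs := hA.2 x hxA
    have hox : orderOf x = s := orderOf_eq_prime hxs hx1'
    have hlt : zpowers x < A := by
      refine lt_of_le_of_ne (by rwa [zpowers_le]) fun he => ?_
      have h1 := Nat.card_zpowers x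
      rw [he, hAc, hox] at h1
      have := hs.one_lt
      nlinarith
    obtain ⟨y, hyA, hyx⟩ := SetLike.exists_of_lt hlt
    have hys := hA.2 y hyA
    have hxy : x * y = y * x := by
      have := hA.1.is_comm.comm (⟨x, hxA⟩ : A) ⟨y, hyA⟩
      exact congrArg Subtype.val this
    obtain ⟨a, ha⟩ := hπs (x : B)
    obtain ⟨b, hb⟩ := hπs (y : B)
    have hxB : (x : B) ^ s = 1 := by exact_mod_cast congrArg Subtype.val hxs
    have hyB : (y : B) ^ s = 1 := by exact_mod_cast congrArg Subtype.val hys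
    have hxyB : (x : B) * y = y * x := congrArg Subtype.val hxy
    have c1 : (a : G) ∉ C := by
      rw [← hπ, ha]
      intro h; exact hx1' (Subtype.ext h)
    have c2 : (a : G) ^ s ∈ C := by
      have : π (a ^ s) = 1 := by rw [map_pow, ha, hxB]
      exact (hπ _).1 this
    have c3 : (b : G) ^ s ∈ C := by
      have : π (b ^ s) = 1 := by rw [map_pow, hb, hyB]
      exact (hπ _).1 this
    have c4 : ((b : G) * a)⁻¹ * (a * b) ∈ C := by
      have : π ((b * a)⁻¹ * (a * b)) = 1 := by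
        rw [map_mul, map_inv, map_mul, map_mul, ha, hb, hxyB, inv_mul_cancel]
      exact (hπ _).1 this
    have c5 : ∀ i : ℕ, (a : G) ^ i * b ∉ C := by
      intro i hi
      have h1 : π (a ^ i * b) = 1 := (hπ _).2 hi
      rw [map_mul, map_pow, ha, hb] at h1
      apply hyx
      have h2 : x ^ i * y = 1 := Subtype.ext (by exact_mod_cast h1)
      have h3 : y = (x ^ i)⁻¹ := eq_inv_of_mul_eq_one_right h2
      rw [h3]
      exact inv_mem (pow_mem (mem_zpowers x) i)
    by_cases hsp : s = p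
    · exact no_rank2 cq (s := s) (fun h => hpq (hsp.symm.trans h)) a.2 b.2 c1 c2 c3 c4 c5
    · exact no_rank2 cp (s := s) hsp a.2 b.2 c1 c2 c3 c4 c5
  haveI := hZ
  have hsolv : Group.IsSolvable B := inferInstance
  obtain ⟨g, hg, -, hgC⟩ := cp.ex'
  haveI : Nontrivial B := ⟨⟨π ⟨g, hg⟩, 1, fun h => hgC ((hπ _).1 h)⟩⟩
  obtain ⟨K, hKn, hK1, hKc⟩ := exists_comm_normal hsolv
  -- an element of prime order in `K`
  have hcard : Nat.card K ≠ 1 := fun h => hK1 (Subgroup.card_eq_one.1 h)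
  obtain ⟨s, hs, hsd⟩ := Nat.exists_prime_and_dvd hcard
  haveI := Fact.mk hs
  obtain ⟨⟨x, hxK⟩, hx⟩ := exists_prime_orderOf_dvd_card' s hsd
  rw [Subgroup.orderOf_mk] at hx
  obtain ⟨a, rfl⟩ := hπs x
  have c1 : (a : G) ∉ C := by
    rw [← hπ]
    intro h1
    rw [h1, orderOf_one] at hx
    exact hs.one_lt.ne hx
  have c2 : (a : G) ^ s ∈ C := by
    have h3 : π (a ^ s) = 1 := by rw [map_pow, ← hx, pow_orderOf_eq_one]
    exact (hπ _).1 h3
  have c3 : ∀ g ∈ normalizer (C : Set G), ((a : G) * (g * a * g⁻¹)) * ((g * a * g⁻¹) * a)⁻¹ ∈ C := by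
    intro g hg
    have h1 : Commute (π a) (π ⟨g, hg⟩ * π a * (π ⟨g, hg⟩)⁻¹) := hKc _ hxK _ (hKn.conj_mem _ hxK _)
    have h2 : π ((a * (⟨g, hg⟩ * a * ⟨g, hg⟩⁻¹)) * ((⟨g, hg⟩ * a * ⟨g, hg⟩⁻¹) * a)⁻¹) = 1 := by
      simp only [map_mul, map_inv]
      rw [h1.eq]; group
    exact (hπ _).1 h2
  by_cases hsp : s = p
  · refine cq.no a.2 c1 (M := s) ?_ c2 c3
    rw [hsp]; exact (Nat.coprime_primes hp hq).2 hpq
  · exact cp.no a.2 c1 (M := s) ((Nat.coprime_primes hs hp).2 hsp) c2 c3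

end H75.CS
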