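import Cfsg.Agent.Lib.H75.CS8
import Cfsg.Agent.Lib.H75.CS11
import Cfsg.Agent.Lib.H75.CS15

set_option autoImplicit false
set_option linter.all false

namespace H75.CS

open Subgroup H75.ClassGraph

theorem main {G : Type*} [Group G] [Finite G] (m n : ℕ) (hm : 1 < m) (hn : 1 < n) (hcop : m.Coprime n)
    (h : Set.range (fun x : G => (Subgroup.centralizer ({x} : Set G)).index) = ({1, m, m * n} : Set ℕ)) :
    Concl G m n := by
  have d : Dat G m n := by
    refine ⟨hm, hn, hcop, fun x => ?_, ?_, ?_⟩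
    · have h1 : (centralizer ({x} : Set G)).index ∈ ({1, m, m * n} : Set ℕ) := by
        rw [← h]; exact ⟨x, rfl⟩
      exact h1
    · have h1 : m ∈ ({1, m, m * n} : Set ℕ) := by simp
      rw [← h] at h1
      exact h1
    · have h1 : m * n ∈ ({1, m, m * n} : Set ℕ) := by simp
      rw [← h] at h1
      exact h1
  by_cases hO : ∃ p : ℕ, p.Prime ∧ p ∣ m ∧ ∃ V : Subgroup G, V.Normal ∧ IsPGroup p V ∧ ¬ V ≤ center G
  · obtain ⟨p, hp, hpm, V, hVn, hV, hVZ⟩ := hO
    exact case1 d hp hpm V hV hVZ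
  · exfalso
    push Not at hO
    obtain ⟨p, hp, hpm⟩ := Nat.exists_prime_and_dvd hm.ne'
    haveI := Fact.mk hp
    have hP := d.hp hp hpm
    by_cases hq : ∃ q : ℕ, q.Prime ∧ q ∣ m ∧ p ≠ q
    · obtain ⟨q, hq, hqm, hpq⟩ := hq
      haveI := Fact.mk hq
      have hQ := d.hp hq hqm
      obtain ⟨C, cp, cq⟩ := exists_cfg hP hQ hpq
      exact two_primes_false hpq cp cq
    · push Not at hq
      have hmp := Nat.eq_prime_pow_of_unique_prime_dvd (n := m) (p := p) (by omega)
        (fun {r} hr hrm => (hq r hr hrm).symm)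
      exact case2_false d hmp hpm hP (fun V hVn hV => hO p hp hpm V hVn hV)

end H75.CS
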