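import Cfsg.Agent.Lib.H75.CS1

set_option autoImplicit false
set_option linter.all false

namespace H75.CS

open Subgroup H75.ClassGraph

variable {G : Type*} [Group G]

structure Hp (G : Type*) [Group G] (p c : ℕ) : Prop where
  prime : p.Prime
  val : ∀ x : G, x ∉ center G → (Nat.card (centralizer ({x} : Set G))).factorization p = c
  lt : c < (Nat.card G).factorization p
  ne : ∃ x : G, x ∉ center G

theorem not_dvd_of_all [Finite G] {p : ℕ} [Fact p.Prime] (K : Subgroup G)
    (h : ∀ x ∈ K, Pel p x → x ∈ center G) : ¬ p ∣ (center G).relIndex K := by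
  obtain ⟨S⟩ : Nonempty (Sylow p K) := inferInstance
  have hS : (S : Subgroup K) ≤ (center G).subgroupOf K := by
    intro x hx
    rw [mem_subgroupOf]
    exact h x x.2 (pel_coe.2 (Pel.of_mem S.isPGroup' hx))
  intro hd
  exact S.not_dvd_index (hd.trans (Subgroup.index_dvd_of_le hS))

theorem mem_of_not_dvd [Finite G] {p : ℕ} (hp : p.Prime) (K : Subgroup G) (h : ¬ p ∣ (center G).relIndex K)
    {y : G} (hy : y ∈ K) (hpy : Pel p y) : y ∈ center G := by
  haveI : ((center G).subgroupOf K).Normal := inferInstance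
  have h1 := Subgroup.pow_index_mem (H := (center G).subgroupOf K) (⟨y, hy⟩ : K)
  rw [mem_subgroupOf] at h1
  have h2 : y ^ (center G).relIndex K ∈ center G := h1
  have h3 : ((center G).relIndex K).Coprime (orderOf y) := by
    obtain ⟨k, hk⟩ := hpy
    rw [hk]
    exact (Nat.Coprime.pow_left k ((Nat.Prime.coprime_iff_not_dvd hp).2 h)).symm
  obtain ⟨m, hm⟩ := exists_pow_eq_self_of_coprime h3
  rw [← hm]
  exact pow_mem h2 m

theorem val_center [Finite G] {p : ℕ} (K : Subgroup G) (hK : center G ≤ K) :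
    (Nat.card K).factorization p = (Nat.card (center G)).factorization p +
      ((center G).relIndex K).factorization p := by
  have h1 := H75.SylowNumber.relIndex_mul_card_inf (center G) K
  rw [inf_eq_left.2 hK] at h1
  have h2 : (center G).relIndex K ≠ 0 := by
    intro h
    rw [h, zero_mul] at h1
    exact Nat.card_pos.ne h1
  rw [← h1, Nat.factorization_mul h2 Nat.card_pos.ne', Finsupp.add_apply, add_comm]

theorem center_le_cent (x : G) : center G ≤ centralizer ({x} : Set G) := Subgroup.center_le_centralizer _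

/-- every noncentral element commutes with a noncentral `p`-element -/
theorem Hp.exists_comm [Finite G] {p c : ℕ} (h : Hp G p c) {x : G} (hx : x ∉ center G) :
    ∃ u : G, u ∉ center G ∧ Pel p u ∧ Commute u x := by
  haveI := Fact.mk h.prime
  -- there is a noncentral `p`-element
  obtain ⟨y, hy, hyp⟩ : ∃ y : G, y ∉ center G ∧ Pel p y := by
    by_contra hcon
    push Not at hcon
    have h1 : ¬ p ∣ (center G).relIndex ⊤ := not_dvd_of_all ⊤ fun z _ hz => by
      by_contra hz'
      exact hcon z hz' hz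
    have h2 := val_center (p := p) (⊤ : Subgroup G) le_top
    rw [Nat.factorization_eq_zero_of_not_dvd h1, add_zero, Subgroup.card_top] at h2
    have h3 := val_center (p := p) (centralizer ({x} : Set G)) (center_le_cent x)
    rw [h.val x hx] at h3
    have := h.lt
    omega
  by_contra hcon
  push Not at hcon
  have h1 : ¬ p ∣ (center G).relIndex (centralizer ({x} : Set G)) := not_dvd_of_all _ fun z hz hpz => by
    by_contra hz'
    exact hcon z hz' hpz (mem_cent.1 hz)
  have h2 := val_center (p := p) (centralizer ({x} : Set G)) (center_le_cent x)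
  rw [Nat.factorization_eq_zero_of_not_dvd h1, add_zero, h.val x hx] at h2
  have h3 := val_center (p := p) (centralizer ({y} : Set G)) (center_le_cent y)
  rw [h.val y hy, h2] at h3
  have h4 : ((center G).relIndex (centralizer ({y} : Set G))).factorization p = 0 := by omega
  have h5 : ¬ p ∣ (center G).relIndex (centralizer ({y} : Set G)) := by
    rw [Nat.factorization_eq_zero_iff] at h4
    rcases h4 with h4 | h4 | h4
    · exact absurd h.prime h4
    · exact h4
    · exfalso
      have h6 := H75.SylowNumber.relIndex_mul_card_inf (center G) (centralizer ({y} : Set G))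
      rw [h4, zero_mul] at h6
      exact Nat.card_pos.ne h6
  exact hy (mem_of_not_dvd h.prime _ h5 (mem_cent.2 (Commute.refl y)) hyp)

theorem not_central_mul {a b : G} (ha : a ∉ center G) (hab : Commute a b)
    (hc : (orderOf a).Coprime (orderOf b)) : a * b ∉ center G := by
  intro h
  apply ha
  rw [mem_center_iff]
  intro g
  exact (commute_left hab hc (mem_center_iff.1 h g : Commute g (a * b))).eq

theorem relIndex_ne_zero [Finite G] (H K : Subgroup G) : H.relIndex K ≠ 0 := by
  intro h
  have h1 := H75.SylowNumber.relIndex_mul_card_inf H K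
  rw [h, zero_mul] at h1
  exact Nat.card_pos.ne h1

theorem not_dvd_relIndex [Finite G] {p : ℕ} (hp : p.Prime) {H K : Subgroup G}
    (h : (Nat.card (H ⊓ K : Subgroup G)).factorization p = (Nat.card K).factorization p) :
    ¬ p ∣ H.relIndex K := by
  have h1 := H75.SylowNumber.relIndex_mul_card_inf H K
  rw [← h1, Nat.factorization_mul (relIndex_ne_zero H K) Nat.card_pos.ne', Finsupp.add_apply] at h
  have h4 : (H.relIndex K).factorization p = 0 := by omega
  rw [Nat.factorization_eq_zero_iff] at h4
  rcases h4 with h4 | h4 | h4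
  · exact absurd hp h4
  · exact h4
  · exact absurd h4 (relIndex_ne_zero H K)

theorem cent_mul {a b : G} (hab : Commute a b) (hc : (orderOf a).Coprime (orderOf b)) :
    centralizer ({a} : Set G) ⊓ centralizer ({b} : Set G) = centralizer ({a * b} : Set G) := by
  ext g
  rw [mem_inf, mem_cent, mem_cent, mem_cent]
  constructor
  · rintro ⟨h1, h2⟩; exact h1.mul_right h2
  · intro h; exact ⟨commute_left hab hc h, commute_right hab hc h⟩

/-- centralizers of noncentral `p`-elements split -/
theorem Hp.spl [Finite G] {p c : ℕ} (h : Hp G p c) {u : G} (hu : u ∉ center G) (hpu : Pel p u) :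
    Spl p (centralizer ({u} : Set G)) := by
  haveI := Fact.mk h.prime
  refine spl_of _ fun x hx hrx => not_dvd_relIndex h.prime ?_
  have hux : Commute u x := (mem_cent.1 hx).symm
  rw [inf_comm, cent_mul hux (coprime_of hpu hrx), h.val u hu,
    h.val _ (not_central_mul hu hux (coprime_of hpu hrx))]

/-- `O_p(C(u))` -/
noncomputable def Hp.S [Finite G] {p c : ℕ} (h : Hp G p c) {u : G} (hu : u ∉ center G) (hpu : Pel p u) : Subgroup G :=
  Sp (h.spl hu hpu)

theorem Hp.card_S [Finite G] {p c : ℕ} (h : Hp G p c) {u : G} (hu : u ∉ center G) (hpu : Pel p u) :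
    Nat.card (h.S hu hpu) = p ^ c := by
  unfold Hp.S
  rw [card_Sp h.prime, h.val u hu]

theorem Hp.mem_S [Finite G] {p c : ℕ} (h : Hp G p c) {u : G} (hu : u ∉ center G) (hpu : Pel p u) {a : G} :
    a ∈ h.S hu hpu ↔ Commute a u ∧ Pel p a := by
  unfold Hp.S
  rw [mem_Sp, mem_cent]

/-- `p`-elements and `p'`-elements of `C(u)` commute -/
theorem Hp.comm [Finite G] {p c : ℕ} (h : Hp G p c) {u : G} (hu : u ∉ center G) (hpu : Pel p u) {a b : G}
    (ha : Commute a u) (hb : Commute b u) (hpa : Pel p a) (hrb : Reg p b) : Commute a b :=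
  (h.spl hu hpu).1 a (mem_cent.2 ha) b (mem_cent.2 hb) hpa hrb

/-- (F4) -/
theorem Hp.S_le [Finite G] {p c : ℕ} (h : Hp G p c) {u : G} (hu : u ∉ center G) (hpu : Pel p u) {w : G}
    (hw : Commute u w) (hrw : Reg p w) : h.S hu hpu ≤ centralizer ({w} : Set G) := by
  intro a ha
  rw [h.mem_S] at ha
  exact mem_cent.2 (h.comm hu hpu ha.1 hw.symm ha.2 hrw)

theorem Hp.isPGroup_S [Finite G] {p c : ℕ} (h : Hp G p c) {u : G} (hu : u ∉ center G) (hpu : Pel p u) :
    IsPGroup p (h.S hu hpu) := isPGroup_Sp h.prime _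

/-- a `p`-subgroup of the centralizer of a noncentral element has order at most `p ^ c` -/
theorem Hp.card_le [Finite G] {p c : ℕ} (h : Hp G p c) {x : G} (hx : x ∉ center G) {Q : Subgroup G}
    (hQ : IsPGroup p Q) (hQx : Q ≤ centralizer ({x} : Set G)) : Nat.card Q ≤ p ^ c := by
  haveI := Fact.mk h.prime
  obtain ⟨n, hn⟩ := IsPGroup.iff_card.1 hQ
  have h1 : Nat.card Q ∣ Nat.card (centralizer ({x} : Set G)) := Subgroup.card_dvd_of_le hQx
  rw [hn] at h1 ⊢
  have h2 := (h.prime.pow_dvd_iff_le_factorization Nat.card_pos.ne').1 h1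
  rw [h.val x hx] at h2
  exact Nat.pow_le_pow_right h.prime.pos h2

/-- a special element: `[u, P] ≤ Z` forces `S u ≤ P` -/
theorem Hp.S_le_sylow [Finite G] {p c : ℕ} [Fact p.Prime] (h : Hp G p c) {u : G} (hu : u ∉ center G) (hpu : Pel p u)
    (P : Sylow p G) (hsp : ∀ g ∈ (P : Subgroup G), g * u * g⁻¹ * u⁻¹ ∈ center G) :
    h.S hu hpu ≤ (P : Subgroup G) := by
  have hn : (P : Subgroup G) ≤ normalizer ((h.S hu hpu : Subgroup G) : Set G) := by
    intro g hg
    refine H75.Basic.mem_normalizer_of_conj_mem _ g fun a ha => ?_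
    rw [h.mem_S] at ha ⊢
    refine ⟨?_, ha.2.conj g⟩
    have h1 : Commute (g * a * g⁻¹) (g * u * g⁻¹) := by
      show g * a * g⁻¹ * (g * u * g⁻¹) = g * u * g⁻¹ * (g * a * g⁻¹)
      calc g * a * g⁻¹ * (g * u * g⁻¹) = g * (a * u) * g⁻¹ := by group
        _ = g * (u * a) * g⁻¹ := by rw [ha.1.eq]
        _ = _ := by group
    have h2 : g * u * g⁻¹ = (g * u * g⁻¹ * u⁻¹) * u := by group
    have h3 := mem_center_iff.1 (hsp g hg) (g * a * g⁻¹)
    have h4 : Commute (g * a * g⁻¹) (g * u * g⁻¹ * u⁻¹) := h3
    have h5 : u = (g * u * g⁻¹ * u⁻¹)⁻¹ * (g * u * g⁻¹) := by group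
    rw [h5]
    exact h4.inv_right.mul_right h1
  have h1 : IsPGroup p ((P : Subgroup G) ⊔ h.S hu hpu : Subgroup G) := by
    rw [sup_comm]
    exact IsPGroup.to_sup_of_normal_left' (h.isPGroup_S hu hpu) P.isPGroup' hn
  have h2 := P.is_maximal' h1 le_sup_left
  rw [← h2]
  exact le_sup_right

end H75.CS
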