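import Cfsg.Agent.Lib.H75.CS3
import Cfsg.Agent.Lib.H27.Gen

set_option autoImplicit false
set_option linter.all false

namespace H75.CS

open Subgroup H75.ClassGraph

variable {G : Type*} [Group G]

/-- the class size data -/
structure Dat (G : Type*) [Group G] (m n : ℕ) : Prop where
  hm : 1 < m
  hn : 1 < n
  cop : m.Coprime n
  sz : ∀ x : G, cs x = 1 ∨ cs x = m ∨ cs x = m * n
  e1 : ∃ x : G, cs x = m
  e2 : ∃ x : G, cs x = m * n

theorem cs_eq_one_iff {x : G} : cs x = 1 ↔ x ∈ center G := by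
  unfold cs
  rw [Subgroup.index_eq_one, Subgroup.centralizer_eq_top_iff_subset, Set.singleton_subset_iff]
  rfl

theorem card_mul_cs [Finite G] (x : G) : Nat.card (centralizer ({x} : Set G)) * cs x = Nat.card G :=
  Subgroup.card_mul_index _

theorem cs_ne_zero [Finite G] (x : G) : cs x ≠ 0 := Subgroup.index_ne_zero_of_finite

theorem Dat.sz' {m n : ℕ} (d : Dat G m n) {x : G} (hx : x ∉ center G) : cs x = m ∨ cs x = m * n := by
  rcases d.sz x with h | h
  · exact absurd (cs_eq_one_iff.1 h) hx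
  · exact h

theorem Dat.dvd {m n : ℕ} (d : Dat G m n) {x : G} (hx : x ∉ center G) : m ∣ cs x := by
  rcases d.sz' hx with h | h
  · rw [h]
  · rw [h]; exact dvd_mul_right _ _

theorem Dat.hp [Finite G] {m n : ℕ} (d : Dat G m n) {p : ℕ} (hp : p.Prime) (hpm : p ∣ m) :
    Hp G p ((Nat.card G).factorization p - m.factorization p) := by
  have hm0 : m ≠ 0 := by have := d.hm; omega
  have hn0 : n ≠ 0 := by have := d.hn; omega
  have hpn : ¬ p ∣ n := fun h => hp.one_lt.ne' (Nat.dvd_one.1 (d.cop ▸ Nat.dvd_gcd hpm h))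
  have hv : ∀ x : G, x ∉ center G → (Nat.card (centralizer ({x} : Set G))).factorization p +
      m.factorization p = (Nat.card G).factorization p := by
    intro x hx
    have h1 := card_mul_cs x
    have h2 : (cs x).factorization p = m.factorization p := by
      rcases d.sz' hx with h | h
      · rw [h]
      · rw [h, Nat.factorization_mul hm0 hn0, Finsupp.add_apply, Nat.factorization_eq_zero_of_not_dvd hpn, add_zero]
    rw [← h1, Nat.factorization_mul Nat.card_pos.ne' (cs_ne_zero x), Finsupp.add_apply, h2]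
  obtain ⟨x, hx⟩ := d.e1
  have hxZ : x ∉ center G := fun h => by
    rw [cs_eq_one_iff.2 h] at hx
    have := d.hm; omega
  have h1 : 0 < m.factorization p := hp.factorization_pos_of_dvd hm0 hpm
  refine ⟨hp, fun y hy => ?_, ?_, ⟨x, hxZ⟩⟩
  · have := hv y hy; omega
  · have := hv x hxZ; omega

section
variable [Finite G] {p c : ℕ} [Fact p.Prime] (h : Hp G p c) (H : Subgroup G) (hHn : H.Normal)
  (hH : ∀ b, b ∈ H ↔ Reg p b) (P : Sylow p G) {w : G} (hw : w ∉ center G) (hpw : Pel p w)
  (hwH : ∀ b ∈ H, Commute b w) (hsp : ∀ g ∈ (P : Subgroup G), g * w * g⁻¹ * w⁻¹ ∈ center G)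

include h hw hpw hwH hsp in
theorem c1 {b : G} (hb : Reg p b) (hbH : b ∈ H) (hbZ : b ∉ center G) {g : G} (hg : g ∈ (P : Subgroup G))
    (hgb : Commute g b) : Commute g w := by
  have h1 : h.S hw hpw ≤ (P : Subgroup G) ⊓ centralizer ({b} : Set G) :=
    le_inf (h.S_le_sylow hw hpw P hsp) (h.S_le hw hpw (hwH b hbH).symm hb)
  have h2 : Nat.card ((P : Subgroup G) ⊓ centralizer ({b} : Set G) : Subgroup G) ≤ p ^ c :=
    h.card_le hbZ (P.isPGroup'.to_le inf_le_left) inf_le_right
  have h3 : h.S hw hpw = (P : Subgroup G) ⊓ centralizer ({b} : Set G) :=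
    Subgroup.eq_of_le_of_card_ge h1 (by rw [h.card_S]; exact h2)
  have h4 : g ∈ h.S hw hpw := by
    rw [h3]; exact mem_inf.2 ⟨hg, mem_cent.2 hgb⟩
  exact ((h.mem_S hw hpw).1 h4).1

end

theorem cop_of {p : ℕ} (hp : p.Prime) {k : ℕ} (h : ¬ p ∣ k) : k.Coprime p :=
  ((Nat.Prime.coprime_iff_not_dvd hp).2 h).symm

section
variable [Finite G] {p c m n : ℕ} [Fact p.Prime] (d : Dat G m n) (hpm : p ∣ m) (h : Hp G p c) (H : Subgroup G) (hHn : H.Normal)
  (hH : ∀ b, b ∈ H ↔ Reg p b)

include d hpm in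
theorem Dat.not_dvd_n : ¬ p ∣ n := fun h' =>
  (Fact.out : p.Prime).one_lt.ne' (Nat.dvd_one.1 (d.cop ▸ Nat.dvd_gcd hpm h'))

include d hpm in
theorem Dat.not_pow {k : ℕ} : ¬ m * n ∣ p ^ k := by
  intro hd
  have h1 : n ∣ p ^ k := (dvd_mul_left n m).trans hd
  obtain ⟨j, -, hj⟩ := (Nat.dvd_prime_pow (Fact.out : p.Prime)).1 h1
  have h2 := d.hn
  have h3 : j ≠ 0 := by rintro rfl; rw [hj] at h2; simp at h2
  exact d.not_dvd_n hpm (hj ▸ dvd_pow_self p h3)

include hHn hH in
/-- `H ≤ C(x)` when the class size of `x` is a power of `p` -/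
theorem le_cent_of_pow {x : G} {k : ℕ} (hx : cs x ∣ p ^ k) : H ≤ centralizer ({x} : Set G) := by
  have hp : p.Prime := Fact.out
  haveI := hHn
  have hpH : ¬ p ∣ Nat.card H := not_dvd_card_of_reg hp fun x => reg_coe.1 ((hH _).1 x.2)
  rw [← Subgroup.relIndex_eq_one]
  by_contra hne
  obtain ⟨r, hr, hrd⟩ := Nat.exists_prime_and_dvd hne
  haveI := Fact.mk hr
  have h1 : r ∣ Nat.card H := hrd.trans (Subgroup.relIndex_dvd_card _ _)
  have hrp : r ≠ p := fun e => hpH (e ▸ h1)
  refine H75.PCentral.not_dvd_relIndex_of_normal (p := r) (centralizer ({x} : Set G)) H ?_ hrd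
  intro h2
  exact hrp ((Nat.prime_dvd_prime_iff_eq hr hp).1 (hr.dvd_of_dvd_pow (h2.trans hx)))

include d hpm in
theorem cs_eq_of_dvd {x : G} (hx : x ∉ center G) {k : ℕ} (hd : cs x ∣ p ^ k) : cs x = m := by
  rcases d.sz' hx with h1 | h1
  · exact h1
  · rw [h1] at hd; exact absurd hd (d.not_pow hpm)

variable (hcard : Nat.card G = p ^ (Nat.card G).factorization p * Nat.card H)

include hcard in
theorem index_H : H.index = p ^ (Nat.card G).factorization p := by
  have h1 := Subgroup.card_mul_index H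
  rw [hcard, mul_comm] at h1
  conv_rhs at h1 => rw [← hcard]
  have h2 : H.index * Nat.card H = p ^ (Nat.card G).factorization p * Nat.card H := by
    rw [← hcard, mul_comm, Subgroup.card_mul_index]
  exact Nat.eq_of_mul_eq_mul_right Nat.card_pos h2

include d hpm hcard hH in
/-- `H` is not central -/
theorem exists_noncentral : ∃ b ∈ H, b ∉ center G := by
  by_contra hcon
  push Not at hcon
  obtain ⟨y, hy⟩ := d.e2
  have h1 : H ≤ centralizer ({y} : Set G) := fun b hb => center_le_cent y (hcon b hb)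
  have h2 : cs y ∣ p ^ (Nat.card G).factorization p := by
    rw [← index_H H hcard]
    exact Subgroup.index_dvd_of_le h1
  rw [hy] at h2
  exact d.not_pow hpm h2

end

end H75.CS
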