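import Cfsg.Agent.Lib.H75.CS4

set_option autoImplicit false
set_option linter.all false

namespace H75.CS

open Subgroup H75.ClassGraph

variable {G : Type*} [Group G]

section
variable [Finite G] {p c m n : ℕ} [Fact p.Prime] (d : Dat G m n) (hpm : p ∣ m) (h : Hp G p c) (H : Subgroup G) (hHn : H.Normal)
  (hH : ∀ b, b ∈ H ↔ Reg p b) (hcard : Nat.card G = p ^ (Nat.card G).factorization p * Nat.card H)
  (P : Sylow p G) {w : G} (hw : w ∉ center G) (hpw : Pel p w)
  (hwH : ∀ b ∈ H, Commute b w) (hsp : ∀ g ∈ (P : Subgroup G), g * w * g⁻¹ * w⁻¹ ∈ center G)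
  (hwc : Nat.card (centralizer ({w} : Set G)) = p ^ c * Nat.card H)

include h hcard hwc in
theorem cs_w : cs w = p ^ ((Nat.card G).factorization p - c) := by
  have hp : p.Prime := Fact.out
  have h1 := card_mul_cs w
  rw [hwc, hcard] at h1
  have h2 : p ^ (Nat.card G).factorization p = p ^ c * p ^ ((Nat.card G).factorization p - c) := by
    rw [← pow_add, Nat.add_sub_cancel' h.lt.le]
  rw [h2] at h1
  have h3 : (p ^ c * Nat.card H) * cs w = (p ^ c * Nat.card H) * p ^ ((Nat.card G).factorization p - c) := by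
    rw [h1]; ring
  exact Nat.eq_of_mul_eq_mul_left (Nat.mul_pos (pow_pos hp.pos _) Nat.card_pos) h3

include d hpm h hcard hw hwc in
theorem m_eq : m = p ^ ((Nat.card G).factorization p - c) := by
  rw [← cs_w h H hcard hwc]
  refine (cs_eq_of_dvd (p := p) d hpm hw (k := (Nat.card G).factorization p) ?_).symm
  rw [cs_w h H hcard hwc]
  exact pow_dvd_pow _ (Nat.sub_le _ _)

include h hw in
theorem exists_not_comm : ∃ g ∈ (P : Subgroup G), ¬ Commute g w := by
  by_contra hcon
  push Not at hcon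
  have h1 : (P : Subgroup G) ≤ centralizer ({w} : Set G) := fun g hg => mem_cent.2 (hcon g hg)
  have h2 := h.card_le hw P.isPGroup' h1
  rw [P.card_eq_multiplicity] at h2
  have := (Nat.pow_le_pow_iff_right (Fact.out : p.Prime).one_lt).1 h2
  have := h.lt
  omega

include d hpm h hH hcard hw hpw hwH hsp hwc in
/-- the class size of `g` in `P` outside `C(w)` is `m n` and `|H| = n |H ∩ Z|` -/
theorem card_H {g : G} (hg : g ∈ (P : Subgroup G)) (hgw : ¬ Commute g w) :
    cs g = m * n ∧ Nat.card H = n * Nat.card (center G ⊓ H : Subgroup G) := by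
  have hp : p.Prime := Fact.out
  have hgZ : g ∉ center G := fun hZ => hgw ((mem_center_iff.1 hZ w).symm)
  have hpg : Pel p g := Pel.of_mem P.isPGroup' hg
  have hY : Yp (h.spl hgZ hpg) = center G ⊓ H := by
    ext b
    rw [mem_Yp, mem_inf, hH, mem_cent]
    constructor
    · rintro ⟨h1, h2⟩
      refine ⟨?_, h2⟩
      by_contra hbZ
      exact hgw (c1 h H P hw hpw hwH hsp h2 ((hH b).2 h2) hbZ hg h1.symm)
    · rintro ⟨h1, h2⟩
      exact ⟨(mem_center_iff.1 h1 g).symm, h2⟩
  have hcg : Nat.card (centralizer ({g} : Set G)) = p ^ c * Nat.card (center G ⊓ H : Subgroup G) := by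
    rw [card_eq hp (h.spl hgZ hpg), hY]
    congr 1
    exact h.card_S hgZ hpg
  have hk := H75.SylowNumber.relIndex_mul_card_inf (center G) H
  set k := (center G).relIndex H with hkdef
  have hm := m_eq d hpm h H hcard hw hwc
  have h1 := card_mul_cs g
  rw [hcg] at h1
  have h2 : p ^ (Nat.card G).factorization p = p ^ c * m := by
    rw [hm, ← pow_add, Nat.add_sub_cancel' h.lt.le]
  have h3 : (p ^ c * Nat.card (center G ⊓ H : Subgroup G)) * cs g =
      (p ^ c * Nat.card (center G ⊓ H : Subgroup G)) * (m * k) := by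
    rw [h1, hcard, h2, ← hk]; ring
  have h4 : cs g = m * k := Nat.eq_of_mul_eq_mul_left (Nat.mul_pos (pow_pos hp.pos _) Nat.card_pos) h3
  have hm0 : 0 < m := by have := d.hm; omega
  have hkn : k = n := by
    rcases d.sz' hgZ with h5 | h5
    · exfalso
      rw [h4] at h5
      have hk1 : k = 1 := Nat.eq_of_mul_eq_mul_left hm0 (by rw [h5, mul_one])
      rw [hkdef, Subgroup.relIndex_eq_one] at hk1
      obtain ⟨b, hb, hbZ⟩ := exists_noncentral d hpm H hH hcard
      exact hbZ (hk1 hb)
    · rw [h4] at h5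
      exact Nat.eq_of_mul_eq_mul_left hm0 h5
  refine ⟨by rw [h4, hkn], ?_⟩
  rw [← hk, hkn]

include d hpm h hHn hH hcard hw hpw hwH hsp hwc in
/-- noncentral elements of `H` have class size `m` -/
theorem cs_H {b : G} (hb : b ∈ H) (hbZ : b ∉ center G) : cs b = m := by
  have hp : p.Prime := Fact.out
  obtain ⟨g, hg, hgw⟩ := exists_not_comm h P hw
  obtain ⟨-, hn⟩ := card_H d hpm h H hH hcard P hw hpw hwH hsp hwc hg hgw
  rcases d.sz' hbZ with h1 | h1
  · exact h1
  exfalso
  have hrb := (hH b).1 hb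
  have h2 := card_mul_cs b
  rw [h1] at h2
  have hm := m_eq d hpm h H hcard hw hwc
  have h3 : p ^ (Nat.card G).factorization p = p ^ c * m := by
    rw [hm, ← pow_add, Nat.add_sub_cancel' h.lt.le]
  have h4 : Nat.card (centralizer ({b} : Set G)) * (m * n) =
      (p ^ c * Nat.card (center G ⊓ H : Subgroup G)) * (m * n) := by
    rw [h2, hcard, h3, hn]; ring
  have hmn : 0 < m * n := by have := d.hm; have := d.hn; positivity
  have h5 := Nat.eq_of_mul_eq_mul_right hmn h4
  -- `S × (C(b) ∩ H)` divides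
  set B : Subgroup G := centralizer ({b} : Set G) ⊓ H with hB
  have h6 : Nat.card (h.S hw hpw) ∣ Nat.card (centralizer ({b} : Set G)) :=
    Subgroup.card_dvd_of_le (h.S_le hw hpw (hwH b hb).symm hrb)
  have h7 : Nat.card B ∣ Nat.card (centralizer ({b} : Set G)) := Subgroup.card_dvd_of_le inf_le_left
  have hpH : ¬ p ∣ Nat.card H := not_dvd_card_of_reg hp fun x => reg_coe.1 ((hH _).1 x.2)
  have h8 : (Nat.card (h.S hw hpw)).Coprime (Nat.card B) := by
    rw [h.card_S]
    exact Nat.Coprime.pow_left _ ((Nat.Prime.coprime_iff_not_dvd hp).2 fun hd =>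
      hpH (hd.trans (Subgroup.card_dvd_of_le inf_le_right)))
  have h9 := Nat.Coprime.mul_dvd_of_dvd_of_dvd h8 h6 h7
  rw [h.card_S, h5] at h9
  have h10 := Nat.dvd_of_mul_dvd_mul_left (pow_pos hp.pos _) h9
  have h11 : center G ⊓ H ≤ B := inf_le_inf_right _ (center_le_cent b)
  have h12 : center G ⊓ H = B := Subgroup.eq_of_le_of_card_ge h11 (Nat.le_of_dvd Nat.card_pos h10)
  have h13 : b ∈ B := ⟨mem_cent.2 (Commute.refl b), hb⟩
  rw [← h12] at h13
  exact hbZ h13.1

include d hpm h hHn hH hcard hw hpw hwH hsp hwc in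
theorem comm_H {b b' : G} (hb : b ∈ H) (hb' : b' ∈ H) : Commute b b' := by
  by_cases hbZ : b ∈ center G
  · exact (mem_center_iff.1 hbZ b').symm
  have h1 := cs_H d hpm h H hHn hH hcard P hw hpw hwH hsp hwc hb hbZ
  have h2 := le_cent_of_pow H hHn hH (x := b) (k := (Nat.card G).factorization p - c)
    (by rw [h1, m_eq d hpm h H hcard hw hwc])
  exact (mem_cent.1 (h2 hb')).symm

end

end H75.CS
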