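import Cfsg.Agent.Lib.H75.CS5

set_option autoImplicit false
set_option linter.all false

namespace H75.CS

open Subgroup H75.ClassGraph

variable {G : Type*} [Group G]

/-- elements of the stabilizer of `w` modulo the center -/
theorem conj_pow_eq {x w z : G} (hz : z ∈ center G) (hx : x * w * x⁻¹ = z * w) (k : ℕ) :
    x ^ k * w * (x ^ k)⁻¹ = z ^ k * w := by
  induction k with
  | zero => simp
  | succ k ih =>
    have e : x ^ (k + 1) * w * (x ^ (k + 1))⁻¹ = x * (x ^ k * w * (x ^ k)⁻¹) * x⁻¹ := by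
      rw [pow_succ' x k]; group
    rw [e, ih]
    have hzk : z ^ k ∈ center G := pow_mem hz k
    calc x * (z ^ k * w) * x⁻¹ = (x * z ^ k) * w * x⁻¹ := by group
      _ = (z ^ k * x) * w * x⁻¹ := by rw [mem_center_iff.1 hzk x]
      _ = z ^ k * (x * w * x⁻¹) := by group
      _ = z ^ k * (z * w) := by rw [hx]
      _ = z ^ (k + 1) * w := by rw [pow_succ]; group

theorem pow_comm {p : ℕ} {x w : G} (hwp : w ^ p ∈ center G) (hx : x * w * x⁻¹ * w⁻¹ ∈ center G) :
    Commute (x ^ p) w := by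
  set z := x * w * x⁻¹ * w⁻¹ with hz
  have h1 : x * w * x⁻¹ = z * w := by rw [hz]; group
  have h2 : z ^ p = 1 := by
    have h3 : (x * w * x⁻¹) ^ p = x * w ^ p * x⁻¹ := by
      rw [← MulAut.conj_apply, ← map_pow, MulAut.conj_apply]
    have hc : Commute z w := (mem_center_iff.1 hx w).symm
    rw [h1, hc.mul_pow, mem_center_iff.1 hwp x] at h3
    have h4 : z ^ p * w ^ p = 1 * w ^ p := by rw [h3]; group
    exact mul_right_cancel h4
  have h3 := conj_pow_eq hx h1 p
  rw [h2, one_mul] at h3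
  show x ^ p * w = w * x ^ p
  calc x ^ p * w = (x ^ p * w * (x ^ p)⁻¹) * x ^ p := by group
    _ = w * x ^ p := by rw [h3]

theorem comm_comm {x y w : G} (hx : x * w * x⁻¹ * w⁻¹ ∈ center G) (hy : y * w * y⁻¹ * w⁻¹ ∈ center G) :
    Commute ((y * x)⁻¹ * (x * y)) w := by
  set z := x * w * x⁻¹ * w⁻¹ with hz
  set t := y * w * y⁻¹ * w⁻¹ with ht
  have h1 : x * w * x⁻¹ = z * w := by rw [hz]; group
  have h2 : y * w * y⁻¹ = t * w := by rw [ht]; group
  have h3 : (x * y) * w * (x * y)⁻¹ = t * z * w := by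
    calc (x * y) * w * (x * y)⁻¹ = x * (y * w * y⁻¹) * x⁻¹ := by group
      _ = (x * t) * w * x⁻¹ := by rw [h2]; group
      _ = (t * x) * w * x⁻¹ := by rw [mem_center_iff.1 hy x]
      _ = t * (x * w * x⁻¹) := by group
      _ = t * z * w := by rw [h1]; group
  have h4 : (y * x) * w * (y * x)⁻¹ = t * z * w := by
    calc (y * x) * w * (y * x)⁻¹ = y * (x * w * x⁻¹) * y⁻¹ := by group
      _ = (y * z) * w * y⁻¹ := by rw [h1]; group
      _ = (z * y) * w * y⁻¹ := by rw [mem_center_iff.1 hx y]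
      _ = z * (y * w * y⁻¹) := by group
      _ = z * t * w := by rw [h2]; group
      _ = t * z * w := by rw [mem_center_iff.1 hx t]
  have h5 : (x * y) * w * (x * y)⁻¹ = (y * x) * w * (y * x)⁻¹ := by rw [h3, h4]
  show (y * x)⁻¹ * (x * y) * w = w * ((y * x)⁻¹ * (x * y))
  calc (y * x)⁻¹ * (x * y) * w = (y * x)⁻¹ * ((x * y) * w * (x * y)⁻¹) * (x * y) := by group
    _ = (y * x)⁻¹ * ((y * x) * w * (y * x)⁻¹) * (x * y) := by rw [h5]
    _ = _ := by group

section
variable [Finite G] {p c m n : ℕ} [Fact p.Prime] (d : Dat G m n) (hpm : p ∣ m) (h : Hp G p c) (H : Subgroup G) (hHn : H.Normal)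
  (hH : ∀ b, b ∈ H ↔ Reg p b) (hcard : Nat.card G = p ^ (Nat.card G).factorization p * Nat.card H)
  (P : Sylow p G) {w : G} (hw : w ∉ center G) (hpw : Pel p w)
  (hwH : ∀ b ∈ H, Commute b w) (hsp : ∀ g ∈ (P : Subgroup G), g * w * g⁻¹ * w⁻¹ ∈ center G)
  (hwc : Nat.card (centralizer ({w} : Set G)) = p ^ c * Nat.card H) (hwp : w ^ p ∈ center G)

include d hpm h hHn hH hcard hw hpw hwH hsp hwc hwp in
theorem no_plane {x y : G} (hx : x ∈ (P : Subgroup G)) (hy : y ∈ (P : Subgroup G)) (hxw : ¬ Commute x w)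
    (hyw : ∀ i : ℕ, ¬ Commute (x ^ i * y) w) : False := by
  have hp : p.Prime := Fact.out
  haveI := hHn
  have hcomm := fun (b b' : G) (hb : b ∈ H) (hb' : b' ∈ H) =>
    comm_H d hpm h H hHn hH hcard P hw hpw hwH hsp hwc hb hb'
  have hpH : ¬ p ∣ Nat.card H := not_dvd_card_of_reg hp fun x => reg_coe.1 ((hH _).1 x.2)
  haveI : Group.IsNilpotent H := by
    letI : CommGroup H :=
      { (inferInstance : Group H) with mul_comm := fun a b => Subtype.ext (hcomm a b a.2 b.2) }
    exact CommGroup.isNilpotent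
  let X : MulAut H := MulAut.conjNormal x
  let Y : MulAut H := MulAut.conjNormal y
  have hS : ∀ s ∈ (P : Subgroup G), Commute s w → ∀ b ∈ H, Commute s b := fun s hs hsw b hb =>
    h.comm hw hpw hsw (hwH b hb) (Pel.of_mem P.isPGroup' hs) ((hH b).1 hb)
  have hker : ∀ s ∈ (P : Subgroup G), Commute s w → (MulAut.conjNormal s : MulAut H) = 1 := by
    intro s hs hsw
    apply MulEquiv.ext
    intro b
    apply Subtype.ext
    rw [MulAut.conjNormal_apply, MulAut.one_apply, (hS s hs hsw b b.2).eq]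
    group
  have hXp : X ^ p = 1 := by
    show (MulAut.conjNormal x : MulAut H) ^ p = 1
    rw [← map_pow]
    exact hker _ (pow_mem hx p) (pow_comm hwp (hsp x hx))
  have hYp : Y ^ p = 1 := by
    show (MulAut.conjNormal y : MulAut H) ^ p = 1
    rw [← map_pow]
    exact hker _ (pow_mem hy p) (pow_comm hwp (hsp y hy))
  have hXY : Commute X Y := by
    show (MulAut.conjNormal x : MulAut H) * MulAut.conjNormal y = MulAut.conjNormal y * MulAut.conjNormal x
    rw [← map_mul, ← map_mul]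
    have h1 := hker ((y * x)⁻¹ * (x * y)) (mul_mem (inv_mem (mul_mem hy hx)) (mul_mem hx hy))
      (comm_comm (hsp x hx) (hsp y hy))
    rw [map_mul, map_inv, inv_mul_eq_one] at h1
    exact h1.symm
  have key := H27.Gen.gen_nilpotent p hpH X Y hXY hXp hYp ((center G).subgroupOf H) (fun v hv => by
      rw [mem_subgroupOf]
      by_contra hvZ
      refine hxw (c1 h H P hw hpw hwH hsp ((hH _).1 v.2) v.2 hvZ hx ?_)
      have h1 : x * v * x⁻¹ = v := congrArg Subtype.val hv
      show x * v = v * x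
      calc x * v = (x * v * x⁻¹) * x := by group
        _ = _ := by rw [h1]) (fun i v hv => by
      rw [mem_subgroupOf]
      by_contra hvZ
      refine hyw i (c1 h H P hw hpw hwH hsp ((hH _).1 v.2) v.2 hvZ (mul_mem (pow_mem hx i) hy) ?_)
      have h0 : (MulAut.conjNormal (x ^ i * y) : MulAut H) v = v := by
        rw [map_mul, map_pow]; exact hv
      have h1 : (x ^ i * y) * v * (x ^ i * y)⁻¹ = v := by
        rw [← MulAut.conjNormal_apply, h0]
      show (x ^ i * y) * v = v * (x ^ i * y)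
      calc (x ^ i * y) * v = ((x ^ i * y) * v * (x ^ i * y)⁻¹) * (x ^ i * y) := by group
        _ = _ := by rw [h1])
  obtain ⟨b, hb, hbZ⟩ := exists_noncentral d hpm H hH hcard
  rw [Subgroup.subgroupOf_eq_top] at key
  exact hbZ (key hb)

include d hpm h hHn hH hcard hw hpw hwH hsp hwc hwp in
theorem m_eq_p : m = p ∧ (Nat.card G).factorization p = c + 1 := by
  have hp : p.Prime := Fact.out
  obtain ⟨x, hx, hxw⟩ := exists_not_comm h P hw
  have h1 : ∀ y ∈ (P : Subgroup G), ∃ i : ℕ, Commute (x ^ i * y) w := by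
    intro y hy
    by_contra hcon
    push Not at hcon
    exact no_plane d hpm h H hHn hH hcard P hw hpw hwH hsp hwc hwp hx hy hxw hcon
  have hle := h.S_le_sylow hw hpw P hsp
  have h2 : Nat.card P ≤ p * p ^ c := by
    rw [← h.card_S hw hpw]
    have e : p * Nat.card (h.S hw hpw) = Nat.card (Fin p × (h.S hw hpw)) := by simp
    rw [e]
    refine Nat.card_le_card_of_surjective
      (fun a : Fin p × (h.S hw hpw) => (⟨(x ^ (a.1 : ℕ))⁻¹ * a.2,
        mul_mem (inv_mem (pow_mem hx _)) (hle a.2.2)⟩ : P)) ?_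
    rintro ⟨y, hy⟩
    obtain ⟨i, hi⟩ := h1 y hy
    have hxp : Commute (x ^ p) w := pow_comm hwp (hsp x hx)
    have hm : (x ^ p) ^ (i / p) ∈ h.S hw hpw := by
      rw [h.mem_S]
      exact ⟨hxp.pow_left _, Pel.of_mem P.isPGroup' (pow_mem (pow_mem hx _) _)⟩
    have hm2 : x ^ i * y ∈ h.S hw hpw := by
      rw [h.mem_S]
      exact ⟨hi, Pel.of_mem P.isPGroup' (mul_mem (pow_mem hx _) hy)⟩
    refine ⟨⟨⟨i % p, Nat.mod_lt _ hp.pos⟩, ⟨((x ^ p) ^ (i / p))⁻¹ * (x ^ i * y), mul_mem (inv_mem hm) hm2⟩⟩, ?_⟩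
    apply Subtype.ext
    show (x ^ (i % p))⁻¹ * (((x ^ p) ^ (i / p))⁻¹ * (x ^ i * y)) = y
    have h3 : x ^ i = (x ^ p) ^ (i / p) * x ^ (i % p) := by
      rw [← pow_mul, ← pow_add, Nat.div_add_mod]
    have h4 : Commute ((x ^ p) ^ (i / p)) (x ^ (i % p)) := by
      rw [← pow_mul]; exact Commute.pow_pow (Commute.refl x) _ _
    rw [h3, h4.eq]
    group
  rw [P.card_eq_multiplicity, ← pow_succ'] at h2
  have h3 := (Nat.pow_le_pow_iff_right hp.one_lt).1 h2
  have h4 := h.lt
  have h5 : (Nat.card G).factorization p = c + 1 := by omega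
  refine ⟨?_, h5⟩
  rw [m_eq d hpm h H hcard hw hwc, h5, Nat.add_sub_cancel_left, pow_one]

end

end H75.CS
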