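import Cfsg.Agent.Lib.H75.CS6
import Cfsg.Agent.S3777

set_option autoImplicit false
set_option linter.all false

namespace H75.CS

open Subgroup H75.ClassGraph

variable {G : Type*} [Group G]

section
variable [Finite G] {p c m n : ℕ} [Fact p.Prime] (d : Dat G m n) (hpm : p ∣ m) (h : Hp G p c) (H : Subgroup G) (hHn : H.Normal)
  (hH : ∀ b, b ∈ H ↔ Reg p b) (hcard : Nat.card G = p ^ (Nat.card G).factorization p * Nat.card H)
  (P : Sylow p G) {w : G} (hw : w ∉ center G) (hpw : Pel p w)
  (hwH : ∀ b ∈ H, Commute b w) (hsp : ∀ g ∈ (P : Subgroup G), g * w * g⁻¹ * w⁻¹ ∈ center G)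
  (hwc : Nat.card (centralizer ({w} : Set G)) = p ^ c * Nat.card H) (hwp : w ^ p ∈ center G)

include d hpm h hHn hH hcard hw hpw hwH hsp hwc in
theorem cent_le {s b : G} (hs : Pel p s) (hsw : Commute s w) (hb : b ∈ H) (hbZ : b ∉ center G) :
    centralizer ({b} : Set G) ≤ centralizer ({s} : Set G) := by
  have hp : p.Prime := Fact.out
  have hsH : ∀ b' ∈ H, Commute s b' := fun b' hb' => h.comm hw hpw hsw (hwH b' hb') hs ((hH b').1 hb')
  have hcop := coprime_of hs ((hH b).1 hb)
  have hnc : s * b ∉ center G := by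
    rw [(hsH b hb).eq]
    exact not_central_mul hbZ (hsH b hb).symm hcop.symm
  have h1 : H ≤ centralizer ({s * b} : Set G) := by
    intro b' hb'
    exact mem_cent.2 ((hsH b' hb').symm.mul_right
      (comm_H d hpm h H hHn hH hcard P hw hpw hwH hsp hwc hb' hb))
  have h2 : cs (s * b) ∣ p ^ (Nat.card G).factorization p := by
    rw [← index_H H hcard]
    exact Subgroup.index_dvd_of_le h1
  have h3 := cs_eq_of_dvd d hpm hnc h2
  have h4 := cs_H d hpm h H hHn hH hcard P hw hpw hwH hsp hwc hb hbZ
  have h5 : centralizer ({s * b} : Set G) ≤ centralizer ({b} : Set G) := by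
    rw [← cent_mul (hsH b hb) hcop]; exact inf_le_right
  have h6 : centralizer ({s * b} : Set G) = centralizer ({b} : Set G) := by
    refine Subgroup.eq_of_le_of_card_ge h5 (le_of_eq ?_)
    have e1 := card_mul_cs (s * b)
    have e2 := card_mul_cs b
    rw [h3] at e1
    rw [h4, ← e1] at e2
    exact Nat.eq_of_mul_eq_mul_right (by have := d.hm; omega) e2
  rw [← h6, ← cent_mul (hsH b hb) hcop]
  exact inf_le_left

include d hpm h hHn hH hcard hw hpw hwH hsp hwc in
theorem cent_eq {b : G} (hb : b ∈ H) (hbZ : b ∉ center G) :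
    centralizer ({b} : Set G) = centralizer ({w} : Set G) := by
  have h1 := cent_le d hpm h H hHn hH hcard P hw hpw hwH hsp hwc hpw (Commute.refl w) hb hbZ
  have h4 := cs_H d hpm h H hHn hH hcard P hw hpw hwH hsp hwc hb hbZ
  have h5 : cs w = m := by rw [cs_w h H hcard hwc, m_eq d hpm h H hcard hw hwc]
  refine Subgroup.eq_of_le_of_card_ge h1 (le_of_eq ?_)
  have e1 := card_mul_cs w
  have e2 := card_mul_cs b
  rw [h5] at e1
  rw [h4, ← e1] at e2
  exact (Nat.eq_of_mul_eq_mul_right (by have := d.hm; omega) e2).symm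

include d hpm h hHn hH hcard hw hpw hwH hsp hwc in
theorem M_comm {x y : G} (hx : Commute x w) (hy : Commute y w) : Commute x y := by
  have hp : p.Prime := Fact.out
  obtain ⟨b0, hb0, hb0Z⟩ := exists_noncentral d hpm H hH hcard
  obtain ⟨a, b, ha, hb, hab, hcab, hpa, hrb⟩ := decomp hp x
  have hzx : zpowers x ≤ centralizer ({w} : Set G) := by rw [zpowers_le]; exact mem_cent.2 hx
  have haw := mem_cent.1 (hzx ha)
  have hyb0 : y ∈ centralizer ({b0} : Set G) := by
    rw [cent_eq d hpm h H hHn hH hcard P hw hpw hwH hsp hwc hb0 hb0Z]; exact mem_cent.2 hy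
  have h1 : Commute y a :=
    mem_cent.1 (cent_le d hpm h H hHn hH hcard P hw hpw hwH hsp hwc hpa haw hb0 hb0Z hyb0)
  have h2 : Commute y b := by
    by_cases hbZ : b ∈ center G
    · exact mem_center_iff.1 hbZ y
    · have h3 := cent_eq d hpm h H hHn hH hcard P hw hpw hwH hsp hwc ((hH b).2 hrb) hbZ
      have h4 : y ∈ centralizer ({b} : Set G) := by rw [h3]; exact mem_cent.2 hy
      exact mem_cent.1 h4
  rw [← hab]
  exact (h1.mul_right h2).symm

include d hpm h hHn hH hcard hw hpw hwH hsp hwc in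
theorem M_normal : (centralizer ({w} : Set G)).Normal := by
  obtain ⟨b0, hb0, hb0Z⟩ := exists_noncentral d hpm H hH hcard
  rw [← cent_eq d hpm h H hHn hH hcard P hw hpw hwH hsp hwc hb0 hb0Z]
  refine ⟨fun x hx g => ?_⟩
  have h1 : g * b0 * g⁻¹ ∈ H := hHn.conj_mem _ hb0 g
  have h2 : g * b0 * g⁻¹ ∉ center G := by
    intro hZ
    apply hb0Z
    have := (inferInstance : (center G).Normal).conj_mem _ hZ g⁻¹
    convert this using 1; group
  rw [cent_eq d hpm h H hHn hH hcard P hw hpw hwH hsp hwc hb0 hb0Z,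
    ← cent_eq d hpm h H hHn hH hcard P hw hpw hwH hsp hwc h1 h2, mem_cent]
  have h3 := (mem_cent.1 hx).eq
  show g * x * g⁻¹ * (g * b0 * g⁻¹) = g * b0 * g⁻¹ * (g * x * g⁻¹)
  calc g * x * g⁻¹ * (g * b0 * g⁻¹) = g * (x * b0) * g⁻¹ := by group
    _ = g * (b0 * x) * g⁻¹ := by rw [h3]
    _ = _ := by group

include d hpm h hHn hH hcard hw hpw hwH hsp hwc in
theorem M_set : ((centralizer ({w} : Set G) : Subgroup G) : Set G) =
    {x : G | (centralizer ({x} : Set G)).index = 1 ∨ (centralizer ({x} : Set G)).index = m} := by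
  obtain ⟨b0, hb0, hb0Z⟩ := exists_noncentral d hpm H hH hcard
  have h5 : cs w = m := by rw [cs_w h H hcard hwc, m_eq d hpm h H hcard hw hwc]
  ext x
  constructor
  · intro hx
    have hx' : Commute x w := mem_cent.1 hx
    have h1 : centralizer ({w} : Set G) ≤ centralizer ({x} : Set G) := fun y hy =>
      mem_cent.2 (M_comm d hpm h H hHn hH hcard P hw hpw hwH hsp hwc (mem_cent.1 hy) hx')
    by_cases hxZ : x ∈ center G
    · exact Or.inl (cs_eq_one_iff.2 hxZ)
    · right
      refine cs_eq_of_dvd (p := p) d hpm hxZ (k := (Nat.card G).factorization p - c) ?_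
      rw [← cs_w h H hcard hwc]
      exact Subgroup.index_dvd_of_le h1
  · intro hx
    have h1 : cs x ∣ p ^ ((Nat.card G).factorization p - c) := by
      rw [← m_eq d hpm h H hcard hw hwc]
      rcases hx with hx | hx
      · rw [show cs x = 1 from hx]; exact one_dvd _
      · rw [show cs x = m from hx]
    have h2 := le_cent_of_pow H hHn hH h1 hb0
    show x ∈ centralizer ({w} : Set G)
    rw [← cent_eq d hpm h H hHn hH hcard P hw hpw hwH hsp hwc hb0 hb0Z]
    exact mem_cent.2 (mem_cent.1 h2).symm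

include d hpm h hHn hH hcard hw hpw hwH hsp hwc in
/-- `p ∣ n - 1` -/
theorem dvd_n_sub : p ∣ n - 1 := by
  classical
  have hp : p.Prime := Fact.out
  haveI := hHn
  obtain ⟨g, hg, hgw⟩ := exists_not_comm h P hw
  obtain ⟨-, hn⟩ := card_H d hpm h H hH hcard P hw hpw hwH hsp hwc hg hgw
  have hpH : ¬ p ∣ Nat.card H := not_dvd_card_of_reg hp fun x => reg_coe.1 ((hH _).1 x.2)
  letI : MulAction (zpowers g) H := MulAction.compHom H ((MulAut.conjNormal : G →* MulAut H).comp (zpowers g).subtype)
  have hsm : ∀ (t : zpowers g) (b : H), ((t • b : H) : G) = t * b * (t : G)⁻¹ := fun t b => rfl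
  have hpg : IsPGroup p (zpowers g) := (Pel.of_mem P.isPGroup' hg).isPGroup
  have h1 := hpg.card_modEq_card_fixedPoints H
  have h2 : Nat.card (MulAction.fixedPoints (zpowers g) H) = Nat.card (center G ⊓ H : Subgroup G) := by
    refine Nat.card_congr ⟨fun b => ⟨(b.1 : G), ?_⟩, fun b => ⟨⟨b.1, b.2.2⟩, ?_⟩, fun b => rfl, fun b => rfl⟩
    · refine ⟨?_, b.1.2⟩
      by_contra hbZ
      refine hgw (c1 h H P hw hpw hwH hsp ((hH _).1 b.1.2) b.1.2 hbZ hg ?_)
      have h3 := congrArg Subtype.val (b.2 ⟨g, mem_zpowers g⟩)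
      rw [hsm] at h3
      show g * (b.1 : G) = b.1 * g
      calc g * (b.1 : G) = (g * b.1 * g⁻¹) * g := by group
        _ = _ := by rw [h3]
    · intro t
      apply Subtype.ext
      rw [hsm]
      have := mem_center_iff.1 b.2.1 (t : G)
      show (t : G) * b.1 * (t : G)⁻¹ = b.1
      rw [this]; group
  rw [h2, hn] at h1
  have h3 : ¬ p ∣ Nat.card (center G ⊓ H : Subgroup G) := fun hd =>
    hpH (hd.trans (Subgroup.card_dvd_of_le inf_le_right))
  have h4 : n * Nat.card (center G ⊓ H : Subgroup G) ≡ 1 * Nat.card (center G ⊓ H : Subgroup G) [MOD p] := by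
    rw [one_mul]; exact h1
  have h5 : n ≡ 1 [MOD p] :=
    Nat.ModEq.cancel_right_of_coprime ((Nat.Prime.coprime_iff_not_dvd hp).2 h3) h4
  have hn1 := d.hn
  exact (Nat.modEq_iff_dvd' (by omega)).1 h5.symm

include d hpm h hHn hH hcard hw hpw hwH hsp hwc hwp in
theorem card_commutator : Nat.card (commutator (P : Subgroup G)) = p := by
  have hp : p.Prime := Fact.out
  obtain ⟨hmp, hv⟩ := m_eq_p d hpm h H hHn hH hcard P hw hpw hwH hsp hwc hwp
  have hMn := M_normal d hpm h H hHn hH hcard P hw hpw hwH hsp hwc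
  have hle := h.S_le_sylow hw hpw P hsp
  have hPc : Nat.card P = p * p ^ c := by rw [P.card_eq_multiplicity, hv, pow_succ']
  have hSn : (h.S hw hpw).Normal := by
    refine ⟨fun a ha g => ?_⟩
    rw [h.mem_S] at ha ⊢
    exact ⟨mem_cent.1 (hMn.conj_mem a (mem_cent.2 ha.1) g), ha.2.conj g⟩
  have hup : Nat.card (commutator (P : Subgroup G)) ≤ p := by
    have h1 := Cfsg.Agent.S3777.result (G := (P : Subgroup G)) P.isPGroup' 1 (fun x => by
      rw [index_cent_sub, pow_one]
      by_cases hxw : Commute (x : G) w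
      · have h2 : centralizer ({w} : Set G) ≤ centralizer ({(x : G)} : Set G) := fun y hy =>
          mem_cent.2 (M_comm d hpm h H hHn hH hcard P hw hpw hwH hsp hwc (mem_cent.1 hy) hxw)
        have h3 : (centralizer ({(x : G)} : Set G)).relIndex P ∣ (centralizer ({w} : Set G)).relIndex P :=
          Subgroup.relIndex_dvd_of_le_left _ h2
        have h4 : (centralizer ({w} : Set G)).relIndex P ∣ (centralizer ({w} : Set G)).index :=
          Subgroup.relIndex_dvd_index_of_normal _ _
        have h5 : (centralizer ({w} : Set G)).index = p := by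
          have : cs w = m := by rw [cs_w h H hcard hwc, m_eq d hpm h H hcard hw hwc]
          rw [← hmp]; exact this
        rw [h5] at h4
        exact Nat.le_of_dvd hp.pos (h3.trans h4)
      · have hxZ : (x : G) ∉ center G := fun hZ => hxw ((mem_center_iff.1 hZ w).symm)
        have hpx : Pel p (x : G) := Pel.of_mem P.isPGroup' x.2
        have h2 : IsPGroup p (h.S hw hpw ⊔ h.S hxZ hpx : Subgroup G) :=
          IsPGroup.to_sup_of_normal_left (h.isPGroup_S hw hpw) (h.isPGroup_S hxZ hpx)
        have h3 : (P : Subgroup G) ≤ h.S hw hpw ⊔ h.S hxZ hpx := by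
          have h4 : h.S hw hpw ⊔ zpowers (x : G) = (P : Subgroup G) := by
            have h5 : h.S hw hpw ⊔ zpowers (x : G) ≤ (P : Subgroup G) := sup_le hle (by rw [zpowers_le]; exact x.2)
            have h6 : h.S hw hpw < h.S hw hpw ⊔ zpowers (x : G) := by
              refine lt_of_le_of_ne le_sup_left fun he => hxw ?_
              have : (x : G) ∈ h.S hw hpw := by rw [he]; exact (le_sup_right : zpowers (x : G) ≤ _) (mem_zpowers _)
              exact ((h.mem_S hw hpw).1 this).1
            have h7 : Nat.card (h.S hw hpw ⊔ zpowers (x : G) : Subgroup G) ∣ Nat.card P := Subgroup.card_dvd_of_le h5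
            have h8 : Nat.card (h.S hw hpw) ∣ Nat.card (h.S hw hpw ⊔ zpowers (x : G) : Subgroup G) :=
              Subgroup.card_dvd_of_le le_sup_left
            rw [h.card_S] at h8
            rw [hPc] at h7
            obtain ⟨k, hk⟩ := h8
            rw [hk, mul_comm p] at h7
            have h9 : k ∣ p := Nat.dvd_of_mul_dvd_mul_left (pow_pos hp.pos _) h7
            rcases (Nat.dvd_prime hp).1 h9 with h10 | h10
            · exfalso
              rw [h10, mul_one] at hk
              exact h6.ne (Subgroup.eq_of_le_of_card_ge le_sup_left (by rw [hk, h.card_S]))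
            · refine Subgroup.eq_of_le_of_card_ge h5 ?_
              rw [hPc, hk, h10, mul_comm]
          refine h4.ge.trans (sup_le_sup_left ?_ _)
          rw [zpowers_le, h.mem_S]
          exact ⟨Commute.refl _, hpx⟩
        have h4 := P.is_maximal' h2 h3
        have h5 : h.S hxZ hpx ≤ (P : Subgroup G) := le_sup_right.trans h4.le
        have h6 : h.S hxZ hpx ≤ centralizer ({(x : G)} : Set G) ⊓ P :=
          le_inf (fun a ha => mem_cent.2 ((h.mem_S hxZ hpx).1 ha).1) h5
        have h7 := Subgroup.card_le_of_le h6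
        rw [h.card_S] at h7
        have h8 := H75.SylowNumber.relIndex_mul_card_inf (centralizer ({(x : G)} : Set G)) (P : Subgroup G)
        rw [hPc] at h8
        have h9 : (centralizer ({(x : G)} : Set G)).relIndex P * p ^ c ≤ p * p ^ c := by
          rw [← h8]; exact Nat.mul_le_mul_left _ h7
        exact Nat.le_of_mul_le_mul_right h9 (pow_pos hp.pos _))
    simpa using h1
  -- lower bound
  obtain ⟨g, hg, hgw⟩ := exists_not_comm h P hw
  have hwP : w ∈ (P : Subgroup G) := hle ((h.mem_S hw hpw).2 ⟨Commute.refl w, hpw⟩)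
  have hne : Nat.card (commutator (P : Subgroup G)) ≠ 1 := by
    intro h1
    rw [Subgroup.card_eq_one, commutator_eq_bot_iff_center_eq_top] at h1
    have h2 : (⟨w, hwP⟩ : (P : Subgroup G)) ∈ center (P : Subgroup G) := by rw [h1]; trivial
    have h3 := congrArg Subtype.val (mem_center_iff.1 h2 ⟨g, hg⟩)
    exact hgw h3
  have h2 : IsPGroup p (commutator (P : Subgroup G)) := P.isPGroup'.to_subgroup _
  obtain ⟨k, hk⟩ := IsPGroup.iff_card.1 h2
  have hk0 : k ≠ 0 := by rintro rfl; rw [pow_zero] at hk; exact hne hk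
  have h3 : p ≤ p ^ k := Nat.le_self_pow hk0 p
  rw [hk] at hup ⊢
  exact le_antisymm hup h3

end

end H75.CS
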