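import Cfsg.Agent.Lib.H75.CS7

set_option autoImplicit false
set_option linter.all false

namespace H75.CS

open Subgroup H75.ClassGraph

variable {G : Type*} [Group G]

def Concl (G : Type*) [Group G] (m n : ℕ) : Prop :=
  m.Prime ∧ m ∣ n - 1 ∧ (∃ M : Subgroup G, M.Normal ∧ (M : Set G) = {x : G | (Subgroup.centralizer ({x} : Set G)).index = 1 ∨ (Subgroup.centralizer ({x} : Set G)).index = m} ∧ M.index = m ∧ IsMulCommutative M) ∧ (∃ N : Subgroup G, N.Normal ∧ (Nat.card N).Coprime m ∧ ∃ a : ℕ, N.index = m ^ a) ∧ ∀ P : Sylow m G, Nat.card (commutator (P : Subgroup G)) = m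

theorem case1 [Finite G] {m n : ℕ} (d : Dat G m n) {p : ℕ} (hp : p.Prime) (hpm : p ∣ m) (V : Subgroup G) [hVn : V.Normal]
    (hV : IsPGroup p V) (hVZ : ¬ V ≤ center G) : Concl G m n := by
  haveI := Fact.mk hp
  have h := d.hp hp hpm
  set c := (Nat.card G).factorization p - m.factorization p with hc
  obtain ⟨H, hHn, hH, hpH, hcard, hwc⟩ := h.exists_compl V hV hVZ
  have hspec : ∀ P : Sylow p G, ∃ w ∈ V, w ∉ center G ∧ w ^ p ∈ center G ∧ ∀ g ∈ (P : Subgroup G),
      g * w * g⁻¹ * w⁻¹ ∈ center G := fun P =>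
    exists_special (P : Subgroup G) V P.isPGroup' hV (by rw [normalizer_eq_top_iff.2 hVn]; exact le_top) hVZ
  have hcom : ∀ P : Sylow p G, Nat.card (commutator (P : Subgroup G)) = p := by
    intro P
    obtain ⟨w, hwV, hw, hwp, hsp⟩ := hspec P
    exact card_commutator d hpm h H hHn hH hcard P hw (Pel.of_mem hV hwV)
      (fun b hb => h.centralizes V hV ((hH b).1 hb) w hwV) hsp (hwc w hwV hw) hwp
  obtain ⟨P⟩ : Nonempty (Sylow p G) := inferInstance
  obtain ⟨w, hwV, hw, hwp, hsp⟩ := hspec P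
  have hpw : Pel p w := Pel.of_mem hV hwV
  have hwH : ∀ b ∈ H, Commute b w := fun b hb => h.centralizes V hV ((hH b).1 hb) w hwV
  have hwc' := hwc w hwV hw
  obtain ⟨hmp, hv⟩ := m_eq_p d hpm h H hHn hH hcard P hw hpw hwH hsp hwc' hwp
  have h1 := dvd_n_sub d hpm h H hHn hH hcard P hw hpw hwH hsp hwc'
  have h2 := M_normal d hpm h H hHn hH hcard P hw hpw hwH hsp hwc'
  have h3 := M_set d hpm h H hHn hH hcard P hw hpw hwH hsp hwc'
  have h4 : (centralizer ({w} : Set G)).index = m := by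
    have : cs w = m := by rw [cs_w h H hcard hwc', m_eq d hpm h H hcard hw hwc']
    exact this
  have h5 : IsMulCommutative (centralizer ({w} : Set G)) :=
    ⟨⟨fun a b => Subtype.ext (M_comm d hpm h H hHn hH hcard P hw hpw hwH hsp hwc' (mem_cent.1 a.2) (mem_cent.1 b.2))⟩⟩
  have h6 := index_H H hcard
  subst hmp
  exact ⟨hp, h1, ⟨_, h2, h3, h4, h5⟩, ⟨H, hHn, cop_of hp hpH, _, h6⟩, hcom⟩

end H75.CS
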