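import Cfsg.Agent.Lib.H75.CS4
import Cfsg.Agent.S4037
import Cfsg.Agent.Lib.H26.GenFitting
import Cfsg.Agent.Lib.H1.Cores

set_option autoImplicit false
set_option linter.all false

namespace H75.CS

open Subgroup H75.ClassGraph Cfsg

variable {G : Type*} [Group G]

/-- abelian normal subgroup `Z(F(G))` -/
def ZF (G : Type*) [Group G] : Subgroup G := fittingSubgroup G ⊓ centralizer (fittingSubgroup G : Set G)

theorem fitting_normal [Finite G] : (fittingSubgroup G).Normal := by
  haveI := H1.Cores.fittingSubgroup_characteristic (G := G)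
  infer_instance

theorem ZF_normal [Finite G] : (ZF G).Normal := by
  haveI := fitting_normal (G := G)
  unfold ZF
  infer_instance

theorem ZF_comm {x y : G} (hx : x ∈ ZF G) (hy : y ∈ ZF G) : Commute x y :=
  (mem_centralizer_iff.1 hy.2 x hx.1)

theorem center_le_ZF [Finite G] : center G ≤ ZF G := by
  refine le_inf (H1.Cores.le_fittingSubgroup inferInstance ?_) (Subgroup.center_le_centralizer _)
  letI : CommGroup (center G) :=
    { (inferInstance : Group (center G)) with mul_comm := fun a b => Subtype.ext (mem_center_iff.1 b.2 a) }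
  exact CommGroup.isNilpotent

theorem Reg.mul {p : ℕ} {x y : G} (hx : Reg p x) (hy : Reg p y) (hc : Commute x y) : Reg p (x * y) := by
  unfold Reg at *
  exact Nat.Coprime.coprime_dvd_left (hc.orderOf_mul_dvd_mul_orderOf) (Nat.Coprime.mul_left hx hy)

section
variable [Finite G] {p c a m n : ℕ} [Fact p.Prime] (d : Dat G m n) (hm : m = p ^ a) (hpm : p ∣ m) (h : Hp G p c)
  (hO : ∀ V : Subgroup G, V.Normal → IsPGroup p V → V ≤ center G)

include hO in
theorem mem_ZF {x : G} {k : ℕ} (hx : cs x = p ^ k) : x ∈ ZF G := by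
  have hp : p.Prime := Fact.out
  have h1 : ∀ r : Nat.Primes, pCore (r : ℕ) G ≤ centralizer ({x} : Set G) := by
    intro r
    haveI := Fact.mk r.2
    by_cases hrp : (r : ℕ) = p
    · have h2 : pCore (r : ℕ) G ≤ center G :=
        hO _ (by unfold pCore; exact (inferInstance : (pCore (r : ℕ) G).Normal)) (by rw [← hrp]; exact H1.Cores.isPGroup_pCore _)
      exact h2.trans (center_le_cent x)
    · have h2 : ¬ (r : ℕ) ∣ (centralizer ({x} : Set G)).index := by
        rw [show (centralizer ({x} : Set G)).index = p ^ k from hx]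
        intro h3
        exact hrp ((Nat.prime_dvd_prime_iff_eq r.2 hp).1 (r.2.dvd_of_dvd_pow h3))
      obtain ⟨R, -, hR⟩ := H75.PCentral.exists_sylow_between (p := (r : ℕ)) _ ⊥ h2 IsPGroup.of_bot bot_le
      exact (H1.Cores.pCore_le_sylow R).trans hR
  have h2 : fittingSubgroup G ≤ centralizer ({x} : Set G) := by
    rw [H1.Cores.fittingSubgroup_eq_iSup_pCore]
    exact iSup_le h1
  have h3 : x ∈ centralizer (fittingSubgroup G : Set G) := by
    rw [mem_centralizer_iff]
    intro y hy
    exact (mem_cent.1 (h2 hy)).eq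
  haveI := fitting_normal (G := G)
  have h4 : normalClosure ({x} : Set G) ≤ centralizer (fittingSubgroup G : Set G) :=
    Subgroup.normalClosure_le_normal (by rw [Set.singleton_subset_iff]; exact h3)
  have h5 : Group.IsSolvable (normalClosure ({x} : Set G)) := by
    refine Cfsg.Agent.S4037.result x hp k ?_
    have : cs x = (ConjClasses.mk x).carrier.ncard := (H70.Basic.ncard_class x).symm
    rw [← this]; exact hx
  have h6 := H26.GenFitting.le_fitting_of_isSolvable h4
    (by rw [normalizer_eq_top_iff.2 (inferInstance : (normalClosure ({x} : Set G)).Normal)]; exact le_top) h5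
  exact ⟨h6 (subset_normalClosure (Set.mem_singleton x)), h3⟩

/-- abelian normal group: its `p`-elements -/
def WP (p : ℕ) (hp : p.Prime) : Subgroup G where
  carrier := {x | x ∈ ZF G ∧ Pel p x}
  mul_mem' := fun hx hy => ⟨mul_mem hx.1 hy.1, hx.2.mul hp hy.2 (ZF_comm hx.1 hy.1)⟩
  one_mem' := ⟨one_mem _, Pel.one p⟩
  inv_mem' := fun hx => ⟨inv_mem hx.1, hx.2.inv⟩

/-- abelian normal group: its `p'`-elements -/
def W (G : Type*) [Group G] (p : ℕ) : Subgroup G where
  carrier := {x | x ∈ ZF G ∧ Reg p x}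
  mul_mem' := fun hx hy => ⟨mul_mem hx.1 hy.1, hx.2.mul hy.2 (ZF_comm hx.1 hy.1)⟩
  one_mem' := ⟨one_mem _, Reg.one p⟩
  inv_mem' := fun hx => ⟨inv_mem hx.1, hx.2.inv⟩

theorem W_conj {x : G} (hx : x ∈ W G p) (g : G) : g * x * g⁻¹ ∈ W G p :=
  ⟨(ZF_normal (G := G)).conj_mem _ hx.1 g, hx.2.conj g⟩

include d hm hpm hO in
/-- (2b) -/
theorem cs_pel {t : G} (ht : t ∉ center G) (hpt : Pel p t) : cs t = m * n := by
  have hp : p.Prime := Fact.out
  rcases d.sz' ht with h1 | h1
  · exfalso
    rw [hm] at h1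
    have h2 := mem_ZF hO h1
    have h3 : (WP (G := G) p hp).Normal :=
      ⟨fun x hx g => ⟨(ZF_normal (G := G)).conj_mem _ hx.1 g, hx.2.conj g⟩⟩
    have h4 : IsPGroup p (WP (G := G) p hp) := by
      rw [IsPGroup.iff_orderOf]
      rintro ⟨x, hx⟩
      obtain ⟨k, hk⟩ := hx.2
      exact ⟨k, by rw [Subgroup.orderOf_mk]; exact hk⟩
    exact ht (hO _ h3 h4 ⟨h2, hpt⟩)
  · exact h1

include d in
theorem not_dvd_m : ¬ m * n ∣ m := by
  intro hd
  have h1 := d.hm
  have h2 := d.hn
  have := Nat.le_of_dvd (by omega) hd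
  nlinarith

theorem cent_eq_of_le {x y : G} (hle : centralizer ({x} : Set G) ≤ centralizer ({y} : Set G)) (hc : cs x = cs y) :
    centralizer ({x} : Set G) = centralizer ({y} : Set G) := by
  refine Subgroup.eq_of_le_of_card_ge hle (le_of_eq ?_)
  have e1 := card_mul_cs x
  have e2 := card_mul_cs y
  rw [hc, ← e2] at e1
  exact (Nat.eq_of_mul_eq_mul_right (Nat.pos_of_ne_zero (cs_ne_zero y)) e1).symm

include d hm hpm hO in
/-- (2c) -/
theorem cent_le_reg {t w : G} (ht : t ∉ center G) (hpt : Pel p t) (hw : Reg p w) (htw : Commute t w) :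
    centralizer ({t} : Set G) ≤ centralizer ({w} : Set G) := by
  have hcop := coprime_of hpt hw
  have h1 := cs_pel d hm hpm hO ht hpt
  have h2 : centralizer ({t * w} : Set G) ≤ centralizer ({t} : Set G) := by
    rw [← cent_mul htw hcop]; exact inf_le_left
  have h3 : cs t ∣ cs (t * w) := Subgroup.index_dvd_of_le h2
  have h4 : cs (t * w) = m * n := by
    rcases d.sz' (not_central_mul ht htw hcop) with h5 | h5
    · rw [h1, h5] at h3
      exact absurd h3 (not_dvd_m d)
    · exact h5
  rw [← cent_eq_of_le h2 (by rw [h4, h1]), ← cent_mul htw hcop]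
  exact inf_le_right

theorem cent_mul_central {x y : G} (hx : x ∈ center G) :
    centralizer ({x * y} : Set G) = centralizer ({y} : Set G) := by
  ext g
  rw [mem_cent, mem_cent]
  have hgx : Commute g x := mem_center_iff.1 hx g
  constructor
  · intro h
    have : y = x⁻¹ * (x * y) := by group
    rw [this]
    exact hgx.inv_right.mul_right h
  · intro h; exact hgx.mul_right h

include d hm hpm hO h in
/-- (2d) -/
theorem exists_t {y : G} (hy : cs y = m * n) : ∃ t : G, t ∉ center G ∧ Pel p t ∧
    centralizer ({y} : Set G) = centralizer ({t} : Set G) := by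
  have hp : p.Prime := Fact.out
  obtain ⟨u, b, hu, hb, hab, hcab, hpu, hrb⟩ := decomp hp y
  by_cases huZ : u ∈ center G
  · have h1 : centralizer ({y} : Set G) = centralizer ({b} : Set G) := by
      rw [← hab]; exact cent_mul_central huZ
    have hbZ : b ∉ center G := by
      intro hbZ
      have h2 : y ∈ center G := by rw [← hab]; exact mul_mem huZ hbZ
      rw [cs_eq_one_iff.2 h2] at hy
      have := d.hm
      have := d.hn
      nlinarith
    obtain ⟨t, ht, hpt, htb⟩ := h.exists_comm hbZ
    refine ⟨t, ht, hpt, ?_⟩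
    have h2 := cent_le_reg d hm hpm hO ht hpt hrb htb
    rw [← h1] at h2
    exact (cent_eq_of_le h2 (by rw [cs_pel d hm hpm hO ht hpt, hy])).symm
  · refine ⟨u, huZ, hpu, ?_⟩
    refine cent_eq_of_le ?_ (by rw [hy, cs_pel d hm hpm hO huZ hpu])
    intro g hg
    rw [mem_cent] at hg ⊢
    obtain ⟨k, hk⟩ := hu
    rw [← hk]
    exact hg.zpow_right k

end

end H75.CS
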