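import Mathlib

set_option autoImplicit false
set_option linter.all false

/-! Linear independence over `ℚ` of the values of a nontrivial character of `ZMod p`,
and identities for `2 × 2` matrices. -/

namespace H75.D2pFour

open Polynomial

variable {p : ℕ} [hp : Fact p.Prime]

theorem char_eq_pow (χ : AddChar (ZMod p) ℂ) (t : ZMod p) : χ t = χ 1 ^ t.val := by
  rw [← AddChar.map_nsmul_eq_pow, nsmul_one, ZMod.natCast_zmod_val]

theorem isPrimitiveRoot (χ : AddChar (ZMod p) ℂ) (hχ : χ 1 ≠ 1) : IsPrimitiveRoot (χ 1) p := by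
  have h1 : χ 1 ^ p = 1 := by
    rw [← AddChar.map_nsmul_eq_pow, nsmul_one, ZMod.natCast_self, AddChar.map_zero_eq_one]
  exact IsPrimitiveRoot.of_map_of_injective (f := MonoidHom.id ℂ) (by
    have := orderOf_eq_prime h1 hχ
    have h2 := IsPrimitiveRoot.orderOf (χ 1)
    rw [this] at h2
    exact h2) (fun _ _ h => h)

/-- the only rational relation is the sum of all values -/
theorem li (χ : AddChar (ZMod p) ℂ) (hχ : χ 1 ≠ 1) (c : ZMod p → ℚ)
    (h : ∑ t, (c t : ℂ) * χ t = 0) : ∀ t, c t = c 0 := by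
  haveI : NeZero p := ⟨hp.out.ne_zero⟩
  set f : ℚ[X] := ∑ t : ZMod p, C (c t) * X ^ t.val with hf
  have hζ := isPrimitiveRoot χ hχ
  have hroot : aeval (χ 1) f = 0 := by
    rw [hf, map_sum, ← h]
    refine Finset.sum_congr rfl fun t _ => ?_
    rw [map_mul, aeval_C, map_pow, aeval_X, char_eq_pow χ t]
    rfl
  have hdvd : cyclotomic p ℚ ∣ f := by
    rw [cyclotomic_eq_minpoly_rat hζ hp.out.pos]
    exact minpoly.dvd ℚ _ hroot
  obtain ⟨g, hg⟩ := hdvd
  have hdeg : f.natDegree ≤ p - 1 := by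
    rw [hf]
    refine natDegree_sum_le_of_forall_le _ _ fun t _ => ?_
    refine (natDegree_C_mul_X_pow_le _ _).trans ?_
    have := ZMod.val_lt t
    omega
  have hcoef : ∀ t : ZMod p, f.coeff t.val = c t := by
    intro t
    rw [hf, finset_sum_coeff, Finset.sum_eq_single t]
    · simp
    · intro s _ hst
      rw [coeff_C_mul, coeff_X_pow, if_neg, mul_zero]
      intro h1
      exact hst ((ZMod.val_injective p h1).symm)
    · simp
  have hg0 : ∃ k, g = C k := by
    by_cases hg0 : g = 0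
    · exact ⟨0, by rw [hg0, C_0]⟩
    refine ⟨g.coeff 0, eq_C_of_natDegree_le_zero ?_⟩
    have h1 : (cyclotomic p ℚ * g).natDegree = (p - 1) + g.natDegree := by
      rw [natDegree_mul (cyclotomic_ne_zero _ _) hg0, natDegree_cyclotomic, Nat.totient_prime hp.out]
    rw [← hg] at h1
    omega
  obtain ⟨k, hk⟩ := hg0
  have hall : ∀ t : ZMod p, c t = k := by
    intro t
    rw [← hcoef t, hg, hk, mul_comm, coeff_C_mul, cyclotomic_prime, finset_sum_coeff,
      Finset.sum_eq_single t.val]
    · simp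
    · intro s _ hst
      rw [coeff_X_pow, if_neg (Ne.symm hst)]
    · intro h1
      exact absurd (Finset.mem_range.2 (ZMod.val_lt t)) h1
  intro t
  rw [hall t, hall 0]

theorem li' (χ : AddChar (ZMod p) ℂ) (hχ : χ 1 ≠ 1) (c : ZMod p → ℚ) (q : ℚ)
    (h : ∑ t, (c t : ℂ) * χ t = (q : ℂ)) : ∃ K : ℚ, ∀ t, c t = K + if t = 0 then q else 0 := by
  have h1 : ∑ t : ZMod p, (((c t - if t = 0 then q else 0 : ℚ)) : ℂ) * χ t = 0 := by
    have h2 : ∀ t : ZMod p, (((c t - if t = 0 then q else 0 : ℚ)) : ℂ) * χ t =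
        (c t : ℂ) * χ t - if t = 0 then (q : ℂ) else 0 := by
      intro t
      split_ifs with h0
      · subst h0; push_cast; rw [AddChar.map_zero_eq_one]; ring
      · push_cast; ring
    rw [Finset.sum_congr rfl fun t _ => h2 t, Finset.sum_sub_distrib, h]
    simp
  have h3 := li χ hχ _ h1
  refine ⟨c 0 - q, fun t => ?_⟩
  have := h3 t
  simp only [if_true] at this
  linarith

theorem exists_char : ∃ χ : AddChar (ZMod p) ℂ, χ 1 ≠ 1 := by
  haveI : NeZero p := ⟨hp.out.ne_zero⟩
  refine ⟨ZMod.stdAddChar, ?_⟩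
  intro h
  have h1 : (1 : ZMod p) = 0 := ZMod.injective_stdAddChar (by rw [h, AddChar.map_zero_eq_one])
  exact one_ne_zero h1

/-- `F M F + det F • adj M = tr (F M) F` for `2 × 2` matrices -/
theorem two_identity (F M : Matrix (Fin 2) (Fin 2) ℂ) (hF : F.det = 0) :
    F * M * F = (F * M).trace • F := by
  rw [Matrix.det_fin_two] at hF
  ext i j
  fin_cases i <;> fin_cases j <;>
    simp [Matrix.mul_apply, Fin.sum_univ_two, Matrix.trace_fin_two]
  · linear_combination (-(M 1 1)) * hF
  · linear_combination (M 0 1) * hF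
  · linear_combination (M 1 0) * hF
  · linear_combination (-(M 0 0)) * hF

/-- a `2 × 2` matrix with `N ^ 2 = κ N` -/
theorem trace_cases (N : Matrix (Fin 2) (Fin 2) ℂ) (κ : ℂ) (h : N * N = κ • N) :
    (N.trace = 0) ∨ (N.trace = κ) ∨ (N.trace = 2 * κ) := by
  have h00 := congrFun (congrFun h 0) 0
  have h01 := congrFun (congrFun h 0) 1
  have h10 := congrFun (congrFun h 1) 0
  have h11 := congrFun (congrFun h 1) 1
  simp only [Matrix.mul_apply, Fin.sum_univ_two, Matrix.smul_apply, smul_eq_mul] at h00 h01 h10 h11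
  rw [Matrix.trace_fin_two]
  by_cases ht : N 0 0 + N 1 1 = κ
  · exact Or.inr (Or.inl ht)
  have hb : N 0 1 = 0 := by
    have : N 0 1 * (N 0 0 + N 1 1 - κ) = 0 := by linear_combination h01
    rcases mul_eq_zero.1 this with h1 | h1
    · exact h1
    · exact absurd (sub_eq_zero.1 h1) ht
  have hc : N 1 0 = 0 := by
    have : N 1 0 * (N 0 0 + N 1 1 - κ) = 0 := by linear_combination h10
    rcases mul_eq_zero.1 this with h1 | h1
    · exact h1
    · exact absurd (sub_eq_zero.1 h1) ht
  rw [hb] at h00 h11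
  rw [zero_mul, add_zero] at h00
  rw [mul_zero, zero_add] at h11
  have e1 : N 0 0 = 0 ∨ N 0 0 = κ := by
    have : N 0 0 * (N 0 0 - κ) = 0 := by linear_combination h00
    rcases mul_eq_zero.1 this with h1 | h1
    · exact Or.inl h1
    · exact Or.inr (sub_eq_zero.1 h1)
  have e2 : N 1 1 = 0 ∨ N 1 1 = κ := by
    have : N 1 1 * (N 1 1 - κ) = 0 := by linear_combination h11
    rcases mul_eq_zero.1 this with h1 | h1
    · exact Or.inl h1
    · exact Or.inr (sub_eq_zero.1 h1)
  rcases e1 with e1 | e1 <;> rcases e2 with e2 | e2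
  · left; rw [e1, e2, add_zero]
  · exact absurd (by rw [e1, e2, zero_add]) ht
  · exact absurd (by rw [e1, e2, add_zero]) ht
  · right; right; rw [e1, e2]; ring

end H75.D2pFour
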