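import Mathlib
import Cfsg.Agent.Lib.H75.D2pFour

set_option autoImplicit false
set_option linter.all false

/-! Invariant matrices of a transitive permutation group of degree `2p` containing a product of two
`p`-cycles. -/

namespace H75.D2p

open Matrix

variable {α : Type*} [Fintype α] [DecidableEq α] {p : ℕ} [hp : Fact p.Prime]

/-- a fixed point free element `x ∈ G` of order `p` with two cycles -/
structure Frame (G : Subgroup (Equiv.Perm α)) (p : ℕ) where
  x : Equiv.Perm α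
  hx : x ∈ G
  e : Fin 2 × ZMod p ≃ α
  he : ∀ j i, x (e (j, i)) = e (j, i + 1)
  tr : ∀ u v : α, ∃ g ∈ G, g u = v

variable {G : Subgroup (Equiv.Perm α)} (F : Frame G p)

def Inv (G : Subgroup (Equiv.Perm α)) (M : Matrix α α ℚ) : Prop :=
  ∀ g ∈ G, ∀ u v, M (g u) (g v) = M u v

theorem Inv.transpose {M : Matrix α α ℚ} (h : Inv G M) : Inv G Mᵀ := fun g hg u v => h g hg v u

theorem Inv.mul {M N : Matrix α α ℚ} (hM : Inv G M) (hN : Inv G N) : Inv G (M * N) := by
  intro g hg u v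
  rw [Matrix.mul_apply, Matrix.mul_apply, ← Equiv.sum_comp g]
  exact Finset.sum_congr rfl fun w _ => by rw [hM g hg, hN g hg]

theorem Inv.sub {M N : Matrix α α ℚ} (hM : Inv G M) (hN : Inv G N) : Inv G (M - N) := by
  intro g hg u v
  rw [Matrix.sub_apply, Matrix.sub_apply, hM g hg, hN g hg]

theorem Inv.smul {M : Matrix α α ℚ} (hM : Inv G M) (q : ℚ) : Inv G (q • M) := by
  intro g hg u v
  rw [Matrix.smul_apply, Matrix.smul_apply, hM g hg]

theorem Inv.one : Inv G (1 : Matrix α α ℚ) := by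
  intro g hg u v
  rw [Matrix.one_apply, Matrix.one_apply]
  simp only [EmbeddingLike.apply_eq_iff_eq]

/-- the row sum -/
def rs (F : Frame G p) (M : Matrix α α ℚ) : ℚ := ∑ v, M (F.e (0, 0)) v

theorem rowsum {M : Matrix α α ℚ} (hM : Inv G M) (u : α) : ∑ v, M u v = rs F M := by
  obtain ⟨g, hg, hgu⟩ := F.tr (F.e (0, 0)) u
  rw [rs, ← hgu, ← Equiv.sum_comp g]
  exact Finset.sum_congr rfl fun w _ => hM g hg _ _

theorem rs_transpose {M : Matrix α α ℚ} (hM : Inv G M) : rs F Mᵀ = rs F M := by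
  have h1 : ∑ u, ∑ v, M u v = Fintype.card α * rs F M := by
    rw [Finset.sum_congr rfl fun u _ => rowsum F hM u, Finset.sum_const, Finset.card_univ,
      nsmul_eq_mul]
  have h2 : ∑ u, ∑ v, M v u = Fintype.card α * rs F Mᵀ := by
    have h0 : ∀ u, ∑ v, M v u = rs F Mᵀ := fun u => by
      rw [← rowsum F hM.transpose u]; rfl
    rw [Finset.sum_congr rfl fun u _ => h0 u, Finset.sum_const, Finset.card_univ,
      nsmul_eq_mul]
  have h3 : ∑ u, ∑ v, M v u = ∑ u, ∑ v, M u v := Finset.sum_comm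
  rw [h3, h1] at h2
  have h4 : (Fintype.card α : ℚ) ≠ 0 := by
    have : Nonempty α := ⟨F.e (0, 0)⟩
    exact_mod_cast Fintype.card_ne_zero
  exact (mul_left_cancel₀ h4 h2).symm

theorem colsum {M : Matrix α α ℚ} (hM : Inv G M) (v : α) : ∑ u, M u v = rs F M := by
  rw [← rs_transpose F hM]
  exact rowsum F hM.transpose v

theorem rs_mul {M N : Matrix α α ℚ} (hM : Inv G M) (hN : Inv G N) :
    rs F (M * N) = rs F M * rs F N := by
  rw [rs]
  simp only [Matrix.mul_apply]
  rw [Finset.sum_comm, rs, Finset.sum_mul]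
  refine Finset.sum_congr rfl fun w _ => ?_
  rw [← Finset.mul_sum, rowsum F hN]

/-- sum over `α` in coordinates -/
theorem sum_frame {β : Type*} [AddCommMonoid β] (f : α → β) :
    ∑ v, f v = ∑ i, f (F.e (0, i)) + ∑ i, f (F.e (1, i)) := by
  rw [← Equiv.sum_comp F.e, Fintype.sum_prod_type, Fin.sum_univ_two]

theorem pow_apply (n : ℕ) (j : Fin 2) (i : ZMod p) : (F.x ^ n) (F.e (j, i)) = F.e (j, i + n) := by
  induction n with
  | zero => simp
  | succ n ih =>
    rw [pow_succ', Equiv.Perm.mul_apply, ih, F.he]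
    congr 2
    push_cast
    ring

theorem shift {M : Matrix α α ℚ} (hM : Inv G M) (j k : Fin 2) (s t r : ZMod p) :
    M (F.e (j, s + r)) (F.e (k, t + r)) = M (F.e (j, s)) (F.e (k, t)) := by
  haveI : NeZero p := ⟨hp.out.ne_zero⟩
  have h := hM (F.x ^ r.val) (G.pow_mem F.hx _) (F.e (j, s)) (F.e (k, t))
  rw [pow_apply, pow_apply, ZMod.natCast_zmod_val] at h
  exact h

/-- the signed indicator of the two cycles -/
def δ (F : Frame G p) (v : α) : ℚ := if (F.e.symm v).1 = 0 then 1 else -1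

theorem δ_zero (i : ZMod p) : δ F (F.e (0, i)) = 1 := by simp [δ]

theorem δ_one (i : ZMod p) : δ F (F.e (1, i)) = -1 := by simp [δ]

theorem δ_mul_self (v : α) : δ F v * δ F v = 1 := by
  rw [δ]; split_ifs <;> norm_num

theorem δ_or (v : α) : δ F v = 1 ∨ δ F v = -1 := by
  rw [δ]; split_ifs <;> simp

/-- the eigenvalue on `δ` -/
def ev (F : Frame G p) (M : Matrix α α ℚ) : ℚ :=
  ∑ i, M (F.e (0, 0)) (F.e (0, i)) - ∑ i, M (F.e (0, 0)) (F.e (1, i))

theorem ev_add_rs_zero {M : Matrix α α ℚ} :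
    rs F M + ev F M = 2 * ∑ i, M (F.e (0, 0)) (F.e (0, i)) := by
  rw [rs, sum_frame F, ev]; ring

theorem block_eq {M : Matrix α α ℚ} (hM : Inv G M) (j k : Fin 2) (s : ZMod p) :
    ∑ i, M (F.e (j, s)) (F.e (k, i)) = ∑ i, M (F.e (j, 0)) (F.e (k, i)) := by
  haveI : NeZero p := ⟨hp.out.ne_zero⟩
  rw [← Equiv.sum_comp (Equiv.addRight s) fun i => M (F.e (j, s)) (F.e (k, i))]
  refine Finset.sum_congr rfl fun i _ => ?_
  have := shift F hM j k 0 i s
  rw [zero_add] at this
  exact this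

theorem block_eq' {M : Matrix α α ℚ} (hM : Inv G M) (j k : Fin 2) (s : ZMod p) :
    ∑ i, M (F.e (j, i)) (F.e (k, s)) = ∑ i, M (F.e (j, 0)) (F.e (k, i)) := by
  haveI : NeZero p := ⟨hp.out.ne_zero⟩
  rw [← Equiv.sum_comp (Equiv.subLeft s) fun i => M (F.e (j, i)) (F.e (k, s))]
  refine Finset.sum_congr rfl fun i _ => ?_
  have := shift F hM j k 0 i (s - i)
  rw [zero_add, add_sub_cancel] at this
  exact this

/-- `α_{01} = α_{10}` and `α_{00} = α_{11}` -/
theorem blocks {M : Matrix α α ℚ} (hM : Inv G M) :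
    ∑ i, M (F.e (0, 0)) (F.e (1, i)) = ∑ i, M (F.e (1, 0)) (F.e (0, i)) ∧
    ∑ i, M (F.e (0, 0)) (F.e (0, i)) = ∑ i, M (F.e (1, 0)) (F.e (1, i)) := by
  have h0 := rowsum F hM (F.e (0, 0))
  have h1 := rowsum F hM (F.e (1, 0))
  have h2 := colsum F hM (F.e (0, 0))
  rw [sum_frame F] at h0 h1 h2
  rw [block_eq' F hM, block_eq' F hM] at h2
  constructor
  · linarith
  · linarith

theorem mulVec_δ {M : Matrix α α ℚ} (hM : Inv G M) (u : α) :
    ∑ v, M u v * δ F v = ev F M * δ F u := by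
  obtain ⟨⟨j, s⟩, rfl⟩ := F.e.surjective u
  rw [sum_frame F]
  simp only [δ_zero, δ_one, mul_one, mul_neg]
  rw [Finset.sum_neg_distrib, block_eq F hM j 0 s, block_eq F hM j 1 s]
  obtain ⟨h1, h2⟩ := blocks F hM
  fin_cases j
  · show _ = ev F M * δ F (F.e (0, s))
    rw [δ_zero, ev]
    show ∑ i, M (F.e (0, 0)) (F.e (0, i)) + -∑ i, M (F.e (0, 0)) (F.e (1, i)) = _
    ring
  · show _ = ev F M * δ F (F.e (1, s))
    rw [δ_one, ev]
    show ∑ i, M (F.e (1, 0)) (F.e (0, i)) + -∑ i, M (F.e (1, 0)) (F.e (1, i)) = _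
    rw [← h1, ← h2]; ring

theorem ev_transpose {M : Matrix α α ℚ} (hM : Inv G M) : ev F Mᵀ = ev F M := by
  haveI : NeZero p := ⟨hp.out.ne_zero⟩
  rw [ev, ev]
  have h1 : ∑ i, Mᵀ (F.e (0, 0)) (F.e (0, i)) = ∑ i, M (F.e (0, i)) (F.e (0, 0)) := rfl
  have h2 : ∑ i, Mᵀ (F.e (0, 0)) (F.e (1, i)) = ∑ i, M (F.e (1, i)) (F.e (0, 0)) := rfl
  rw [h1, h2, block_eq' F hM, block_eq' F hM, (blocks F hM).1]

theorem ev_mul {M N : Matrix α α ℚ} (hM : Inv G M) (hN : Inv G N) :
    ev F (M * N) = ev F M * ev F N := by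
  have h1 := mulVec_δ F (hM.mul hN) (F.e (0, 0))
  rw [δ_zero, mul_one] at h1
  rw [← h1]
  simp only [Matrix.mul_apply, Finset.sum_mul]
  rw [Finset.sum_comm]
  have h2 : ∀ w, ∑ v, M (F.e (0, 0)) w * N w v * δ F v = ev F N * (M (F.e (0, 0)) w * δ F w) := by
    intro w
    have h3 := mulVec_δ F hN w
    simp only [mul_assoc]
    rw [← Finset.mul_sum, h3]; ring
  rw [Finset.sum_congr rfl fun w _ => h2 w, ← Finset.mul_sum, mulVec_δ F hM, δ_zero]
  ring

/-! ### The Fourier blocks -/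

def hat (F : Frame G p) (χ : AddChar (ZMod p) ℂ) (M : Matrix α α ℚ) : Matrix (Fin 2) (Fin 2) ℂ :=
  fun j k => ∑ t, (M (F.e (j, 0)) (F.e (k, t)) : ℂ) * χ t

theorem hat_mul (χ : AddChar (ZMod p) ℂ) {M N : Matrix α α ℚ} (hN : Inv G N) :
    hat F χ (M * N) = hat F χ M * hat F χ N := by
  haveI : NeZero p := ⟨hp.out.ne_zero⟩
  ext j k
  rw [Matrix.mul_apply, hat]
  have h1 : ∀ t, (((M * N) (F.e (j, 0)) (F.e (k, t)) : ℚ) : ℂ) * χ t =
      ∑ l : Fin 2, ∑ s, (M (F.e (j, 0)) (F.e (l, s)) : ℂ) * ((N (F.e (l, s)) (F.e (k, t)) : ℂ) * χ t) := by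
    intro t
    rw [Matrix.mul_apply, ← Equiv.sum_comp F.e, Fintype.sum_prod_type]
    push_cast
    rw [Finset.sum_mul]
    refine Finset.sum_congr rfl fun l _ => ?_
    rw [Finset.sum_mul]
    exact Finset.sum_congr rfl fun s _ => by ring
  rw [Finset.sum_congr rfl fun t _ => h1 t, Finset.sum_comm]
  refine Finset.sum_congr rfl fun l _ => ?_
  rw [Finset.sum_comm, hat, hat, Finset.sum_mul]
  refine Finset.sum_congr rfl fun s _ => ?_
  rw [← Finset.mul_sum, mul_assoc]
  congr 1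
  rw [← Equiv.sum_comp (Equiv.addRight s), Finset.mul_sum]
  refine Finset.sum_congr rfl fun t _ => ?_
  have := shift F hN l k 0 t s
  rw [zero_add] at this
  simp only [Equiv.coe_addRight]
  rw [this, AddChar.map_add_eq_mul]
  ring

theorem hat_smul (χ : AddChar (ZMod p) ℂ) (q : ℚ) (M : Matrix α α ℚ) :
    hat F χ (q • M) = (q : ℂ) • hat F χ M := by
  ext j k
  rw [Matrix.smul_apply, hat, hat, smul_eq_mul, Finset.mul_sum]
  refine Finset.sum_congr rfl fun t _ => ?_
  rw [Matrix.smul_apply, smul_eq_mul]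
  push_cast; ring

/-- the coefficients of the trace -/
def cf (F : Frame G p) (M : Matrix α α ℚ) (t : ZMod p) : ℚ :=
  M (F.e (0, 0)) (F.e (0, t)) + M (F.e (1, 0)) (F.e (1, t))

theorem trace_hat (χ : AddChar (ZMod p) ℂ) (M : Matrix α α ℚ) :
    (hat F χ M).trace = ∑ t, (cf F M t : ℂ) * χ t := by
  rw [Matrix.trace_fin_two, hat, hat, ← Finset.sum_add_distrib]
  refine Finset.sum_congr rfl fun t _ => ?_
  rw [cf]; push_cast; ring

theorem sum_cf {M : Matrix α α ℚ} (hM : Inv G M) : ∑ t, cf F M t = rs F M + ev F M := by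
  simp only [cf]
  rw [Finset.sum_add_distrib, ← (blocks F hM).2, ev_add_rs_zero]
  ring

/-! ### The matrix `T` -/

noncomputable def T (F : Frame G p) : Matrix α α ℚ :=
  letI := Fintype.ofFinite G
  fun u v => (∑ g : G, δ F (g.1 u) * δ F (g.1 v)) / Fintype.card G

theorem T_apply [hG : Fintype G] (u v : α) :
    T F u v = (∑ g : G, δ F (g.1 u) * δ F (g.1 v)) / Fintype.card G := by
  rw [T]
  have : hG = Fintype.ofFinite G := Subsingleton.elim _ _
  subst this
  rfl

theorem inv_T : Inv G (T F) := by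
  classical
  letI := Fintype.ofFinite G
  intro h hh u v
  rw [T_apply, T_apply, ← Equiv.sum_comp (Equiv.mulRight (⟨h, hh⟩ : G))
    (fun g => δ F (g.1 u) * δ F (g.1 v))]
  rfl

theorem T_symm (u v : α) : T F u v = T F v u := by
  classical
  letI := Fintype.ofFinite G
  rw [T_apply, T_apply]
  congr 1
  exact Finset.sum_congr rfl fun g _ => mul_comm _ _

theorem T_self (u : α) : T F u u = 1 := by
  classical
  letI := Fintype.ofFinite G
  rw [T_apply]
  simp only [δ_mul_self]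
  rw [Finset.sum_const, Finset.card_univ, nsmul_eq_mul, mul_one, div_self]
  exact_mod_cast Fintype.card_ne_zero

/-- `T u v = ε` with `ε = ± 1` iff `δ (g u) = ε δ (g v)` for all `g` -/
theorem T_eq_iff (ε : ℚ) (hε : ε = 1 ∨ ε = -1) (u v : α) :
    T F u v = ε ↔ ∀ g ∈ G, δ F (g u) = ε * δ F (g v) := by
  classical
  letI := Fintype.ofFinite G
  have hc : (Fintype.card G : ℚ) ≠ 0 := by exact_mod_cast Fintype.card_ne_zero
  have hεε : ε * ε = 1 := by rcases hε with h | h <;> rw [h] <;> norm_num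
  rw [T_apply, div_eq_iff hc]
  constructor
  · intro h g hg
    have h1 : ∑ g : G, (1 - ε * (δ F (g.1 u) * δ F (g.1 v))) = 0 := by
      rw [Finset.sum_sub_distrib, ← Finset.mul_sum, h, Finset.sum_const, Finset.card_univ,
        nsmul_eq_mul, ← mul_assoc, hεε]
      ring
    have h2 := (Finset.sum_eq_zero_iff_of_nonneg (fun g _ => by
      rcases hε with h | h <;> rcases δ_or F (g.1 u) with h3 | h3 <;>
        rcases δ_or F (g.1 v) with h4 | h4 <;> rw [h, h3, h4] <;> norm_num)).1 h1 ⟨g, hg⟩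
      (Finset.mem_univ _)
    simp only at h2
    rcases hε with h | h <;> rcases δ_or F (g u) with h3 | h3 <;>
      rcases δ_or F (g v) with h4 | h4 <;> rw [h, h3, h4] at h2 <;> rw [h, h3, h4] <;> norm_num at h2 <;> norm_num
  · intro h
    have h1 : ∀ g : G, δ F (g.1 u) * δ F (g.1 v) = ε := by
      intro g
      rw [h g.1 g.2, mul_assoc, δ_mul_self, mul_one]
    rw [Finset.sum_congr rfl fun g _ => h1 g, Finset.sum_const, Finset.card_univ, nsmul_eq_mul]
    ring

theorem T_abs_le (u v : α) : T F u v ≤ 1 := by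
  classical
  letI := Fintype.ofFinite G
  have hc : (0 : ℚ) < Fintype.card G := by exact_mod_cast Fintype.card_pos
  rw [T_apply, div_le_one hc]
  have h1 : ∑ g : G, δ F (g.1 u) * δ F (g.1 v) ≤ ∑ g : G, (1 : ℚ) := by
    refine Finset.sum_le_sum fun g _ => ?_
    rcases δ_or F (g.1 u) with h3 | h3 <;>
      rcases δ_or F (g.1 v) with h4 | h4 <;> rw [h3, h4] <;> norm_num
  refine h1.trans ?_
  rw [Finset.sum_const, Finset.card_univ, nsmul_eq_mul, mul_one]

/-- `B T = ev(B) T` -/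
theorem mul_T {B : Matrix α α ℚ} (hB : Inv G B) : B * T F = ev F B • T F := by
  classical
  letI := Fintype.ofFinite G
  ext u v
  rw [Matrix.mul_apply, Matrix.smul_apply, smul_eq_mul, T_apply]
  simp only [T_apply]
  rw [Finset.sum_congr rfl fun w _ => (mul_div_assoc (B u w) _ _).symm, ← Finset.sum_div,
    ← mul_div_assoc]
  congr 1
  simp only [Finset.mul_sum]
  rw [Finset.sum_comm]
  refine Finset.sum_congr rfl fun g _ => ?_
  have h1 : ∑ w, B u w * δ F (g.1 w) = ev F B * δ F (g.1 u) := by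
    rw [← mulVec_δ F hB, ← Equiv.sum_comp g.1 (fun v => B (g.1 u) v * δ F v)]
    exact Finset.sum_congr rfl fun w _ => by rw [hB g.1 g.2]
  calc ∑ w, B u w * (δ F (g.1 w) * δ F (g.1 v)) = (∑ w, B u w * δ F (g.1 w)) * δ F (g.1 v) := by
        rw [Finset.sum_mul]; exact Finset.sum_congr rfl fun w _ => by ring
    _ = _ := by rw [h1]; ring

theorem T_transpose : (T F)ᵀ = T F := by
  ext u v; exact T_symm F v u

theorem T_mul {B : Matrix α α ℚ} (hB : Inv G B) : T F * B = ev F B • T F := by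
  have h := mul_T F hB.transpose
  have h2 := congrArg Matrix.transpose h
  rw [Matrix.transpose_mul, T_transpose, Matrix.transpose_transpose, Matrix.transpose_smul,
    T_transpose, ev_transpose F hB] at h2
  exact h2

/-- `κ` -/
noncomputable def kap (F : Frame G p) : ℚ := ev F (T F)

theorem T_sq : T F * T F = kap F • T F := mul_T F (inv_T F)

theorem kap_eq (u : α) : kap F = ∑ v, T F u v ^ 2 := by
  have h := congrFun (congrFun (T_sq F) u) u
  rw [Matrix.mul_apply, Matrix.smul_apply, T_self, smul_eq_mul, mul_one] at h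
  rw [← h]
  exact Finset.sum_congr rfl fun v _ => by rw [T_symm F v u]; ring

theorem kap_pos : 0 < kap F := by
  rw [kap_eq F (F.e (0, 0))]
  have h1 : T F (F.e (0, 0)) (F.e (0, 0)) ^ 2 ≤ ∑ v, T F (F.e (0, 0)) v ^ 2 :=
    Finset.single_le_sum (f := fun v => T F (F.e (0, 0)) v ^ 2) (fun v _ => sq_nonneg _)
      (Finset.mem_univ _)
  rw [T_self] at h1
  linarith

theorem sum_δ : ∑ v, δ F v = 0 := by
  rw [sum_frame F]
  simp only [δ_zero, δ_one]
  rw [Finset.sum_const, Finset.sum_const]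
  simp

theorem rs_T : rs F (T F) = 0 := by
  classical
  letI := Fintype.ofFinite G
  rw [rs]
  simp only [T_apply]
  rw [← Finset.sum_div, Finset.sum_comm]
  have : ∀ g : G, ∑ v, δ F (g.1 (F.e (0, 0))) * δ F (g.1 v) = 0 := by
    intro g
    rw [← Finset.mul_sum, Equiv.sum_comp g.1 (fun v => δ F v), sum_δ, mul_zero]
  rw [Finset.sum_congr rfl fun g _ => this g]
  simp

theorem sum_T (u : α) : ∑ v, T F u v = 0 := by rw [rowsum F (inv_T F), rs_T]

theorem cf_T_zero : cf F (T F) 0 = 2 := by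
  rw [cf, T_self, T_self]; norm_num

/-- the three cases -/
theorem cases_m (χ : AddChar (ZMod p) ℂ) (hχ : χ 1 ≠ 1) :
    ∃ m : ℚ, (m = 0 ∨ m = 1 ∨ m = 2) ∧ kap F * (1 + (p - 1) * m) = 2 * p ∧
      (hat F χ (T F)).trace = (m * kap F : ℚ) ∧
      ∀ t, t ≠ 0 → cf F (T F) t = 2 - m * kap F := by
  haveI : NeZero p := ⟨hp.out.ne_zero⟩
  have h1 : hat F χ (T F) * hat F χ (T F) = (kap F : ℂ) • hat F χ (T F) := by
    rw [← hat_mul F χ (inv_T F), T_sq, hat_smul]
  have h2 : ∃ m : ℚ, (m = 0 ∨ m = 1 ∨ m = 2) ∧ (hat F χ (T F)).trace = (m * kap F : ℚ) := by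
    rcases H75.D2pFour.trace_cases _ _ h1 with h | h | h
    · exact ⟨0, Or.inl rfl, by rw [h]; push_cast; ring⟩
    · exact ⟨1, Or.inr (Or.inl rfl), by rw [h]; push_cast; ring⟩
    · exact ⟨2, Or.inr (Or.inr rfl), by rw [h]; push_cast; ring⟩
  obtain ⟨m, hm, htr⟩ := h2
  refine ⟨m, hm, ?_, htr, ?_⟩
  all_goals
    rw [trace_hat] at htr
    obtain ⟨K, hK⟩ := H75.D2pFour.li' χ hχ _ _ htr
    have hK0 := hK 0
    rw [if_pos rfl, cf_T_zero] at hK0
  · have hs := sum_cf F (inv_T F)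
    rw [rs_T, zero_add] at hs
    rw [Finset.sum_congr rfl fun t _ => hK t, Finset.sum_add_distrib, Finset.sum_const,
      Finset.card_univ, ZMod.card, nsmul_eq_mul] at hs
    simp only [Finset.sum_ite_eq', Finset.mem_univ, if_true] at hs
    change _ = kap F at hs
    have hKe : K = 2 - m * kap F := by linarith
    rw [hKe] at hs
    linarith
  · intro t ht
    rw [hK t, if_neg ht]
    linarith

end H75.D2p
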