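import Mathlib
import Cfsg.Agent.Lib.H75.D2pInv

set_option autoImplicit false
set_option linter.all false

namespace H75.D2p

open Matrix Pointwise

variable {α : Type*} [Fintype α] [DecidableEq α] {p : ℕ} [hp : Fact p.Prime]
variable {G : Subgroup (Equiv.Perm α)} (F : Frame G p)

/-- invariant equivalence relations give blocks -/
theorem block_of_rel (hG : MulAction.IsPreprimitive G α) (R : α → α → Prop) (hR : Equivalence R)
    (hinv : ∀ g ∈ G, ∀ u v, R u v → R (g u) (g v)) (u v : α) (huv : u ≠ v) (h : R u v) :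
    ∀ w, R u w := by
  have hB : MulAction.IsBlock G {w | R u w} := by
    rw [MulAction.isBlock_iff_smul_eq_of_nonempty]
    rintro g ⟨z, ⟨w, hw, rfl⟩, hz⟩
    have h1 : R (g.1 u) u := hR.trans (hinv g.1 g.2 _ _ hw) (hR.symm hz)
    ext y
    constructor
    · rintro ⟨t, ht, rfl⟩
      exact hR.trans (hR.symm h1) (hinv g.1 g.2 _ _ ht)
    · intro hy
      refine ⟨g.1⁻¹ y, ?_, ?_⟩
      · have h2 := hinv g.1⁻¹ (G.inv_mem g.2) _ _ (hR.trans h1 hy)
        simpa using h2
      · show g.1 (g.1⁻¹ y) = y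
        simp
  rcases hG.isTrivialBlock_of_isBlock hB with h1 | h1
  · exact absurd (h1 (hR.refl u) h) huv
  · intro w
    have : w ∈ {w | R u w} := by rw [h1]; trivial
    exact this

open Classical in
/-- indicator of an orbital -/
noncomputable def Orb (G : Subgroup (Equiv.Perm α)) (u v : α) : Matrix α α ℚ :=
  fun w z => if ∃ g ∈ G, g u = w ∧ g v = z then 1 else 0

theorem Orb_or (u v w z : α) : Orb G u v w z = 0 ∨ Orb G u v w z = 1 := by
  rw [Orb]; split_ifs <;> simp

theorem Orb_nonneg (u v w z : α) : 0 ≤ Orb G u v w z := by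
  rcases Orb_or (G := G) u v w z with h | h <;> rw [h] <;> norm_num

theorem Orb_eq_one {u v w z : α} : Orb G u v w z = 1 ↔ ∃ g ∈ G, g u = w ∧ g v = z := by
  rw [Orb]; split_ifs with h <;> simp [h]

theorem Orb_self (u v : α) : Orb G u v u v = 1 := Orb_eq_one.2 ⟨1, G.one_mem, rfl, rfl⟩

theorem inv_Orb (u v : α) : Inv G (Orb G u v) := by
  intro g hg w z
  rcases Orb_or (G := G) u v w z with h | h
  · rw [h]
    rcases Orb_or (G := G) u v (g w) (g z) with h2 | h2
    · exact h2
    · obtain ⟨k, hk, h3, h4⟩ := Orb_eq_one.1 h2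
      have : Orb G u v w z = 1 := Orb_eq_one.2 ⟨g⁻¹ * k, G.mul_mem (G.inv_mem hg) hk, by
        rw [Equiv.Perm.mul_apply, h3]; simp, by rw [Equiv.Perm.mul_apply, h4]; simp⟩
      rw [this] at h; exact absurd h one_ne_zero
  · rw [h]
    obtain ⟨k, hk, h3, h4⟩ := Orb_eq_one.1 h
    exact Orb_eq_one.2 ⟨g * k, G.mul_mem hg hk, by rw [Equiv.Perm.mul_apply, h3], by
      rw [Equiv.Perm.mul_apply, h4]⟩

theorem const_on {M : Matrix α α ℚ} (hM : Inv G M) {u v w z : α} (h : Orb G u v w z = 1) :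
    M w z = M u v := by
  obtain ⟨g, hg, rfl, rfl⟩ := Orb_eq_one.1 h
  exact hM g hg u v

theorem Orb_diag {u v : α} (huv : u ≠ v) (w : α) : Orb G u v w w = 0 := by
  rcases Orb_or (G := G) u v w w with h | h
  · exact h
  · obtain ⟨g, hg, h1, h2⟩ := Orb_eq_one.1 h
    exact absurd (g.injective (h1.trans h2.symm)) huv

/-- a common pair gives the same orbital -/
theorem Orb_common {u v u' v' w z : α} (h1 : Orb G u v w z = 1) (h2 : Orb G u' v' w z = 1) :
    Orb G u v u' v' = 1 := by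
  obtain ⟨g, hg, rfl, rfl⟩ := Orb_eq_one.1 h1
  obtain ⟨k, hk, h3, h4⟩ := Orb_eq_one.1 h2
  exact Orb_eq_one.2 ⟨k⁻¹ * g, G.mul_mem (G.inv_mem hk) hg, by
    rw [Equiv.Perm.mul_apply, ← h3]; simp, by rw [Equiv.Perm.mul_apply, ← h4]; simp⟩

theorem rs_Orb_pos (u v : α) : 1 ≤ rs F (Orb G u v) := by
  rw [← rowsum F (inv_Orb u v) u, ← Orb_self (G := G) u v]
  exact Finset.single_le_sum (f := fun w => Orb G u v u w) (fun w _ => Orb_nonneg _ _ _ _)
    (Finset.mem_univ _)

theorem ev_Orb (u v : α) : ev F (Orb G u v) = rs F (Orb G u v) * T F u v := by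
  have h := congrFun (congrFun (mul_T F (inv_Orb (G := G) u v)) u) u
  rw [Matrix.mul_apply, Matrix.smul_apply, T_self, smul_eq_mul, mul_one] at h
  rw [← h, ← rowsum F (inv_Orb u v) u, Finset.sum_mul]
  refine Finset.sum_congr rfl fun w _ => ?_
  rcases Orb_or (G := G) u v u w with h1 | h1
  · rw [h1]; ring
  · rw [h1, T_symm F w u, const_on (inv_T F) h1]

/-! ### the case `m = 1` -/

section one

variable (χ : AddChar (ZMod p) ℂ) (hχ : χ 1 ≠ 1) (hκ : kap F = 2)
  (htr : (hat F χ (T F)).trace = 2)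

include hκ htr

theorem proj_facts : (1 - (1/2 : ℂ) • hat F χ (T F)).det = 0 ∧
    (1 - (1/2 : ℂ) • hat F χ (T F)) * (1 - (1/2 : ℂ) • hat F χ (T F)) = 1 - (1/2 : ℂ) • hat F χ (T F) := by
  have h1 : hat F χ (T F) * hat F χ (T F) = (2 : ℂ) • hat F χ (T F) := by
    rw [← hat_mul F χ (inv_T F), T_sq, hκ, hat_smul]; norm_num
  set N := hat F χ (T F) with hN
  constructor
  · have h00 := congrFun (congrFun h1 0) 0
    simp only [Matrix.mul_apply, Fin.sum_univ_two, Matrix.smul_apply, smul_eq_mul] at h00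
    rw [Matrix.trace_fin_two] at htr
    rw [Matrix.det_fin_two]
    simp only [Matrix.sub_apply, Matrix.smul_apply, smul_eq_mul, Matrix.one_apply_eq,
      Matrix.one_apply_ne (show (0 : Fin 2) ≠ 1 by decide),
      Matrix.one_apply_ne (show (1 : Fin 2) ≠ 0 by decide)]
    have h2 : N 1 1 = 2 - N 0 0 := by linear_combination htr
    rw [h2]
    linear_combination (-1/4 : ℂ) * h00
  · rw [sub_mul, mul_sub, mul_sub, one_mul, mul_one, one_mul, smul_mul_smul_comm, h1, smul_smul]
    ext i j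
    simp only [Matrix.sub_apply, Matrix.smul_apply, smul_eq_mul]
    ring

theorem hat_proj {M : Matrix α α ℚ} (hM : Inv G M) :
    hat F χ M * (1 - (1/2 : ℂ) • hat F χ (T F)) =
      ((hat F χ M).trace - (ev F M : ℂ)) • (1 - (1/2 : ℂ) • hat F χ (T F)) := by
  obtain ⟨hd, hid⟩ := proj_facts F χ hκ htr
  have e1 : hat F χ M * hat F χ (T F) = (ev F M : ℂ) • hat F χ (T F) := by
    rw [← hat_mul F χ (inv_T F), mul_T F hM, hat_smul]
  have e2 : hat F χ (T F) * hat F χ M = (ev F M : ℂ) • hat F χ (T F) := by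
    rw [← hat_mul F χ hM, T_mul F hM, hat_smul]
  set P := (1 : Matrix (Fin 2) (Fin 2) ℂ) - (1/2 : ℂ) • hat F χ (T F) with hP
  have hcomm : hat F χ M * P = P * hat F χ M := by
    rw [hP, mul_sub, sub_mul, one_mul, mul_one, mul_smul_comm, smul_mul_assoc, e1, e2]
  have h3 := H75.D2pFour.two_identity P (hat F χ M) hd
  have h4 : P * hat F χ M * P = hat F χ M * P := by
    rw [← hcomm, mul_assoc, hid]
  rw [h4] at h3
  rw [h3]
  congr 1
  rw [hP, sub_mul, one_mul, smul_mul_assoc, e2, Matrix.trace_sub, Matrix.trace_smul,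
    Matrix.trace_smul, htr, smul_eq_mul, smul_eq_mul]
  ring

theorem trace_mul {M N : Matrix α α ℚ} (hM : Inv G M) (hN : Inv G N) :
    (hat F χ (M * N)).trace = (ev F M : ℂ) * ev F N +
      ((hat F χ M).trace - (ev F M : ℂ)) * ((hat F χ N).trace - (ev F N : ℂ)) := by
  have e1 : ∀ {M : Matrix α α ℚ}, Inv G M → hat F χ M * hat F χ (T F) = (ev F M : ℂ) • hat F χ (T F) := by
    intro M hM
    rw [← hat_mul F χ (inv_T F), mul_T F hM, hat_smul]
  rw [hat_mul F χ hN]
  have hPtr : (1 - (1/2 : ℂ) • hat F χ (T F)).trace = 1 := by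
    rw [Matrix.trace_sub, Matrix.trace_smul, htr, Matrix.trace_one]
    simp; norm_num
  set P := (1 : Matrix (Fin 2) (Fin 2) ℂ) - (1/2 : ℂ) • hat F χ (T F) with hP
  have hone : (1 : Matrix (Fin 2) (Fin 2) ℂ) = (1/2 : ℂ) • hat F χ (T F) + P := by
    rw [hP]; abel
  have h1 : hat F χ M * hat F χ N = hat F χ M * hat F χ N * ((1/2 : ℂ) • hat F χ (T F)) +
      hat F χ M * hat F χ N * P := by
    rw [← mul_add, ← hone, mul_one]
  rw [h1, Matrix.trace_add, mul_smul_comm, mul_assoc, e1 hN, mul_smul_comm, e1 hM, mul_assoc,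
    hat_proj F χ hκ htr hN, mul_smul_comm, hat_proj F χ hκ htr hM]
  simp only [Matrix.trace_smul, smul_eq_mul]
  rw [htr, hPtr]
  ring

include hχ in
theorem row_orth {M N : Matrix α α ℚ} (hM : Inv G M) (hN : Inv G N) :
    cf F (M * N) 0 = ∑ s, cf F M s * cf F N (-s) - ev F N * cf F M 0 - ev F M * cf F N 0 +
      2 * ev F M * ev F N := by
  haveI : NeZero p := ⟨hp.out.ne_zero⟩
  have h1 := trace_mul F χ hκ htr hM hN
  rw [trace_hat, trace_hat, trace_hat] at h1
  -- convolution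
  have h2 : (∑ t, (cf F M t : ℂ) * χ t) * (∑ t, (cf F N t : ℂ) * χ t) =
      ∑ k, ((∑ s, cf F M s * cf F N (k - s) : ℚ) : ℂ) * χ k := by
    rw [Finset.sum_mul]
    have h3 : ∀ k, ((∑ s, cf F M s * cf F N (k - s) : ℚ) : ℂ) * χ k =
        ∑ s, (cf F M s : ℂ) * χ s * ((cf F N (k - s) : ℂ) * χ (k - s)) := by
      intro k
      push_cast
      rw [Finset.sum_mul]
      refine Finset.sum_congr rfl fun s _ => ?_
      have : χ k = χ s * χ (k - s) := by rw [← AddChar.map_add_eq_mul]; congr 1; ring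
      rw [this]; ring
    rw [Finset.sum_congr rfl fun k _ => h3 k, Finset.sum_comm]
    refine Finset.sum_congr rfl fun s _ => ?_
    rw [← Finset.mul_sum]
    congr 1
    exact (Equiv.sum_comp (Equiv.subRight s) fun t => (cf F N t : ℂ) * χ t).symm
  set D : ZMod p → ℚ := fun k => cf F (M * N) k - ∑ s, cf F M s * cf F N (k - s) +
    ev F N * cf F M k + ev F M * cf F N k - (if k = 0 then 2 * ev F M * ev F N else 0) with hD
  have h4 : ∑ k, (D k : ℂ) * χ k = 0 := by
    have h5 : ∀ k, (D k : ℂ) * χ k = (cf F (M * N) k : ℂ) * χ k -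
        ((∑ s, cf F M s * cf F N (k - s) : ℚ) : ℂ) * χ k + (ev F N : ℂ) * ((cf F M k : ℂ) * χ k) +
        (ev F M : ℂ) * ((cf F N k : ℂ) * χ k) - (if k = 0 then 2 * (ev F M : ℂ) * ev F N else 0) := by
      intro k
      rw [hD]
      by_cases hk : k = 0
      · subst hk
        simp only [if_true, AddChar.map_zero_eq_one]
        push_cast; ring
      · simp only [if_neg hk]
        push_cast; ring
    rw [Finset.sum_congr rfl fun k _ => h5 k, Finset.sum_sub_distrib, Finset.sum_add_distrib,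
      Finset.sum_add_distrib, Finset.sum_sub_distrib, ← Finset.mul_sum, ← Finset.mul_sum, ← h2, h1]
    simp only [Finset.sum_ite_eq', Finset.mem_univ, if_true]
    ring
  have h6 := H75.D2pFour.li χ hχ D h4
  have h7 : ∑ k, D k = 0 := by
    rw [hD]
    rw [Finset.sum_sub_distrib, Finset.sum_add_distrib, Finset.sum_add_distrib,
      Finset.sum_sub_distrib, ← Finset.mul_sum, ← Finset.mul_sum, sum_cf F (hM.mul hN),
      sum_cf F hM, sum_cf F hN, rs_mul F hM hN, ev_mul F hM hN]
    have h8 : ∑ k, ∑ s, cf F M s * cf F N (k - s) = (rs F M + ev F M) * (rs F N + ev F N) := by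
      rw [Finset.sum_comm, ← sum_cf F hM, Finset.sum_mul]
      refine Finset.sum_congr rfl fun s _ => ?_
      rw [← Finset.mul_sum, ← sum_cf F hN]
      congr 1
      exact Equiv.sum_comp (Equiv.subRight s) fun t => cf F N t
    rw [h8]
    simp only [Finset.sum_ite_eq', Finset.mem_univ, if_true]
    ring
  rw [Finset.sum_congr rfl fun k _ => h6 k, Finset.sum_const, Finset.card_univ, ZMod.card,
    nsmul_eq_mul] at h7
  have h9 : D 0 = 0 := by
    rcases mul_eq_zero.1 h7 with h | h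
    · exact absurd h (by exact_mod_cast hp.out.ne_zero)
    · exact h
  rw [hD] at h9
  simp only [if_true, zero_sub] at h9
  linarith

end one

end H75.D2p
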