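import Mathlib
import Cfsg.Agent.Lib.H75.D2pMain

set_option autoImplicit false
set_option linter.all false

namespace H75.D2p

open Matrix Pointwise

variable {α : Type*} [Fintype α] [DecidableEq α] {p : ℕ} [hp : Fact p.Prime]
variable {G : Subgroup (Equiv.Perm α)} (F : Frame G p)

include F in
theorem card_eq : Fintype.card α = 2 * p := by
  haveI : NeZero p := ⟨hp.out.ne_zero⟩
  rw [← Fintype.card_congr F.e, Fintype.card_prod, Fintype.card_fin, ZMod.card]

theorem Orb_two {a b u v u' v' : α} (h1 : Orb G a b u v = 1) (h2 : Orb G a b u' v' = 1) :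
    Orb G u v u' v' = 1 := by
  obtain ⟨g, hg, rfl, rfl⟩ := Orb_eq_one.1 h1
  obtain ⟨k, hk, rfl, rfl⟩ := Orb_eq_one.1 h2
  exact Orb_eq_one.2 ⟨k * g⁻¹, G.mul_mem hk (G.inv_mem hg), by simp, by simp⟩

theorem T_eq_one_trans {u v w : α} {ε ε' : ℚ} (hε : ε = 1 ∨ ε = -1) (hε' : ε' = 1 ∨ ε' = -1)
    (h1 : T F u v = ε) (h2 : T F v w = ε') : T F u w = ε * ε' := by
  rw [T_eq_iff F _ (by rcases hε with h | h <;> rcases hε' with h' | h' <;> rw [h, h'] <;> norm_num)]
  rw [T_eq_iff F _ hε] at h1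
  rw [T_eq_iff F _ hε'] at h2
  intro g hg
  rw [h1 g hg, h2 g hg, mul_assoc]

/-- `m = 0` contradicts primitivity -/
theorem no_zero (hG : MulAction.IsPreprimitive G α) (hκ : kap F * (1 + (p - 1) * 0) = 2 * p)
    (hcf : ∀ t, t ≠ 0 → cf F (T F) t = 2 - 0 * kap F) : False := by
  haveI : NeZero p := ⟨hp.out.ne_zero⟩
  have h1 : T F (F.e (0, 0)) (F.e (0, 1)) = 1 := by
    have h2 := hcf 1 one_ne_zero
    rw [cf] at h2
    have h3 := T_abs_le F (F.e (0, 0)) (F.e (0, 1))
    have h4 := T_abs_le F (F.e (1, 0)) (F.e (1, 1))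
    linarith
  have hne : F.e (0, 0) ≠ F.e (0, 1) := by
    intro h
    have := F.e.injective h
    simp only [Prod.mk.injEq, true_and] at this
    exact zero_ne_one this
  have h5 := block_of_rel hG (fun u v => T F u v = 1)
    ⟨T_self F, fun {u v} h => (T_symm F v u).trans h, fun {u v w} h h' => by
      have := T_eq_one_trans F (Or.inl rfl) (Or.inl rfl) h h'
      rw [mul_one] at this; exact this⟩
    (fun g hg u v h => (inv_T F g hg u v).trans h) _ _ hne h1
  have h6 := sum_T F (F.e (0, 0))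
  rw [Finset.sum_congr rfl fun v _ => h5 v, Finset.sum_const, Finset.card_univ, card_eq F,
    nsmul_eq_mul, mul_one] at h6
  have : (p : ℚ) ≠ 0 := by exact_mod_cast hp.out.ne_zero
  apply this
  push_cast at h6
  linarith

/-- `m = 2` gives double transitivity -/
theorem two_transitive (hκ : kap F * (1 + (p - 1) * 2) = 2 * p) :
    MulAction.IsMultiplyPretransitive G α 2 := by
  haveI : NeZero p := ⟨hp.out.ne_zero⟩
  have hp0 : (p : ℚ) ≠ 0 := by exact_mod_cast hp.out.ne_zero
  have hκ0 := kap_pos F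
  set c : ℚ := kap F / (2 * p) with hc
  have hc2 : c * (2 * p) = kap F := by rw [hc]; field_simp
  have hκc : kap F - c = 1 := by
    have : (kap F - c) * (2 * p) = 1 * (2 * p) := by rw [sub_mul, hc2]; linarith
    exact mul_right_cancel₀ (by positivity) this
  have hcpos : 0 < c := by rw [hc]; positivity
  have hT : ∀ u v, T F u v = (if v = u then kap F else 0) - c := by
    intro u
    have h1 : ∑ v, ((if v = u then kap F else 0) - c - T F u v) ^ 2 = 0 := by
      have h2 : ∀ v, ((if v = u then kap F else 0) - c - T F u v) ^ 2 =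
          (if v = u then kap F ^ 2 - 2 * kap F * c - 2 * kap F else 0) + c ^ 2 + T F u v ^ 2 +
            2 * c * T F u v := by
        intro v
        split_ifs with h
        · rw [h, T_self]; ring
        · ring
      rw [Finset.sum_congr rfl fun v _ => h2 v, Finset.sum_add_distrib, Finset.sum_add_distrib,
        Finset.sum_add_distrib, ← Finset.mul_sum, sum_T, ← kap_eq F u, Finset.sum_const,
        Finset.card_univ, card_eq F, nsmul_eq_mul]
      simp only [Finset.sum_ite_eq', Finset.mem_univ, if_true]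
      push_cast
      have h3 : (2 * (p : ℚ)) * c ^ 2 = c * kap F := by rw [← hc2]; ring
      rw [h3]
      have h4 : kap F = 1 + c := by linarith
      rw [h4]; ring
    intro v
    have h5 := (Finset.sum_eq_zero_iff_of_nonneg (fun v _ => sq_nonneg _)).1 h1 v (Finset.mem_univ _)
    have h6 := pow_eq_zero_iff (two_ne_zero) |>.1 h5
    linarith
  rw [MulAction.is_two_pretransitive_iff]
  intro u v w z huv hwz
  have key : ∀ w z, w ≠ z → Orb G u v w z * kap F = c * (rs F (Orb G u v) - ev F (Orb G u v)) := by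
    intro w z hwz
    have h1 := congrFun (congrFun (mul_T F (inv_Orb (G := G) u v)) w) z
    rw [Matrix.mul_apply, Matrix.smul_apply, smul_eq_mul] at h1
    have h2 : ∀ y, Orb G u v w y * T F y z = (if z = y then Orb G u v w y * kap F else 0) -
        c * Orb G u v w y := by
      intro y
      rw [hT y z]
      split_ifs <;> ring
    rw [Finset.sum_congr rfl fun y _ => h2 y, Finset.sum_sub_distrib, ← Finset.mul_sum,
      rowsum F (inv_Orb u v), hT w z, if_neg (Ne.symm hwz)] at h1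
    simp only [Finset.sum_ite_eq, Finset.mem_univ, if_true] at h1
    linarith
  have h1 := key u v huv
  have h2 := key w z hwz
  rw [← h1, Orb_self, one_mul] at h2
  have h3 : Orb G u v w z = 1 := mul_right_cancel₀ hκ0.ne' (by rw [h2, one_mul])
  obtain ⟨g, hg, h4, h5⟩ := Orb_eq_one.1 h3
  exact ⟨⟨g, hg⟩, h4, h5⟩

section one

variable (χ : AddChar (ZMod p) ℂ) (hχ : χ 1 ≠ 1) (hκ : kap F = 2)
  (htr : (hat F χ (T F)).trace = 2) (hcf : ∀ t, t ≠ 0 → cf F (T F) t = 0)
  (hG : MulAction.IsPreprimitive G α)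

include hκ hG in
theorem T_sq_ne_one {u v : α} (huv : u ≠ v) : T F u v ≠ 1 ∧ T F u v ≠ -1 := by
  have hor : ∀ {u v : α}, T F u v ^ 2 = 1 → (T F u v = 1 ∨ T F u v = -1) := fun {u v} h => by
    have h1 : (T F u v - 1) * (T F u v + 1) = 0 := by linear_combination h
    rcases mul_eq_zero.1 h1 with h2 | h2
    · left; linarith
    · right; linarith
  have key : T F u v ^ 2 = 1 → False := by
    intro h
    have h5 := block_of_rel hG (fun u v => T F u v ^ 2 = 1)
      ⟨fun u => by rw [T_self]; norm_num, fun {u v} h => by rw [T_symm F v u]; exact h,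
        fun {u v w} h h' => by
          have := T_eq_one_trans F (hor h) (hor h') rfl rfl
          rw [this, mul_pow, h, h', one_mul]⟩
      (fun g hg u v h => by rw [inv_T F g hg u v]; exact h) _ _ huv h
    have h6 := kap_eq F u
    rw [hκ, Finset.sum_congr rfl fun v _ => h5 v, Finset.sum_const, Finset.card_univ, card_eq F,
      nsmul_eq_mul, mul_one] at h6
    have : (p : ℚ) = 1 := by push_cast at h6; linarith
    exact hp.out.one_lt.ne' (by exact_mod_cast this)
  constructor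
  · intro h; exact key (by rw [h]; norm_num)
  · intro h; exact key (by rw [h]; norm_num)

include hχ hκ htr in
theorem RO {u v u' v' : α} (huv : u ≠ v) (huv' : u' ≠ v') (h : Orb G u v u' v' = 0) :
    ∑ s, cf F (Orb G u v) s * cf F (Orb G u' v') s = -(2 * ev F (Orb G u v) * ev F (Orb G u' v')) := by
  haveI : NeZero p := ⟨hp.out.ne_zero⟩
  have h1 := row_orth F χ hχ hκ htr (inv_Orb (G := G) u v) (inv_Orb (G := G) u' v').transpose
  have h2 : cf F (Orb G u v * (Orb G u' v')ᵀ) 0 = 0 := by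
    have h3 : ∀ w, (Orb G u v * (Orb G u' v')ᵀ) w w = 0 := by
      intro w
      rw [Matrix.mul_apply]
      refine Finset.sum_eq_zero fun y _ => ?_
      rw [Matrix.transpose_apply]
      rcases Orb_or (G := G) u v w y with h4 | h4
      · rw [h4, zero_mul]
      · rcases Orb_or (G := G) u' v' w y with h5 | h5
        · rw [h5, mul_zero]
        · rw [Orb_common h4 h5] at h; exact absurd h one_ne_zero
    rw [cf, h3, h3, add_zero]
  have h4 : cf F (Orb G u v) 0 = 0 := by rw [cf, Orb_diag huv, Orb_diag huv, add_zero]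
  have h5 : cf F (Orb G u' v')ᵀ 0 = 0 := by
    rw [cf, Matrix.transpose_apply, Matrix.transpose_apply, Orb_diag huv', Orb_diag huv', add_zero]
  have h6 : ∀ s, cf F (Orb G u' v')ᵀ (-s) = cf F (Orb G u' v') s := by
    intro s
    have h7 : ∀ j, (Orb G u' v')ᵀ (F.e (j, 0)) (F.e (j, -s)) = Orb G u' v' (F.e (j, 0)) (F.e (j, s)) := by
      intro j
      rw [Matrix.transpose_apply]
      have := shift F (inv_Orb (G := G) u' v') j j (-s) 0 s
      rw [neg_add_cancel, zero_add] at this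
      exact this.symm
    rw [cf, cf, h7, h7]
  rw [h2, h4, h5, ev_transpose F (inv_Orb _ _), mul_zero, mul_zero, sub_zero, sub_zero,
    Finset.sum_congr rfl fun s _ => by rw [h6 s]] at h1
  linarith


theorem cf_nonneg (u v : α) (t : ZMod p) : 0 ≤ cf F (Orb G u v) t :=
  add_nonneg (Orb_nonneg _ _ _ _) (Orb_nonneg _ _ _ _)

include hχ hκ htr in
theorem S1 {u v u' v' : α} (huv : u ≠ v) (huv' : u' ≠ v') (h : Orb G u v u' v' = 0) :
    T F u v * T F u' v' ≤ 0 := by
  have h1 := RO F χ hχ hκ htr huv huv' h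
  have h2 : 0 ≤ ∑ s, cf F (Orb G u v) s * cf F (Orb G u' v') s :=
    Finset.sum_nonneg fun s _ => mul_nonneg (cf_nonneg F _ _ _) (cf_nonneg F _ _ _)
  rw [h1, ev_Orb, ev_Orb] at h2
  have h3 := rs_Orb_pos F (G := G) u v
  have h4 := rs_Orb_pos F (G := G) u' v'
  by_contra hcon
  push Not at hcon
  have h5 : 0 < rs F (Orb G u v) * rs F (Orb G u' v') * (T F u v * T F u' v') :=
    mul_pos (mul_pos (by linarith) (by linarith)) hcon
  nlinarith

include hχ hκ htr hcf hG in
/-- existence of the two orbitals -/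
theorem exists_pairs : ∃ (u0 v0 u1 v1 : α) (r : ℚ), u0 ≠ v0 ∧ u1 ≠ v1 ∧ 0 < r ∧ r < 1 ∧
    T F u0 v0 = -r ∧ T F u1 v1 = r ∧
    ∃ (j : Fin 2) (t : ZMod p), t ≠ 0 ∧ T F (F.e (j, 0)) (F.e (j, t)) ≠ 0 := by
  haveI : NeZero p := ⟨hp.out.ne_zero⟩
  -- a negative pair
  obtain ⟨v0, hv0⟩ : ∃ v, T F (F.e (0, 0)) v < 0 := by
    by_contra hcon
    push Not at hcon
    have h1 := Finset.single_le_sum (f := fun v => T F (F.e (0, 0)) v) (fun v _ => hcon v)
      (Finset.mem_univ (F.e (0, 0)))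
    rw [sum_T, T_self] at h1
    linarith
  set u0 := F.e (0, 0) with hu0
  have hne0 : u0 ≠ v0 := by
    intro h
    rw [← h, T_self] at hv0
    linarith
  have hlt : ∀ {u v : α}, u ≠ v → T F u v ^ 2 < 1 := by
    intro u v huv
    obtain ⟨h1, h2⟩ := T_sq_ne_one F hκ hG huv
    have h3 := T_abs_le F u v
    have h4 : -1 ≤ T F u v := by
      have h5 : T F u u ^ 2 + T F u v ^ 2 ≤ ∑ w, T F u w ^ 2 := by
        rw [← Finset.sum_pair huv (f := fun w => T F u w ^ 2)]
        exact Finset.sum_le_sum_of_subset_of_nonneg (Finset.subset_univ _) fun _ _ _ => sq_nonneg _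
      rw [← kap_eq, hκ, T_self] at h5
      nlinarith
    have h6 : -1 < T F u v := lt_of_le_of_ne h4 (Ne.symm h2)
    have h7 : T F u v < 1 := lt_of_le_of_ne h3 h1
    nlinarith
  have hr1 : -1 < T F u0 v0 := by
    have := hlt hne0
    nlinarith
  have h1 : 0 < ∑ t, cf F (Orb G u0 v0) t := by
    rw [sum_cf F (inv_Orb _ _), ev_Orb]
    have := rs_Orb_pos F (G := G) u0 v0
    nlinarith
  obtain ⟨t, -, ht⟩ := Finset.exists_lt_of_sum_lt (s := Finset.univ) (f := fun _ : ZMod p => (0 : ℚ))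
    (g := fun t => cf F (Orb G u0 v0) t) (by simpa using h1)
  have ht0 : t ≠ 0 := by
    rintro rfl
    rw [cf, Orb_diag hne0, Orb_diag hne0, add_zero] at ht
    exact lt_irrefl _ ht
  obtain ⟨j, hj⟩ : ∃ j : Fin 2, Orb G u0 v0 (F.e (j, 0)) (F.e (j, t)) = 1 := by
    rcases Orb_or (G := G) u0 v0 (F.e (0, 0)) (F.e (0, t)) with h2 | h2
    · rcases Orb_or (G := G) u0 v0 (F.e (1, 0)) (F.e (1, t)) with h3 | h3
      · rw [cf, h2, h3, add_zero] at ht; exact absurd ht (lt_irrefl _)
      · exact ⟨1, h3⟩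
    · exact ⟨0, h2⟩
  have hTj : T F (F.e (j, 0)) (F.e (j, t)) = T F u0 v0 := const_on (inv_T F) hj
  have hcft := hcf t ht0
  rw [cf] at hcft
  have hne : ∀ k : Fin 2, F.e (k, 0) ≠ F.e (k, t) := by
    intro k h
    have := F.e.injective h
    simp only [Prod.mk.injEq, true_and] at this
    exact ht0 this.symm
  refine ⟨u0, v0, F.e (j + 1, 0), F.e (j + 1, t), - T F u0 v0, hne0, hne _, by linarith,
    by linarith, by ring, ?_, j, t, ht0, by rw [hTj]; exact hv0.ne⟩
  fin_cases j
  · change T F (F.e (0, 0)) (F.e (0, t)) = T F u0 v0 at hTj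
    show T F (F.e (1, 0)) (F.e (1, t)) = _
    linarith
  · change T F (F.e (1, 0)) (F.e (1, t)) = T F u0 v0 at hTj
    show T F (F.e (0, 0)) (F.e (0, t)) = _
    linarith

include hχ hκ htr hcf hG in
/-- no further orbitals -/
theorem T_ne_zero {u v : α} (huv : u ≠ v) : T F u v ≠ 0 := by
  haveI : NeZero p := ⟨hp.out.ne_zero⟩
  intro hT
  have hev : ev F (Orb G u v) = 0 := by rw [ev_Orb, hT, mul_zero]
  have hne : ∀ (k : Fin 2) (t : ZMod p), t ≠ 0 → F.e (k, 0) ≠ F.e (k, t) := by
    intro k t ht0 h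
    have := F.e.injective h
    simp only [Prod.mk.injEq, true_and] at this
    exact ht0 this.symm
  have key : ∀ (t : ZMod p) (j k : Fin 2), Orb G u v (F.e (j, 0)) (F.e (j, t)) = 1 →
      Orb G u v (F.e (k, 0)) (F.e (k, t)) = 1 := by
    intro t j k hj
    have ht0 : t ≠ 0 := by
      rintro rfl
      rw [Orb_diag huv] at hj
      exact zero_ne_one hj
    by_contra hk
    have hk0 : Orb G u v (F.e (k, 0)) (F.e (k, t)) = 0 := by
      rcases Orb_or (G := G) u v (F.e (k, 0)) (F.e (k, t)) with h | h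
      · exact h
      · exact absurd h hk
    have h1 := RO F χ hχ hκ htr huv (hne k t ht0) hk0
    rw [hev] at h1
    simp only [mul_zero, zero_mul, neg_zero] at h1
    have h2 := (Finset.sum_eq_zero_iff_of_nonneg (fun s _ => mul_nonneg (cf_nonneg F _ _ s)
      (cf_nonneg F _ _ s))).1 h1 t (Finset.mem_univ _)
    have h3 : 0 < cf F (Orb G u v) t := by
      rw [cf]
      have ha := Orb_nonneg (G := G) u v (F.e (0, 0)) (F.e (0, t))
      have hb := Orb_nonneg (G := G) u v (F.e (1, 0)) (F.e (1, t))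
      fin_cases j
      · change Orb G u v (F.e (0, 0)) (F.e (0, t)) = 1 at hj
        rw [hj]; linarith
      · change Orb G u v (F.e (1, 0)) (F.e (1, t)) = 1 at hj
        rw [hj]; linarith
    have h4 : 0 < cf F (Orb G (F.e (k, 0)) (F.e (k, t))) t := by
      rw [cf]
      have ha := Orb_nonneg (G := G) (F.e (k, 0)) (F.e (k, t)) (F.e (0, 0)) (F.e (0, t))
      have hb := Orb_nonneg (G := G) (F.e (k, 0)) (F.e (k, t)) (F.e (1, 0)) (F.e (1, t))
      have hs := Orb_self (G := G) (F.e (k, 0)) (F.e (k, t))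
      fin_cases k
      · change Orb G (F.e (0, 0)) (F.e (0, t)) (F.e (0, 0)) (F.e (0, t)) = 1 at hs
        change 0 ≤ Orb G (F.e (0, 0)) (F.e (0, t)) (F.e (1, 0)) (F.e (1, t)) at hb
        change 0 < Orb G (F.e (0, 0)) (F.e (0, t)) (F.e (0, 0)) (F.e (0, t)) +
          Orb G (F.e (0, 0)) (F.e (0, t)) (F.e (1, 0)) (F.e (1, t))
        rw [hs]; linarith
      · change Orb G (F.e (1, 0)) (F.e (1, t)) (F.e (1, 0)) (F.e (1, t)) = 1 at hs
        change 0 ≤ Orb G (F.e (1, 0)) (F.e (1, t)) (F.e (0, 0)) (F.e (0, t)) at ha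
        change 0 < Orb G (F.e (1, 0)) (F.e (1, t)) (F.e (0, 0)) (F.e (0, t)) +
          Orb G (F.e (1, 0)) (F.e (1, t)) (F.e (1, 0)) (F.e (1, t))
        rw [hs]; linarith
    exact (mul_pos h3 h4).ne' h2
  have heq : ∀ t, Orb G u v (F.e (0, 0)) (F.e (0, t)) = Orb G u v (F.e (1, 0)) (F.e (1, t)) := by
    intro t
    rcases Orb_or (G := G) u v (F.e (0, 0)) (F.e (0, t)) with h | h
    · rcases Orb_or (G := G) u v (F.e (1, 0)) (F.e (1, t)) with h' | h'
      · rw [h, h']
      · rw [key t 1 0 h', h']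
    · rw [key t 0 1 h, h]
  have h00 : hat F χ (Orb G u v) 0 0 = hat F χ (Orb G u v) 1 1 := by
    rw [hat, hat]
    exact Finset.sum_congr rfl fun t _ => by rw [heq t]
  have h0 : hat F χ (Orb G u v) 0 0 ≠ 0 := by
    intro h
    rw [hat] at h
    have h1 := H75.D2pFour.li χ hχ (fun t => Orb G u v (F.e (0, 0)) (F.e (0, t))) h
    have h2 : ∀ t, cf F (Orb G u v) t = 0 := by
      intro t
      rw [cf, ← heq t]
      have := h1 t
      simp only [Orb_diag huv] at this
      rw [this, add_zero]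
    have h3 := sum_cf F (inv_Orb (G := G) u v)
    rw [hev, Finset.sum_congr rfl fun t _ => h2 t, Finset.sum_const_zero, add_zero] at h3
    have := rs_Orb_pos F (G := G) u v
    linarith
  -- the matrix identity
  have h1 := hat_proj F χ hκ htr (inv_Orb (G := G) u v)
  have e1 : hat F χ (Orb G u v) * hat F χ (T F) = 0 := by
    rw [← hat_mul F χ (inv_T F), mul_T F (inv_Orb _ _), hat_smul, hev]
    push_cast
    rw [zero_smul]
  rw [mul_sub, mul_one, mul_smul_comm, e1, smul_zero, sub_zero, hev] at h1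
  have h2 := congrFun (congrFun h1 0) 0
  rw [Matrix.smul_apply, Matrix.sub_apply, Matrix.smul_apply, Matrix.one_apply_eq,
    Matrix.trace_fin_two, ← h00, smul_eq_mul, smul_eq_mul] at h2
  have h3 : hat F χ (T F) 0 0 = 1 := by
    have h4 : hat F χ (Orb G u v) 0 0 * (1 - hat F χ (T F) 0 0) = 0 := by
      push_cast at h2
      linear_combination -h2
    rcases mul_eq_zero.1 h4 with h5 | h5
    · exact absurd h5 h0
    · linear_combination -h5
  rw [hat] at h3
  obtain ⟨K, hK⟩ := H75.D2pFour.li' χ hχ (fun t => T F (F.e (0, 0)) (F.e (0, t))) 1 (by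
    rw [h3]; norm_num)
  have hK0 := hK 0
  simp only [T_self, if_true] at hK0
  have hz : ∀ t, t ≠ 0 → T F (F.e (0, 0)) (F.e (0, t)) = 0 := by
    intro t ht
    have := hK t
    simp only [if_neg ht] at this
    linarith
  have hz1 : ∀ t, t ≠ 0 → T F (F.e (1, 0)) (F.e (1, t)) = 0 := by
    intro t ht
    have := hcf t ht
    rw [cf, hz t ht, zero_add] at this
    exact this
  obtain ⟨-, -, -, -, -, -, -, -, -, -, -, j, t, ht, hjt⟩ := exists_pairs F χ hχ hκ htr hcf hG
  fin_cases j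
  · exact hjt (hz t ht)
  · exact hjt (hz1 t ht)

include hχ hκ htr hcf hG in
/-- the final description of `T` -/
theorem structure_T : ∃ (r : ℚ) (a : ℕ), 0 < a ∧ 0 < r ∧ r < 1 ∧ p = 2 * a ^ 2 + 2 * a + 1 ∧
    (∀ u v, u ≠ v → (T F u v = r ∨ T F u v = -r)) ∧
    (∀ u v w, u ≠ v → u ≠ w → T F u v = T F u w → Orb G u v u w = 1) ∧
    (∀ u v, u ≠ v → T F u v = r → rs F (Orb G u v) = (a : ℚ) * (2 * a + 1)) ∧
    (∀ u v, u ≠ v → T F u v = -r → rs F (Orb G u v) = ((a : ℚ) + 1) * (2 * a + 1)) := by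
  haveI : NeZero p := ⟨hp.out.ne_zero⟩
  obtain ⟨u0, v0, u1, v1, r, hne0, hne1, hr0, hr1, hT0, hT1, -⟩ := exists_pairs F χ hχ hκ htr hcf hG
  have hpos : ∀ u v, u ≠ v → 0 < T F u v → Orb G u1 v1 u v = 1 := by
    intro u v huv h
    rcases Orb_or (G := G) u1 v1 u v with h1 | h1
    · have := S1 F χ hχ hκ htr hne1 huv h1
      rw [hT1] at this
      have := mul_pos hr0 h
      linarith
    · exact h1
  have hneg : ∀ u v, u ≠ v → T F u v < 0 → Orb G u0 v0 u v = 1 := by
    intro u v huv h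
    rcases Orb_or (G := G) u0 v0 u v with h1 | h1
    · have h2 := S1 F χ hχ hκ htr hne0 huv h1
      rw [hT0] at h2
      have := mul_pos hr0 (neg_pos.2 h)
      linarith
    · exact h1
  have hval : ∀ u v, u ≠ v → (T F u v = r ∧ Orb G u1 v1 u v = 1 ∧ Orb G u0 v0 u v = 0) ∨
      (T F u v = -r ∧ Orb G u1 v1 u v = 0 ∧ Orb G u0 v0 u v = 1) := by
    intro u v huv
    rcases lt_trichotomy (T F u v) 0 with h | h | h
    · right
      have h1 := hneg u v huv h
      have h2 := const_on (inv_T F) h1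
      refine ⟨h2.trans hT0, ?_, h1⟩
      rcases Orb_or (G := G) u1 v1 u v with h3 | h3
      · exact h3
      · have h4 := const_on (inv_T F) h3
        rw [h4, hT1] at h; linarith
    · exact absurd h (T_ne_zero F χ hχ hκ htr hcf hG huv)
    · left
      have h1 := hpos u v huv h
      have h2 := const_on (inv_T F) h1
      refine ⟨h2.trans hT1, h1, ?_⟩
      rcases Orb_or (G := G) u0 v0 u v with h3 | h3
      · exact h3
      · have h4 := const_on (inv_T F) h3
        rw [h4, hT0] at h; linarith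
  -- counting
  set nA := rs F (Orb G u1 v1) with hnA
  set nB := rs F (Orb G u0 v0) with hnB
  have hrowA := rowsum F (inv_Orb (G := G) u1 v1) (F.e (0, 0))
  have hrowB := rowsum F (inv_Orb (G := G) u0 v0) (F.e (0, 0))
  rw [← hnA] at hrowA
  rw [← hnB] at hrowB
  set o := F.e (0, 0) with ho
  have c1 : 0 = 1 + r * nA - r * nB := by
    have h1 : ∀ v, T F o v = (if v = o then 1 else 0) + r * Orb G u1 v1 o v - r * Orb G u0 v0 o v := by
      intro v
      by_cases h : v = o
      · rw [h, if_pos rfl, T_self, Orb_diag hne1, Orb_diag hne0]; ring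
      · rw [if_neg h]
        rcases hval o v (Ne.symm h) with ⟨h2, h3, h4⟩ | ⟨h2, h3, h4⟩ <;> rw [h2, h3, h4] <;> ring
    have h2 := sum_T F o
    rw [Finset.sum_congr rfl fun v _ => h1 v, Finset.sum_sub_distrib, Finset.sum_add_distrib,
      ← Finset.mul_sum, ← Finset.mul_sum, hrowA, hrowB] at h2
    simp only [Finset.sum_ite_eq', Finset.mem_univ, if_true] at h2
    exact h2.symm
  have c2 : 2 = 1 + r ^ 2 * nA + r ^ 2 * nB := by
    have h1 : ∀ v, T F o v ^ 2 = (if v = o then 1 else 0) + r ^ 2 * Orb G u1 v1 o v +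
        r ^ 2 * Orb G u0 v0 o v := by
      intro v
      by_cases h : v = o
      · rw [h, if_pos rfl, T_self, Orb_diag hne1, Orb_diag hne0]; ring
      · rw [if_neg h]
        rcases hval o v (Ne.symm h) with ⟨h2, h3, h4⟩ | ⟨h2, h3, h4⟩ <;> rw [h2, h3, h4] <;> ring
    have h2 := kap_eq F o
    rw [hκ, Finset.sum_congr rfl fun v _ => h1 v, Finset.sum_add_distrib, Finset.sum_add_distrib,
      ← Finset.mul_sum, ← Finset.mul_sum, hrowA, hrowB] at h2
    simp only [Finset.sum_ite_eq', Finset.mem_univ, if_true] at h2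
    exact h2
  have c3 : (2 * p : ℚ) = 1 + nA + nB := by
    have h1 : ∀ v, (1 : ℚ) = (if v = o then 1 else 0) + Orb G u1 v1 o v + Orb G u0 v0 o v := by
      intro v
      by_cases h : v = o
      · rw [h, if_pos rfl, Orb_diag hne1, Orb_diag hne0]; ring
      · rw [if_neg h]
        rcases hval o v (Ne.symm h) with ⟨h2, h3, h4⟩ | ⟨h2, h3, h4⟩ <;> rw [h3, h4] <;> ring
    have h2 : ∑ v : α, (1 : ℚ) = 2 * p := by
      rw [Finset.sum_const, Finset.card_univ, card_eq F, nsmul_eq_mul]; push_cast; ring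
    rw [← h2, Finset.sum_congr rfl fun v _ => h1 v, Finset.sum_add_distrib, Finset.sum_add_distrib,
      hrowA, hrowB]
    simp only [Finset.sum_ite_eq', Finset.mem_univ, if_true]
  -- integrality
  obtain ⟨z, hz⟩ : ∃ z : ℤ, r * nA = z := by
    have h1 : ev F (Orb G u1 v1) = nA * r := by rw [ev_Orb, hT1]
    have h2 : ∀ w z : α, ∃ k : ℤ, Orb G u1 v1 w z = k := fun w z => by
      rcases Orb_or (G := G) u1 v1 w z with h | h
      · exact ⟨0, by rw [h]; norm_num⟩
      · exact ⟨1, by rw [h]; norm_num⟩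
    choose f hf using h2
    refine ⟨∑ i, f (F.e (0, 0)) (F.e (0, i)) - ∑ i, f (F.e (0, 0)) (F.e (1, i)), ?_⟩
    rw [mul_comm, ← h1, ev]
    simp only [hf]
    push_cast; ring
  have hnA1 : 1 ≤ nA := rs_Orb_pos F u1 v1
  have hz0 : 0 < z := by
    have : (0 : ℚ) < z := by rw [← hz]; positivity
    exact_mod_cast this
  obtain ⟨a, ha⟩ := Int.eq_ofNat_of_zero_le hz0.le
  have haQ : (z : ℚ) = (a : ℚ) := by rw [ha]; push_cast; ring
  have ha0 : 0 < a := by
    rw [ha] at hz0; exact_mod_cast hz0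
  rw [haQ] at hz
  have e1 : r * nB = a + 1 := by linarith
  have e2 : r * (2 * a + 1) = 1 := by
    have : r * (2 * a + 1) = r * (r * nA) + r * (r * nB) := by rw [hz, e1]; ring
    rw [this]; linarith
  have e3 : nA = a * (2 * a + 1) := by
    calc nA = (r * nA) * (2 * a + 1) := by rw [mul_right_comm, e2, one_mul]
      _ = _ := by rw [hz]
  have e4 : nB = (a + 1) * (2 * a + 1) := by
    calc nB = (r * nB) * (2 * a + 1) := by rw [mul_right_comm, e2, one_mul]
      _ = _ := by rw [e1]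
  have e5 : p = 2 * a ^ 2 + 2 * a + 1 := by
    have : (p : ℚ) = 2 * a ^ 2 + 2 * a + 1 := by
      rw [e3, e4] at c3
      linarith
    exact_mod_cast this
  have hOrbEq : ∀ {u v u' v' : α}, Orb G u' v' u v = 1 → rs F (Orb G u v) = rs F (Orb G u' v') := by
    intro u v u' v' h
    have : Orb G u v = Orb G u' v' := by
      ext w y
      rcases Orb_or (G := G) u v w y with h1 | h1
      · rcases Orb_or (G := G) u' v' w y with h2 | h2
        · rw [h1, h2]
        · obtain ⟨g, hg, h3, h4⟩ := Orb_eq_one.1 h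
          obtain ⟨k, hk, h5, h6⟩ := Orb_eq_one.1 h2
          have : Orb G u v w y = 1 := Orb_eq_one.2 ⟨k * g⁻¹, G.mul_mem hk (G.inv_mem hg), by
            rw [Equiv.Perm.mul_apply, ← h3]; simp [h5], by rw [Equiv.Perm.mul_apply, ← h4]; simp [h6]⟩
          rw [this, h2]
      · obtain ⟨g, hg, h3, h4⟩ := Orb_eq_one.1 h
        obtain ⟨k, hk, h5, h6⟩ := Orb_eq_one.1 h1
        have : Orb G u' v' w y = 1 := Orb_eq_one.2 ⟨k * g, G.mul_mem hk hg, by
          rw [Equiv.Perm.mul_apply, h3, h5], by rw [Equiv.Perm.mul_apply, h4, h6]⟩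
        rw [h1, this]
    rw [this]
  refine ⟨r, a, ha0, hr0, hr1, e5, ?_, ?_, ?_, ?_⟩
  · intro u v huv
    rcases hval u v huv with ⟨h, -, -⟩ | ⟨h, -, -⟩
    · exact Or.inl h
    · exact Or.inr h
  · intro u v w huv huw h
    rcases hval u v huv with ⟨h1, h2, h3⟩ | ⟨h1, h2, h3⟩
    · rcases hval u w huw with ⟨h4, h5, h6⟩ | ⟨h4, h5, h6⟩
      · exact Orb_two h2 h5
      · rw [h1, h4] at h; linarith
    · rcases hval u w huw with ⟨h4, h5, h6⟩ | ⟨h4, h5, h6⟩
      · rw [h1, h4] at h; linarith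
      · exact Orb_two h3 h6
  · intro u v huv h
    rcases hval u v huv with ⟨h1, h2, h3⟩ | ⟨h1, h2, h3⟩
    · rw [hOrbEq h2, ← hnA, e3]
    · rw [h1] at h; linarith
  · intro u v huv h
    rcases hval u v huv with ⟨h1, h2, h3⟩ | ⟨h1, h2, h3⟩
    · rw [h1] at h; linarith
    · rw [hOrbEq h3, ← hnB, e4]

end one

/-- the dichotomy -/
theorem dichotomy (hG : MulAction.IsPreprimitive G α) :
    MulAction.IsMultiplyPretransitive G α 2 ∨
    ∃ (r : ℚ) (a : ℕ), 0 < a ∧ 0 < r ∧ r < 1 ∧ p = 2 * a ^ 2 + 2 * a + 1 ∧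
    (∀ u v, u ≠ v → (T F u v = r ∨ T F u v = -r)) ∧
    (∀ u v w, u ≠ v → u ≠ w → T F u v = T F u w → Orb G u v u w = 1) ∧
    (∀ u v, u ≠ v → T F u v = r → rs F (Orb G u v) = (a : ℚ) * (2 * a + 1)) ∧
    (∀ u v, u ≠ v → T F u v = -r → rs F (Orb G u v) = ((a : ℚ) + 1) * (2 * a + 1)) := by
  obtain ⟨χ, hχ⟩ := H75.D2pFour.exists_char (p := p)
  obtain ⟨m, hm, h1, h2, h3⟩ := cases_m F χ hχ
  rcases hm with rfl | rfl | rfl
  · exact absurd (no_zero F hG h1 h3) id
  · right
    have hp0 : (p : ℚ) ≠ 0 := by exact_mod_cast hp.out.ne_zero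
    have hκ : kap F = 2 := by
      have : kap F * p = 2 * p := by linarith
      exact mul_right_cancel₀ hp0 this
    rw [hκ] at h2
    simp only [hκ] at h3
    exact structure_T F χ hχ hκ (by rw [h2]; norm_num) (fun t ht => by rw [h3 t ht]; norm_num) hG
  · exact Or.inl (two_transitive F h1)

end H75.D2p
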