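import Mathlib
import Cfsg.Agent.Lib.H75.D2pFinal

set_option autoImplicit false
set_option linter.all false

namespace H75.D2p

open Matrix Pointwise Equiv.Perm

variable {α : Type*} [Fintype α] [DecidableEq α]

theorem exists_frame {p : ℕ} [hp : Fact p.Prime] (hα : Fintype.card α = 2 * p) (G : Subgroup (Equiv.Perm α))
    (hG : MulAction.IsPreprimitive G α) :
    MulAction.IsMultiplyPretransitive G α 2 ∨ Nonempty (Frame G p) := by
  classical
  haveI : NeZero p := ⟨hp.out.ne_zero⟩
  haveI : Fact (1 < p) := ⟨hp.out.one_lt⟩
  haveI := hG.toIsPretransitive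
  have hne : Nonempty α := by
    apply Fintype.card_pos_iff.1
    rw [hα]; exact Nat.mul_pos two_pos hp.out.pos
  obtain ⟨a⟩ := hne
  have hdvd : p ∣ Nat.card G := by
    have h1 := MulAction.index_stabilizer_of_transitive G a
    rw [Nat.card_eq_fintype_card, hα] at h1
    exact (Dvd.intro_left 2 h1.symm).trans (Subgroup.index_dvd_card _)
  obtain ⟨⟨x, hxG⟩, hx⟩ := exists_prime_orderOf_dvd_card' p hdvd
  rw [Subgroup.orderOf_mk] at hx
  obtain ⟨n, hn⟩ := Equiv.Perm.cycleType_prime_order (σ := x) (by rw [hx]; exact hp.out)
  rw [hx] at hn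
  have hsum := Equiv.Perm.sum_cycleType x
  rw [hn, Multiset.sum_replicate, smul_eq_mul] at hsum
  have hle : x.support.card ≤ 2 * p := hα ▸ Finset.card_le_univ _
  have hn2 : n + 1 ≤ 2 := by
    rw [← hsum] at hle
    exact Nat.le_of_mul_le_mul_right hle hp.out.pos
  rcases Nat.eq_zero_or_pos n with hn0 | hn0
  · left
    subst hn0
    have hcyc : x.IsCycle := by
      rw [← Equiv.Perm.card_cycleType_eq_one, hn]; simp
    have hs : x.support.card = p := by rw [← hsum]; ring
    have h1 := Equiv.Perm.isPretransitive_of_isCycle_mem hcyc hxG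
    refine MulAction.IsPreprimitive.is_two_pretransitive hG (s := (x.support : Set α)ᶜ) (n := p - 1)
      ?_ ?_ h1
    · rw [← Finset.coe_compl, Set.ncard_coe_finset, Finset.card_compl, hα, hs]
      have := hp.out.pos
      omega
    · rw [Nat.card_eq_fintype_card, hα]
      have := hp.out.two_le
      omega
  · right
    have hn1 : n = 1 := by omega
    subst hn1
    have hs : x.support = Finset.univ := by
      rw [← Finset.card_eq_iff_eq_univ, ← hsum, hα]
    have hfix : ∀ v, x v ≠ v := by
      intro v
      have : v ∈ x.support := by rw [hs]; exact Finset.mem_univ v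
      exact Equiv.Perm.mem_support.1 this
    have hfix2 : ∀ k : ℕ, ¬ p ∣ k → ∀ v, (x ^ k) v ≠ v := by
      intro k hk v hv
      have hco : Nat.Coprime k (orderOf x) := by
        rw [hx]; exact ((Nat.Prime.coprime_iff_not_dvd hp.out).2 hk).symm
      obtain ⟨m, hm⟩ := exists_pow_eq_self_of_coprime hco
      apply hfix v
      have h2 : ∀ m : ℕ, ((x ^ k) ^ m) v = v := by
        intro m
        induction m with
        | zero => simp
        | succ m ih => rw [pow_succ, Equiv.Perm.mul_apply, hv, ih]
      have h3 := h2 m
      rw [hm] at h3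
      exact h3
    -- second base point
    obtain ⟨b, hb⟩ : ∃ b, ∀ k : ℕ, (x ^ k) a ≠ b := by
      by_contra hcon
      push Not at hcon
      have h1 : Fintype.card α ≤ Fintype.card (Fin p) := by
        apply Fintype.card_le_of_surjective (fun k : Fin p => (x ^ k.val) a)
        intro c
        obtain ⟨k, hk⟩ := hcon c
        refine ⟨⟨k % p, Nat.mod_lt _ hp.out.pos⟩, ?_⟩
        show (x ^ (k % p)) a = c
        rw [← hx, pow_mod_orderOf, hk]
      rw [hα, Fintype.card_fin] at h1
      have := hp.out.pos
      omega
    let w : Fin 2 → α := fun j => if j = 0 then a else b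
    let φ : Fin 2 × ZMod p → α := fun q => (x ^ q.2.val) (w q.1)
    have hw0 : w 0 = a := if_pos rfl
    have hw1 : w 1 = b := if_neg (by decide)
    have hmod : ∀ k l : ℕ, k % p = l % p → x ^ k = x ^ l := by
      intro k l h
      rw [← pow_mod_orderOf x k, ← pow_mod_orderOf x l, hx, h]
    have hsame : ∀ v (k l : ℕ), k < p → l < p → (x ^ k) v = (x ^ l) v → k = l := by
      intro v k l hk hl h
      wlog hkl : k ≤ l generalizing k l with H
      · exact (H l k hl hk h.symm (by omega)).symm
      by_contra hne
      have h1 : (x ^ (l - k)) v = v := by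
        have h2 : x ^ l = x ^ k * x ^ (l - k) := by rw [← pow_add]; congr 1; omega
        rw [h2, Equiv.Perm.mul_apply] at h
        exact ((x ^ k).injective h).symm
      exact hfix2 (l - k) (fun hd => by
        have := Nat.le_of_dvd (by omega) hd
        omega) v h1
    have hdiff : ∀ (k l : ℕ), l < p → (x ^ k) a ≠ (x ^ l) b := by
      intro k l hl h
      apply hb (k + (p - l))
      have h1 : x ^ (p - l) * x ^ l = 1 := by
        rw [← pow_add, Nat.sub_add_cancel hl.le, ← hx, pow_orderOf_eq_one]
      rw [add_comm, pow_add, Equiv.Perm.mul_apply, h, ← Equiv.Perm.mul_apply, h1,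
        Equiv.Perm.one_apply]
    have hinj : Function.Injective φ := by
      rintro ⟨j, i⟩ ⟨k, l⟩ h
      change (x ^ i.val) (w j) = (x ^ l.val) (w k) at h
      fin_cases j <;> fin_cases k
      · have := hsame _ _ _ (ZMod.val_lt i) (ZMod.val_lt l) h
        rw [ZMod.val_injective p this]
      · exfalso
        change (x ^ i.val) (w 0) = (x ^ l.val) (w 1) at h
        rw [hw0, hw1] at h
        exact hdiff _ _ (ZMod.val_lt l) h
      · exfalso
        change (x ^ i.val) (w 1) = (x ^ l.val) (w 0) at h
        rw [hw0, hw1] at h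
        exact hdiff _ _ (ZMod.val_lt i) h.symm
      · have := hsame _ _ _ (ZMod.val_lt i) (ZMod.val_lt l) h
        rw [ZMod.val_injective p this]
    have hbij : Function.Bijective φ := by
      rw [Fintype.bijective_iff_injective_and_card]
      refine ⟨hinj, ?_⟩
      rw [Fintype.card_prod, Fintype.card_fin, ZMod.card, hα]
    refine ⟨⟨x, hxG, Equiv.ofBijective φ hbij, ?_, ?_⟩⟩
    · intro j i
      show x ((x ^ i.val) (w j)) = (x ^ (i + 1).val) (w j)
      rw [← Equiv.Perm.mul_apply, ← pow_succ']
      congr 1
      apply hmod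
      rw [ZMod.val_add, ZMod.val_one, Nat.mod_mod]
    · intro u v
      obtain ⟨g, hg⟩ := MulAction.exists_smul_eq G u v
      exact ⟨g.1, g.2, hg⟩

/-- Wielandt's theorem on primitive groups of degree `2p` -/
theorem wielandt {p : ℕ} (hp : p.Prime) (hα : Fintype.card α = 2 * p) (G : Subgroup (Equiv.Perm α))
    (hG : MulAction.IsPreprimitive G α) (a₀ : α) :
    MulAction.IsMultiplyPretransitive G α 2 ∨
    (Nat.card (MulAction.orbitRel.Quotient (MulAction.stabilizer G a₀) α) = 3 ∧
      ∃ a : ℕ, 0 < a ∧ p = 2 * a ^ 2 + 2 * a + 1 ∧ ∀ b : α, b ≠ a₀ →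
        Nat.card (MulAction.orbit (MulAction.stabilizer G a₀) b) = a * (2 * a + 1) ∨
        Nat.card (MulAction.orbit (MulAction.stabilizer G a₀) b) = (a + 1) * (2 * a + 1)) := by
  classical
  haveI : Fact p.Prime := ⟨hp⟩
  rcases exists_frame hα G hG with h | ⟨⟨F⟩⟩
  · exact Or.inl h
  rcases dichotomy F hG with h | ⟨r, a, ha, hr0, hr1, hpa, hval, horb, hrA, hrB⟩
  · exact Or.inl h
  right
  have hiff : ∀ b c, Orb G a₀ b a₀ c = 1 ↔ c ∈ MulAction.orbit (MulAction.stabilizer G a₀) b := by
    intro b c
    rw [Orb_eq_one]
    constructor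
    · rintro ⟨g, hg, h1, h2⟩
      exact ⟨⟨⟨g, hg⟩, h1⟩, h2⟩
    · rintro ⟨⟨⟨g, hg⟩, h1⟩, h2⟩
      exact ⟨g, hg, h1, h2⟩
  have hcard : ∀ b, (Nat.card (MulAction.orbit (MulAction.stabilizer G a₀) b) : ℚ) =
      rs F (Orb G a₀ b) := by
    intro b
    rw [← rowsum F (inv_Orb a₀ b) a₀]
    have h1 : ∀ v, Orb G a₀ b a₀ v = if v ∈ MulAction.orbit (MulAction.stabilizer G a₀) b then 1 else 0 := by
      intro v
      rcases Orb_or (G := G) a₀ b a₀ v with h | h
      · rw [h, if_neg]
        rw [← hiff, h]; norm_num
      · rw [h, if_pos ((hiff _ _).1 h)]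
    rw [Finset.sum_congr rfl fun v _ => h1 v, Finset.sum_boole, Nat.card_eq_fintype_card,
      Fintype.card_subtype]
  constructor
  · -- rank three
    let f : MulAction.orbitRel.Quotient (MulAction.stabilizer G a₀) α → ℚ :=
      Quotient.lift (fun b => T F a₀ b) (by
        intro b c hbc
        have h1 : Orb G a₀ c a₀ b = 1 := (hiff c b).2 hbc
        exact const_on (inv_T F) h1)
    have hf : ∀ b, f (Quotient.mk'' b) = T F a₀ b := fun b => rfl
    have hinj : Function.Injective f := by
      intro x y h
      induction x using Quotient.inductionOn' with | _ b =>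
      induction y using Quotient.inductionOn' with | _ c =>
      rw [hf, hf] at h
      apply Quotient.sound'
      change b ∈ MulAction.orbit (MulAction.stabilizer G a₀) c
      rw [← hiff]
      by_cases hb : a₀ = b
      · by_cases hc : a₀ = c
        · rw [← hb, ← hc]; exact Orb_self _ _
        · exfalso
          rw [← hb, T_self] at h
          rcases hval a₀ c hc with h1 | h1 <;> rw [h1] at h <;> linarith
      · by_cases hc : a₀ = c
        · exfalso
          rw [← hc, T_self] at h
          rcases hval a₀ b hb with h1 | h1 <;> rw [h1] at h <;> linarith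
        · exact horb a₀ c b hc hb h.symm
    have hrange : Set.range f = {1, r, -r} := by
      ext q
      constructor
      · rintro ⟨x, rfl⟩
        induction x using Quotient.inductionOn' with | _ b =>
        rw [hf]
        by_cases hb : a₀ = b
        · rw [← hb, T_self]; simp
        · rcases hval a₀ b hb with h1 | h1 <;> rw [h1] <;> simp
      · intro hq
        have hsum := sum_T F a₀
        have hκ : ∃ b, a₀ ≠ b ∧ T F a₀ b < 0 := by
          by_contra hcon
          push Not at hcon
          have h1 := Finset.single_le_sum (f := fun v => T F a₀ v) (fun v _ => by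
            by_cases hv : a₀ = v
            · rw [← hv, T_self]; norm_num
            · exact hcon v hv) (Finset.mem_univ a₀)
          rw [hsum, T_self] at h1
          linarith
        obtain ⟨b, hb, hTb⟩ := hκ
        have hTb' : T F a₀ b = -r := by
          rcases hval a₀ b hb with h1 | h1
          · rw [h1] at hTb; linarith
          · exact h1
        simp only [Set.mem_insert_iff, Set.mem_singleton_iff] at hq
        rcases hq with rfl | rfl | rfl
        · exact ⟨Quotient.mk'' a₀, T_self F a₀⟩
        · -- a point with value `r`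
          by_contra hcon
          have hall : ∀ c, a₀ ≠ c → T F a₀ c = -q := by
            intro c hc
            rcases hval a₀ c hc with h1 | h1
            · exact absurd ⟨Quotient.mk'' c, h1⟩ hcon
            · exact h1
          have h2 := hrB a₀ b hb hTb'
          have h3 : rs F (Orb G a₀ b) = 2 * p - 1 := by
            rw [← rowsum F (inv_Orb a₀ b) a₀]
            have h4 : ∀ v, Orb G a₀ b a₀ v = 1 - if v = a₀ then 1 else 0 := by
              intro v
              by_cases hv : v = a₀
              · rw [hv, Orb_diag hb, if_pos rfl]; norm_num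
              · rw [if_neg hv, horb a₀ b v hb (Ne.symm hv) (by rw [hTb', hall v (Ne.symm hv)])]
                norm_num
            rw [Finset.sum_congr rfl fun v _ => h4 v, Finset.sum_sub_distrib, Finset.sum_const,
              Finset.card_univ, hα, nsmul_eq_mul]
            simp only [Finset.sum_ite_eq', Finset.mem_univ, if_true]
            push_cast; ring
          rw [h3] at h2
          have h5 : (p : ℚ) = 2 * a ^ 2 + 2 * a + 1 := by exact_mod_cast hpa
          rw [h5] at h2
          have ha' : (1 : ℚ) ≤ a := by exact_mod_cast ha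
          nlinarith
        · exact ⟨Quotient.mk'' b, hTb'⟩
    have h1 : Nat.card (Set.range f) = 3 := by
      rw [hrange, Nat.card_coe_set_eq, Set.ncard_eq_toFinset_card']
      have h2 : (1 : ℚ) ≠ r := by linarith
      have h3 : (1 : ℚ) ≠ -r := by linarith
      have h4 : r ≠ -r := by linarith
      rw [Set.toFinset_insert, Set.toFinset_insert, Set.toFinset_singleton,
        Finset.card_insert_of_notMem (by simp [h2, h3]), Finset.card_insert_of_notMem (by simp [h4]),
        Finset.card_singleton]
    rw [← h1]
    exact Nat.card_congr (Equiv.ofInjective f hinj)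
  · refine ⟨a, ha, hpa, fun b hb => ?_⟩
    rcases hval a₀ b (Ne.symm hb) with h | h
    · left
      have h1 := hrA a₀ b (Ne.symm hb) h
      rw [← hcard] at h1
      exact_mod_cast h1
    · right
      have h1 := hrB a₀ b (Ne.symm hb) h
      rw [← hcard] at h1
      exact_mod_cast h1

end H75.D2p
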