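import Mathlib

set_option autoImplicit false
set_option linter.all false

/-! Sums of conjugates of a subgroup of an abelian group with operators (S4330). -/

namespace H75.FG

open Subgroup

variable {Γ V : Type*} [Group Γ] [CommGroup V] [MulDistribMulAction Γ V]

/-- the fixed points of a subgroup -/
def fx (Y : Subgroup Γ) : Subgroup V where
  carrier := {v | ∀ y ∈ Y, y • v = v}
  mul_mem' := fun {a b} ha hb y hy => by rw [smul_mul', ha y hy, hb y hy]
  one_mem' := fun y _ => smul_one y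
  inv_mem' := fun {a} ha y hy => by rw [smul_inv', ha y hy]

theorem mem_fx {Y : Subgroup Γ} {v : V} : v ∈ (fx Y : Subgroup V) ↔ ∀ y ∈ Y, y • v = v := Iff.rfl

theorem mem_fx_sup_zpowers {Y : Subgroup Γ} {a : Γ} {v : V} (h1 : v ∈ (fx Y : Subgroup V)) (h2 : a • v = v) :
    v ∈ (fx (Y ⊔ zpowers a) : Subgroup V) := by
  have h3 : Y ⊔ zpowers a ≤ MulAction.stabilizer Γ v := by
    refine sup_le (fun y hy => h1 y hy) ?_
    rw [zpowers_le]
    exact h2
  exact fun y hy => h3 hy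

theorem mem_fx_sup {Y Z : Subgroup Γ} {v : V} (h1 : v ∈ (fx Y : Subgroup V)) (h2 : v ∈ (fx Z : Subgroup V)) :
    v ∈ (fx (Y ⊔ Z) : Subgroup V) := by
  have h3 : Y ⊔ Z ≤ MulAction.stabilizer Γ v := sup_le (fun y hy => h1 y hy) (fun y hy => h2 y hy)
  exact fun y hy => h3 hy

/-- the product over the powers of an element of order `p` is fixed -/
theorem smul_prod_pow {p : ℕ} {x : Γ} (hx : x ^ p = 1) (v : V) :
    x • (∏ i ∈ Finset.range p, x ^ i • v) = ∏ i ∈ Finset.range p, x ^ i • v := by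
  rw [Finset.smul_prod']
  have h1 : ∀ i, x • x ^ i • v = x ^ (i + 1) • v := fun i => by rw [smul_smul, ← pow_succ']
  simp only [h1]
  have h2 := Finset.prod_range_succ (fun i => x ^ i • v) p
  have h3 := Finset.prod_range_succ' (fun i => x ^ i • v) p
  rw [h2, hx, pow_zero, one_smul] at h3
  exact (mul_right_cancel h3).symm

theorem fpf {p : ℕ} [hp : Fact p.Prime] {a b : Γ} (hab : Commute a b) (ha : a ^ p = 1) (hb : b ^ p = 1)
    (U : Subgroup V) (hUa : ∀ u ∈ U, a • u ∈ U) (hUb : ∀ u ∈ U, b • u ∈ U)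
    (h1 : ∀ j, 0 < j → j < p → ∀ u ∈ U, a ^ j • u = u → u = 1)
    (h2 : ∀ i, ∀ u ∈ U, (a ^ i * b) • u = u → u = 1) : ∀ u ∈ U, u ^ p = 1 := by
  intro u hu
  have hap : ∀ (i : ℕ) (w : V), w ∈ U → a ^ i • w ∈ U := by
    intro i w hw
    induction i with
    | zero => simpa using hw
    | succ n ih => rw [pow_succ', mul_smul]; exact hUa _ ih
  have hbp : ∀ (i : ℕ) (w : V), w ∈ U → b ^ i • w ∈ U := by
    intro i w hw
    induction i with
    | zero => simpa using hw
    | succ n ih => rw [pow_succ', mul_smul]; exact hUb _ ih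
  have key : ∏ i ∈ Finset.range p, ∏ j ∈ Finset.range p, (a ^ i * b) ^ j • u = 1 := by
    refine Finset.prod_eq_one fun i _ => ?_
    have hpw : (a ^ i * b) ^ p = 1 := by
      rw [(hab.pow_left i).mul_pow, hb, mul_one, ← pow_mul, mul_comm i p, pow_mul, ha, one_pow]
    refine h2 i _ ?_ (smul_prod_pow hpw u)
    refine U.prod_mem fun j _ => ?_
    rw [(hab.pow_left i).mul_pow, ← pow_mul, mul_smul]
    exact hap _ _ (hbp _ _ hu)
  rw [Finset.prod_comm] at key
  have hne : 0 ∈ Finset.range p := Finset.mem_range.2 hp.out.pos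
  rw [← Finset.mul_prod_erase _ _ hne] at key
  have h3 : ∏ j ∈ (Finset.range p).erase 0, ∏ i ∈ Finset.range p, (a ^ i * b) ^ j • u = 1 := by
    refine Finset.prod_eq_one fun j hj => ?_
    rw [Finset.mem_erase, Finset.mem_range] at hj
    have h4 : ∀ i, (a ^ i * b) ^ j • u = (a ^ j) ^ i • (b ^ j • u) := by
      intro i
      rw [(hab.pow_left i).mul_pow, mul_smul, ← pow_mul, ← pow_mul, mul_comm i j]
    simp only [h4]
    refine h1 j (Nat.pos_of_ne_zero hj.1) hj.2 _ ?_ ?_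
    · refine U.prod_mem fun i _ => ?_
      rw [← pow_mul]
      exact hap _ _ (hbp _ _ hu)
    · exact smul_prod_pow (by rw [← pow_mul, mul_comm, pow_mul, ha, one_pow]) _
  rw [h3, mul_one] at key
  simpa using key

/-- a subgroup of an elementary abelian group, maximal with nontrivial fixed points -/
theorem exists_hyper [Finite V] {p : ℕ} [hp : Fact p.Prime] [Finite Γ] (hV : Nontrivial V) (hco : (Nat.card V).Coprime p)
    (X : Subgroup Γ) (hX : ∀ x ∈ X, ∀ y ∈ X, Commute x y) (hXp : ∀ x ∈ X, x ^ p = 1) :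
    ∃ Y : Subgroup Γ, Y ≤ X ∧ (fx Y : Subgroup V) ≠ ⊥ ∧
      ∀ a ∈ X, a ∉ Y → Y ⊔ zpowers a = X ∧ (fx (Y ⊔ zpowers a) : Subgroup V) = ⊥ := by
  classical
  have hne : ∃ Y : Subgroup Γ, Y ≤ X ∧ (fx Y : Subgroup V) ≠ ⊥ := by
    refine ⟨⊥, bot_le, fun h => ?_⟩
    obtain ⟨v, hv⟩ := exists_ne (1 : V)
    apply hv
    rw [← Subgroup.mem_bot, ← h]
    intro y hy
    rw [Subgroup.mem_bot.1 hy, one_smul]
  obtain ⟨Y, hY, hmax⟩ : ∃ Y : Subgroup Γ, (Y ≤ X ∧ (fx Y : Subgroup V) ≠ ⊥) ∧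
      ∀ Y' : Subgroup Γ, (Y' ≤ X ∧ (fx Y' : Subgroup V) ≠ ⊥) → Y ≤ Y' → Y = Y' := by
    obtain ⟨Y, hY⟩ := (Set.toFinite {Y : Subgroup Γ | Y ≤ X ∧ (fx Y : Subgroup V) ≠ ⊥}).exists_maximal hne
    exact ⟨Y, hY.1, fun Y' h1 h2 => le_antisymm h2 (hY.2 h1 h2)⟩
  refine ⟨Y, hY.1, hY.2, fun a ha haY => ?_⟩
  have hbot : ∀ a ∈ X, a ∉ Y → (fx (Y ⊔ zpowers a) : Subgroup V) = ⊥ := by
    intro a ha haY
    by_contra hcon
    have := hmax (Y ⊔ zpowers a) ⟨sup_le hY.1 (by rwa [zpowers_le]), hcon⟩ le_sup_left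
    apply haY
    rw [this]
    exact (le_sup_right : zpowers a ≤ _) (mem_zpowers a)
  refine ⟨?_, hbot a ha haY⟩
  by_contra hcon
  have hle : Y ⊔ zpowers a ≤ X := sup_le hY.1 (by rwa [zpowers_le])
  obtain ⟨b, hb, hbY⟩ := SetLike.exists_of_lt (lt_of_le_of_ne hle hcon)
  have hst : ∀ x ∈ X, ∀ u ∈ (fx Y : Subgroup V), x • u ∈ (fx Y : Subgroup V) := by
    intro x hx u hu y hy
    rw [smul_smul, hX y (hY.1 hy) x hx, mul_smul, hu y hy]
  have hone : ∀ u ∈ (fx Y : Subgroup V), u ^ p = 1 := by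
    refine fpf (hX a ha b hb) (hXp a ha) (hXp b hb) _ (hst a ha) (hst b hb) ?_ ?_
    · intro j hj0 hjp u hu hju
      have h1 : a ^ j ∉ Y := by
        intro h
        apply haY
        have hcop : j.Coprime p := ((Nat.Prime.coprime_iff_not_dvd hp.out).2 (Nat.not_dvd_of_pos_of_lt hj0 hjp)).symm
        have h2 : a ∈ zpowers (a ^ j) := by
          have h3 : j.Coprime (orderOf a) := hcop.coprime_dvd_right (orderOf_dvd_of_pow_eq_one (hXp a ha))
          obtain ⟨m, hm⟩ := exists_pow_eq_self_of_coprime h3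
          exact ⟨m, by simpa using hm⟩
        exact (zpowers_le.2 h) h2
      have h2 := hbot _ (X.pow_mem ha j) h1
      have h3 := mem_fx_sup_zpowers hu hju
      rw [h2] at h3
      exact Subgroup.mem_bot.1 h3
    · intro i u hu hiu
      have h1 : a ^ i * b ∉ Y := by
        intro h
        apply hbY
        have h2 : b = (a ^ i)⁻¹ * (a ^ i * b) := by group
        rw [h2]
        exact (Y ⊔ zpowers a).mul_mem ((Y ⊔ zpowers a).inv_mem ((le_sup_right : zpowers a ≤ _)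
          ((zpowers a).pow_mem (mem_zpowers a) i))) ((le_sup_left : Y ≤ _) h)
      have h2 := hbot _ (X.mul_mem (X.pow_mem ha i) hb) h1
      have h3 := mem_fx_sup_zpowers hu hiu
      rw [h2] at h3
      exact Subgroup.mem_bot.1 h3
  apply hY.2
  rw [eq_bot_iff]
  intro u hu
  rw [Subgroup.mem_bot]
  have h1 := hone u hu
  have h2 : orderOf u ∣ p := orderOf_dvd_of_pow_eq_one h1
  have h3 : orderOf u ∣ Nat.card V := orderOf_dvd_natCard u
  have h4 := Nat.dvd_gcd h3 h2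
  rw [hco] at h4
  exact orderOf_eq_one_iff.1 (Nat.dvd_one.1 h4)

end H75.FG
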