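import Mathlib
import Cfsg.Agent.Lib.H75.FG1

set_option autoImplicit false
set_option linter.all false

/-! The induced sum (S4330). -/

namespace H75.FG

open Subgroup

variable {Γ V : Type*} [Group Γ] [CommGroup V] [MulDistribMulAction Γ V]

/-- coset representatives -/
noncomputable def ot {H : Subgroup Γ} (c : Γ ⧸ H) : Γ := Quotient.out c

theorem ot_eq {H : Subgroup Γ} (c : Γ ⧸ H) : ((ot c : Γ) : Γ ⧸ H) = c := QuotientGroup.out_eq' c

theorem smul_eq_one' {g : Γ} {v : V} : g • v = 1 ↔ v = 1 := by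
  constructor
  · intro h
    have := congrArg (fun x => g⁻¹ • x) h
    simpa using this
  · rintro rfl
    exact smul_one g

/-- the sum map of the conjugates of `W` indexed by the cosets of `H` -/
noncomputable def Ind (H : Subgroup Γ) (W : Subgroup V) [Fintype (Γ ⧸ H)] : (Γ ⧸ H → W) →* V where
  toFun φ := ∏ c : Γ ⧸ H, ot c • (φ c : V)
  map_one' := by simp
  map_mul' φ ψ := by simp [Finset.prod_mul_distrib]

theorem Ind_apply (H : Subgroup Γ) (W : Subgroup V) [Fintype (Γ ⧸ H)] (φ : Γ ⧸ H → W) :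
    Ind H W φ = ∏ c : Γ ⧸ H, ot c • (φ c : V) := rfl

theorem out_rel (H : Subgroup Γ) (x : Γ) (c : Γ ⧸ H) : (ot (x • c))⁻¹ * x * ot c ∈ H := by
  have h1 : ((ot (x • c) : Γ) : Γ ⧸ H) = ((x * ot c : Γ) : Γ ⧸ H) := by
    have h2 : ((x * ot c : Γ) : Γ ⧸ H) = x • ((ot c : Γ) : Γ ⧸ H) := rfl
    rw [h2, ot_eq, ot_eq]
  have h2 := QuotientGroup.eq.1 h1
  rwa [← mul_assoc] at h2

theorem smul_Ind (H : Subgroup Γ) (W : Subgroup V) [Fintype (Γ ⧸ H)] (hst : ∀ h ∈ H, ∀ w ∈ W, h • w ∈ W)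
    (x : Γ) (φ : Γ ⧸ H → W) : ∃ φ' : Γ ⧸ H → W, x • Ind H W φ = Ind H W φ' ∧
      ∀ c, ot (x • c) • (φ' (x • c) : V) = x • ot c • (φ c : V) := by
  have key : ∀ d : Γ ⧸ H, (ot d)⁻¹ • x • ot (x⁻¹ • d) • (φ (x⁻¹ • d) : V) ∈ W := by
    intro d
    have h1 := out_rel H x (x⁻¹ • d)
    rw [smul_inv_smul] at h1
    have h2 := hst _ h1 _ (φ (x⁻¹ • d)).2
    rwa [mul_smul, mul_smul] at h2
  refine ⟨fun d => ⟨_, key d⟩, ?_, ?_⟩
  · rw [Ind_apply, Ind_apply, Finset.smul_prod']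
    refine Fintype.prod_equiv (MulAction.toPerm x) _ _ ?_
    intro c
    simp [smul_inv_smul, inv_smul_smul]
  · intro c
    simp [smul_inv_smul, inv_smul_smul]

theorem Ind_single [DecidableEq Γ] (H : Subgroup Γ) (W : Subgroup V) [Fintype (Γ ⧸ H)] [DecidableEq (Γ ⧸ H)] (c : Γ ⧸ H) (w : W) :
    Ind H W (Pi.mulSingle c w) = ot c • (w : V) := by
  rw [Ind_apply, Finset.prod_eq_single c]
  · rw [Pi.mulSingle_eq_same]
  · intro d _ hd
    rw [Pi.mulSingle_eq_of_ne hd]
    simp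
  · intro h
    exact absurd (Finset.mem_univ c) h

/-- irreducibility -/
def Irr (Γ V : Type*) [Group Γ] [CommGroup V] [MulDistribMulAction Γ V] : Prop :=
  ∀ U : Subgroup V, (∀ g : Γ, ∀ u ∈ U, g • u ∈ U) → U = ⊥ ∨ U = ⊤

theorem Ind_surj (hirr : Irr Γ V) (H : Subgroup Γ) (W : Subgroup V) [Fintype (Γ ⧸ H)]
    (hst : ∀ h ∈ H, ∀ w ∈ W, h • w ∈ W) (hW : W ≠ ⊥) : Function.Surjective (Ind H W) := by
  classical
  have h1 : ∀ g : Γ, ∀ u ∈ (Ind H W).range, g • u ∈ (Ind H W).range := by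
    rintro g _ ⟨φ, rfl⟩
    obtain ⟨φ', h, -⟩ := smul_Ind H W hst g φ
    exact ⟨φ', h.symm⟩
  rcases hirr _ h1 with h2 | h2
  · exfalso
    apply hW
    rw [eq_bot_iff]
    intro w hw
    rw [Subgroup.mem_bot]
    have h3 : Ind H W (Pi.mulSingle ((1 : Γ) : Γ ⧸ H) ⟨w, hw⟩) ∈ (Ind H W).range := ⟨_, rfl⟩
    rw [h2, Subgroup.mem_bot, Ind_single] at h3
    exact smul_eq_one'.1 h3
  · intro v
    have : v ∈ (Ind H W).range := by rw [h2]; exact Subgroup.mem_top v
    exact this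

/-- independence of the fixed points of the conjugates of `Y` -/
theorem Ind_inj [Finite Γ] [Finite V] {p : ℕ} [hp : Fact p.Prime] (hco : (Nat.card V).Coprime p) (X Y H : Subgroup Γ) (hYX : Y ≤ X)
    [Fintype (Γ ⧸ H)]
    (hX : ∀ x ∈ X, ∀ y ∈ X, Commute x y) (hXp : ∀ x ∈ X, x ^ p = 1)
    (hXn : ∀ g : Γ, ∀ x ∈ X, g * x * g⁻¹ ∈ X)
    (hfX : (fx X : Subgroup V) = ⊥)
    (hY : ∀ a ∈ X, a ∉ Y → Y ⊔ zpowers a = X)
    (hH : ∀ g : Γ, (∀ y ∈ Y, g * y * g⁻¹ ∈ Y) → g ∈ H) : Function.Injective (Ind H (fx Y : Subgroup V)) := by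
  classical
  letI : Fintype Γ := Fintype.ofFinite Γ
  rw [injective_iff_map_eq_one]
  intro φ hφ
  funext c
  apply Subtype.ext
  show (φ c : V) = 1
  set t : Γ := ot c with ht
  have h1 : ∏ y : Y, (t * y * t⁻¹) • Ind H (fx Y : Subgroup V) φ = 1 := by
    rw [hφ]; simp
  have h2 : ∀ v : V, (∏ y : Y, (t * y * t⁻¹) • v) = ∏ y : Y, (t * y * t⁻¹) • v := fun _ => rfl
  -- the norm of the other components
  have h3 : ∀ d, d ≠ c → ∏ y : Y, (t * y * t⁻¹) • (ot d • (φ d : V)) = 1 := by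
    intro d hd
    set s : Γ := ot d with hs
    have hu : ∀ v : V, (∀ y : Y, (s * y * s⁻¹) • v = v) → ∏ y : Y, (t * y * t⁻¹) • v = 1 := by
      intro v hv
      set n : V := ∏ y : Y, (t * y * t⁻¹) • v with hn
      have ha : ∀ y : Y, (t * y * t⁻¹) • n = n := by
        intro y
        rw [hn, Finset.smul_prod']
        refine Fintype.prod_equiv (Equiv.mulLeft y) _ _ ?_
        intro z
        rw [smul_smul]
        congr 1
        simp [mul_assoc]
      have hb : ∀ y : Y, (s * y * s⁻¹) • n = n := by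
        intro y
        rw [hn, Finset.smul_prod']
        refine Finset.prod_congr rfl fun z _ => ?_
        rw [smul_smul, (hX _ (hXn s y (hYX y.2)) _ (hXn t z (hYX z.2))).eq, mul_smul, hv y]
      -- an element of the conjugate by s outside the conjugate by t
      have hex : ∃ y : Y, t⁻¹ * (s * y * s⁻¹) * t ∉ Y := by
        by_contra hcon
        push Not at hcon
        apply hd
        have : t⁻¹ * s ∈ H := by
          apply hH
          intro y hy
          have := hcon ⟨y, hy⟩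
          have h5 : t⁻¹ * s * y * (t⁻¹ * s)⁻¹ = t⁻¹ * (s * y * s⁻¹) * t := by group
          rw [h5]; exact this
        have h6 : (t : Γ ⧸ H) = (s : Γ ⧸ H) := QuotientGroup.eq.2 this
        rw [ht, hs, ot_eq, ot_eq] at h6
        exact h6.symm
      obtain ⟨y, hy⟩ := hex
      set a := t⁻¹ * (s * y * s⁻¹) * t with haa
      have haX : a ∈ X := by
        have := hXn t⁻¹ _ (hXn s y (hYX y.2))
        rw [inv_inv] at this
        exact this
      have h7 := hY a haX hy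
      have h8 : t⁻¹ • n ∈ (fx (Y ⊔ zpowers a) : Subgroup V) := by
        apply mem_fx_sup_zpowers
        · intro z hz
          have := ha ⟨z, hz⟩
          have h9 : (z : Γ) • t⁻¹ • n = t⁻¹ • (t * z * t⁻¹) • n := by
            rw [smul_smul, smul_smul]; congr 1; group
          rw [h9, this]
        · have h9 : a • t⁻¹ • n = t⁻¹ • (s * y * s⁻¹) • n := by
            rw [smul_smul, smul_smul]; congr 1; rw [haa]; group
          rw [h9, hb y]
      rw [h7, hfX, Subgroup.mem_bot] at h8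
      exact smul_eq_one'.1 h8
    apply hu
    intro y
    have := (φ d).2 y y.2
    have h9 : (s * y * s⁻¹) • s • (φ d : V) = s • (y : Γ) • (φ d : V) := by
      rw [smul_smul, smul_smul]; congr 1; group
    rw [h9, this]
  have h4 : ∏ y : Y, (t * y * t⁻¹) • Ind H (fx Y : Subgroup V) φ = (t • (φ c : V)) ^ (Fintype.card Y) := by
    simp only [Ind_apply, Finset.smul_prod']
    rw [Finset.prod_comm, ← Finset.mul_prod_erase _ _ (Finset.mem_univ c)]
    rw [Finset.prod_eq_one (s := Finset.univ.erase c) (fun d hd => h3 d (Finset.ne_of_mem_erase hd)), mul_one]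
    have h5 : ∀ y : Y, (t * y * t⁻¹) • (t • (φ c : V)) = t • (φ c : V) := by
      intro y
      have := (φ c).2 y y.2
      have h9 : (t * y * t⁻¹) • t • (φ c : V) = t • (y : Γ) • (φ c : V) := by
        rw [smul_smul, smul_smul]; congr 1; group
      rw [h9, this]
    simp only [← ht]
    rw [Finset.prod_congr rfl (fun y _ => h5 y), Finset.prod_const, Finset.card_univ]
  rw [h1] at h4
  have h5 : orderOf (t • (φ c : V)) ∣ Fintype.card Y := orderOf_dvd_of_pow_eq_one h4.symm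
  have h6 : orderOf (t • (φ c : V)) ∣ Nat.card V := orderOf_dvd_natCard _
  have hYp : IsPGroup p Y := fun y => ⟨1, by
    rw [pow_one]; exact Subtype.ext (hXp y (hYX y.2))⟩
  obtain ⟨k, hk⟩ := IsPGroup.iff_card.1 hYp
  rw [← Nat.card_eq_fintype_card, hk] at h5
  have h7 := Nat.dvd_gcd h6 h5
  rw [Nat.Coprime.pow_right k hco] at h7
  exact smul_eq_one'.1 (orderOf_eq_one_iff.1 (Nat.dvd_one.1 h7))

end H75.FG
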