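import Mathlib
import Cfsg.Agent.Lib.H75.FG2

set_option autoImplicit false
set_option linter.all false

/-! A regular vector for a group of exponent p and class two (S4330). -/

namespace H75.FG

open Subgroup

theorem regE {E W : Type*} [Group E] [Finite E] [CommGroup W] [Finite W] [MulDistribMulAction E W] {p : ℕ}
    [hp : Fact p.Prime] (hp2 : p ≠ 2)
    (hexp : ∀ x : E, x ^ p = 1) (hcl : ∀ x y : E, x * y * x⁻¹ * y⁻¹ ∈ center E)
    (hZ : Nat.card (center E) = p) (hfix : (fx (center E) : Subgroup W) = ⊥) (hW : Nontrivial W)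
    (hco : (Nat.card W).Coprime p) : ∃ w : W, ∀ x : E, x • w = w → x = 1 := by
  classical
  obtain ⟨A, hA⟩ := (Set.toFinite {A : Subgroup E | center E ≤ A ∧ A ≤ centralizer (A : Set E)}).exists_maximal
    ⟨center E, le_refl _, center_le_centralizer _⟩
  have hZA : center E ≤ A := hA.1.1
  have hAc : ∀ x ∈ A, ∀ y ∈ A, Commute x y := fun x hx y hy => (mem_centralizer_iff.1 (hA.1.2 hy) x hx)
  have hAm : ∀ x : E, (∀ a ∈ A, a * x = x * a) → x ∈ A := by
    intro x hx
    have h1 : A ⊔ zpowers x ≤ centralizer (A : Set E) :=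
      sup_le hA.1.2 (by rw [zpowers_le]; exact mem_centralizer_iff.2 hx)
    have h2 : A ⊔ zpowers x ≤ centralizer ((A ⊔ zpowers x : Subgroup E) : Set E) := by
      refine sup_le (Subgroup.le_centralizer_iff.1 h1) ?_
      rw [Subgroup.le_centralizer_iff]
      refine sup_le ?_ ?_
      · rw [Subgroup.le_centralizer_iff, zpowers_le]
        exact mem_centralizer_iff.2 hx
      · rw [zpowers_le, mem_centralizer_iff]
        rintro _ ⟨n, rfl⟩
        exact ((Commute.refl x).zpow_left n).eq
    have h3 := hA.2 (y := A ⊔ zpowers x) ⟨hZA.trans le_sup_left, h2⟩ le_sup_left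
    exact h3 ((le_sup_right : zpowers x ≤ _) (mem_zpowers x))
  obtain ⟨B, hBA, hB1, hB⟩ := exists_hyper (V := W) hW hco A hAc (fun x _ => hexp x)
  have hzgen : ∀ z ∈ center E, z ≠ 1 → zpowers z = center E := by
    intro z hz hz1
    refine Subgroup.eq_of_le_of_card_ge (by rwa [zpowers_le]) ?_
    rw [hZ, Nat.card_zpowers, orderOf_eq_prime (hexp z) hz1]
  have hBZ : ∀ z ∈ B, z ∈ center E → z = 1 := by
    intro z hzB hz
    by_contra hz1
    apply hB1
    rw [eq_bot_iff, ← hfix]
    intro w hw y hy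
    rw [← hzgen z hz hz1] at hy
    exact hw y ((zpowers_le.2 hzB) hy)
  obtain ⟨z, hz, hz1⟩ : ∃ z ∈ center E, z ≠ 1 := by
    by_contra hcon
    push Not at hcon
    have : center E = ⊥ := by
      rw [eq_bot_iff]; intro z hz; exact Subgroup.mem_bot.2 (hcon z hz)
    rw [this, Nat.card_unique] at hZ
    exact hp.out.one_lt.ne hZ
  have hfA : (fx A : Subgroup W) = ⊥ := by
    rw [eq_bot_iff, ← hfix]
    intro w hw y hy
    exact hw y (hZA hy)
  have hAn : ∀ g : E, ∀ x ∈ A, g * x * g⁻¹ ∈ A := by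
    intro g x hx
    have : g * x * g⁻¹ = (g * x * g⁻¹ * x⁻¹) * x := by group
    rw [this]
    exact A.mul_mem (hZA (hcl g x)) hx
  have hzB : z ∉ B := fun h => hz1 (hBZ z h hz)
  have hBz : B ⊔ zpowers z = A := (hB z (hZA hz) hzB).1
  have hNB : ∀ g : E, (∀ y ∈ B, g * y * g⁻¹ ∈ B) → g ∈ A := by
    intro g hg
    apply hAm
    have h1 : ∀ y ∈ B, y * g = g * y := by
      intro y hy
      have h2 : g * y * g⁻¹ * y⁻¹ ∈ B := B.mul_mem (hg y hy) (B.inv_mem hy)
      have h3 := hBZ _ h2 (hcl g y)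
      rw [mul_inv_eq_one, mul_inv_eq_iff_eq_mul] at h3
      exact h3.symm
    intro a ha
    rw [← hBz] at ha
    have h4 : B ⊔ zpowers z ≤ centralizer {g} := by
      refine sup_le (fun y hy => mem_centralizer_singleton_iff.2 (h1 y hy)) ?_
      rw [zpowers_le]
      exact mem_centralizer_singleton_iff.2 (mem_center_iff.1 hz g).symm
    exact mem_centralizer_singleton_iff.1 (h4 ha)
  obtain ⟨w0, hw0, hw01⟩ : ∃ w ∈ (fx B : Subgroup W), w ≠ 1 := by
    by_contra hcon
    push Not at hcon
    apply hB1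
    rw [eq_bot_iff]; intro w hw; exact Subgroup.mem_bot.2 (hcon w hw)
  -- elements of A fixing w0
  have hfw : ∀ x ∈ A, x • w0 = w0 → x ∈ B := by
    intro x hx hxw
    by_contra hxB
    have h1 := mem_fx_sup_zpowers hw0 hxw
    rw [(hB x hx hxB).2, Subgroup.mem_bot] at h1
    exact hw01 h1
  by_cases hAT : A = ⊤
  · refine ⟨w0, fun x hx => ?_⟩
    refine hBZ x (hfw x (by rw [hAT]; trivial) hx) ?_
    rw [mem_center_iff]
    intro y
    exact (hAc y (by rw [hAT]; trivial) x (by rw [hAT]; trivial)).eq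
  · letI : Fintype (E ⧸ A) := Fintype.ofFinite _
    have hinj := Ind_inj (Γ := E) (V := W) hco A B A hBA hAc (fun x _ => hexp x) hAn hfA
      (fun a ha haB => (hB a ha haB).1) hNB
    have hst : ∀ h ∈ A, ∀ w ∈ (fx B : Subgroup W), h • w ∈ (fx B : Subgroup W) := by
      intro h hh w hw y hy
      rw [smul_smul, (hAc y (hBA hy) h hh).eq, mul_smul, hw y hy]
    set φ : E ⧸ A → (fx B : Subgroup W) := fun c => if c = ((1 : E) : E ⧸ A) then 1 else ⟨w0, hw0⟩ with hφ
    refine ⟨Ind A (fx B) φ, fun x hx => ?_⟩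
    obtain ⟨φ', h1, h2⟩ := smul_Ind A (fx B : Subgroup W) hst x φ
    rw [hx] at h1
    have h3 : φ' = φ := (hinj h1).symm
    rw [h3] at h2
    have hxA : x ∈ A := by
      have h4 := h2 ((1 : E) : E ⧸ A)
      have h5 : ((φ ((1 : E) : E ⧸ A) : (fx B : Subgroup W)) : W) = 1 := by simp [hφ]
      rw [h5, smul_one, smul_one, smul_eq_one'] at h4
      by_contra hxA
      have h6 : x • ((1 : E) : E ⧸ A) ≠ ((1 : E) : E ⧸ A) := by
        intro h
        apply hxA
        have h7 : ((x * 1 : E) : E ⧸ A) = ((1 : E) : E ⧸ A) := h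
        rw [mul_one] at h7
        have := QuotientGroup.eq.1 h7.symm
        simpa using this
      have h7 : φ (x • ((1 : E) : E ⧸ A)) = ⟨w0, hw0⟩ := by
        rw [hφ]; exact if_neg h6
      rw [h7] at h4
      exact hw01 h4
    have hmem : ∀ g : E, g ∉ A → g⁻¹ * x * g ∈ B := by
      intro g hg
      have h4 := h2 (g : E ⧸ A)
      have h5 : x • (g : E ⧸ A) = (g : E ⧸ A) := by
        show ((x * g : E) : E ⧸ A) = _
        rw [eq_comm, QuotientGroup.eq]
        have := hAn g⁻¹ x hxA
        rwa [inv_inv, mul_assoc] at this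
      have h6 : (g : E ⧸ A) ≠ ((1 : E) : E ⧸ A) := by
        intro h
        apply hg
        have := QuotientGroup.eq.1 h.symm
        simpa using this
      have h7 : φ (g : E ⧸ A) = ⟨w0, hw0⟩ := by
        rw [hφ]; exact if_neg h6
      rw [h5, h7] at h4
      set s := ot (g : E ⧸ A) with hs
      have h8 : s⁻¹ * g ∈ A := by
        have := ot_eq (g : E ⧸ A)
        exact QuotientGroup.eq.1 this
      have h9 : (s⁻¹ * x * s) • w0 = w0 := by
        have h10 : s • w0 = x • s • w0 := h4
        rw [mul_smul, mul_smul, ← h10, inv_smul_smul]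
      have h11 : s⁻¹ * x * s ∈ A := by
        have := hAn s⁻¹ x hxA
        rwa [inv_inv] at this
      have h12 := hfw _ h11 h9
      have h13 : g⁻¹ * x * g = s⁻¹ * x * s := by
        have h14 := (hAc _ h8 _ h11).eq
        calc g⁻¹ * x * g = (s⁻¹ * g)⁻¹ * ((s⁻¹ * x * s) * (s⁻¹ * g)) := by group
          _ = (s⁻¹ * g)⁻¹ * ((s⁻¹ * g) * (s⁻¹ * x * s)) := by rw [h14]
          _ = _ := by group
      rw [h13]; exact h12
    have hcomm : ∀ g : E, g ∉ A → x ∈ B ∧ g * x = x * g := by
      intro g hg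
      have hgg : g * g ∉ A := by
        intro h
        apply hg
        have hodd : Odd p := hp.out.odd_of_ne_two hp2
        obtain ⟨k, hk⟩ := hodd
        have h4 : g = (g * g) ^ (k + 1) := by
          rw [← pow_two, ← pow_mul]
          have : 2 * (k + 1) = p + 1 := by omega
          rw [this, pow_succ, hexp, one_mul]
        rw [h4]
        exact A.pow_mem h _
      have h4 := hmem g hg
      have h5 := hmem (g * g) hgg
      set b := g⁻¹ * x * g with hb
      have h6 : (g * g)⁻¹ * x * (g * g) = g⁻¹ * b * g := by rw [hb]; group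
      rw [h6] at h5
      have h7 : g⁻¹ * b * g⁻¹⁻¹ * b⁻¹ = 1 := by
        refine hBZ _ ?_ (hcl _ _)
        rw [inv_inv]
        exact B.mul_mem h5 (B.inv_mem h4)
      rw [inv_inv, mul_inv_eq_one] at h7
      have h8 : b * g = g * b := by
        calc b * g = g * (g⁻¹ * b * g) := by group
          _ = g * b := by rw [h7]
      have h9 : x = b := by
        have : x = g * b * g⁻¹ := by rw [hb]; group
        rw [this, ← h8]; group
      rw [h9]
      exact ⟨h4, h8.symm⟩
    obtain ⟨g0, hg0⟩ : ∃ g : E, g ∉ A := by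
      by_contra hcon
      push Not at hcon
      apply hAT
      rw [eq_top_iff]
      intro g _
      exact hcon g
    refine hBZ x (hcomm g0 hg0).1 ?_
    rw [mem_center_iff]
    intro g
    by_cases hg : g ∈ A
    · exact (hAc g hg x hxA).eq
    · exact (hcomm g hg).2

end H75.FG
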