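import Mathlib
import Cfsg.Agent.Lib.H75.FG3
import Cfsg.Agent.Lib.H65.SympType3
import Cfsg.Agent.Lib.H3.UniqueSub

set_option autoImplicit false
set_option linter.all false

/-! A regular vector for normal p-subgroups of primitive groups (S4330). -/

namespace H75.FG

open Subgroup

theorem cls {R : Type*} [Group R] [Finite R] {p : ℕ} [hp : Fact p.Prime] (hp2 : p ≠ 2) (hR : IsPGroup p R)
    (hs : ∀ A : Subgroup R, A.Characteristic → IsMulCommutative A → IsCyclic A) :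
    ∀ x y : R, x * y * x⁻¹ * y⁻¹ ∈ center R ∧ (x * y * x⁻¹ * y⁻¹) ^ p = 1 := by
  obtain ⟨E, T, hcomm, hsup, hE, hT⟩ := H65.SympType.main hR hs
  have hTc : IsCyclic T := by
    rcases hT with h | h
    · exact h
    · exact absurd h.1 hp2
  have hTT : ∀ x ∈ T, ∀ y ∈ T, x * y = y * x := by
    intro x hx y hy
    obtain ⟨g, hg⟩ := hTc.exists_generator
    obtain ⟨m, hm⟩ := mem_zpowers_iff.1 (hg ⟨x, hx⟩)
    obtain ⟨n, hn⟩ := mem_zpowers_iff.1 (hg ⟨y, hy⟩)
    have h1 : (⟨x, hx⟩ : T) * ⟨y, hy⟩ = ⟨y, hy⟩ * ⟨x, hx⟩ := by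
      rw [← hm, ← hn, ← zpow_add, ← zpow_add, add_comm]
    exact congrArg Subtype.val h1
  have hTn : T.Normal := by
    constructor
    intro t ht g
    have h1 : (⊤ : Subgroup R) ≤ normalizer (T : Set R) := by
      rw [← hsup]
      refine sup_le ?_ le_normalizer
      intro e he
      rw [mem_normalizer_iff]
      intro t
      constructor
      · intro ht
        rw [hcomm e he t ht, mul_inv_cancel_right]; exact ht
      · intro ht
        have := hcomm e he _ ht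
        have h2 : e * t * e⁻¹ = t := by
          have h3 : e * (e * t * e⁻¹) = (e * t * e⁻¹) * e := this
          rw [inv_mul_cancel_right] at h3
          exact mul_left_cancel h3
        rwa [h2] at ht
    exact (mem_normalizer_iff.1 (h1 (Subgroup.mem_top g)) t).1 ht
  have hmem : ∀ x : R, ∃ e ∈ E, ∃ t ∈ T, e * t = x := by
    intro x
    have : x ∈ E ⊔ T := by rw [hsup]; trivial
    exact Subgroup.mem_sup_of_normal_right.1 this
  intro x y
  obtain ⟨e, he, t, ht, rfl⟩ := hmem x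
  obtain ⟨e', he', t', ht', rfl⟩ := hmem y
  have h1 : e * t * (e' * t') * (e * t)⁻¹ * (e' * t')⁻¹ = e * e' * e⁻¹ * e'⁻¹ := by
    have a1 := hcomm e' he' t ht
    have a2 := hTT t ht t' ht'
    calc e * t * (e' * t') * (e * t)⁻¹ * (e' * t')⁻¹ = e * (t * e') * t' * t⁻¹ * e⁻¹ * t'⁻¹ * e'⁻¹ := by group
      _ = e * (e' * t) * t' * t⁻¹ * e⁻¹ * t'⁻¹ * e'⁻¹ := by rw [a1]
      _ = e * e' * (t * t') * t⁻¹ * e⁻¹ * t'⁻¹ * e'⁻¹ := by group
      _ = e * e' * (t' * t) * t⁻¹ * e⁻¹ * t'⁻¹ * e'⁻¹ := by rw [a2]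
      _ = e * e' * (t' * e⁻¹) * t'⁻¹ * e'⁻¹ := by group
      _ = e * e' * (e⁻¹ * t') * t'⁻¹ * e'⁻¹ := by rw [hcomm e⁻¹ (E.inv_mem he) t' ht']
      _ = _ := by group
  rw [h1]
  rcases hE with h | h
  · rw [h, Subgroup.mem_bot] at he he'
    subst he; subst he'
    simp [one_mem]
  · have h2 : (⟨e, he⟩ : E) * ⟨e', he'⟩ * (⟨e, he⟩ : E)⁻¹ * (⟨e', he'⟩ : E)⁻¹ ∈ center E := by
      rw [← h.1.2.2]
      exact Subgroup.commutator_mem_commutator (Subgroup.mem_top (⟨e, he⟩ : E)) (Subgroup.mem_top (⟨e', he'⟩ : E))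
    constructor
    · rw [mem_center_iff]
      intro g
      obtain ⟨f, hf, s, hs', rfl⟩ := hmem g
      have h3 := mem_center_iff.1 h2 ⟨f, hf⟩
      have h4 : f * (e * e' * e⁻¹ * e'⁻¹) = (e * e' * e⁻¹ * e'⁻¹) * f := congrArg Subtype.val h3
      have hcE : e * e' * e⁻¹ * e'⁻¹ ∈ E := E.mul_mem (E.mul_mem (E.mul_mem he he') (E.inv_mem he)) (E.inv_mem he')
      rw [mul_assoc f s, ← hcomm _ hcE s hs', ← mul_assoc, h4, mul_assoc]
    · have h3 : ((⟨e, he⟩ : E) * ⟨e', he'⟩ * (⟨e, he⟩ : E)⁻¹ * (⟨e', he'⟩ : E)⁻¹) ^ p = 1 := by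
        have h4 : (⟨_, h2⟩ : center E) ^ Nat.card (center E) = 1 := pow_card_eq_one'
        rw [h.2] at h4
        exact congrArg Subtype.val h4
      exact congrArg Subtype.val h3

theorem mul_pow_cls {R : Type*} [Group R] (x y : R) (h : y * x * y⁻¹ * x⁻¹ ∈ center R) (n : ℕ) :
    (x * y) ^ n = (y * x * y⁻¹ * x⁻¹) ^ (n.choose 2) * (x ^ n * y ^ n) := by
  set c := y * x * y⁻¹ * x⁻¹ with hc
  have hyx : y * x = c * (x * y) := by rw [hc]; group
  have hcc : ∀ g : R, c * g = g * c := fun g => (mem_center_iff.1 h g).symm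
  have hcn : ∀ (k : ℕ) (g : R), c ^ k * g = g * c ^ k := fun k g =>
    ((show Commute c g from hcc g).pow_left k).eq
  have hynx : ∀ n : ℕ, y ^ n * x = c ^ n * (x * y ^ n) := by
    intro n
    induction n with
    | zero => simp
    | succ n ih =>
      calc y ^ (n + 1) * x = y ^ n * (y * x) := by rw [pow_succ]; group
        _ = y ^ n * (c * (x * y)) := by rw [hyx]
        _ = c * (y ^ n * x) * y := by rw [← mul_assoc, ← hcc (y ^ n)]; group
        _ = c * (c ^ n * (x * y ^ n)) * y := by rw [ih]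
        _ = c ^ (n + 1) * (x * y ^ (n + 1)) := by rw [pow_succ' c, pow_succ y]; group
  induction n with
  | zero => simp
  | succ n ih =>
    have h2 : (n + 1).choose 2 = n + n.choose 2 := by
      rw [Nat.choose_succ_succ' n 1, Nat.choose_one_right]
    calc (x * y) ^ (n + 1) = (x * y) ^ n * (x * y) := pow_succ _ _
      _ = c ^ (n.choose 2) * (x ^ n * y ^ n) * (x * y) := by rw [ih]
      _ = c ^ (n.choose 2) * (x ^ n * (y ^ n * x) * y) := by simp only [mul_assoc]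
      _ = c ^ (n.choose 2) * (x ^ n * (c ^ n * (x * y ^ n)) * y) := by rw [hynx]
      _ = c ^ (n.choose 2) * (c ^ n * x ^ n * (x * y ^ n) * y) := by rw [← mul_assoc (x ^ n), ← hcn]
      _ = (c ^ (n.choose 2) * c ^ n) * (x ^ n * x * (y ^ n * y)) := by simp only [mul_assoc]
      _ = _ := by rw [← pow_add, ← pow_succ, ← pow_succ, h2, add_comm n (n.choose 2)]

theorem mul_pow_eq_one {R : Type*} [Group R] {p : ℕ} [hp : Fact p.Prime] (hp2 : p ≠ 2)
    (hR : ∀ x y : R, x * y * x⁻¹ * y⁻¹ ∈ center R ∧ (x * y * x⁻¹ * y⁻¹) ^ p = 1) {x y : R}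
    (hx : x ^ p = 1) (hy : y ^ p = 1) : (x * y) ^ p = 1 := by
  rw [mul_pow_cls x y (hR y x).1, hx, hy, mul_one, mul_one]
  have h1 : p ∣ p.choose 2 := hp.out.dvd_choose_self (by norm_num) (by
    have := hp.out.two_le; omega)
  obtain ⟨k, hk⟩ := h1
  rw [hk, pow_mul, (hR y x).2, one_pow]

end H75.FG
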