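import Mathlib
import Cfsg.Agent.Lib.H75.FG4

set_option autoImplicit false
set_option linter.all false

/-! A regular vector for normal p-subgroups of primitive groups (S4330). -/

namespace H75.FG

open Subgroup

section

variable {Γ W : Type*} [Group Γ] [Finite Γ] [CommGroup W] [Finite W] [MulDistribMulAction Γ W] {p : ℕ} [hp : Fact p.Prime]

theorem elem_le (hfaith : ∀ g : Γ, (∀ w : W, g • w = w) → g = 1)
    (hW : Nontrivial W) (hco : (Nat.card W).Coprime p) (hirr : Irr Γ W)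
    (hnb : ∀ (H : Subgroup Γ) (U : Subgroup W), (∀ h ∈ H, ∀ u ∈ U, h • u ∈ U) → U ≠ ⊥ →
      Nat.card W = Nat.card U ^ H.index → U = ⊤)
    (X : Subgroup Γ) (hXn : X.Normal) (hX : ∀ x ∈ X, ∀ y ∈ X, Commute x y) (hXp : ∀ x ∈ X, x ^ p = 1) (hX1 : X ≠ ⊥) :
    Nat.card X = p ∧ (fx X : Subgroup W) = ⊥ := by
  classical
  have hfb : (fx X : Subgroup W) = ⊥ := by
    rcases hirr (fx X) (fun g u hu y hy => by
      have h1 := hu (g⁻¹ * y * g) (by simpa using hXn.conj_mem y hy g⁻¹)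
      calc y • g • u = g • (g⁻¹ * y * g) • u := by rw [smul_smul, smul_smul]; congr 1; group
        _ = g • u := by rw [h1]) with h | h
    · exact h
    · exfalso
      apply hX1
      rw [eq_bot_iff]
      intro x hx
      rw [Subgroup.mem_bot]
      apply hfaith
      intro w
      have : w ∈ (fx X : Subgroup W) := by rw [h]; trivial
      exact this x hx
  refine ⟨?_, hfb⟩
  obtain ⟨Y, hYX, hY1, hY⟩ := exists_hyper (V := W) hW hco X hX hXp
  letI : Fintype (Γ ⧸ normalizer (Y : Set Γ)) := Fintype.ofFinite _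
  have hst : ∀ h ∈ normalizer (Y : Set Γ), ∀ w ∈ (fx Y : Subgroup W), h • w ∈ (fx Y : Subgroup W) := by
    intro h hh w hw y hy
    have h0 : h⁻¹ * y * h ∈ Y := by
      have := (mem_normalizer_iff.1 (Subgroup.inv_mem _ hh) y).1 hy
      simpa using this
    have h1 := hw _ h0
    calc y • h • w = h • (h⁻¹ * y * h) • w := by rw [smul_smul, smul_smul]; congr 1; group
      _ = h • w := by rw [h1]
  have hinj := Ind_inj (Γ := Γ) (V := W) hco X Y (normalizer (Y : Set Γ)) hYX hX hXp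
    (fun g x hx => hXn.conj_mem x hx g) hfb (fun a ha haY => (hY a ha haY).1)
    (fun g hg => Subgroup.mem_normalizer_fintype hg)
  have hsurj := Ind_surj hirr (normalizer (Y : Set Γ)) (fx Y : Subgroup W) hst hY1
  have hcard : Nat.card W = Nat.card (fx Y : Subgroup W) ^ (normalizer (Y : Set Γ)).index := by
    rw [← Nat.card_congr (Equiv.ofBijective _ ⟨hinj, hsurj⟩), Nat.card_fun]
    rfl
  have h2 := hnb _ _ hst hY1 hcard
  have hYb : Y = ⊥ := by
    rw [eq_bot_iff]
    intro y hy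
    rw [Subgroup.mem_bot]
    apply hfaith
    intro w
    have : w ∈ (fx Y : Subgroup W) := by rw [h2]; trivial
    exact this y hy
  obtain ⟨x, hx, hx1⟩ : ∃ x ∈ X, x ≠ 1 := by
    by_contra hcon
    push Not at hcon
    apply hX1
    rw [eq_bot_iff]; intro z hz; exact Subgroup.mem_bot.2 (hcon z hz)
  have h3 := (hY x hx (by rw [hYb, Subgroup.mem_bot]; exact hx1)).1
  rw [hYb, bot_sup_eq] at h3
  rw [← h3, Nat.card_zpowers, orderOf_eq_prime (hXp x hx) hx1]

theorem prim (hp2 : p ≠ 2) (hfaith : ∀ g : Γ, (∀ w : W, g • w = w) → g = 1)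
    (hW : Nontrivial W) (hco : (Nat.card W).Coprime p) (hirr : Irr Γ W)
    (hnb : ∀ (H : Subgroup Γ) (U : Subgroup W), (∀ h ∈ H, ∀ u ∈ U, h • u ∈ U) → U ≠ ⊥ →
      Nat.card W = Nat.card U ^ H.index → U = ⊤)
    (R : Subgroup Γ) (hRn : R.Normal) (hR : IsPGroup p R) :
    ∃ w : W, ∀ x ∈ R, x • w = w → x = 1 := by
  classical
  by_cases hR1 : R = ⊥
  · refine ⟨1, fun x hx _ => ?_⟩
    rw [hR1, Subgroup.mem_bot] at hx
    exact hx
  have key := elem_le (p := p) hfaith hW hco hirr hnb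
  have hs : ∀ A : Subgroup ↥R, A.Characteristic → IsMulCommutative A → IsCyclic A := by
    intro A hA hAc
    have hcA : ∀ x ∈ A, ∀ y ∈ A, x * y = y * x := by
      intro x hx y hy
      exact congrArg Subtype.val (hAc.is_comm.comm ⟨x, hx⟩ ⟨y, hy⟩)
    let Om : Subgroup ↥R :=
      { carrier := {a | a ∈ A ∧ a ^ p = 1}
        mul_mem' := fun {a b} ha hb => ⟨A.mul_mem ha.1 hb.1, by
          rw [(show Commute a b from hcA a ha.1 b hb.1).mul_pow, ha.2, hb.2, one_mul]⟩
        one_mem' := ⟨A.one_mem, one_pow p⟩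
        inv_mem' := fun {a} ha => ⟨A.inv_mem ha.1, by rw [inv_pow, ha.2, inv_one]⟩ }
    haveI hOc : Om.Characteristic := by
      rw [Subgroup.characteristic_iff_le_comap]
      intro φ a ha
      refine ⟨?_, ?_⟩
      · have := Subgroup.characteristic_iff_le_comap.1 hA φ ha.1
        exact this
      · show (φ a) ^ p = 1
        rw [← map_pow, ha.2, map_one]
    haveI := hRn
    have hn : (Om.map R.subtype).Normal := ConjAct.normal_of_characteristic_of_normal
    have hcard : Nat.card Om ≤ p := by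
      by_cases h1 : Om.map R.subtype = ⊥
      · have h2 : Om = ⊥ := by
          rwa [Subgroup.map_eq_bot_iff_of_injective _ R.subtype_injective] at h1
        rw [h2, Nat.card_unique]
        exact hp.out.one_le
      · have h2 := (key (Om.map R.subtype) hn (by
          rintro _ ⟨x, hx, rfl⟩ _ ⟨y, hy, rfl⟩
          exact congrArg Subtype.val (hcA x hx.1 y hy.1)) (by
          rintro _ ⟨x, hx, rfl⟩
          rw [← map_pow, hx.2, map_one]) h1).1
        rw [Subgroup.card_map_of_injective R.subtype_injective] at h2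
        exact h2.le
    refine H3.UniqueSub.isCyclic_of_comm (B := A) (p := p) (hR.to_subgroup A)
      (fun a b => Subtype.ext (hcA a a.2 b b.2)) (Om.subgroupOf A) ?_ ?_
    · have h1 : Nat.card (Om.subgroupOf A) = Nat.card Om :=
        Nat.card_congr (Subgroup.subgroupOfEquivOfLe (show Om ≤ A from fun x hx => hx.1)).toEquiv
      rw [h1]; exact hcard
    · intro x hx
      rw [Subgroup.mem_subgroupOf]
      exact ⟨x.2, congrArg Subtype.val hx⟩
  have hcls := cls hp2 hR hs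
  -- the elements of order dividing p
  let E : Subgroup Γ :=
    { carrier := {x | x ∈ R ∧ x ^ p = 1}
      mul_mem' := fun {a b} ha hb => ⟨R.mul_mem ha.1 hb.1, by
        have h1 : ((⟨a, ha.1⟩ : R) * ⟨b, hb.1⟩) ^ p = 1 :=
          mul_pow_eq_one hp2 hcls (Subtype.ext ha.2) (Subtype.ext hb.2)
        exact congrArg Subtype.val h1⟩
      one_mem' := ⟨R.one_mem, one_pow p⟩
      inv_mem' := fun {a} ha => ⟨R.inv_mem ha.1, by rw [inv_pow, ha.2, inv_one]⟩ }
  haveI hEn : E.Normal := ⟨fun x hx g => ⟨hRn.conj_mem x hx.1 g, by rw [conj_pow, hx.2, mul_one, mul_inv_cancel]⟩⟩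
  have hEp : ∀ x : E, x ^ p = 1 := fun x => Subtype.ext x.2.2
  have hEpg : IsPGroup p E := fun x => ⟨1, by rw [pow_one]; exact hEp x⟩
  have hexE : ∀ x ∈ R, x ≠ 1 → ∃ k : ℕ, x ^ k ∈ E ∧ x ^ k ≠ 1 := by
    intro x hx hx1
    obtain ⟨k, hk⟩ := (IsPGroup.iff_orderOf.1 hR) ⟨x, hx⟩
    have hk' : orderOf x = p ^ k := by
      rw [← hk]; exact (Subgroup.orderOf_mk x hx).symm
    have hk0 : k ≠ 0 := by
      rintro rfl
      rw [pow_zero, orderOf_eq_one_iff] at hk'
      exact hx1 hk'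
    obtain ⟨m, rfl⟩ := Nat.exists_eq_succ_of_ne_zero hk0
    refine ⟨p ^ m, ⟨R.pow_mem hx _, ?_⟩, ?_⟩
    · rw [← pow_mul, ← pow_succ, ← hk', pow_orderOf_eq_one]
    · intro h
      have h1 := orderOf_dvd_of_pow_eq_one h
      rw [hk'] at h1
      have h2 := (Nat.pow_dvd_pow_iff_le_right hp.out.one_lt).1 h1
      omega
  have hE1 : E ≠ ⊥ := by
    intro h
    apply hR1
    rw [eq_bot_iff]
    intro x hx
    rw [Subgroup.mem_bot]
    by_contra hx1
    obtain ⟨k, hk1, hk2⟩ := hexE x hx hx1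
    rw [h, Subgroup.mem_bot] at hk1
    exact hk2 hk1
  haveI : Nontrivial E := (Subgroup.nontrivial_iff_ne_bot E).2 hE1
  have hZn : ((center E).map E.subtype).Normal := ConjAct.normal_of_characteristic_of_normal
  have hZ1 : (center E).map E.subtype ≠ ⊥ := by
    rw [Ne, Subgroup.map_eq_bot_iff_of_injective _ E.subtype_injective]
    haveI := hEpg.center_nontrivial
    exact (Subgroup.nontrivial_iff_ne_bot _).1 inferInstance
  obtain ⟨hZc, hZf⟩ := key _ hZn (by
    rintro _ ⟨x, hx, rfl⟩ _ ⟨y, hy, rfl⟩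
    exact congrArg Subtype.val (mem_center_iff.1 hy x)) (by
    rintro _ ⟨x, hx, rfl⟩
    rw [← map_pow, hEp x, map_one]) hZ1
  rw [Subgroup.card_map_of_injective E.subtype_injective] at hZc
  obtain ⟨w, hw⟩ := regE (E := E) (W := W) hp2 hEp (by
    intro x y
    rw [mem_center_iff]
    intro z
    have h1 := mem_center_iff.1 (hcls ⟨x, x.2.1⟩ ⟨y, y.2.1⟩).1 ⟨z, z.2.1⟩
    exact Subtype.ext (show (z : Γ) * ((x : Γ) * y * (x : Γ)⁻¹ * (y : Γ)⁻¹) = (x : Γ) * y * (x : Γ)⁻¹ * (y : Γ)⁻¹ * z from congrArg (Subtype.val : R → Γ) h1)) hZc (by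
    rw [eq_bot_iff, ← hZf]
    intro w hw y hy
    obtain ⟨z, hz, rfl⟩ := hy
    exact hw z hz) hW hco
  refine ⟨w, fun x hx hxw => ?_⟩
  by_contra hx1
  obtain ⟨k, hk1, hk2⟩ := hexE x hx hx1
  have h1 : x ^ k • w = w := by
    have h2 : x ^ k ∈ MulAction.stabilizer Γ w := Subgroup.pow_mem _ hxw k
    exact h2
  have h2 := hw ⟨x ^ k, hk1⟩ h1
  exact hk2 (congrArg Subtype.val h2)

end

end H75.FG
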