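import Mathlib
import Cfsg.Agent.Lib.H75.FG5

set_option autoImplicit false
set_option linter.all false

/-! The linear theorem (S4330). -/

namespace H75.FG

open Subgroup

section

variable {Γ V : Type*} [Group Γ] [Finite Γ] [CommGroup V] [Finite V] [MulDistribMulAction Γ V]

theorem supp (H L : Subgroup Γ) [Fintype (Γ ⧸ H)] (hHL : H ≤ L) (W : Subgroup V) (hst : ∀ h ∈ H, ∀ w ∈ W, h • w ∈ W)
    (hinj : Function.Injective (Ind H W)) (w : V) (hw : w ∈ W) (hw1 : w ≠ 1) :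
    ∃ v : V, ∀ x ∈ L.normalCore, x • v = v → ∀ c : Γ ⧸ L,
      (ot c)⁻¹ * x * ot c ∈ H ∧ ((ot c)⁻¹ * x * ot c) • w = w := by
  classical
  -- the support condition
  let pr : Γ ⧸ H → Γ ⧸ L := fun d => ((ot d : Γ) : Γ ⧸ L)
  have hpr : ∀ g : Γ, pr (g : Γ ⧸ H) = (g : Γ ⧸ L) := by
    intro g
    show ((ot (g : Γ ⧸ H) : Γ) : Γ ⧸ L) = _
    rw [QuotientGroup.eq]
    exact hHL (QuotientGroup.eq.1 (ot_eq (g : Γ ⧸ H)))
  have hmemW : ∀ d : Γ ⧸ H, ((ot (pr d) : Γ) : Γ ⧸ H) = d → (ot d)⁻¹ • ot (pr d) • w ∈ W := by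
    intro d hd
    rw [smul_smul]
    apply hst _ _ _ hw
    rw [← QuotientGroup.eq, ot_eq, hd]
  let φ : Γ ⧸ H → W := fun d => if h : ((ot (pr d) : Γ) : Γ ⧸ H) = d then ⟨_, hmemW d h⟩ else 1
  have hφ1 : ∀ d : Γ ⧸ H, ((ot (pr d) : Γ) : Γ ⧸ H) = d → ot d • (φ d : V) = ot (pr d) • w := by
    intro d hd
    have : (φ d : V) = (ot d)⁻¹ • ot (pr d) • w := by
      show ((if h : ((ot (pr d) : Γ) : Γ ⧸ H) = d then (⟨_, hmemW d h⟩ : W) else 1 : W) : V) = _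
      rw [dif_pos hd]
    rw [this, smul_inv_smul]
  have hφ2 : ∀ d : Γ ⧸ H, ((ot (pr d) : Γ) : Γ ⧸ H) ≠ d → (φ d : V) = 1 := by
    intro d hd
    show ((if h : ((ot (pr d) : Γ) : Γ ⧸ H) = d then (⟨_, hmemW d h⟩ : W) else 1 : W) : V) = _
    rw [dif_neg hd]; rfl
  refine ⟨Ind H W φ, fun x hx hxv c => ?_⟩
  obtain ⟨φ', h1, h2⟩ := smul_Ind H W hst x φ
  rw [hxv] at h1
  have h3 : φ' = φ := (hinj h1).symm
  rw [h3] at h2
  set t : Γ := ot c with ht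
  have hc : (t : Γ ⧸ L) = c := ot_eq c
  have h4 := h2 ((t : Γ) : Γ ⧸ H)
  have hp1 : pr ((t : Γ) : Γ ⧸ H) = c := by rw [hpr, hc]
  have h5 : ot ((t : Γ) : Γ ⧸ H) • (φ ((t : Γ) : Γ ⧸ H) : V) = t • w := by
    rw [hφ1 _ (by rw [hp1]), hp1]
  rw [h5] at h4
  have hxt : x • ((t : Γ) : Γ ⧸ H) = ((x * t : Γ) : Γ ⧸ H) := rfl
  rw [hxt] at h4
  have hxL : ((x * t : Γ) : Γ ⧸ L) = c := by
    rw [← hc, eq_comm, QuotientGroup.eq]
    have := (Subgroup.normalCore_normal L).conj_mem x hx t⁻¹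
    rw [inv_inv] at this
    have h6 := L.normalCore_le this
    rwa [mul_assoc] at h6
  have hp2 : pr ((x * t : Γ) : Γ ⧸ H) = c := by rw [hpr, hxL]
  have hne : ((ot (pr ((x * t : Γ) : Γ ⧸ H)) : Γ) : Γ ⧸ H) = ((x * t : Γ) : Γ ⧸ H) := by
    by_contra hcon
    rw [hφ2 _ hcon, smul_one] at h4
    exact hw1 (smul_eq_one'.1 (smul_eq_one'.1 h4.symm))
  rw [hφ1 _ hne, hp2] at h4
  rw [hp2] at hne
  constructor
  · have := QuotientGroup.eq.1 hne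
    rwa [← mul_assoc] at this
  · have h7 : t • w = x • t • w := h4
    rw [mul_smul, mul_smul, ← h7, inv_smul_smul]

end

end H75.FG
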