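import Mathlib
import Cfsg.Agent.Lib.H75.FG6

set_option autoImplicit false
set_option linter.all false

/-! The linear theorem (S4330). -/

namespace H75.FG

open Subgroup

section

variable {Γ V : Type*} [Group Γ] [Finite Γ] [CommGroup V] [Finite V] [MulDistribMulAction Γ V]

/-- the restricted action -/
def rst (H : Subgroup Γ) (W : Subgroup V) (hst : ∀ h ∈ H, ∀ w ∈ W, h • w ∈ W) : MulDistribMulAction ↥H ↥W where
  smul h w := ⟨(h : Γ) • (w : V), hst h h.2 w w.2⟩
  one_smul w := Subtype.ext (one_smul Γ (w : V))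
  mul_smul a b w := Subtype.ext (mul_smul (a : Γ) (b : Γ) (w : V))
  smul_mul a x y := Subtype.ext (smul_mul' (a : Γ) (x : V) (y : V))
  smul_one a := Subtype.ext (smul_one (a : Γ))

/-- blocks -/
def Blk (H : Subgroup Γ) (W : Subgroup V) : Prop :=
  (∀ h ∈ H, ∀ w ∈ W, h • w ∈ W) ∧ W ≠ ⊥ ∧ Nat.card V = Nat.card W ^ H.index

theorem blk_top [Nontrivial V] : Blk (⊤ : Subgroup Γ) (⊤ : Subgroup V) :=
  ⟨fun _ _ _ _ => Subgroup.mem_top _, top_ne_bot, by rw [Subgroup.index_top, pow_one, Subgroup.card_top]⟩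

theorem Blk.inj (hirr : Irr Γ V) {H : Subgroup Γ} {W : Subgroup V} (h : Blk H W) [Fintype (Γ ⧸ H)] :
    Function.Injective (Ind H W) := by
  have h1 := Ind_surj hirr H W h.1 h.2.1
  refine ((Nat.bijective_iff_surjective_and_card _).2 ⟨h1, ?_⟩).1
  rw [Nat.card_fun, h.2.2]
  rfl

/-- a regular vector in a minimal block -/
theorem Blk.reg {p : ℕ} [hp : Fact p.Prime] (hp2 : p ≠ 2) (hco : (Nat.card V).Coprime p) (hirr : Irr Γ V) {H : Subgroup Γ} {W : Subgroup V} (h : Blk H W)
    (hmin : ∀ (H' : Subgroup Γ) (W' : Subgroup V), Blk H' W' → Nat.card W ≤ Nat.card W')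
    (P : Subgroup Γ) (hPn : P.Normal) (hP : IsPGroup p P) :
    ∃ w ∈ W, w ≠ 1 ∧ ∀ x ∈ P, x ∈ H → x • w = w → ∀ w' ∈ W, x • w' = w' := by
  classical
  letI : MulDistribMulAction ↥H ↥W := rst H W h.1
  have hsm : ∀ (x : H) (w : W), ((x • w : W) : V) = (x : Γ) • (w : V) := fun _ _ => rfl
  let φ : ↥H →* MulAut ↥W := MulDistribMulAction.toMulAut ↥H ↥W
  have hφ : ∀ (x : H) (w : W), (φ x) w = x • w := fun _ _ => rfl
  haveI : Nontrivial W := (Subgroup.nontrivial_iff_ne_bot W).2 h.2.1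
  haveI : Finite (MulAut ↥W) := Finite.of_injective (fun f : MulAut ↥W => (f : W → W)) (fun f g hfg => DFunLike.coe_injective hfg)
  letI : Fintype (Γ ⧸ H) := Fintype.ofFinite _
  have hcoW : (Nat.card W).Coprime p := hco.coprime_dvd_left (Subgroup.card_subgroup_dvd_card W)
  have hidx : H.index ≠ 0 := Subgroup.index_ne_zero_of_finite
  -- size comparison
  have hcardU : ∀ U : Subgroup W, Nat.card (U.map W.subtype) = Nat.card U := fun U =>
    Subgroup.card_map_of_injective W.subtype_injective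
  obtain ⟨w, hw⟩ := prim (Γ := ↥φ.range) (W := ↥W) (p := p) hp2 (by
    intro g hg
    apply Subtype.ext
    exact MulEquiv.ext hg) inferInstance hcoW (by
    intro U hU
    by_cases hU1 : U = ⊥
    · exact Or.inl hU1
    · right
      have hst' : ∀ g ∈ H, ∀ u ∈ U.map W.subtype, g • u ∈ U.map W.subtype := by
        rintro g hg _ ⟨u, hu, rfl⟩
        exact ⟨_, hU ⟨φ ⟨g, hg⟩, ⟨_, rfl⟩⟩ u hu, rfl⟩
      have hne : U.map W.subtype ≠ ⊥ := by
        rwa [Ne, Subgroup.map_eq_bot_iff_of_injective _ W.subtype_injective]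
      have hs := Ind_surj hirr H (U.map W.subtype) hst' hne
      have h1 : Nat.card V ≤ Nat.card (U.map W.subtype) ^ H.index := by
        have := Nat.card_le_card_of_surjective _ hs
        rw [Nat.card_fun] at this
        exact this
      rw [h.2.2, hcardU] at h1
      have h2 : Nat.card W ≤ Nat.card U := (Nat.pow_le_pow_iff_left hidx).1 h1
      exact Subgroup.eq_top_of_card_eq _ (le_antisymm (Subgroup.card_le_card_group U) h2)) (by
    intro H' U hst' hU1 hcU
    have hb : Blk ((H'.comap φ.rangeRestrict).map H.subtype) (U.map W.subtype) := by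
      refine ⟨?_, ?_, ?_⟩
      · rintro _ ⟨x, hx, rfl⟩ _ ⟨u, hu, rfl⟩
        exact ⟨_, hst' _ hx u hu, rfl⟩
      · rwa [Ne, Subgroup.map_eq_bot_iff_of_injective _ W.subtype_injective]
      · rw [h.2.2, hcU, hcardU, ← pow_mul]
        congr 1
        have h1 : ((H'.comap φ.rangeRestrict).map H.subtype).relIndex H = H'.index := by
          rw [Subgroup.relIndex, Subgroup.subgroupOf, Subgroup.comap_map_eq_self_of_injective H.subtype_injective]
          exact Subgroup.index_comap_of_surjective _ φ.rangeRestrict_surjective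
        rw [← Subgroup.relIndex_mul_index (Subgroup.map_subtype_le (H'.comap φ.rangeRestrict)), h1]
    have h2 := hmin _ _ hb
    rw [hcardU] at h2
    exact Subgroup.eq_top_of_card_eq _ (le_antisymm (Subgroup.card_le_card_group U) h2))
    ((P.subgroupOf H).map φ.rangeRestrict)
    (Subgroup.Normal.map inferInstance _ φ.rangeRestrict_surjective) ((hP.comap_subtype).map _)
  have fin : ∀ w : W, w ≠ 1 → (∀ x ∈ (P.subgroupOf H).map φ.rangeRestrict, x • w = w → x = 1) →
      ∃ w ∈ W, w ≠ 1 ∧ ∀ x ∈ P, x ∈ H → x • w = w → ∀ w' ∈ W, x • w' = w' := by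
    intro w hw1 hw
    refine ⟨w, w.2, fun h => hw1 (Subtype.ext h), fun x hxP hxH hxw w' hw' => ?_⟩
    have h1 := hw (φ.rangeRestrict ⟨x, hxH⟩) ⟨⟨x, hxH⟩, hxP, rfl⟩ (Subtype.ext hxw)
    have h2 : φ ⟨x, hxH⟩ = 1 := congrArg Subtype.val h1
    have h3 : (φ ⟨x, hxH⟩) ⟨w', hw'⟩ = ⟨w', hw'⟩ := by rw [h2]; rfl
    exact congrArg Subtype.val h3
  by_cases hw1 : w = 1
  · obtain ⟨w', hw'⟩ := exists_ne (1 : W)
    refine fin w' hw' fun x hx _ => hw x hx ?_
    rw [hw1, smul_one]
  · exact fin w hw1 hw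

end

end H75.FG
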