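import Mathlib
import Cfsg.Agent.Lib.H75.FG7

set_option autoImplicit false
set_option linter.all false

/-! The linear theorem (S4330). -/

namespace H75.FG

open Subgroup

theorem linear {Γ V : Type*} [Group Γ] [Finite Γ] [CommGroup V] [Finite V] [MulDistribMulAction Γ V]
    {p : ℕ} [hp : Fact p.Prime] (hp2 : p ≠ 2) (hV : Nontrivial V) (hco : (Nat.card V).Coprime p)
    (hirr : Irr Γ V) (P : Subgroup Γ) (hPn : P.Normal) (hP : IsPGroup p P) (a : Γ) (haP : a ∈ P)
    (ha : ∀ v : V, ∃ y : Γ, (y * a * y⁻¹) • v = v) : ∀ v : V, a • v = v := by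
  classical
  -- a minimal block
  obtain ⟨H, W, hB, hmin⟩ : ∃ (H : Subgroup Γ) (W : Subgroup V), Blk H W ∧
      ∀ (H' : Subgroup Γ) (W' : Subgroup V), Blk H' W' → Nat.card W ≤ Nat.card W' := by
    have hex : ∃ n : ℕ, ∃ (H : Subgroup Γ) (W : Subgroup V), Blk H W ∧ Nat.card W = n := ⟨_, ⊤, ⊤, blk_top, rfl⟩
    obtain ⟨H, W, hB, hn⟩ := Nat.find_spec hex
    exact ⟨H, W, hB, fun H' W' h' => by rw [hn]; exact Nat.find_min' hex ⟨H', W', h', rfl⟩⟩
  obtain ⟨w, hwW, hw1, hreg⟩ := hB.reg hp2 hco hirr hmin P hPn hP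
  letI : Fintype (Γ ⧸ H) := Fintype.ofFinite _
  have hinj := hB.inj hirr
  have hsurj := Ind_surj hirr H W hB.1 hB.2.1
  obtain ⟨L, hL⟩ := (Set.toFinite {L : Subgroup Γ | H ≤ L ∧ a ∈ L.normalCore}).exists_minimal
    ⟨⊤, le_top, by
      have : (⊤ : Subgroup Γ) ≤ (⊤ : Subgroup Γ).normalCore := Subgroup.normal_le_normalCore.2 le_top
      exact this (Subgroup.mem_top a)⟩
  have hHL : H ≤ L := hL.1.1
  have haL : a ∈ L.normalCore := hL.1.2
  obtain ⟨v, hv⟩ := supp H L hHL W hB.1 hinj w hwW hw1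
  obtain ⟨y, hy⟩ := ha v
  set x := y * a * y⁻¹ with hx
  have hxL : x ∈ L.normalCore := (Subgroup.normalCore_normal L).conj_mem a haL y
  have hxP : x ∈ P := hPn.conj_mem a haP y
  have hax : a = y⁻¹ * x * y := by rw [hx]; group
  have hc := hv x hxL hy
  by_cases hHL' : H = L
  · -- everything is trivial
    subst hHL'
    have h1 : ∀ v : V, x • v = v := by
      intro u
      obtain ⟨φ, rfl⟩ := hsurj u
      rw [Ind_apply, Finset.smul_prod']
      refine Finset.prod_congr rfl fun c _ => ?_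
      obtain ⟨h2, h3⟩ := hc c
      have h4 : (ot c)⁻¹ * x * ot c ∈ P := by
        have := hPn.conj_mem x hxP (ot c)⁻¹
        rwa [inv_inv] at this
      have h5 := hreg _ h4 h2 h3 _ (φ c).2
      calc x • ot c • (φ c : V) = ot c • ((ot c)⁻¹ * x * ot c) • (φ c : V) := by
            rw [smul_smul, smul_smul]; congr 1; group
        _ = _ := by rw [h5]
    intro u
    rw [hax, mul_smul, mul_smul, h1, inv_smul_smul]
  · exfalso
    obtain ⟨L', hL'⟩ := (Set.toFinite {L' : Subgroup Γ | H ≤ L' ∧ L' < L}).exists_maximal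
      ⟨H, le_refl _, lt_of_le_of_ne hHL hHL'⟩
    have hHL'' : H ≤ L' := hL'.1.1
    have hL'L : L' < L := hL'.1.2
    have haL' : a ∉ L'.normalCore := by
      intro h
      have := hL.2 (y := L') ⟨hHL'', h⟩ hL'L.le
      exact absurd (le_antisymm hL'L.le this) hL'L.ne
    set A : Subgroup Γ := normalClosure {a} with hA
    haveI hAn : A.Normal := normalClosure_normal
    have haA : a ∈ A := subset_normalClosure rfl
    have hAP : A ≤ P := normalClosure_le_normal (Set.singleton_subset_iff.2 haP)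
    have hAL : A ≤ L := (normalClosure_le_normal (N := L.normalCore) (Set.singleton_subset_iff.2 haL)).trans L.normalCore_le
    have hAL' : ¬ A ≤ L' := by
      intro h
      exact haL' ((Subgroup.normal_le_normalCore.2 h) haA)
    have hAp : IsPGroup p A := hP.to_le hAP
    set D : Subgroup Γ := A ⊓ L' with hD
    have hDA : D < A := lt_of_le_of_ne inf_le_left (fun h => hAL' (by rw [← h]; exact inf_le_right))
    -- normalizers grow
    obtain ⟨g, hgA, hgD, hgN⟩ : ∃ g ∈ A, g ∉ D ∧ g ∈ normalizer (D : Set Γ) := by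
      haveI := hAp.isNilpotent
      have h1 : D.subgroupOf A < ⊤ := by
        rw [lt_top_iff_ne_top, Ne, Subgroup.subgroupOf_eq_top]
        exact fun h => absurd (le_antisymm hDA.le h) hDA.ne
      have h2 := Group.normalizerCondition_of_isNilpotent (G := A) _ h1
      obtain ⟨g, hg1, hg2⟩ := SetLike.exists_of_lt h2
      refine ⟨g, g.2, fun h => hg2 h, ?_⟩
      rw [mem_normalizer_iff]
      intro d
      have h3 := mem_normalizer_iff.1 hg1
      constructor
      · intro hd
        exact (h3 ⟨d, hDA.le hd⟩).1 hd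
      · intro hd
        have h4 : d ∈ A := by
          have := hAn.conj_mem _ (hDA.le hd) (g : Γ)⁻¹
          simpa [mul_assoc] using this
        exact (h3 ⟨d, h4⟩).2 hd
    have hgL' : g ∉ L' := fun h => hgD ⟨hgA, h⟩
    have hN : L ≤ normalizer (D : Set Γ) := by
      by_contra hcon
      have h1 : L' ≤ L ⊓ normalizer (D : Set Γ) := by
        refine le_inf hL'L.le ?_
        intro l hl
        rw [mem_normalizer_iff]
        intro d
        constructor
        · intro hd
          exact ⟨hAn.conj_mem d hd.1 l, L'.mul_mem (L'.mul_mem hl hd.2) (L'.inv_mem hl)⟩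
        · intro hd
          have h2 : d = l⁻¹ * (l * d * l⁻¹) * l := by group
          rw [h2]
          refine ⟨?_, L'.mul_mem (L'.mul_mem (L'.inv_mem hl) hd.2) hl⟩
          have := hAn.conj_mem _ hd.1 l⁻¹
          rwa [inv_inv] at this
      have h2 : L ⊓ normalizer (D : Set Γ) < L := by
        refine lt_of_le_of_ne inf_le_left fun h => hcon ?_
        rw [← h]; exact inf_le_right
      have h3 := hL'.2 (y := L ⊓ normalizer (D : Set Γ)) ⟨hHL''.trans h1, h2⟩ h1
      exact hgL' (h3 ⟨hAL hgA, hgN⟩)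
    have hxA : x ∈ A := hAn.conj_mem a haA y
    have hall : ∀ g : Γ, g⁻¹ * x * g ∈ L' := by
      intro g
      set t := ot (g : Γ ⧸ L) with ht
      have hl : t⁻¹ * g ∈ L := QuotientGroup.eq.1 (ot_eq (g : Γ ⧸ L))
      have h1 : t⁻¹ * x * t ∈ D := by
        refine ⟨?_, hHL'' (hc (g : Γ ⧸ L)).1⟩
        have := hAn.conj_mem x hxA t⁻¹
        rwa [inv_inv] at this
      have h2 := (mem_normalizer_iff.1 (hN (L.inv_mem hl)) _).1 h1
      have h3 : (t⁻¹ * g)⁻¹ * (t⁻¹ * x * t) * (t⁻¹ * g)⁻¹⁻¹ = g⁻¹ * x * g := by group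
      rw [h3] at h2
      exact h2.2
    apply haL'
    intro g
    show g * a * g⁻¹ ∈ L'
    have h1 := hall (y * g⁻¹)
    have h2 : (y * g⁻¹)⁻¹ * x * (y * g⁻¹) = g * a * g⁻¹ := by rw [hx]; group
    rwa [h2] at h1

end H75.FG
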