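import Mathlib.GroupTheory.IsSubnormal
import Mathlib.GroupTheory.Nilpotent
import Mathlib.GroupTheory.Sylow

set_option autoImplicit false

namespace H75.Subn

open Subgroup

/-- Every subgroup of a finite group with the normalizer condition is subnormal. -/
theorem isSubnormal_of_normalizerCondition {G : Type*} [Group G] [Finite G] (hG : NormalizerCondition G) :
    ∀ (n : ℕ) (H : Subgroup G), H.index ≤ n → H.IsSubnormal := by
  intro n
  induction n with
  | zero =>
    intro H hH
    exact absurd (Nat.le_zero.1 hH) index_ne_zero_of_finite
  | succ n ih =>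
    intro H hH
    by_cases htop : H = ⊤
    · rw [htop]; exact IsSubnormal.top
    · have hlt := hG H (lt_top_iff_ne_top.2 htop)
      refine IsSubnormal.step H (normalizer (H : Set G)) hlt.le (ih _ ?_) inferInstance
      have := index_strictAnti hlt
      omega

theorem isSubnormal_of_isNilpotent {G : Type*} [Group G] [Finite G] (hG : Group.IsNilpotent G)
    (H : Subgroup G) : H.IsSubnormal :=
  isSubnormal_of_normalizerCondition (Group.normalizerCondition_of_isNilpotent) _ H le_rfl

theorem isSubnormal_of_isPGroup {G : Type*} [Group G] [Finite G] {p : ℕ} [Fact p.Prime] (hG : IsPGroup p G)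
    (H : Subgroup G) : H.IsSubnormal :=
  isSubnormal_of_isNilpotent hG.isNilpotent H

end H75.Subn
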