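import Mathlib
import Cfsg.Agent.Lib.H75.FG8
import Cfsg.Agent.Lib.H75.Subn
import Cfsg.Agent.Lib.H26.Subnormal
import Cfsg.Agent.Lib.H1.Cores

set_option autoImplicit false
set_option linter.all false

/-! The reduction (S4330). -/

namespace H75.FG

open Subgroup Cfsg

open scoped Pointwise commutatorElement

universe u

theorem isPGroup_join {G : Type u} [Group G] [Finite G] {p : ℕ} [hp : Fact p.Prime] {A B : Subgroup G} (hA : IsPGroup p A)
    (hB : IsPGroup p B) (h : (A.subgroupOf (A ⊔ B)).IsSubnormal) : IsPGroup p ↥(A ⊔ B) := by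
  have h1 : A.subgroupOf (A ⊔ B) ≤ pCore p ↥(A ⊔ B) :=
    H26.Subnormal.le_pCore h (hA.comap_subtype)
  haveI : (pCore p ↥(A ⊔ B)).Normal := H1.Cores.pCore_normal p
  have h2 : IsPGroup p ↥(B.subgroupOf (A ⊔ B) ⊔ pCore p ↥(A ⊔ B)) :=
    IsPGroup.to_sup_of_normal_right (hB.comap_subtype) (H1.Cores.isPGroup_pCore p)
  have h3 : B.subgroupOf (A ⊔ B) ⊔ pCore p ↥(A ⊔ B) = ⊤ := by
    rw [eq_top_iff]
    have h4 : (⊤ : Subgroup ↥(A ⊔ B)) = (A ⊔ B).subgroupOf (A ⊔ B) := (Subgroup.subgroupOf_self _).symm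
    rw [h4, Subgroup.subgroupOf_sup le_sup_left le_sup_right]
    exact sup_le (h1.trans le_sup_right) le_sup_left
  rw [h3] at h2
  exact h2.of_equiv Subgroup.topEquiv

/-- a minimal normal subgroup of a solvable group -/
theorem exists_min {G : Type u} [Group G] [Finite G] [Nontrivial G] (hs : Group.IsSolvable G) :
    ∃ N : Subgroup G, N.Normal ∧ N ≠ ⊥ ∧ (∀ x ∈ N, ∀ y ∈ N, x * y = y * x) ∧
      (∃ q : ℕ, q.Prime ∧ ∀ x ∈ N, x ^ q = 1) ∧ ∀ M : Subgroup G, M.Normal → M ≤ N → M = ⊥ ∨ M = N := by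
  obtain ⟨N, hN⟩ := (Set.toFinite {N : Subgroup G | N.Normal ∧ N ≠ ⊥}).exists_minimal
    ⟨⊤, inferInstance, top_ne_bot⟩
  have hNn : N.Normal := hN.1.1
  have hmin : ∀ M : Subgroup G, M.Normal → M ≤ N → M = ⊥ ∨ M = N := by
    intro M hM hMN
    by_cases h : M = ⊥
    · exact Or.inl h
    · exact Or.inr (le_antisymm hMN (hN.2 (y := M) ⟨hM, h⟩ hMN))
  haveI := hNn
  haveI := hs
  haveI : Nontrivial N := (Subgroup.nontrivial_iff_ne_bot N).2 hN.1.2
  have hcomm : ∀ x ∈ N, ∀ y ∈ N, x * y = y * x := by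
    rcases hmin ⁅N, N⁆ inferInstance (Subgroup.commutator_le_left N N) with h | h
    · intro x hx y hy
      have h1 : ⁅x, y⁆ ∈ ⁅N, N⁆ := Subgroup.commutator_mem_commutator hx hy
      rw [h, Subgroup.mem_bot, commutatorElement_def, mul_inv_eq_one, mul_inv_eq_iff_eq_mul] at h1
      exact h1
    · exfalso
      haveI : Group.IsSolvable N := inferInstance
      have h1 : commutator N < ⊤ := Group.IsSolvable.commutator_lt_top_of_nontrivial N
      apply h1.ne
      rw [eq_top_iff]
      intro x _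
      have h2 : (commutator N).map N.subtype = ⁅N, N⁆ := by
        rw [_root_.commutator_def, Subgroup.map_commutator, ← MonoidHom.range_eq_map, Subgroup.range_subtype]
      have h3 : (x : G) ∈ (commutator N).map N.subtype := by rw [h2, h]; exact x.2
      obtain ⟨z, hz, hzx⟩ := h3
      have : z = x := Subtype.ext hzx
      rwa [← this]
  refine ⟨N, hNn, hN.1.2, hcomm, ?_, hmin⟩
  obtain ⟨q, hq, hqd⟩ := Nat.exists_prime_and_dvd (n := Nat.card N) (by
    rw [Ne, Nat.card_eq_one_iff_unique]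
    rintro ⟨h1, -⟩
    exact not_subsingleton N h1)
  refine ⟨q, hq, ?_⟩
  haveI := Fact.mk hq
  obtain ⟨x0, hx0⟩ := exists_prime_orderOf_dvd_card' q hqd
  let M : Subgroup G :=
    { carrier := {x | x ∈ N ∧ x ^ q = 1}
      mul_mem' := fun {a b} ha hb => ⟨N.mul_mem ha.1 hb.1, by
        rw [(show Commute a b from hcomm a ha.1 b hb.1).mul_pow, ha.2, hb.2, one_mul]⟩
      one_mem' := ⟨N.one_mem, one_pow q⟩
      inv_mem' := fun {a} ha => ⟨N.inv_mem ha.1, by rw [inv_pow, ha.2, inv_one]⟩ }
  have hM : M.Normal := ⟨fun x hx g => ⟨hNn.conj_mem x hx.1 g, by rw [conj_pow, hx.2, mul_one, mul_inv_cancel]⟩⟩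
  rcases hmin M hM (fun x hx => hx.1) with h | h
  · exfalso
    have h1 : (x0 : G) ∈ M := ⟨x0.2, by
      have : x0 ^ q = 1 := by rw [← hx0, pow_orderOf_eq_one]
      exact congrArg Subtype.val this⟩
    rw [h, Subgroup.mem_bot] at h1
    have h2 : x0 = 1 := Subtype.ext h1
    rw [h2, orderOf_one] at hx0
    exact hq.one_lt.ne hx0
  · intro x hx
    rw [← h] at hx
    exact hx.2

theorem linear' {G V : Type*} [Group G] [Finite G] [CommGroup V] [Finite V] [MulDistribMulAction G V]
    {p : ℕ} [hp : Fact p.Prime] (hp2 : p ≠ 2) (hV : Nontrivial V) (hco : (Nat.card V).Coprime p)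
    (hirr : Irr G V) (K : Subgroup G) (hKn : K.Normal) (hK : ∀ k ∈ K, ∃ m : ℕ, ∀ v : V, k ^ (p ^ m) • v = v)
    (a : G) (haK : a ∈ K) (ha : ∀ v : V, ∃ y : G, (y * a * y⁻¹) • v = v) : ∀ v : V, a • v = v := by
  classical
  let φ : G →* MulAut V := MulDistribMulAction.toMulAut G V
  have hφ : ∀ (x : G) (v : V), (φ x) v = x • v := fun _ _ => rfl
  haveI : Finite (MulAut V) := Finite.of_injective (fun f : MulAut V => (f : V → V)) (fun f g hfg => DFunLike.coe_injective hfg)
  have h1 := linear (Γ := ↥φ.range) (V := V) (p := p) hp2 hV hco (by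
    intro U hU
    exact hirr U (fun g u hu => hU ⟨φ g, ⟨g, rfl⟩⟩ u hu)) (K.map φ.rangeRestrict)
    (Subgroup.Normal.map hKn _ φ.rangeRestrict_surjective) (by
    rintro ⟨_, ⟨k, hk, rfl⟩⟩
    obtain ⟨m, hm⟩ := hK k hk
    refine ⟨m, ?_⟩
    apply Subtype.ext
    show (φ.rangeRestrict k) ^ p ^ m = 1
    apply Subtype.ext
    show (φ k) ^ p ^ m = 1
    rw [← map_pow]
    exact MulEquiv.ext fun v => hm v) (φ.rangeRestrict a) ⟨a, haK, rfl⟩ (by
    intro v
    obtain ⟨y, hy⟩ := ha v
    refine ⟨φ.rangeRestrict y, ?_⟩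
    rw [← map_inv, ← map_mul, ← map_mul]
    exact hy)
  intro v
  exact h1 v

theorem main : ∀ (n : ℕ) (G : Type u) [Group G] [Finite G], Nat.card G ≤ n → Group.IsSolvable G →
    ∀ (p : ℕ) [Fact p.Prime], p ≠ 2 → ∀ A : Subgroup G, IsPGroup p A →
    (∀ c : G, ∃ g : G, IsConj c g ∧ IsPGroup p ↥(A ⊔ MulAut.conj g • A)) → A ≤ pCore p G := by
  intro n
  induction n with
  | zero =>
    intro G _ _ hn
    exact absurd (Nat.le_zero.1 hn) Nat.card_pos.ne'
  | succ n ih =>
    intro G _ _ hn hs p hp hp2 A hA hyp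
    classical
    rcases subsingleton_or_nontrivial G with hsub | hnt
    · intro a _
      rw [Subsingleton.elim a 1]; exact one_mem _
    obtain ⟨N, hNn, hN1, hcomm, ⟨q, hq, hNq⟩, hmin⟩ := exists_min hs
    haveI := hNn
    haveI := hs
    haveI := Fact.mk hq
    set π : G →* G ⧸ N := QuotientGroup.mk' N with hπ
    have hπs : Function.Surjective π := QuotientGroup.mk'_surjective N
    have hπk : π.ker = N := QuotientGroup.ker_mk' N
    have hNQ : IsPGroup q N := fun x => ⟨1, by rw [pow_one]; exact Subtype.ext (hNq x x.2)⟩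
    -- the quotient
    have hcard : Nat.card (G ⧸ N) ≤ n := by
      have h1 := Subgroup.card_eq_card_quotient_mul_card_subgroup N
      have h2 : 1 < Nat.card N := (Subgroup.one_lt_card_iff_ne_bot N).2 hN1
      have h3 : 0 < Nat.card (G ⧸ N) := Nat.card_pos
      nlinarith
    have hq1 : A.map π ≤ pCore p (G ⧸ N) := by
      refine ih (G ⧸ N) hcard inferInstance p hp2 (A.map π) (hA.map π) ?_
      intro c
      obtain ⟨c, rfl⟩ := hπs c
      obtain ⟨g, hg1, hg2⟩ := hyp c
      refine ⟨π g, MonoidHom.map_isConj π hg1, ?_⟩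
      have h1 : A.map π ⊔ MulAut.conj (π g) • A.map π = (A ⊔ MulAut.conj g • A).map π := by
        rw [Subgroup.map_sup]
        congr 1
        ext x
        simp only [Subgroup.mem_map, Subgroup.mem_smul_pointwise_iff_exists, MulAut.smul_def, MulAut.conj_apply]
        constructor
        · rintro ⟨_, ⟨a, ha, rfl⟩, rfl⟩
          exact ⟨_, ⟨a, ha, rfl⟩, by simp⟩
        · rintro ⟨_, ⟨a, ha, rfl⟩, rfl⟩
          exact ⟨_, ⟨a, ha, rfl⟩, by simp⟩
      rw [h1]
      exact hg2.map π
    set K : Subgroup G := (pCore p (G ⧸ N)).comap π with hK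
    haveI hKn : K.Normal := Subgroup.Normal.comap (H1.Cores.pCore_normal p) π
    have hAK : A ≤ K := Subgroup.map_le_iff_le_comap.1 hq1
    by_cases hqp : q = p
    · subst hqp
      exact hAK.trans (H1.Cores.le_pCore hKn
        (IsPGroup.comap_of_ker_isPGroup (H1.Cores.isPGroup_pCore q) π (by rw [hπk]; exact hNQ)))
    -- elements of N commute with conjugates of elements of A
    have hfix : ∀ a ∈ A, ∀ v ∈ N, ∃ y : G, (y * a * y⁻¹) * v = v * (y * a * y⁻¹) := by
      intro a ha v hv
      obtain ⟨g, hg1, hg2⟩ := hyp v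
      obtain ⟨y, hy⟩ := isConj_iff.1 hg1
      have hgN : g ∈ N := by rw [← hy]; exact hNn.conj_mem v hv y
      have h1 : a⁻¹ * (g * a * g⁻¹) ∈ A ⊔ MulAut.conj g • A := by
        refine mul_mem (mem_sup_left (A.inv_mem ha)) (mem_sup_right ?_)
        exact Subgroup.smul_mem_pointwise_smul a (MulAut.conj g) A ha
      have h2 : a⁻¹ * (g * a * g⁻¹) ∈ N := by
        have h3 : a⁻¹ * (g * a * g⁻¹) = (a⁻¹ * g * a) * g⁻¹ := by group
        rw [h3]
        refine N.mul_mem ?_ (N.inv_mem hgN)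
        have := hNn.conj_mem g hgN a⁻¹
        rwa [inv_inv] at this
      have h3 : a⁻¹ * (g * a * g⁻¹) = 1 := by
        obtain ⟨k, hk⟩ := hg2 ⟨_, h1⟩
        have h4 : (a⁻¹ * (g * a * g⁻¹)) ^ p ^ k = 1 := congrArg Subtype.val hk
        have h5 := orderOf_dvd_of_pow_eq_one h4
        have h6 := orderOf_dvd_of_pow_eq_one (hNq _ h2)
        have h7 : (p ^ k).Coprime q := Nat.Coprime.pow_left k ((Nat.coprime_primes (Fact.out) hq).2 (Ne.symm hqp))
        have h8 := Nat.dvd_gcd h5 h6
        rw [h7] at h8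
        exact orderOf_eq_one_iff.1 (Nat.dvd_one.1 h8)
      have h4 : g * a = a * g := by
        have h5 : g * a * g⁻¹ = a := by
          have := congrArg (fun z => a * z) h3
          simpa using this
        rw [mul_inv_eq_iff_eq_mul] at h5
        exact h5
      refine ⟨y⁻¹, ?_⟩
      rw [← hy] at h4
      have h5 : y⁻¹ * (y * v * y⁻¹ * a) * y = y⁻¹ * (a * (y * v * y⁻¹)) * y := by rw [h4]
      calc y⁻¹ * a * y⁻¹⁻¹ * v = y⁻¹ * (a * (y * v * y⁻¹)) * y := by group
        _ = y⁻¹ * (y * v * y⁻¹ * a) * y := h5.symm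
        _ = _ := by group
    -- the linear theorem
    letI : CommGroup N := { (inferInstance : Group N) with mul_comm := fun x y => Subtype.ext (hcomm x x.2 y y.2) }
    letI : MulDistribMulAction G N :=
      { smul := fun g x => ⟨g * x * g⁻¹, hNn.conj_mem x x.2 g⟩
        one_smul := fun x => Subtype.ext (show 1 * (x : G) * 1⁻¹ = x by group)
        mul_smul := fun g h x => Subtype.ext (show g * h * (x : G) * (g * h)⁻¹ = g * (h * x * h⁻¹) * g⁻¹ by group)
        smul_mul := fun g x y => Subtype.ext (show g * ((x : G) * y) * g⁻¹ = g * x * g⁻¹ * (g * y * g⁻¹) by group)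
        smul_one := fun g => Subtype.ext (show g * 1 * g⁻¹ = 1 by group) }
    have hsm : ∀ (g : G) (x : N), ((g • x : N) : G) = g * x * g⁻¹ := fun _ _ => rfl
    haveI hNnt : Nontrivial N := (Subgroup.nontrivial_iff_ne_bot N).2 hN1
    have hcoN : (Nat.card N).Coprime p := by
      obtain ⟨k, hk⟩ := IsPGroup.iff_card.1 hNQ
      rw [hk]
      exact Nat.Coprime.pow_left k ((Nat.coprime_primes hq (Fact.out)).2 hqp)
    have hirr : Irr G N := by
      intro U hU
      have hUn : (U.map N.subtype).Normal := by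
        constructor
        rintro _ ⟨u, hu, rfl⟩ g
        exact ⟨g • u, hU g u hu, rfl⟩
      rcases hmin _ hUn (Subgroup.map_subtype_le U) with h | h
      · left
        rwa [Subgroup.map_eq_bot_iff_of_injective _ N.subtype_injective] at h
      · right
        rw [eq_top_iff]
        intro x _
        have h1 : (x : G) ∈ U.map N.subtype := by rw [h]; exact x.2
        obtain ⟨z, hz, hzx⟩ := h1
        have : z = x := Subtype.ext hzx
        rwa [← this]
    have hKp : ∀ k ∈ K, ∃ m : ℕ, k ^ (p ^ m) ∈ N := by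
      intro k hk
      obtain ⟨m, hm⟩ := H1.Cores.isPGroup_pCore (G := G ⧸ N) p ⟨π k, hk⟩
      refine ⟨m, ?_⟩
      rw [← hπk, MonoidHom.mem_ker, map_pow]
      exact congrArg Subtype.val hm
    have hAC : A ≤ centralizer (N : Set G) := by
      intro a ha
      have h1 := linear' (G := G) (V := N) hp2 hNnt hcoN hirr K hKn (by
        intro k hk
        obtain ⟨m, hm⟩ := hKp k hk
        refine ⟨m, fun v => Subtype.ext ?_⟩
        rw [hsm, hcomm _ hm _ v.2, mul_inv_cancel_right]) a (hAK ha) (by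
        intro v
        obtain ⟨y, hy⟩ := hfix a ha v v.2
        refine ⟨y, Subtype.ext ?_⟩
        rw [hsm, hy, mul_inv_cancel_right])
      rw [mem_centralizer_iff]
      intro v hv
      have h2 := congrArg Subtype.val (h1 ⟨v, hv⟩)
      rw [hsm] at h2
      exact (mul_inv_eq_iff_eq_mul.1 h2).symm
    -- nilpotency
    set L : Subgroup G := K ⊓ centralizer (N : Set G) with hL
    haveI hLn : L.Normal := by
      haveI : (centralizer (N : Set G)).Normal := Subgroup.normal_centralizer
      infer_instance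
    have hAL : A ≤ L := le_inf hAK hAC
    let f : L →* pCore p (G ⧸ N) :=
      { toFun := fun x => ⟨π x, x.2.1⟩
        map_one' := Subtype.ext (map_one π)
        map_mul' := fun x y => Subtype.ext (map_mul π (x : G) (y : G)) }
    haveI := (H1.Cores.isPGroup_pCore (G := G ⧸ N) p).isNilpotent
    have hLnil : Group.IsNilpotent L := by
      refine Subgroup.isNilpotent_of_ker_le_center f ?_
      intro x hx
      have h1 : (x : G) ∈ N := by
        rw [← hπk]
        exact congrArg Subtype.val hx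
      rw [mem_center_iff]
      intro y
      exact Subtype.ext (mem_centralizer_iff.1 y.2.2 x h1).symm
    have h1 : A.subgroupOf L ≤ pCore p L :=
      H26.Subnormal.le_pCore (H75.Subn.isSubnormal_of_isNilpotent hLnil _) hA.comap_subtype
    have h2 : (pCore p L).map L.subtype ≤ pCore p G := by
      rw [H26.Subnormal.map_subtype_pCore p (Subgroup.Normal.isSubnormal hLn)]
      exact inf_le_right
    calc A = (A.subgroupOf L).map L.subtype := (Subgroup.map_subgroupOf_eq_of_le hAL).symm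
      _ ≤ (pCore p L).map L.subtype := Subgroup.map_mono h1
      _ ≤ pCore p G := h2

end H75.FG
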