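import Mathlib
import Cfsg.Agent.Lib.H75.D2pFrame
import Cfsg.Agent.Lib.H75.SylowNumber
import Cfsg.Agent.Lib.H75.Brodkey

set_option autoImplicit false
set_option linter.all false

/-! A finite group does not have exactly 22 Sylow 3-subgroups. -/

namespace H75.N22

open Subgroup Pointwise

variable {G : Type*} [Group G] [Finite G]

instance : Fact (Nat.Prime 3) := ⟨Nat.prime_three⟩

theorem coatom (h : Nat.card (Sylow 3 G) = 22) (P : Sylow 3 G) :
    IsCoatom (MulAction.stabilizer G P) := by
  rw [Sylow.stabilizer_eq_normalizer]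
  have hidx : (normalizer (P : Set G)).index = 22 := by
    rw [← Sylow.card_eq_index_normalizer]; exact h
  constructor
  · intro htop
    rw [htop, index_top] at hidx
    omega
  · intro M hM
    have h1 := H75.SylowNumber.card_sylow_subgroup P M (le_normalizer.trans hM.le)
    have h2 := relIndex_mul_index hM.le
    have h3 := card_sylow_modEq_one 3 M
    rw [h1] at h3
    rw [hidx] at h2
    set s := (normalizer (P : Set G)).relIndex M with hs
    have hdvd : s ∣ 22 := ⟨M.index, h2.symm⟩
    have hle : s ≤ 22 := Nat.le_of_dvd (by norm_num) hdvd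
    have h4 : s = 1 ∨ s = 22 := by
      unfold Nat.ModEq at h3
      interval_cases s <;> first | omega | (exfalso; revert hdvd; decide) | skip
    rcases h4 with h4 | h4
    · exfalso
      exact hM.not_ge (relIndex_eq_one.1 (hs ▸ h4))
    · rw [h4] at h2
      have : M.index = 1 := by omega
      exact index_eq_one.1 this

theorem two_trans (h : Nat.card (Sylow 3 G) = 22) {P Q R : Sylow 3 G} (hQ : P ≠ Q) (hR : P ≠ R) :
    ∃ g : G, g • P = P ∧ g • Q = R := by
  classical
  letI := Fintype.ofFinite (Sylow 3 G)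
  haveI : Nontrivial (Sylow 3 G) := ⟨P, Q, hQ⟩
  have hprim : MulAction.IsPreprimitive G (Sylow 3 G) :=
    (MulAction.isCoatom_stabilizer_iff_preprimitive G P).1 (coatom h P)
  let Γ := (MulAction.toPermHom G (Sylow 3 G)).range
  let φ : G → Γ := fun g => ⟨MulAction.toPermHom G (Sylow 3 G) g, g, rfl⟩
  let f : Sylow 3 G →ₑ[φ] Sylow 3 G := ⟨id, fun g x => rfl⟩
  have hΓ : MulAction.IsPreprimitive Γ (Sylow 3 G) :=
    MulAction.IsPreprimitive.of_surjective (f := f) Function.surjective_id
  have hcard : Fintype.card (Sylow 3 G) = 2 * 11 := by rw [← Nat.card_eq_fintype_card, h]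
  rcases H75.D2p.wielandt (by norm_num) hcard Γ hΓ P with h1 | ⟨-, a, -, h1, -⟩
  · rw [MulAction.is_two_pretransitive_iff] at h1
    obtain ⟨⟨_, g, rfl⟩, h2, h3⟩ := h1 hQ hR
    exact ⟨g, h2, h3⟩
  · exfalso
    have : a ≤ 2 := by nlinarith
    interval_cases a <;> omega

/-- the intersection of two Sylow subgroups has index 3 -/
theorem relIndex_eq (h : Nat.card (Sylow 3 G) = 22) (P Q : Sylow 3 G) (hne : P ≠ Q) :
    (Q : Subgroup G).relIndex P = 3 := by
  classical
  have horb : ∀ Q : Sylow 3 G, Nat.card (MulAction.orbit P Q) = (Q : Subgroup G).relIndex P := by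
    intro Q
    rw [Nat.card_congr (MulAction.orbitEquivQuotientStabilizer P Q)]
    have e : MulAction.stabilizer P Q = (Q : Subgroup G).subgroupOf P := by
      ext g
      rw [MulAction.mem_stabilizer_iff, Subgroup.mem_subgroupOf]
      have h2 : g • Q = (g : G) • Q := rfl
      rw [h2, Sylow.smul_eq_iff_mem_normalizer]
      have h3 := P.isPGroup'.inf_normalizer_sylow Q
      constructor
      · intro h
        have : (g : G) ∈ (P : Subgroup G) ⊓ normalizer (Q : Set G) := ⟨g.2, h⟩
        rw [h3] at this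
        exact this.2
      · intro h
        exact Subgroup.le_normalizer h
    rw [e]
    rfl
  have hconst : ∀ R : Sylow 3 G, P ≠ R → (R : Subgroup G).relIndex P = (Q : Subgroup G).relIndex P := by
    intro R hR
    obtain ⟨g, hg1, hg2⟩ := two_trans h hne hR
    have h1 : (R : Subgroup G) = MulAut.conj g • (Q : Subgroup G) := by rw [← hg2]; rfl
    have h2 : (P : Subgroup G) = MulAut.conj g • (P : Subgroup G) := by
      conv_lhs => rw [← hg1]
      rfl
    have h3 : Nat.card ((R : Subgroup G) ⊓ P : Subgroup G) = Nat.card ((Q : Subgroup G) ⊓ P : Subgroup G) := by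
      have h4 : (R : Subgroup G) ⊓ P = MulAut.conj g • ((Q : Subgroup G) ⊓ P : Subgroup G) := by
        rw [Subgroup.smul_inf, ← h1, ← h2]
      rw [h4]
      exact Nat.card_congr (Subgroup.equivSMul (MulAut.conj g) _).symm.toEquiv
    have h5 := H75.SylowNumber.relIndex_mul_card_inf (R : Subgroup G) (P : Subgroup G)
    have h6 := H75.SylowNumber.relIndex_mul_card_inf (Q : Subgroup G) (P : Subgroup G)
    rw [h3] at h5
    exact Nat.eq_of_mul_eq_mul_right Nat.card_pos (h5.trans h6.symm)
  set k := (Q : Subgroup G).relIndex P with hk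
  -- sum over orbits
  letI := Fintype.ofFinite (Sylow 3 G)
  letI := Fintype.ofFinite (MulAction.orbitRel.Quotient P (Sylow 3 G))
  have h1 : Nat.card (Sylow 3 G) = ∑ ω : MulAction.orbitRel.Quotient P (Sylow 3 G),
      Nat.card (MulAction.orbitRel.Quotient.orbit ω) := by
    rw [Nat.card_congr (MulAction.selfEquivSigmaOrbits' P (Sylow 3 G)), Nat.card_sigma]
  have h2 : ∀ ω : MulAction.orbitRel.Quotient P (Sylow 3 G),
      Nat.card (MulAction.orbitRel.Quotient.orbit ω) =
        if ω = Quotient.mk'' P then 1 else k := by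
    intro ω
    induction ω using Quotient.inductionOn' with | _ R =>
    rw [MulAction.orbitRel.Quotient.orbit_mk, horb R]
    split_ifs with h3
    · have h4 : R ∈ MulAction.orbit P P := Quotient.exact' h3
      obtain ⟨g, hg⟩ := h4
      have h5 : g • P = P := by
        have : (g : G) • P = P := Sylow.smul_eq_iff_mem_normalizer.2 (le_normalizer g.2)
        exact this
      change g • P = R at hg
      rw [h5] at hg
      rw [← hg]; exact relIndex_self _
    · apply hconst
      rintro rfl
      exact h3 rfl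
  rw [h, Finset.sum_congr rfl fun ω _ => h2 ω, Finset.sum_ite, Finset.sum_const, Finset.sum_const,
    Finset.filter_eq', if_pos (Finset.mem_univ _), Finset.card_singleton, smul_eq_mul, smul_eq_mul,
    mul_one] at h1
  obtain ⟨s, hs⟩ := P.isPGroup'.card_orbit Q
  rw [horb Q, ← hk] at hs
  obtain ⟨c, hc⟩ : ∃ c, 22 = 1 + c * k := ⟨_, h1⟩
  have h21 : k ∣ 21 := Dvd.intro_left c (by omega)
  have hk1 : k ≠ 1 := by
    intro h3
    exact hne (Sylow.ext (P.3 Q.2 (relIndex_eq_one.1 (hk ▸ h3))).symm)
  have hle : k ≤ 21 := Nat.le_of_dvd (by norm_num) h21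
  rcases s with _ | _ | s
  · exact absurd (by simpa using hs) hk1
  · simpa using hs
  · exfalso
    have h9 : 9 ∣ k := ⟨3 ^ s, by rw [hs]; ring⟩
    have := h9.trans h21
    revert this; decide

theorem card_inf (h : Nat.card (Sylow 3 G) = 22) (P Q : Sylow 3 G) (hne : P ≠ Q) :
    3 * Nat.card ((P : Subgroup G) ⊓ Q : Subgroup G) = Nat.card P := by
  have := H75.SylowNumber.relIndex_mul_card_inf (Q : Subgroup G) (P : Subgroup G)
  rw [relIndex_eq h P Q hne, inf_comm] at this
  exact this

theorem card_sylow_eq (P Q : Sylow 3 G) : Nat.card P = Nat.card Q := by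
  rw [Sylow.card_eq_multiplicity P, Sylow.card_eq_multiplicity Q]

/-- if `D = P ∩ Q` is contained in two different Sylow subgroups then it is their intersection -/
theorem inf_eq_of_le (h : Nat.card (Sylow 3 G) = 22) {P Q R S : Sylow 3 G} (hPQ : P ≠ Q) (hRS : R ≠ S)
    (h1 : (P : Subgroup G) ⊓ Q ≤ R) (h2 : (P : Subgroup G) ⊓ Q ≤ S) :
    (P : Subgroup G) ⊓ Q = (R : Subgroup G) ⊓ S := by
  apply Subgroup.eq_of_le_of_card_ge (le_inf h1 h2)
  have h3 := card_inf h P Q hPQ
  have h4 := card_inf h R S hRS
  rw [card_sylow_eq P R, ← h4] at h3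
  omega

/-- the Sylow subgroups containing `D` -/
def Over (D : Subgroup G) : Set (Sylow 3 G) := {R | D ≤ (R : Subgroup G)}

theorem card_over_mod (h : Nat.card (Sylow 3 G) = 22) (D : Subgroup G) (hD : IsPGroup 3 D) :
    Nat.card (Over D) ≡ 1 [MOD 3] := by
  classical
  have h1 := hD.card_modEq_card_fixedPoints (Sylow 3 G)
  rw [h] at h1
  have h2 : MulAction.fixedPoints D (Sylow 3 G) = Over D := by
    ext R
    rw [MulAction.mem_fixedPoints]
    constructor
    · intro h3 g hg
      have h4 : (⟨g, hg⟩ : D) • R = R := h3 ⟨g, hg⟩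
      have h5 : g • R = R := h4
      have h6 : D ≤ normalizer (R : Set G) := by
        intro x hx
        exact Sylow.smul_eq_iff_mem_normalizer.1 (h3 ⟨x, hx⟩)
      have h7 := hD.inf_normalizer_sylow R
      rw [inf_eq_left.2 h6] at h7
      rw [h7] at hg
      exact hg.2
    · intro h3 g
      exact Sylow.smul_eq_iff_mem_normalizer.2 (le_normalizer (h3 g.2))
  rw [h2] at h1
  exact h1.symm.trans (by decide)

/-- all lines have the same size -/
theorem card_over_eq (h : Nat.card (Sylow 3 G) = 22) {P Q R : Sylow 3 G} (hPQ : P ≠ Q) (hPR : P ≠ R) :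
    Nat.card (Over ((P : Subgroup G) ⊓ Q)) = Nat.card (Over ((P : Subgroup G) ⊓ R)) := by
  obtain ⟨g, hg1, hg2⟩ := two_trans h hPQ hPR
  have h1 : (R : Subgroup G) = MulAut.conj g • (Q : Subgroup G) := by rw [← hg2]; rfl
  have h2 : (P : Subgroup G) = MulAut.conj g • (P : Subgroup G) := by
    conv_lhs => rw [← hg1]
    rfl
  have h4 : (P : Subgroup G) ⊓ R = MulAut.conj g • ((P : Subgroup G) ⊓ Q : Subgroup G) := by
    rw [Subgroup.smul_inf, ← h1, ← h2]
  refine Nat.card_congr ((MulAction.toPerm g).subtypeEquiv fun S => ?_)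
  show (P : Subgroup G) ⊓ Q ≤ S ↔ (P : Subgroup G) ⊓ R ≤ ((g • S : Sylow 3 G) : Subgroup G)
  rw [h4]
  exact (Subgroup.pointwise_smul_le_pointwise_smul_iff).symm

theorem line_size (h : Nat.card (Sylow 3 G) = 22) (P Q : Sylow 3 G) (hPQ : P ≠ Q) :
    Nat.card (Over ((P : Subgroup G) ⊓ Q)) = 4 ∨ Nat.card (Over ((P : Subgroup G) ⊓ Q)) = 22 := by
  classical
  letI := Fintype.ofFinite (Sylow 3 G)
  set k := Nat.card (Over ((P : Subgroup G) ⊓ Q)) with hk
  have hmod := card_over_mod h ((P : Subgroup G) ⊓ Q) (P.isPGroup'.to_le inf_le_left)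
  rw [← hk] at hmod
  -- the lines through `P`
  let lines : Finset (Subgroup G) := (Finset.univ.filter fun R : Sylow 3 G => P ≠ R).image
    fun R : Sylow 3 G => (P : Subgroup G) ⊓ (R : Subgroup G)
  have hcount : (Finset.univ.filter fun R : Sylow 3 G => P ≠ R).card = lines.card * (k - 1) := by
    rw [Finset.card_eq_sum_card_fiberwise (f := fun R : Sylow 3 G => (P : Subgroup G) ⊓ R) (t := lines)
      (fun R hR => Finset.mem_image_of_mem _ hR), Finset.sum_const_nat (m := k - 1)]
    intro D hD
    obtain ⟨R, hR, rfl⟩ := Finset.mem_image.1 hD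
    have hPR : P ≠ R := (Finset.mem_filter.1 hR).2
    have h1 : (Finset.univ.filter fun S : Sylow 3 G => P ≠ S).filter
        (fun S : Sylow 3 G => (P : Subgroup G) ⊓ (S : Subgroup G) = (P : Subgroup G) ⊓ R) =
        (Over ((P : Subgroup G) ⊓ R)).toFinset.erase P := by
      ext S
      rw [Finset.mem_filter, Finset.mem_filter, Finset.mem_erase, Set.mem_toFinset]
      constructor
      · rintro ⟨⟨-, h2⟩, h3⟩
        refine ⟨Ne.symm h2, ?_⟩
        show (P : Subgroup G) ⊓ R ≤ S
        rw [← h3]; exact inf_le_right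
      · rintro ⟨h2, h3⟩
        exact ⟨⟨Finset.mem_univ _, Ne.symm h2⟩, (inf_eq_of_le h hPR (Ne.symm h2) inf_le_left h3).symm⟩
    rw [h1, Finset.card_erase_of_mem, Set.toFinset_card, ← Nat.card_eq_fintype_card,
      ← card_over_eq h hPQ hPR]
    rw [Set.mem_toFinset]
    exact (inf_le_left : (P : Subgroup G) ⊓ R ≤ P)
  have h21 : (Finset.univ.filter fun R : Sylow 3 G => P ≠ R).card = 21 := by
    rw [Finset.filter_ne, Finset.card_erase_of_mem (Finset.mem_univ _), Finset.card_univ,
      ← Nat.card_eq_fintype_card, h]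
  rw [h21] at hcount
  have hdvd : k - 1 ∣ 21 := Dvd.intro_left _ hcount.symm
  have hle : k - 1 ≤ 21 := Nat.le_of_dvd (by norm_num) hdvd
  have hk0 : k ≠ 0 := by
    intro h0
    rw [h0] at hmod
    exact absurd hmod (by decide)
  unfold Nat.ModEq at hmod
  have hk22 : k ≤ 22 := by omega
  interval_cases k <;> first | omega | (exfalso; revert hdvd; decide)

/-- different Sylow subgroups meet in the core -/
theorem le_of_inf (h : Nat.card (Sylow 3 G) = 22) (P Q R : Sylow 3 G) (hPQ : P ≠ Q) :
    (P : Subgroup G) ⊓ Q ≤ R := by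
  classical
  letI := Fintype.ofFinite (Sylow 3 G)
  rcases line_size h P Q hPQ with h1 | h1
  · -- all lines have size 4
    exfalso
    have hall : ∀ R S : Sylow 3 G, R ≠ S → Nat.card (Over ((R : Subgroup G) ⊓ S)) = 4 := by
      intro R S hRS
      by_cases hR : P = R
      · subst hR
        rw [← card_over_eq h hPQ hRS]; exact h1
      · rw [card_over_eq h hRS (Ne.symm hR), inf_comm, card_over_eq h hR hPQ]; exact h1
    -- count ordered pairs
    let pairs : Finset (Sylow 3 G × Sylow 3 G) := Finset.univ.filter fun x => x.1 ≠ x.2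
    let lines : Finset (Subgroup G) := pairs.image fun x => (x.1 : Subgroup G) ⊓ x.2
    have hcount : pairs.card = lines.card * 12 := by
      rw [Finset.card_eq_sum_card_fiberwise (f := fun x : Sylow 3 G × Sylow 3 G => (x.1 : Subgroup G) ⊓ x.2)
        (t := lines) (fun R hR => Finset.mem_image_of_mem _ hR), Finset.sum_const_nat (m := 12)]
      intro D hD
      obtain ⟨⟨R, S⟩, hRS, rfl⟩ := Finset.mem_image.1 hD
      have hRS : R ≠ S := (Finset.mem_filter.1 hRS).2
      have h2 : pairs.filter (fun x => (x.1 : Subgroup G) ⊓ x.2 = (R : Subgroup G) ⊓ S) =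
          (Over ((R : Subgroup G) ⊓ S)).toFinset.offDiag := by
        ext ⟨A, B⟩
        rw [Finset.mem_filter, Finset.mem_filter, Finset.mem_offDiag, Set.mem_toFinset, Set.mem_toFinset]
        constructor
        · rintro ⟨⟨-, h3⟩, h4⟩
          refine ⟨?_, ?_, h3⟩
          · show (R : Subgroup G) ⊓ S ≤ A
            rw [← h4]; exact inf_le_left
          · show (R : Subgroup G) ⊓ S ≤ B
            rw [← h4]; exact inf_le_right
        · rintro ⟨h3, h4, h5⟩
          exact ⟨⟨Finset.mem_univ _, h5⟩, (inf_eq_of_le h hRS h5 h3 h4).symm⟩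
      rw [h2, Finset.offDiag_card, Set.toFinset_card, ← Nat.card_eq_fintype_card, hall R S hRS]
    have h462 : pairs.card = 462 := by
      have : pairs = (Finset.univ : Finset (Sylow 3 G)).offDiag := by
        ext ⟨A, B⟩
        rw [Finset.mem_filter, Finset.mem_offDiag]
        simp
      rw [this, Finset.offDiag_card, Finset.card_univ, ← Nat.card_eq_fintype_card, h]
    rw [h462] at hcount
    omega
  · have h2 : (Over ((P : Subgroup G) ⊓ Q)).toFinset = Finset.univ :=
      Finset.eq_univ_of_card _ (by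
        rw [Set.toFinset_card, ← Nat.card_eq_fintype_card, h1, ← Nat.card_eq_fintype_card, h])
    have : R ∈ (Over ((P : Subgroup G) ⊓ Q)).toFinset := by rw [h2]; exact Finset.mem_univ _
    rw [Set.mem_toFinset] at this
    exact this

end H75.N22
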