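import Mathlib
import Cfsg.Agent.Lib.H75.N22
import Cfsg.Agent.Lib.H14.PrimeDegree2
import Cfsg.Agent.Lib.H14.PrimeSylow2
import Cfsg.Agent.Lib.H75.ClassIndex

set_option autoImplicit false
set_option linter.all false

namespace H75.N22

open Subgroup Pointwise

variable {G : Type*} [Group G] [Finite G]

theorem key7 : ∀ a b : ZMod 7, a ≠ 0 → a ≠ 1 → a ≠ -1 →
    (∀ j, a ^ 6 * j + b * ∑ i ∈ Finset.range 6, a ^ i = j) ∧ a ^ 2 * 1 + b * ∑ i ∈ Finset.range 2, a ^ i ≠
      a ^ 2 * 0 + b * ∑ i ∈ Finset.range 2, a ^ i + 1 := by decide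

theorem key11 : ∀ a : ZMod 11, (a ^ 3 = 1 ∨ a ^ 7 = 1) → a = 1 := by decide

theorem zero_ne_one7 : (0 : ZMod 7) ≠ 1 := by decide

theorem neg_one_ne_one7 : (-1 : ZMod 7) ≠ 1 := by decide

/-- a transitive `3'`-group of degree 7 has order 7 or 14 -/
theorem degree_seven {α : Type*} [Fintype α] [DecidableEq α] (hα : Fintype.card α = 7)
    (T : Subgroup (Equiv.Perm α)) [MulAction.IsPretransitive T α] (h3 : ¬ 3 ∣ Nat.card T) :
    Nat.card T = 7 ∨ Nat.card T = 14 := by
  classical
  haveI : Fact (Nat.Prime 7) := ⟨by norm_num⟩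
  obtain ⟨c, hc, -, e, he⟩ := H14.PrimeDegree.exists_coord (p := 7) hα T
  have h7 : 7 ∣ Nat.card T := by
    have h1 := MulAction.index_stabilizer_of_transitive T (e 0)
    rw [Nat.card_eq_fintype_card, hα] at h1
    rw [← h1]; exact Subgroup.index_dvd_card _
  rcases H14.PrimeDegree2.affine_or_two_transitive (p := 7) hα T hc e he with h | h
  · -- affine
    have hsq : ∀ g ∈ T, ∃ a b : ZMod 7, (a = 1 ∨ a = -1) ∧ ∀ j, g (e j) = e (a * j + b) := by
      intro g hg
      obtain ⟨a, b, hab⟩ := h g hg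
      refine ⟨a, b, ?_, hab⟩
      have hpow : ∀ n : ℕ, ∀ j, (g ^ n) (e j) = e (a ^ n * j + b * ∑ i ∈ Finset.range n, a ^ i) := by
        intro n
        induction n with
        | zero => intro j; simp
        | succ n ih =>
          intro j
          rw [pow_succ', Equiv.Perm.mul_apply, ih, hab]
          congr 1
          rw [Finset.sum_range_succ', pow_zero]
          simp only [pow_succ]
          rw [← Finset.sum_mul]
          ring
      have ha0 : a ≠ 0 := by
        rintro rfl
        have h1 : g (e 0) = g (e 1) := by rw [hab, hab]; simp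
        have := e.injective (g.injective h1)
        exact absurd this zero_ne_one7
      by_contra hcon
      push Not at hcon
      obtain ⟨h6, h2⟩ := key7 a b ha0 hcon.1 hcon.2
      have hg6 : g ^ 6 = 1 := by
        ext x
        obtain ⟨j, rfl⟩ := e.surjective x
        rw [hpow, h6 j]; rfl
      have hdvd : orderOf g ∣ 6 := orderOf_dvd_of_pow_eq_one hg6
      have h3' : ¬ 3 ∣ orderOf g := by
        intro hd
        apply h3
        have : orderOf (⟨g, hg⟩ : T) ∣ Nat.card T := orderOf_dvd_natCard _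
        rw [Subgroup.orderOf_mk] at this
        exact hd.trans this
      have hg2 : g ^ 2 = 1 := by
        apply orderOf_dvd_iff_pow_eq_one.1
        have hle : orderOf g ≤ 6 := Nat.le_of_dvd (by norm_num) hdvd
        interval_cases h : orderOf g <;> first | omega | (exfalso; revert hdvd; decide) | (exfalso; exact h3' (by decide)) | decide
      apply h2
      have e1 := hpow 2 1
      have e0 := hpow 2 0
      rw [hg2] at e1 e0
      have e1' := e.injective e1
      have e0' := e.injective e0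
      rw [← e1', ← e0', zero_add]
    have hle : Nat.card T ≤ 14 := by
      choose! a b hab using hsq
      have hinj : Function.Injective (fun g : T => ((if a g.1 = 1 then (0 : Fin 2) else 1), b g.1)) := by
        intro g k hgk
        simp only [Prod.mk.injEq] at hgk
        obtain ⟨h1, h2⟩ := hgk
        have h3 : a g.1 = a k.1 := by
          rcases (hab g.1 g.2).1 with h4 | h4 <;> rcases (hab k.1 k.2).1 with h5 | h5
          · rw [h4, h5]
          · rw [h4, h5, if_pos rfl, if_neg neg_one_ne_one7] at h1; exact absurd h1 (by decide)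
          · rw [h4, h5, if_pos rfl, if_neg neg_one_ne_one7] at h1; exact absurd h1 (by decide)
          · rw [h4, h5]
        apply Subtype.ext
        ext x
        obtain ⟨j, rfl⟩ := e.surjective x
        rw [(hab g.1 g.2).2, (hab k.1 k.2).2, h3, h2]
      have := Nat.card_le_card_of_injective _ hinj
      rw [Nat.card_prod, Nat.card_eq_fintype_card, Nat.card_eq_fintype_card, Nat.card_eq_fintype_card,
        Fintype.card_fin, ZMod.card] at this
      rw [Nat.card_eq_fintype_card]
      exact this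
    have hpos : 0 < Nat.card T := Nat.card_pos
    omega
  · exfalso
    have h1 := H14.PrimeSylow2.dvd_of_three_transitive T (α := α) (k := 2) (by rw [hα]; norm_num) h
    rw [hα] at h1
    apply h3
    exact (by decide : 3 ∣ Nat.descFactorial 7 2).trans h1

theorem inf_eq_bot (h22 : Nat.card (Sylow 3 G) = 22)
    (hf : ∀ g : G, (∀ P : Sylow 3 G, g • P = P) → g = 1) (P Q : Sylow 3 G) (hPQ : P ≠ Q) :
    (P : Subgroup G) ⊓ Q = ⊥ := by
  rw [eq_bot_iff]
  intro x hx
  rw [mem_bot]
  apply hf
  intro R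
  exact Sylow.smul_eq_iff_mem_normalizer.2 (le_normalizer (le_of_inf h22 P Q R hPQ hx))

theorem exists_ne_sylow (h22 : Nat.card (Sylow 3 G) = 22) (P : Sylow 3 G) : ∃ Q : Sylow 3 G, P ≠ Q := by
  by_contra hcon
  push Not at hcon
  have : Nat.card (Sylow 3 G) ≤ 1 := by
    haveI : Subsingleton (Sylow 3 G) := ⟨fun a b => (hcon a).symm.trans (hcon b)⟩
    exact Finite.card_le_one_iff_subsingleton.2 this
  omega

theorem card_three (h22 : Nat.card (Sylow 3 G) = 22)
    (hf : ∀ g : G, (∀ P : Sylow 3 G, g • P = P) → g = 1) (P : Sylow 3 G) : Nat.card P = 3 := by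
  obtain ⟨Q, hQ⟩ := exists_ne_sylow h22 P
  have h1 := card_inf h22 P Q hQ
  rw [inf_eq_bot h22 hf P Q hQ, card_bot] at h1
  omega

theorem orbit21 (h22 : Nat.card (Sylow 3 G) = 22) (P Q : Sylow 3 G) (hPQ : P ≠ Q) :
    (normalizer (Q : Set G)).relIndex (normalizer (P : Set G)) = 21 := by
  classical
  letI := Fintype.ofFinite (Sylow 3 G)
  have h1 : Nat.card (MulAction.orbit (normalizer (P : Set G)) Q) =
      (normalizer (Q : Set G)).relIndex (normalizer (P : Set G)) := by
    rw [Nat.card_congr (MulAction.orbitEquivQuotientStabilizer (normalizer (P : Set G)) Q)]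
    have e : MulAction.stabilizer (normalizer (P : Set G)) Q =
        (normalizer (Q : Set G)).subgroupOf (normalizer (P : Set G)) := by
      ext g
      rw [MulAction.mem_stabilizer_iff, Subgroup.mem_subgroupOf]
      have h2 : g • Q = (g : G) • Q := rfl
      rw [h2, Sylow.smul_eq_iff_mem_normalizer]
    rw [e]
    rfl
  rw [← h1]
  have h2 : MulAction.orbit (normalizer (P : Set G)) Q = {R | R ≠ P} := by
    ext R
    constructor
    · rintro ⟨g, rfl⟩ h3
      have h4 : (g : G) • P = P := Sylow.smul_eq_iff_mem_normalizer.2 g.2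
      have h5 : (g : G) • Q = P := h3
      exact hPQ ((MulAction.injective (g : G)) (h4.trans h5.symm))
    · intro hR
      obtain ⟨g, h3, h4⟩ := two_trans h22 hPQ (Ne.symm hR)
      exact ⟨⟨g, Sylow.smul_eq_iff_mem_normalizer.1 h3⟩, h4⟩
  rw [h2, Nat.card_eq_fintype_card]
  have : Fintype.card ({R | R ≠ P} : Set (Sylow 3 G)) = Fintype.card (Sylow 3 G) - 1 := by
    rw [Set.card_ne_eq]
  rw [this, ← Nat.card_eq_fintype_card, h22]

theorem pow_three {P : Sylow 3 G} (h : Nat.card P = 3) (z : (P : Subgroup G)) : z ^ 3 = 1 := by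
  have := pow_card_eq_one' (x := z)
  rwa [h] at this

section H

variable (P Q : Sylow 3 G)

/-- `P` in its normalizer -/
def PH : Subgroup (normalizer (P : Set G)) := (P : Subgroup G).subgroupOf (normalizer (P : Set G))

instance : (PH P).Normal := Subgroup.normal_in_normalizer

def HQ : Subgroup (normalizer (P : Set G)) :=
  (normalizer (Q : Set G)).subgroupOf (normalizer (P : Set G))

def LL : Subgroup (normalizer (P : Set G)) := HQ P Q ⊔ PH P

theorem card_PH (h22 : Nat.card (Sylow 3 G) = 22)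
    (hf : ∀ g : G, (∀ P : Sylow 3 G, g • P = P) → g = 1) : Nat.card (PH P) = 3 := by
  exact (Nat.card_congr (subgroupOfEquivOfLe le_normalizer).toEquiv).trans (card_three h22 hf P)

theorem index_LL (h22 : Nat.card (Sylow 3 G) = 22)
    (hf : ∀ g : G, (∀ P : Sylow 3 G, g • P = P) → g = 1) (hPQ : P ≠ Q) : (LL P Q).index = 7 := by
  have h1 := H75.SylowNumber.card_sup_mul_card_inf (HQ P Q) (PH P)
  have h2 : HQ P Q ⊓ PH P = ⊥ := by
    rw [eq_bot_iff]
    rintro ⟨x, hx⟩ ⟨h3, h4⟩
    have h3' : x ∈ normalizer (Q : Set G) := h3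
    have h4' : x ∈ (P : Subgroup G) := h4
    have h5 := P.isPGroup'.inf_normalizer_sylow Q
    have h6 : x ∈ (P : Subgroup G) ⊓ normalizer (Q : Set G) := ⟨h4', h3'⟩
    rw [h5, inf_eq_bot h22 hf P Q hPQ, mem_bot] at h6
    rw [mem_bot]
    exact Subtype.ext h6
  rw [h2, card_bot, mul_one, card_PH P h22 hf] at h1
  have h3 := (HQ P Q).index_mul_card
  have h4 : (HQ P Q).index = 21 := orbit21 h22 P Q hPQ
  have h5 := (LL P Q).index_mul_card
  rw [h4] at h3
  change (LL P Q).index * Nat.card (HQ P Q ⊔ PH P : Subgroup _) = _ at h5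
  rw [h1] at h5
  have h6 : 0 < Nat.card (HQ P Q) := Nat.card_pos
  have h7 : (LL P Q).index * 3 * Nat.card (HQ P Q) = 21 * Nat.card (HQ P Q) := by
    rw [h3, ← h5]; ring
  have h8 := Nat.eq_of_mul_eq_mul_right h6 h7
  omega

theorem not_nine (h22 : Nat.card (Sylow 3 G) = 22)
    (hf : ∀ g : G, (∀ P : Sylow 3 G, g • P = P) → g = 1) : ¬ 9 ∣ Nat.card G := by
  intro h
  obtain ⟨P⟩ : Nonempty (Sylow 3 G) := inferInstance
  have h1 := P.pow_dvd_card_of_pow_dvd_card (n := 2) (by norm_num; exact h)
  rw [card_three h22 hf P] at h1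
  exact absurd h1 (by decide)

/-- the kernel of the action of `H` on the 7 blocks -/
def KK : Subgroup (normalizer (P : Set G)) := (LL P Q).normalCore

instance : (KK P Q).Normal := by unfold KK; infer_instance

theorem PH_le_KK : PH P ≤ KK P Q :=
  Subgroup.normal_le_normalCore.2 le_sup_right

/-- the centralizer of `P` in the kernel has exponent 3 -/
theorem cube_eq_one (h22 : Nat.card (Sylow 3 G) = 22)
    (hf : ∀ g : G, (∀ P : Sylow 3 G, g • P = P) → g = 1) (hPQ : P ≠ Q)
    (k : normalizer (P : Set G)) (hk : k ∈ KK P Q) (hc : ∀ z ∈ (P : Subgroup G), (k : G) * z = z * k) :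
    k ^ 3 = 1 := by
  apply Subtype.ext
  apply hf
  intro R
  by_cases hR : P = R
  · subst hR
    exact Sylow.smul_eq_iff_mem_normalizer.2 (pow_mem k.2 3)
  -- conjugate into `L`
  obtain ⟨g, hg1, hg2⟩ := two_trans h22 hR hPQ
  have hgH : g ∈ normalizer (P : Set G) := Sylow.smul_eq_iff_mem_normalizer.1 hg1
  have h1 : (⟨g, hgH⟩ : normalizer (P : Set G)) * k * (⟨g, hgH⟩ : normalizer (P : Set G))⁻¹ ∈ LL P Q :=
    hk ⟨g, hgH⟩
  rw [LL, Subgroup.mem_sup_of_normal_right] at h1
  obtain ⟨v, hv, u, hu, huv⟩ := h1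
  have huP : (u : G) ∈ (P : Subgroup G) := hu
  have hvQ : (v : G) ∈ normalizer (Q : Set G) := hv
  have huv' : (v : G) * u = g * k * g⁻¹ := congrArg Subtype.val huv
  -- `g k g⁻¹` centralizes `P`
  have hcg : ∀ z ∈ (P : Subgroup G), (g * k * g⁻¹) * z = z * (g * k * g⁻¹) := by
    intro z hz
    have hz' : g⁻¹ * z * g ∈ (P : Subgroup G) := (mem_normalizer_iff''.1 hgH z).1 hz
    have := hc _ hz'
    calc (g * k * g⁻¹) * z = g * (k * (g⁻¹ * z * g)) * g⁻¹ := by group
      _ = g * ((g⁻¹ * z * g) * k) * g⁻¹ := by rw [this]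
      _ = z * (g * k * g⁻¹) := by group
  have hcomm : Commute (v : G) u := by
    have h2 := hcg u huP
    rw [← huv'] at h2
    -- v u u = u v u
    exact mul_right_cancel (by rw [h2]; group : (v : G) * u * u = u * v * u)
  have hu3 : (u : G) ^ 3 = 1 := by
    have h3 := card_three h22 hf P
    have h4 : (⟨(u : G), huP⟩ : (P : Subgroup G)) ^ 3 = 1 := pow_three h3 _
    exact congrArg Subtype.val h4
  have hv3 : (g * k * g⁻¹) ^ 3 = (v : G) ^ 3 := by
    rw [← huv', hcomm.mul_pow, hu3, mul_one]
  have hv3' : (g * k * g⁻¹) ^ 3 ∈ normalizer (Q : Set G) := by rw [hv3]; exact pow_mem hvQ 3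
  have h5 : ((g * k * g⁻¹) ^ 3) • Q = Q := Sylow.smul_eq_iff_mem_normalizer.2 hv3'
  rw [conj_pow, ← hg2, ← mul_smul] at h5
  have h6 : g * (k : G) ^ 3 * g⁻¹ * g = g * (k : G) ^ 3 := by group
  rw [h6, mul_smul] at h5
  exact (MulAction.injective g) h5

theorem card_KK (h22 : Nat.card (Sylow 3 G) = 22)
    (hf : ∀ g : G, (∀ P : Sylow 3 G, g • P = P) → g = 1) (hPQ : P ≠ Q) :
    Nat.card (KK P Q) = 3 ∨ Nat.card (KK P Q) = 6 := by
  classical
  have h9 := not_nine h22 hf
  have hP3 := card_three h22 hf P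
  -- a generator `z` of `P`
  obtain ⟨z, hz⟩ : ∃ z : (P : Subgroup G), z ≠ 1 := by
    haveI : Nontrivial (P : Subgroup G) := by
      rw [← Finite.one_lt_card_iff_nontrivial, hP3]; norm_num
    exact exists_ne 1
  haveI : Fact (Nat.Prime 3) := ⟨Nat.prime_three⟩
  have hgen : ∀ y : (P : Subgroup G), y ∈ zpowers z := by
    intro y
    have h1 : orderOf z = 3 := orderOf_eq_prime (pow_three hP3 z) hz
    have h2 : zpowers z = ⊤ := by
      rw [← Subgroup.card_eq_iff_eq_top, Nat.card_zpowers, h1, hP3]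
    rw [h2]; trivial
  have hzH : (z : G) ∈ normalizer (P : Set G) := le_normalizer z.2
  -- inside `K`
  have hzK : (⟨z, hzH⟩ : normalizer (P : Set G)) ∈ KK P Q := PH_le_KK P Q z.2
  let zK : KK P Q := ⟨⟨z, hzH⟩, hzK⟩
  set C := centralizer ({zK} : Set (KK P Q)) with hC
  have hexp : ∀ c ∈ C, c ^ 3 = 1 := by
    intro c hc
    apply Subtype.ext
    refine cube_eq_one P Q h22 hf hPQ c.1 c.2 ?_
    intro y hy
    obtain ⟨n, hn⟩ := Subgroup.mem_zpowers_iff.1 (hgen ⟨y, hy⟩)
    have hyz : y = (z : G) ^ n := by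
      have := congrArg Subtype.val hn
      simpa using this.symm
    have h1 : Commute c zK := mem_centralizer_singleton_iff.1 hc
    have h2 : Commute ((c : normalizer (P : Set G)) : G) (z : G) :=
      congrArg (fun w : KK P Q => ((w : normalizer (P : Set G)) : G)) h1.eq
    rw [hyz]
    exact (h2.zpow_right n).eq
  have hCp : IsPGroup 3 C := fun c => ⟨1, by
    rw [pow_one]
    apply Subtype.ext
    exact hexp c.1 c.2⟩
  have hCc : Nat.card C = 3 := by
    obtain ⟨n, hn⟩ := IsPGroup.iff_card.1 hCp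
    have hdvd : Nat.card C ∣ Nat.card G :=
      (Subgroup.card_subgroup_dvd_card C).trans ((Subgroup.card_subgroup_dvd_card _).trans
        (Subgroup.card_subgroup_dvd_card _))
    have hz1 : (⟨zK, mem_centralizer_singleton_iff.2 rfl⟩ : C) ≠ 1 := by
      intro h
      apply hz
      have h1 := congrArg (fun w : C => (((w : KK P Q) : normalizer (P : Set G)) : G)) h
      exact Subtype.ext h1
    have hlt : 1 < Nat.card C := by
      rw [Finite.one_lt_card_iff_nontrivial]
      exact ⟨_, _, hz1⟩
    rcases n with _ | _ | n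
    · rw [hn] at hlt; simp at hlt
    · simpa using hn
    · exfalso
      apply h9
      refine Dvd.dvd.trans ?_ hdvd
      rw [hn]
      exact ⟨3 ^ n, by ring⟩
  have hidx : C.index ≤ 2 := by
    have h1 := H75.ClassIndex.index_centralizer_le zK
      ({w : KK P Q | ((w : normalizer (P : Set G)) : G) = z ∨ ((w : normalizer (P : Set G)) : G) = (z : G) ^ 2})
      (Set.toFinite _) (by
        intro g
        have h2 : ((g : normalizer (P : Set G)) : G) * z * ((g : normalizer (P : Set G)) : G)⁻¹ ∈ (P : Subgroup G) :=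
          (mem_normalizer_iff.1 (g : normalizer (P : Set G)).2 _).1 z.2
        obtain ⟨n, hn⟩ := Subgroup.mem_zpowers_iff.1 (hgen ⟨_, h2⟩)
        have h3 : orderOf z = 3 := orderOf_eq_prime (pow_three hP3 z) hz
        have h4 : z ^ (n % 3) = z ^ n := by
          have := zpow_mod_orderOf z n
          rw [h3] at this; exact_mod_cast this
        have h5 : n % 3 = 0 ∨ n % 3 = 1 ∨ n % 3 = 2 := by omega
        rw [← h4] at hn
        have h6 := congrArg Subtype.val hn
        rcases h5 with h5 | h5 | h5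
        · exfalso
          rw [h5, zpow_zero] at h6
          apply hz
          apply Subtype.ext
          have h7 : ((g : normalizer (P : Set G)) : G) * z * ((g : normalizer (P : Set G)) : G)⁻¹ = 1 := h6.symm
          rw [mul_inv_eq_one] at h7
          exact mul_left_cancel (h7.trans (mul_one _).symm)
        · left
          rw [h5, zpow_one] at h6
          exact h6.symm
        · right
          rw [h5] at h6
          have h7 : ((z ^ (2 : ℤ) : (P : Subgroup G)) : G) = (z : G) ^ 2 := by norm_cast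
          exact (h7.symm.trans h6).symm)
    refine h1.trans ?_
    have h2 : ({w : KK P Q | ((w : normalizer (P : Set G)) : G) = z ∨ ((w : normalizer (P : Set G)) : G) = (z : G) ^ 2}) ⊆
        {zK, zK ^ 2} := by
      rintro w (h | h)
      · left; exact Subtype.ext (Subtype.ext h)
      · right; exact Subtype.ext (Subtype.ext h)
    rw [Nat.card_coe_set_eq]
    exact (Set.ncard_le_ncard h2 (Set.toFinite _)).trans
      ((Set.ncard_insert_le _ _).trans (by rw [Set.ncard_singleton]))
  have hmul := C.index_mul_card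
  rw [hCc] at hmul
  have hpos : C.index ≠ 0 := index_ne_zero_of_finite
  have : C.index = 1 ∨ C.index = 2 := by omega
  rcases this with h | h <;> rw [h] at hmul
  · left; omega
  · right; omega

theorem card_H (h22 : Nat.card (Sylow 3 G) = 22)
    (hf : ∀ g : G, (∀ P : Sylow 3 G, g • P = P) → g = 1) (hPQ : P ≠ Q) :
    Nat.card (normalizer (P : Set G)) = 21 ∨ Nat.card (normalizer (P : Set G)) = 42 ∨
      Nat.card (normalizer (P : Set G)) = 84 := by
  classical
  have h9 := not_nine h22 hf
  let H := normalizer (P : Set G)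
  let X := H ⧸ (LL P Q)
  letI : Fintype X := Fintype.ofFinite X
  have hX : Fintype.card X = 7 := by
    rw [← Nat.card_eq_fintype_card]; exact index_LL P Q h22 hf hPQ
  let ψ := MulAction.toPermHom H X
  let T := ψ.range
  have hker : ψ.ker = KK P Q := (Subgroup.normalCore_eq_ker (LL P Q)).symm
  haveI : MulAction.IsPretransitive T X := by
    constructor
    intro x y
    obtain ⟨g, hg⟩ := MulAction.exists_smul_eq H x y
    exact ⟨⟨ψ g, g, rfl⟩, hg⟩
  have hcard : Nat.card T * Nat.card (KK P Q) = Nat.card H := by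
    rw [← hker, ← Subgroup.card_mul_index ψ.ker, mul_comm, Subgroup.index_ker]
  have hK := card_KK P Q h22 hf hPQ
  have h3 : ¬ 3 ∣ Nat.card T := by
    intro h
    apply h9
    have h4 : 3 ∣ Nat.card (KK P Q) := by rcases hK with h | h <;> rw [h] <;> decide
    have h5 : 3 * 3 ∣ Nat.card H := hcard ▸ Nat.mul_dvd_mul h h4
    exact h5.trans (Subgroup.card_subgroup_dvd_card _)
  have h7 := degree_seven hX T h3
  change Nat.card H = 21 ∨ Nat.card H = 42 ∨ Nat.card H = 84
  rcases h7 with h | h <;> rcases hK with h' | h' <;> rw [h, h'] at hcard <;> omega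

end H

theorem card_G (h22 : Nat.card (Sylow 3 G) = 22) (P : Sylow 3 G) :
    Nat.card G = 22 * Nat.card (normalizer (P : Set G)) := by
  rw [← h22, Sylow.card_eq_index_normalizer P, index_mul_card]

/-- an element of order 3 or 7 has a unique fixed point -/
theorem unique_fixed (h22 : Nat.card (Sylow 3 G) = 22)
    (hf : ∀ g : G, (∀ P : Sylow 3 G, g • P = P) → g = 1) {r : ℕ} (hr : r = 3 ∨ r = 7) {w : G}
    (hw : orderOf w = r) : ∃ P : Sylow 3 G, w • P = P ∧ ∀ Q : Sylow 3 G, w • Q = Q → Q = P := by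
  have hrp : r.Prime := by rcases hr with rfl | rfl <;> norm_num
  haveI : Fact r.Prime := ⟨hrp⟩
  have hpg : IsPGroup r (zpowers w) := IsPGroup.of_card (n := 1) (by rw [Nat.card_zpowers, hw, pow_one])
  have h1 := hpg.card_modEq_card_fixedPoints (Sylow 3 G)
  rw [h22] at h1
  obtain ⟨P, hP⟩ : ∃ P : Sylow 3 G, P ∈ MulAction.fixedPoints (zpowers w) (Sylow 3 G) := by
    by_contra hcon
    push Not at hcon
    have h2 : MulAction.fixedPoints (zpowers w) (Sylow 3 G) = ∅ := Set.eq_empty_iff_forall_notMem.2 hcon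
    rw [h2] at h1
    simp only [Nat.card_eq_fintype_card, Fintype.card_eq_zero] at h1
    unfold Nat.ModEq at h1
    rcases hr with rfl | rfl <;> omega
  have hwP : w • P = P := hP ⟨w, mem_zpowers w⟩
  refine ⟨P, hwP, fun Q hQ => ?_⟩
  by_contra hne
  have hPQ : P ≠ Q := fun h => hne h.symm
  have hc := card_H P Q h22 hf hPQ
  have h21 := orbit21 h22 P Q hPQ
  have h3 := H75.SylowNumber.relIndex_mul_card_inf (normalizer (Q : Set G)) (normalizer (P : Set G))
  rw [h21] at h3
  have h4 : r ∣ Nat.card (normalizer (Q : Set G) ⊓ normalizer (P : Set G) : Subgroup G) := by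
    have h5 : w ∈ normalizer (Q : Set G) ⊓ normalizer (P : Set G) :=
      ⟨Sylow.smul_eq_iff_mem_normalizer.1 hQ, Sylow.smul_eq_iff_mem_normalizer.1 hwP⟩
    have h6 := orderOf_dvd_natCard (⟨w, h5⟩ : (normalizer (Q : Set G) ⊓ normalizer (P : Set G) : Subgroup G))
    rw [Subgroup.orderOf_mk, hw] at h6
    exact h6
  obtain ⟨c, hc'⟩ := h4
  rw [hc'] at h3
  rcases hr with rfl | rfl <;> omega

theorem no_eleven (h22 : Nat.card (Sylow 3 G) = 22)
    (hf : ∀ g : G, (∀ P : Sylow 3 G, g • P = P) → g = 1) {x : G} (hx : orderOf x = 11) (P : Sylow 3 G) :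
    x • P ≠ P := by
  intro h
  obtain ⟨Q, hPQ⟩ := exists_ne_sylow h22 P
  have hc := card_H P Q h22 hf hPQ
  have h5 : x ∈ normalizer (P : Set G) := Sylow.smul_eq_iff_mem_normalizer.1 h
  have h6 := orderOf_dvd_natCard (⟨x, h5⟩ : normalizer (P : Set G))
  rw [Subgroup.orderOf_mk, hx] at h6
  rcases hc with hc | hc | hc <;> rw [hc] at h6 <;> omega

/-- no element of order 3 or 7 normalizes a subgroup of order 11 -/
theorem not_dvd_norm (h22 : Nat.card (Sylow 3 G) = 22)
    (hf : ∀ g : G, (∀ P : Sylow 3 G, g • P = P) → g = 1) {r : ℕ} (hr : r = 3 ∨ r = 7)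
    (R : Subgroup G) (hR : Nat.card R = 11) : ¬ r ∣ Nat.card (normalizer (R : Set G)) := by
  intro hdvd
  have hrp : r.Prime := by rcases hr with rfl | rfl <;> norm_num
  haveI : Fact r.Prime := ⟨hrp⟩
  haveI : Fact (Nat.Prime 11) := ⟨by norm_num⟩
  obtain ⟨⟨w, hwN⟩, hw⟩ := exists_prime_orderOf_dvd_card' r hdvd
  rw [Subgroup.orderOf_mk] at hw
  -- a generator of `R`
  obtain ⟨⟨x, hxR⟩, hx1⟩ : ∃ x : R, x ≠ 1 := by
    haveI : Nontrivial R := by
      rw [← Finite.one_lt_card_iff_nontrivial, hR]; norm_num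
    exact exists_ne 1
  have hx : orderOf x = 11 := by
    apply orderOf_eq_prime
    · have h1 : (⟨x, hxR⟩ : R) ^ 11 = 1 := by rw [← hR]; exact pow_card_eq_one'
      exact congrArg Subtype.val h1
    · intro h; exact hx1 (Subtype.ext h)
  have hgen : ∀ y ∈ R, y ∈ zpowers x := by
    have h1 : zpowers x = R := Subgroup.eq_of_le_of_card_ge (zpowers_le.2 hxR) (by
      rw [Nat.card_zpowers, hx, hR])
    intro y hy
    rw [h1]; exact hy
  obtain ⟨k, hk⟩ := Subgroup.mem_zpowers_iff.1 (hgen _ ((mem_normalizer_iff.1 hwN x).1 hxR))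
  have hpow : ∀ n : ℕ, w ^ n * x * (w ^ n)⁻¹ = x ^ (k ^ n) := by
    intro n
    induction n with
    | zero => simp
    | succ n ih =>
      calc w ^ (n + 1) * x * (w ^ (n + 1))⁻¹ = w * (w ^ n * x * (w ^ n)⁻¹) * w⁻¹ := by
            rw [pow_succ']; group
        _ = w * x ^ (k ^ n) * w⁻¹ := by rw [ih]
        _ = (w * x * w⁻¹) ^ (k ^ n) := by rw [conj_zpow]
        _ = x ^ (k ^ (n + 1)) := by rw [← hk, ← zpow_mul, pow_succ']
  have h1 := hpow r
  rw [← hw, pow_orderOf_eq_one, one_mul, inv_one, mul_one, hw] at h1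
  have h2 : ((k : ZMod 11)) ^ r = 1 := by
    have h3 : (11 : ℤ) ∣ k ^ r - 1 := by
      have h4 : x ^ (k ^ r - 1) = 1 := by rw [zpow_sub, zpow_one, ← h1, mul_inv_cancel]
      have h5 := orderOf_dvd_iff_zpow_eq_one.2 h4
      rw [hx] at h5
      exact_mod_cast h5
    have h6 := (ZMod.intCast_zmod_eq_zero_iff_dvd (k ^ r - 1) 11).2 (by exact_mod_cast h3)
    push_cast at h6
    exact sub_eq_zero.1 h6
  have hk1 : (k : ZMod 11) = 1 := by
    apply key11
    rcases hr with rfl | rfl
    · exact Or.inl h2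
    · exact Or.inr h2
  have hcomm : w * x * w⁻¹ = x := by
    have h3 : (11 : ℤ) ∣ k - 1 := by
      have := (ZMod.intCast_zmod_eq_zero_iff_dvd (k - 1) 11).1 (by push_cast; rw [hk1]; ring)
      exact_mod_cast this
    rw [← hk]
    have h4 : x ^ (k - 1) = 1 := by
      rw [← orderOf_dvd_iff_zpow_eq_one, hx]; exact_mod_cast h3
    rw [zpow_sub, zpow_one, mul_inv_eq_one] at h4
    exact h4
  obtain ⟨P, hP, huniq⟩ := unique_fixed h22 hf hr hw
  have h3 : w • (x • P) = x • P := by
    rw [← mul_smul]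
    have : w * x = x * w := by rw [mul_inv_eq_iff_eq_mul] at hcomm; exact hcomm
    rw [this, mul_smul, hP]
  exact no_eleven h22 hf hx P (huniq _ h3)

theorem faithful_case (h22 : Nat.card (Sylow 3 G) = 22)
    (hf : ∀ g : G, (∀ P : Sylow 3 G, g • P = P) → g = 1) : False := by
  obtain ⟨P⟩ : Nonempty (Sylow 3 G) := inferInstance
  obtain ⟨Q, hPQ⟩ := exists_ne_sylow h22 P
  have hc := card_H P Q h22 hf hPQ
  have hG := card_G h22 P
  haveI : Fact (Nat.Prime 11) := ⟨by norm_num⟩
  obtain ⟨R⟩ : Nonempty (Sylow 11 G) := inferInstance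
  have hR : Nat.card R = 11 := by
    rw [Sylow.card_eq_multiplicity R]
    have h1 : (Nat.card G).factorization 11 = 1 := by
      have h2 : Nat.card G = 11 * (2 * Nat.card (normalizer (P : Set G))) := by rw [hG]; ring
      have h3 : ¬ 11 ∣ 2 * Nat.card (normalizer (P : Set G)) := by
        rcases hc with hc | hc | hc <;> rw [hc] <;> decide
      have h4 : 2 * Nat.card (normalizer (P : Set G)) ≠ 0 := by
        intro h; rw [h] at h3; exact h3 (dvd_zero _)
      rw [h2, Nat.factorization_mul (by norm_num) h4, Finsupp.add_apply,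
        Nat.factorization_eq_zero_of_not_dvd h3, Nat.Prime.factorization_self (by norm_num)]
    rw [h1, pow_one]
  have h3 := not_dvd_norm h22 hf (Or.inl rfl) (R : Subgroup G) hR
  have h7 := not_dvd_norm h22 hf (Or.inr rfl) (R : Subgroup G) hR
  have hn := Sylow.card_eq_index_normalizer R
  have hmod := card_sylow_modEq_one 11 G
  rw [hn] at hmod
  have hmul := (normalizer (R : Set G)).index_mul_card
  have h11 : 11 ∣ Nat.card (normalizer (R : Set G)) := by
    have h0 : Nat.card R ∣ Nat.card (normalizer (R : Set G)) := Subgroup.card_dvd_of_le le_normalizer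
    rwa [hR] at h0
  obtain ⟨m, hm⟩ := h11
  change ¬ 3 ∣ Nat.card (normalizer (R : Set G)) at h3
  change ¬ 7 ∣ Nat.card (normalizer (R : Set G)) at h7
  set n := (normalizer (R : Set G)).index with hndef
  rw [hm] at h3 h7 hmul
  rw [hG] at hmul
  have hnm : n * m = 2 * Nat.card (normalizer (P : Set G)) := by
    have : 11 * (n * m) = 11 * (2 * Nat.card (normalizer (P : Set G))) := by
      calc 11 * (n * m) = n * (11 * m) := by ring
        _ = _ := by rw [hmul]; ring
    omega
  have h3' : ¬ 3 ∣ m := fun h => h3 (h.mul_left 11)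
  have h7' : ¬ 7 ∣ m := fun h => h7 (h.mul_left 11)
  unfold Nat.ModEq at hmod
  have hmle : m ≤ 168 := by
    have : m ∣ 2 * Nat.card (normalizer (P : Set G)) := Dvd.intro_left _ hnm
    have := Nat.le_of_dvd (by rcases hc with hc | hc | hc <;> rw [hc] <;> norm_num) this
    rcases hc with hc | hc | hc <;> rw [hc] at this <;> omega
  rcases hc with hc | hc | hc <;> rw [hc] at hnm <;> interval_cases m <;> omega

theorem main : ∀ (n : ℕ) (G : Type*) [Group G] [Finite G], Nat.card G = n → Nat.card (Sylow 3 G) ≠ 22 := by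
  intro n
  induction n using Nat.strong_induction_on with
  | _ n ih =>
    intro G _ _ hn h22
    let K := (MulAction.toPermHom G (Sylow 3 G)).ker
    have hK : ∀ P : Sylow 3 G, K ≤ normalizer (P : Set G) := by
      intro P k hk
      have h1 : MulAction.toPermHom G (Sylow 3 G) k = 1 := hk
      have h2 : k • P = P := by
        have := congrArg (fun f : Equiv.Perm (Sylow 3 G) => f P) h1
        exact this
      exact Sylow.smul_eq_iff_mem_normalizer.1 h2
    by_cases hK1 : K = ⊥
    · apply faithful_case h22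
      intro g hg
      have : g ∈ K := by
        show MulAction.toPermHom G (Sylow 3 G) g = 1
        ext P : 1
        exact hg P
      rw [hK1, mem_bot] at this
      exact this
    · obtain ⟨P⟩ : Nonempty (Sylow 3 G) := inferInstance
      have h1 := H75.SylowNumber.card_sylow_quotient_of_normalizes P K (hK P)
      have hlt : Nat.card (G ⧸ K) < n := by
        rw [← hn, ← Subgroup.index_eq_card, ← K.index_mul_card]
        have h2 : 1 < Nat.card K := by
          rw [Finite.one_lt_card_iff_nontrivial]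
          exact (Subgroup.nontrivial_iff_ne_bot K).2 hK1
        have h3 : 0 < K.index := Nat.pos_of_ne_zero index_ne_zero_of_finite
        nlinarith
      exact ih _ hlt (G ⧸ K) rfl (h1.trans h22)

end H75.N22
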