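import Cfsg.Agent.Lib.H75.OTBasic

set_option autoImplicit false
set_option linter.all false

/-! The solvable group `AΓL(1,8)` of order 168 and its numbers of solutions of `g ^ n = 1`. -/

namespace H75.OT

/-- cyclic group of order 3 -/
def C3 : Type := Multiplicative (ZMod 3)
instance : CommGroup C3 := inferInstanceAs (CommGroup (Multiplicative (ZMod 3)))
instance : Fintype C3 := inferInstanceAs (Fintype (Multiplicative (ZMod 3)))
instance : DecidableEq C3 := inferInstanceAs (DecidableEq (Multiplicative (ZMod 3)))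

/-- `ZMod 7` with the action -/
def Z7 : Type := ZMod 7
instance : AddCommGroup Z7 := inferInstanceAs (AddCommGroup (ZMod 7))
instance : Fintype Z7 := inferInstanceAs (Fintype (ZMod 7))
instance : DecidableEq Z7 := inferInstanceAs (DecidableEq (ZMod 7))

/-- multiplication by `2 ^ c` -/
def act7 (c : C3) (x : Z7) : Z7 :=
  match (Multiplicative.toAdd (α := ZMod 3) c).val with
  | 0 => x
  | 1 => x + x
  | _ => (x + x) + (x + x)

instance : DistribMulAction C3 Z7 where
  smul := act7
  one_smul := by decide +kernel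
  mul_smul := by decide +kernel
  smul_zero := by decide +kernel
  smul_add := by decide +kernel

/-- Frobenius group of order 21 -/
abbrev F21 : Type := Aff C3 Z7

/-- elementary abelian group of order 8 -/
def V8 : Type := ZMod 2 × ZMod 2 × ZMod 2
instance : AddCommGroup V8 := inferInstanceAs (AddCommGroup (ZMod 2 × ZMod 2 × ZMod 2))
instance : Fintype V8 := inferInstanceAs (Fintype (ZMod 2 × ZMod 2 × ZMod 2))
instance : DecidableEq V8 := inferInstanceAs (DecidableEq (ZMod 2 × ZMod 2 × ZMod 2))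

def affEquiv (T V : Type*) : Aff T V ≃ V × T where
  toFun x := (x.v, x.t)
  invFun y := ⟨y.1, y.2⟩
  left_inv _ := rfl
  right_inv _ := rfl

instance (T V : Type*) [DecidableEq T] [DecidableEq V] : DecidableEq (Aff T V) := fun x y =>
  decidable_of_iff (x.v = y.v ∧ x.t = y.t) Aff.ext_iff.symm
instance (T V : Type*) [Fintype T] [Fintype V] : Fintype (Aff T V) := Fintype.ofEquiv _ (affEquiv T V).symm

/-- Singer cycle -/
def Sg8 (v : V8) : V8 := (v.2.2, v.1 + v.2.2, v.2.1)
/-- Frobenius -/
def Fr8 (v : V8) : V8 := (v.1, v.2.2, v.2.1 + v.2.2)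

def act8 (t : F21) (v : V8) : V8 :=
  Sg8^[(ZMod.val (n := 7) t.v)] (Fr8^[(ZMod.val (n := 3) (Multiplicative.toAdd (α := ZMod 3) t.t))] v)

instance : DistribMulAction F21 V8 where
  smul := act8
  one_smul := by decide +kernel
  mul_smul := by decide +kernel
  smul_zero := by decide +kernel
  smul_add := by decide +kernel

/-- `AΓL(1,8)` -/
abbrev A168 : Type := Aff F21 V8

theorem isSolvable_A168 : Group.IsSolvable A168 := inferInstance

section
variable {G : Type*} [Group G]
def q2 (x : G) : G := x * x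
def q3 (x : G) : G := x * x * x
def q4 (x : G) : G := q2 (q2 x)
def q7 (x : G) : G := q4 x * q3 x
theorem q2_eq (x : G) : q2 x = x ^ 2 := (pow_two x).symm
theorem q3_eq (x : G) : q3 x = x ^ 3 := by unfold q3; rw [pow_succ, pow_two]
theorem q4_eq (x : G) : q4 x = x ^ 4 := by unfold q4; rw [q2_eq, q2_eq, ← pow_mul]
theorem q7_eq (x : G) : q7 x = x ^ 7 := by unfold q7; rw [q4_eq, q3_eq, ← pow_add]
end

theorem A2 : Fintype.card {x : A168 // q2 x = 1} = 8 := by decide +kernel
theorem A3 : Fintype.card {x : A168 // q3 x = 1} = 57 := by decide +kernel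
theorem A4 : Fintype.card {x : A168 // q4 x = 1} = 8 := by decide +kernel
theorem A6 : Fintype.card {x : A168 // q2 (q3 x) = 1} = 120 := by decide +kernel
theorem A7 : Fintype.card {x : A168 // q7 x = 1} = 49 := by decide +kernel
theorem A12 : Fintype.card {x : A168 // q4 (q3 x) = 1} = 120 := by decide +kernel
theorem A14 : Fintype.card {x : A168 // q2 (q7 x) = 1} = 56 := by decide +kernel
theorem A21 : Fintype.card {x : A168 // q3 (q7 x) = 1} = 105 := by decide +kernel
theorem A28 : Fintype.card {x : A168 // q4 (q7 x) = 1} = 56 := by decide +kernel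
theorem A42 : ∀ x : A168, q2 (q3 (q7 x)) = 1 := by decide +kernel

theorem cnt_of_card (n : ℕ) (f : A168 → A168) (hf : ∀ x, f x = x ^ n) (v : ℕ)
    (h : Fintype.card {x : A168 // f x = 1} = v) : cnt A168 n = v := by
  unfold cnt
  rw [← h, ← Nat.card_eq_fintype_card]
  exact Nat.card_congr (Equiv.subtypeEquivRight fun x => by rw [hf])

theorem A168_pow (x : A168) : x ^ 42 = 1 := by
  rw [← A42 x, q2_eq, q3_eq, q7_eq, ← pow_mul, ← pow_mul]

theorem card_A168 : Nat.card A168 = 168 := by
  rw [Nat.card_eq_fintype_card]; decide +kernel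

theorem cnt_full (n : ℕ) (h : 42 ∣ n) : cnt A168 n = 168 := by
  unfold cnt
  rw [← card_A168]
  refine Nat.card_congr (Equiv.subtypeUnivEquiv fun x => ?_)
  obtain ⟨k, rfl⟩ := h
  rw [pow_mul, A168_pow, one_pow]

/-- table of values -/
def tabA : ℕ → ℕ
  | 1 => 1 | 2 => 8 | 3 => 57 | 4 => 8 | 6 => 120 | 7 => 49 | 12 => 120 | 14 => 56 | 21 => 105
  | 28 => 56 | 42 => 168 | 84 => 168 | _ => 0

theorem cnt_A168 (n : ℕ) : cnt A168 n = tabA (Nat.gcd n 84) := by
  rw [cnt_gcd _ 84 (fun x => by
    rw [show (84 : ℕ) = 42 * 2 from rfl, pow_mul, A168_pow, one_pow])]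
  have h : Nat.gcd n 84 ∣ 84 := Nat.gcd_dvd_right n 84
  generalize Nat.gcd n 84 = d at h
  have hd : d ∈ Nat.divisors 84 := Nat.mem_divisors.2 ⟨h, by norm_num⟩
  have hl : Nat.divisors 84 = {1, 2, 3, 4, 6, 7, 12, 14, 21, 28, 42, 84} := by decide +kernel
  rw [hl] at hd
  simp only [Finset.mem_insert, Finset.mem_singleton] at hd
  rcases hd with rfl | rfl | rfl | rfl | rfl | rfl | rfl | rfl | rfl | rfl | rfl | rfl
  · unfold cnt
    have : Unique {g : A168 // g ^ 1 = 1} :=
      ⟨⟨⟨1, by simp⟩⟩, fun x => Subtype.ext (by simpa using x.2)⟩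
    exact Nat.card_unique
  · exact cnt_of_card 2 _ (fun x => by simp only [q2_eq]) _ A2
  · exact cnt_of_card 3 _ (fun x => by simp only [q3_eq]) _ A3
  · exact cnt_of_card 4 _ (fun x => by simp only [q4_eq]) _ A4
  · exact cnt_of_card 6 _ (fun x => by simp only [q2_eq, q3_eq, ← pow_mul]) _ A6
  · exact cnt_of_card 7 _ (fun x => by simp only [q7_eq]) _ A7
  · exact cnt_of_card 12 _ (fun x => by simp only [q4_eq, q3_eq, ← pow_mul]) _ A12
  · exact cnt_of_card 14 _ (fun x => by simp only [q2_eq, q7_eq, ← pow_mul]) _ A14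
  · exact cnt_of_card 21 _ (fun x => by simp only [q3_eq, q7_eq, ← pow_mul]) _ A21
  · exact cnt_of_card 28 _ (fun x => by simp only [q4_eq, q7_eq, ← pow_mul]) _ A28
  · exact cnt_full 42 (by norm_num)
  · exact cnt_full 84 (by norm_num)

end H75.OT
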