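import Mathlib

set_option autoImplicit false
set_option linter.all false

/-! Counting solutions of `g ^ n = 1`: products, powers, affine groups. -/

namespace H75.OT

/-- number of solutions of `g ^ n = 1` -/
noncomputable def cnt (G : Type*) [Monoid G] (n : ℕ) : ℕ := Nat.card {g : G // g ^ n = 1}

theorem cnt_congr {G H : Type*} [Monoid G] [Monoid H] (e : G ≃* H) (n : ℕ) : cnt G n = cnt H n := by
  refine Nat.card_congr (e.toEquiv.subtypeEquiv fun g => ?_)
  have h1 : (e g) ^ n = e (g ^ n) := (map_pow e g n).symm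
  show g ^ n = 1 ↔ (e g) ^ n = 1
  rw [h1]
  exact (EmbeddingLike.map_eq_one_iff (f := e)).symm

theorem cnt_prod (G H : Type*) [Monoid G] [Monoid H] (n : ℕ) :
    cnt (G × H) n = cnt G n * cnt H n := by
  unfold cnt
  rw [← Nat.card_prod]
  refine Nat.card_congr ?_
  refine ⟨fun g => ⟨⟨g.1.1, congrArg Prod.fst g.2⟩, ⟨g.1.2, congrArg Prod.snd g.2⟩⟩,
    fun g => ⟨(g.1.1, g.2.1), Prod.ext g.1.2 g.2.2⟩, fun g => rfl, fun g => rfl⟩

theorem cnt_pi {ι : Type*} [Fintype ι] (G : ι → Type*) [∀ i, Monoid (G i)] (n : ℕ) :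
    cnt (∀ i, G i) n = ∏ i, cnt (G i) n := by
  unfold cnt
  rw [← Nat.card_pi]
  refine Nat.card_congr ?_
  refine ⟨fun g i => ⟨g.1 i, congrFun g.2 i⟩, fun g => ⟨fun i => (g i).1, funext fun i => (g i).2⟩,
    fun g => rfl, fun g => rfl⟩

theorem cnt_pow (G : Type*) [Monoid G] (c n : ℕ) : cnt (Fin c → G) n = cnt G n ^ c := by
  rw [cnt_pi]; simp

theorem cnt_gcd (G : Type*) [Group G] (e : ℕ) (he : ∀ g : G, g ^ e = 1) (n : ℕ) :
    cnt G n = cnt G (Nat.gcd n e) := by
  unfold cnt
  refine Nat.card_congr (Equiv.subtypeEquivRight fun g => ?_)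
  constructor
  · intro h
    exact pow_gcd_eq_one.2 ⟨h, he g⟩
  · intro h
    obtain ⟨k, hk⟩ := Nat.gcd_dvd_left n e
    rw [hk, pow_mul, h, one_pow]

/-- the affine group `V ⋊ T` -/
@[ext] structure Aff (T V : Type*) where
  v : V
  t : T

namespace Aff

variable {T V : Type*} [Group T] [AddCommGroup V] [DistribMulAction T V]

instance instGroup : Group (Aff T V) where
  mul x y := ⟨x.v + x.t • y.v, x.t * y.t⟩
  one := ⟨0, 1⟩
  inv x := ⟨-(x.t⁻¹ • x.v), x.t⁻¹⟩
  mul_assoc x y z := by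
    ext
    · show x.v + x.t • y.v + (x.t * y.t) • z.v = x.v + x.t • (y.v + y.t • z.v)
      rw [smul_add, smul_smul, add_assoc]
    · exact mul_assoc _ _ _
  one_mul x := by
    ext
    · show 0 + (1 : T) • x.v = x.v
      rw [one_smul, zero_add]
    · exact one_mul _
  mul_one x := by
    ext
    · show x.v + x.t • (0 : V) = x.v
      rw [smul_zero, add_zero]
    · exact mul_one _
  inv_mul_cancel x := by
    ext
    · show -(x.t⁻¹ • x.v) + x.t⁻¹ • x.v = 0
      exact neg_add_cancel _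
    · exact inv_mul_cancel _

theorem mul_v (x y : Aff T V) : (x * y).v = x.v + x.t • y.v := rfl
theorem mul_t (x y : Aff T V) : (x * y).t = x.t * y.t := rfl
theorem one_v : (1 : Aff T V).v = 0 := rfl
theorem one_t : (1 : Aff T V).t = 1 := rfl

theorem pow_t (x : Aff T V) (n : ℕ) : (x ^ n).t = x.t ^ n := by
  induction n with
  | zero => rw [pow_zero, pow_zero]; rfl
  | succ n ih => rw [pow_succ, pow_succ, mul_t, ih]

theorem pow_v (x : Aff T V) (n : ℕ) : (x ^ n).v = ∑ k ∈ Finset.range n, x.t ^ k • x.v := by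
  induction n with
  | zero => rw [pow_zero, Finset.sum_range_zero]; rfl
  | succ n ih => rw [pow_succ, mul_v, ih, pow_t, Finset.sum_range_succ]

/-- projection -/
def proj : Aff T V →* T where
  toFun x := x.t
  map_one' := rfl
  map_mul' _ _ := rfl

/-- inclusion of the translations -/
def incl : Multiplicative V →* Aff T V where
  toFun x := ⟨Multiplicative.toAdd x, 1⟩
  map_one' := rfl
  map_mul' x y := by
    ext
    · show Multiplicative.toAdd x + Multiplicative.toAdd y = Multiplicative.toAdd x + (1 : T) • Multiplicative.toAdd y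
      rw [one_smul]
    · exact (mul_one (1 : T)).symm

instance isSolvable [Group.IsSolvable T] : Group.IsSolvable (Aff T V) := by
  refine Group.isSolvable_of_ker_le_range (incl (T := T) (V := V)) (proj (T := T) (V := V)) ?_
  intro x hx
  have h1 : x.t = 1 := hx
  exact ⟨Multiplicative.ofAdd x.v, by ext <;> simp [incl, h1]⟩

instance [Finite T] [Finite V] : Finite (Aff T V) :=
  Finite.of_injective (fun x : Aff T V => (x.v, x.t)) (by
    intro x y h
    ext
    · exact congrArg Prod.fst h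
    · exact congrArg Prod.snd h)

theorem pow_eq_one_iff (x : Aff T V) (n : ℕ) :
    x ^ n = 1 ↔ x.t ^ n = 1 ∧ ∑ k ∈ Finset.range n, x.t ^ k • x.v = 0 := by
  rw [Aff.ext_iff, pow_v, pow_t, one_v, one_t]
  exact and_comm

theorem cnt_eq [Fintype T] [DecidableEq T] [Finite V] (n : ℕ) :
    cnt (Aff T V) n =
      ∑ t : T, if t ^ n = 1 then Nat.card {v : V // ∑ k ∈ Finset.range n, t ^ k • v = 0} else 0 := by
  unfold cnt
  have e : {g : Aff T V // g ^ n = 1} ≃
      Σ t : T, {v : V // t ^ n = 1 ∧ ∑ k ∈ Finset.range n, t ^ k • v = 0} :=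
    ⟨fun g => ⟨g.1.t, ⟨g.1.v, (pow_eq_one_iff _ _).1 g.2⟩⟩,
      fun g => ⟨⟨g.2.1, g.1⟩, (pow_eq_one_iff _ _).2 g.2.2⟩, fun g => rfl, fun g => rfl⟩
  rw [Nat.card_congr e, Nat.card_sigma]
  refine Finset.sum_congr rfl fun t _ => ?_
  split_ifs with h
  · exact Nat.card_congr (Equiv.subtypeEquivRight fun v => by simp [h])
  · have : IsEmpty {v : V // t ^ n = 1 ∧ ∑ k ∈ Finset.range n, t ^ k • v = 0} :=
      ⟨fun v => h v.2.1⟩
    exact Nat.card_of_isEmpty

end Aff

end H75.OT
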