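import Cfsg.Agent.Lib.H75.OTBasic

set_option autoImplicit false
set_option linter.all false

/-! The group `GL₃(2)`: nonsolvable, and its numbers of solutions of `g ^ n = 1`. -/

open scoped commutatorElement

namespace H75.OT

theorem cnt_units (M : Type*) [Monoid M] (n : ℕ) (hn : n ≠ 0) : cnt Mˣ n = cnt M n := by
  unfold cnt
  refine Nat.card_congr ⟨fun u => ⟨(u.1 : M), by rw [← Units.val_pow_eq_pow_val, u.2, Units.val_one]⟩,
    fun m => ⟨Units.ofPowEqOne m.1 n m.2 hn, by ext; simp [m.2]⟩, fun u => ?_, fun m => ?_⟩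
  · ext; simp
  · ext; simp

abbrev Mat : Type := Matrix (Fin 3) (Fin 3) (ZMod 2)

/-- coded matrices -/
@[ext] structure B9 where
  a : Bool
  b : Bool
  c : Bool
  d : Bool
  e : Bool
  f : Bool
  g : Bool
  h : Bool
  i : Bool
deriving DecidableEq

namespace B9

def mulB (x y : B9) : B9 where
  a := xor (x.a && y.a) (xor (x.b && y.d) (x.c && y.g))
  b := xor (x.a && y.b) (xor (x.b && y.e) (x.c && y.h))
  c := xor (x.a && y.c) (xor (x.b && y.f) (x.c && y.i))
  d := xor (x.d && y.a) (xor (x.e && y.d) (x.f && y.g))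
  e := xor (x.d && y.b) (xor (x.e && y.e) (x.f && y.h))
  f := xor (x.d && y.c) (xor (x.e && y.f) (x.f && y.i))
  g := xor (x.g && y.a) (xor (x.h && y.d) (x.i && y.g))
  h := xor (x.g && y.b) (xor (x.h && y.e) (x.i && y.h))
  i := xor (x.g && y.c) (xor (x.h && y.f) (x.i && y.i))

def oneB : B9 := ⟨true, false, false, false, true, false, false, false, true⟩

def isOne (x : B9) : Bool :=
  x.a && !x.b && !x.c && !x.d && x.e && !x.f && !x.g && !x.h && x.i

def s (f : Bool → ℕ) : ℕ := f true + f false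

def total (t : B9 → Bool) : ℕ :=
  s fun a => s fun b => s fun c => s fun d => s fun e => s fun f => s fun g => s fun h => s fun i =>
    if t ⟨a, b, c, d, e, f, g, h, i⟩ = true then 1 else 0

def sq (x : B9) : B9 := mulB x x
def p3 (x : B9) : B9 := mulB (sq x) x
def p4 (x : B9) : B9 := sq (sq x)
def p7 (x : B9) : B9 := mulB (p4 x) (p3 x)

theorem t2 : total (fun x => isOne (sq x)) = 22 := by decide +kernel
theorem t3 : total (fun x => isOne (p3 x)) = 57 := by decide +kernel
theorem t4 : total (fun x => isOne (p4 x)) = 64 := by decide +kernel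
theorem t7 : total (fun x => isOne (p7 x)) = 49 := by decide +kernel
theorem t6 : total (fun x => isOne (sq (p3 x))) = 78 := by decide +kernel
theorem t12 : total (fun x => isOne (p4 (p3 x))) = 120 := by decide +kernel
theorem t14 : total (fun x => isOne (sq (p7 x))) = 70 := by decide +kernel
theorem t21 : total (fun x => isOne (p3 (p7 x))) = 105 := by decide +kernel
theorem t28 : total (fun x => isOne (p4 (p7 x))) = 112 := by decide +kernel
theorem t42 : total (fun x => isOne (sq (p3 (p7 x)))) = 126 := by decide +kernel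
theorem t84 : total (fun x => isOne (p4 (p3 (p7 x)))) = 168 := by decide +kernel

/-- tuples -/
abbrev T9 : Type := Bool × Bool × Bool × Bool × Bool × Bool × Bool × Bool × Bool

def tup : B9 ≃ T9 where
  toFun x := (x.a, x.b, x.c, x.d, x.e, x.f, x.g, x.h, x.i)
  invFun y := ⟨y.1, y.2.1, y.2.2.1, y.2.2.2.1, y.2.2.2.2.1, y.2.2.2.2.2.1, y.2.2.2.2.2.2.1,
    y.2.2.2.2.2.2.2.1, y.2.2.2.2.2.2.2.2⟩
  left_inv _ := rfl
  right_inv _ := rfl

theorem card_total (t : B9 → Bool) : Nat.card {x : B9 // t x = true} = total t := by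
  have e : {x : B9 // t x = true} ≃ {y : T9 // t (tup.symm y) = true} :=
    tup.subtypeEquiv (fun x => by simp)
  rw [Nat.card_congr e, Nat.card_eq_fintype_card, Fintype.card_subtype, Finset.card_filter]
  simp only [Fintype.sum_prod_type, Fintype.sum_bool]
  rfl

def z (x : ZMod 2) : Bool := decide (x = 1)
def zi (b : Bool) : ZMod 2 := if b then 1 else 0

theorem z_mul : ∀ x y : ZMod 2, z (x * y) = (z x && z y) := by decide
theorem z_add : ∀ x y : ZMod 2, z (x + y) = xor (z x) (z y) := by decide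
theorem z_zi : ∀ b, z (zi b) = b := by decide
theorem zi_z : ∀ b, zi (z b) = b := by decide
theorem z_zero : z 0 = false := by decide
theorem z_one : z 1 = true := by decide

def enc : Mat ≃ B9 where
  toFun M := ⟨z (M 0 0), z (M 0 1), z (M 0 2), z (M 1 0), z (M 1 1), z (M 1 2), z (M 2 0), z (M 2 1), z (M 2 2)⟩
  invFun x := !![zi x.a, zi x.b, zi x.c; zi x.d, zi x.e, zi x.f; zi x.g, zi x.h, zi x.i]
  left_inv M := by
    ext i j
    fin_cases i <;> fin_cases j <;> simp [zi_z]
  right_inv x := by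
    ext <;> simp [z_zi]

theorem enc_mul (M N : Mat) : enc (M * N) = mulB (enc M) (enc N) := by
  ext <;> simp [enc, mulB, Matrix.mul_apply, Fin.sum_univ_three, z_add, z_mul]

theorem enc_one : enc 1 = oneB := by
  ext <;> simp [enc, oneB, z_zero, z_one]

theorem isOne_iff (x : B9) : isOne x = true ↔ x = oneB := by
  constructor
  · intro h
    simp only [isOne, Bool.and_eq_true, Bool.not_eq_true'] at h
    obtain ⟨⟨⟨⟨⟨⟨⟨⟨h1, h2⟩, h3⟩, h4⟩, h5⟩, h6⟩, h7⟩, h8⟩, h9⟩ := h
    ext <;> simp [oneB, *]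
  · rintro rfl; rfl

theorem enc_sq (M : Mat) : enc (M ^ 2) = sq (enc M) := by rw [pow_two, enc_mul]; rfl
theorem enc_p3 (M : Mat) : enc (M ^ 3) = p3 (enc M) := by
  rw [pow_succ, enc_mul, enc_sq]; rfl
theorem enc_p4 (M : Mat) : enc (M ^ 4) = p4 (enc M) := by
  rw [show M ^ 4 = (M ^ 2) ^ 2 from by rw [← pow_mul], enc_sq, enc_sq]; rfl
theorem enc_p7 (M : Mat) : enc (M ^ 7) = p7 (enc M) := by
  rw [show M ^ 7 = M ^ 4 * M ^ 3 from by rw [← pow_add], enc_mul, enc_p3, enc_p4]; rfl

theorem cnt_of (n : ℕ) (f : B9 → B9) (h : ∀ M : Mat, enc (M ^ n) = f (enc M)) (v : ℕ)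
    (hv : total (fun x => isOne (f x)) = v) : cnt Mat n = v := by
  unfold cnt
  rw [← hv, ← card_total]
  refine Nat.card_congr (enc.subtypeEquiv fun M => ?_)
  rw [isOne_iff, ← h, ← enc_one]
  exact enc.injective.eq_iff.symm

theorem c2 : cnt Mat 2 = 22 := cnt_of 2 _ enc_sq _ t2
theorem c3 : cnt Mat 3 = 57 := cnt_of 3 _ enc_p3 _ t3
theorem c4 : cnt Mat 4 = 64 := cnt_of 4 _ enc_p4 _ t4
theorem c7 : cnt Mat 7 = 49 := cnt_of 7 _ enc_p7 _ t7
theorem c6 : cnt Mat 6 = 78 := cnt_of 6 _ (fun M => by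
  rw [show M ^ 6 = (M ^ 3) ^ 2 from by rw [← pow_mul], enc_sq, enc_p3]) _ t6
theorem c12 : cnt Mat 12 = 120 := cnt_of 12 _ (fun M => by
  rw [show M ^ 12 = (M ^ 3) ^ 4 from by rw [← pow_mul], enc_p4, enc_p3]) _ t12
theorem c14 : cnt Mat 14 = 70 := cnt_of 14 _ (fun M => by
  rw [show M ^ 14 = (M ^ 7) ^ 2 from by rw [← pow_mul], enc_sq, enc_p7]) _ t14
theorem c21 : cnt Mat 21 = 105 := cnt_of 21 _ (fun M => by
  rw [show M ^ 21 = (M ^ 7) ^ 3 from by rw [← pow_mul], enc_p3, enc_p7]) _ t21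
theorem c28 : cnt Mat 28 = 112 := cnt_of 28 _ (fun M => by
  rw [show M ^ 28 = (M ^ 7) ^ 4 from by rw [← pow_mul], enc_p4, enc_p7]) _ t28
theorem c42 : cnt Mat 42 = 126 := cnt_of 42 _ (fun M => by
  rw [show M ^ 42 = ((M ^ 7) ^ 3) ^ 2 from by rw [← pow_mul, ← pow_mul], enc_sq, enc_p3, enc_p7]) _ t42
theorem c84 : cnt Mat 84 = 168 := cnt_of 84 _ (fun M => by
  rw [show M ^ 84 = ((M ^ 7) ^ 3) ^ 4 from by rw [← pow_mul, ← pow_mul], enc_p4, enc_p3, enc_p7]) _ t84

end B9

/-- the group -/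
abbrev L168 : Type := Matˣ

theorem card_L168 : Nat.card L168 = 168 := by
  have h := Matrix.card_GL_field (𝔽 := ZMod 2) 3
  have e : Nat.card L168 = Nat.card (Matrix.GeneralLinearGroup (Fin 3) (ZMod 2)) := rfl
  rw [e, h]
  simp [Fin.prod_univ_three, ZMod.card]

theorem L168_pow (g : L168) : g ^ 84 = 1 := by
  have h1 : cnt L168 84 = 168 := by rw [cnt_units _ _ (by norm_num), B9.c84]
  have h2 : Function.Injective (Subtype.val : {g : L168 // g ^ 84 = 1} → L168) := Subtype.val_injective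
  have h3 : Function.Bijective (Subtype.val : {g : L168 // g ^ 84 = 1} → L168) :=
    (Nat.bijective_iff_injective_and_card _).2 ⟨h2, by rw [card_L168]; exact h1⟩
  obtain ⟨x, hx⟩ := h3.2 g
  rw [← hx]; exact x.2

/-- table of values -/
def tabL : ℕ → ℕ
  | 1 => 1 | 2 => 22 | 3 => 57 | 4 => 64 | 6 => 78 | 7 => 49 | 12 => 120 | 14 => 70 | 21 => 105
  | 28 => 112 | 42 => 126 | 84 => 168 | _ => 0

theorem cnt_one' (G : Type*) [Group G] : cnt G 1 = 1 := by
  unfold cnt
  have : Unique {g : G // g ^ 1 = 1} := ⟨⟨⟨1, by simp⟩⟩, fun x => Subtype.ext (by simpa using x.2)⟩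
  exact Nat.card_unique

theorem cnt_L168 (n : ℕ) : cnt L168 n = tabL (Nat.gcd n 84) := by
  rw [cnt_gcd _ 84 L168_pow]
  have h : Nat.gcd n 84 ∣ 84 := Nat.gcd_dvd_right n 84
  generalize Nat.gcd n 84 = d at h
  have hd : d ∈ Nat.divisors 84 := Nat.mem_divisors.2 ⟨h, by norm_num⟩
  have hl : Nat.divisors 84 = {1, 2, 3, 4, 6, 7, 12, 14, 21, 28, 42, 84} := by decide +kernel
  rw [hl] at hd
  simp only [Finset.mem_insert, Finset.mem_singleton] at hd
  rcases hd with rfl | rfl | rfl | rfl | rfl | rfl | rfl | rfl | rfl | rfl | rfl | rfl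
  · exact cnt_one' _
  · rw [cnt_units _ _ (by norm_num), B9.c2]; rfl
  · rw [cnt_units _ _ (by norm_num), B9.c3]; rfl
  · rw [cnt_units _ _ (by norm_num), B9.c4]; rfl
  · rw [cnt_units _ _ (by norm_num), B9.c6]; rfl
  · rw [cnt_units _ _ (by norm_num), B9.c7]; rfl
  · rw [cnt_units _ _ (by norm_num), B9.c12]; rfl
  · rw [cnt_units _ _ (by norm_num), B9.c14]; rfl
  · rw [cnt_units _ _ (by norm_num), B9.c21]; rfl
  · rw [cnt_units _ _ (by norm_num), B9.c28]; rfl
  · rw [cnt_units _ _ (by norm_num), B9.c42]; rfl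
  · rw [cnt_units _ _ (by norm_num), B9.c84]; rfl

/-- transvections -/
def tv (i j : Fin 3) (h : i ≠ j) : L168 where
  val := Matrix.transvection i j 1
  inv := Matrix.transvection i j 1
  val_inv := by
    rw [Matrix.transvection_mul_transvection_same _ _ h]
    have : (1 : ZMod 2) + 1 = 0 := by decide
    rw [this, Matrix.transvection_zero]
  inv_val := by
    rw [Matrix.transvection_mul_transvection_same _ _ h]
    have : (1 : ZMod 2) + 1 = 0 := by decide
    rw [this, Matrix.transvection_zero]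

theorem tv_comm : ∀ (i j k : Fin 3) (hij : i ≠ j) (hjk : j ≠ k) (hik : i ≠ k),
    tv i k hik = ⁅tv i j hij, tv j k hjk⁆ := by
  intro i j k hij hjk hik
  have key : ∀ (i j k : Fin 3), i ≠ j → j ≠ k → i ≠ k →
      (Matrix.transvection i k (1 : ZMod 2)) = Matrix.transvection i j 1 * Matrix.transvection j k 1 *
        Matrix.transvection i j 1 * Matrix.transvection j k 1 := by
    decide +kernel
  ext1
  exact key i j k hij hjk hik

theorem not_isSolvable_L168 : ¬ Group.IsSolvable L168 := by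
  intro hs
  obtain ⟨n, hn⟩ := hs.1
  have key : ∀ m : ℕ, ∀ (i j : Fin 3) (h : i ≠ j), tv i j h ∈ derivedSeries L168 m := by
    intro m
    induction m with
    | zero => intro i j h; rw [derivedSeries_zero]; trivial
    | succ m ih =>
      intro i j h
      obtain ⟨k, hk1, hk2⟩ : ∃ k : Fin 3, i ≠ k ∧ k ≠ j := by
        revert i j; decide
      rw [tv_comm i k j hk1 hk2 h, derivedSeries_succ]
      exact Subgroup.commutator_mem_commutator (ih _ _ _) (ih _ _ _)
  have h1 := key n 0 1 (by decide)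
  rw [hn, Subgroup.mem_bot] at h1
  have h2 := congrArg (fun g : L168 => (g : Mat) 0 1) h1
  revert h2
  simp [tv, Matrix.transvection, Matrix.single]

end H75.OT
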