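import Cfsg.Agent.Lib.H75.OTBasic

set_option autoImplicit false
set_option linter.all false

/-! Four-groups acting by signs on products of cyclic groups of orders 4, 3, 7:
counting solutions of `g ^ n = 1`. -/

namespace H75.OT

/-- additive version of the counting function -/
noncomputable def cntA (A : Type*) [AddMonoid A] (n : ℕ) : ℕ := Nat.card {x : A // n • x = 0}

theorem cntA_prod (A B : Type*) [AddMonoid A] [AddMonoid B] (n : ℕ) :
    cntA (A × B) n = cntA A n * cntA B n := by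
  unfold cntA
  rw [← Nat.card_prod]
  refine Nat.card_congr ?_
  refine ⟨fun g => ⟨⟨g.1.1, congrArg Prod.fst g.2⟩, ⟨g.1.2, congrArg Prod.snd g.2⟩⟩,
    fun g => ⟨(g.1.1, g.2.1), Prod.ext g.1.2 g.2.2⟩, fun g => rfl, fun g => rfl⟩

theorem cntA_pi {ι : Type*} [Fintype ι] (G : ι → Type*) [∀ i, AddMonoid (G i)] (n : ℕ) :
    cntA (∀ i, G i) n = ∏ i, cntA (G i) n := by
  unfold cntA
  rw [← Nat.card_pi]
  refine Nat.card_congr ?_
  refine ⟨fun g i => ⟨g.1 i, congrFun g.2 i⟩, fun g => ⟨fun i => (g i).1, funext fun i => (g i).2⟩,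
    fun g => rfl, fun g => rfl⟩

theorem cntA_pow (G : Type*) [AddMonoid G] (c n : ℕ) : cntA (Fin c → G) n = cntA G n ^ c := by
  rw [cntA_pi]; simp

theorem cntA_zmod_aux4 : ∀ c : ZMod 4, Fintype.card {x : ZMod 4 // c * x = 0} = Nat.gcd c.val 4 := by
  decide +kernel
theorem cntA_zmod_aux3 : ∀ c : ZMod 3, Fintype.card {x : ZMod 3 // c * x = 0} = Nat.gcd c.val 3 := by
  decide +kernel
theorem cntA_zmod_aux7 : ∀ c : ZMod 7, Fintype.card {x : ZMod 7 // c * x = 0} = Nat.gcd c.val 7 := by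
  decide +kernel
theorem cntA_zmod_aux2 : ∀ c : ZMod 2, Fintype.card {x : ZMod 2 // c * x = 0} = Nat.gcd c.val 2 := by
  decide +kernel

theorem gcd_mod (n m : ℕ) : Nat.gcd (n % m) m = Nat.gcd n m := by
  rw [← Nat.gcd_rec, Nat.gcd_comm]

theorem cntA_zmod4 (n : ℕ) : cntA (ZMod 4) n = Nat.gcd n 4 := by
  unfold cntA
  have h := cntA_zmod_aux4 (n : ZMod 4)
  rw [ZMod.val_natCast, gcd_mod] at h
  rw [← h, ← Nat.card_eq_fintype_card]
  exact Nat.card_congr (Equiv.subtypeEquivRight fun x => by rw [nsmul_eq_mul])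
theorem cntA_zmod3 (n : ℕ) : cntA (ZMod 3) n = Nat.gcd n 3 := by
  unfold cntA
  have h := cntA_zmod_aux3 (n : ZMod 3)
  rw [ZMod.val_natCast, gcd_mod] at h
  rw [← h, ← Nat.card_eq_fintype_card]
  exact Nat.card_congr (Equiv.subtypeEquivRight fun x => by rw [nsmul_eq_mul])
theorem cntA_zmod7 (n : ℕ) : cntA (ZMod 7) n = Nat.gcd n 7 := by
  unfold cntA
  have h := cntA_zmod_aux7 (n : ZMod 7)
  rw [ZMod.val_natCast, gcd_mod] at h
  rw [← h, ← Nat.card_eq_fintype_card]
  exact Nat.card_congr (Equiv.subtypeEquivRight fun x => by rw [nsmul_eq_mul])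
theorem cntA_zmod2 (n : ℕ) : cntA (ZMod 2) n = Nat.gcd n 2 := by
  unfold cntA
  have h := cntA_zmod_aux2 (n : ZMod 2)
  rw [ZMod.val_natCast, gcd_mod] at h
  rw [← h, ← Nat.card_eq_fintype_card]
  exact Nat.card_congr (Equiv.subtypeEquivRight fun x => by rw [nsmul_eq_mul])

/-- the homogeneous pieces -/
abbrev Pc (k a b : ℕ) : Type := (Fin k → ZMod 4) × (Fin a → ZMod 3) × (Fin b → ZMod 7)

theorem cntA_Pc (k a b n : ℕ) :
    cntA (Pc k a b) n = Nat.gcd n 4 ^ k * Nat.gcd n 3 ^ a * Nat.gcd n 7 ^ b := by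
  rw [cntA_prod, cntA_prod, cntA_pow, cntA_pow, cntA_pow, cntA_zmod3, cntA_zmod4, cntA_zmod7, mul_assoc]

theorem card_Pc (k a b : ℕ) : Nat.card (Pc k a b) = 4 ^ k * 3 ^ a * 7 ^ b := by
  simp [Nat.card_prod, Nat.card_pi, mul_assoc]

/-- the module -/
def W (k a b : Fin 3 → ℕ) : Type := ∀ c : Fin 3, Pc (k c) (a c) (b c)

instance (k a b : Fin 3 → ℕ) : AddCommGroup (W k a b) :=
  inferInstanceAs (AddCommGroup (∀ c : Fin 3, Pc (k c) (a c) (b c)))
instance (k a b : Fin 3 → ℕ) : Finite (W k a b) :=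
  inferInstanceAs (Finite (∀ c : Fin 3, Pc (k c) (a c) (b c)))

/-- the four-group -/
abbrev Sg : Type := ℤˣ × ℤˣ

/-- its three nontrivial characters -/
def chi : Fin 3 → Sg → ℤˣ
  | 0, t => t.1
  | 1, t => t.2
  | 2, t => t.1 * t.2

theorem chi_one (c : Fin 3) : chi c 1 = 1 := by
  fin_cases c <;> simp [chi]
theorem chi_mul (c : Fin 3) (s t : Sg) : chi c (s * t) = chi c s * chi c t := by
  fin_cases c <;> simp [chi, mul_mul_mul_comm]
theorem chi_pow (c : Fin 3) (s : Sg) (n : ℕ) : chi c (s ^ n) = chi c s ^ n := by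
  induction n with
  | zero => rw [pow_zero, pow_zero, chi_one]
  | succ n ih => rw [pow_succ, pow_succ, chi_mul, ih]

instance (k a b : Fin 3 → ℕ) : DistribMulAction Sg (W k a b) where
  smul t v := fun c => chi c t • v c
  one_smul v := by
    funext c
    show chi c 1 • v c = v c
    rw [chi_one, one_smul]
  mul_smul s t v := by
    funext c
    show chi c (s * t) • v c = chi c s • (chi c t • v c)
    rw [chi_mul, mul_smul]
  smul_zero t := by
    funext c
    exact smul_zero (A := Pc (k c) (a c) (b c)) (chi c t)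
  smul_add t v w := by
    funext c
    exact smul_add (chi c t) (v c) (w c)

/-- the groups used -/
abbrev GG (k a b : Fin 3 → ℕ) : Type := Aff Sg (W k a b)

theorem smul_apply {k a b : Fin 3 → ℕ} (t : Sg) (v : W k a b) (c : Fin 3) :
    (t • v) c = chi c t • v c := rfl

theorem sum_apply {k a b : Fin 3 → ℕ} (s : Finset ℕ) (f : ℕ → W k a b) (c : Fin 3) :
    (∑ i ∈ s, f i) c = ∑ i ∈ s, f i c := Finset.sum_apply c s f

theorem sum_units {A : Type*} [AddCommGroup A] (u : ℤˣ) (x : A) (n : ℕ) :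
    ∑ k ∈ Finset.range n, u ^ k • x = if u = 1 then n • x else (if n % 2 = 0 then 0 else x) := by
  rcases Int.units_eq_one_or u with h | h
  · rw [if_pos h, h]; simp
  · rw [if_neg (by rw [h]; decide), h]
    induction n with
    | zero => simp
    | succ n ih =>
      rw [Finset.sum_range_succ, ih]
      rcases Nat.mod_two_eq_zero_or_one n with h2 | h2
      · rw [if_pos h2, if_neg (by omega)]
        have : (-1 : ℤˣ) ^ n = 1 := Even.neg_one_pow (Nat.even_iff.2 h2)
        rw [this, one_smul, zero_add]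
      · rw [if_neg (by omega), if_pos (by omega)]
        have : (-1 : ℤˣ) ^ n = -1 := Odd.neg_one_pow (Nat.odd_iff.2 h2)
        rw [this]
        simp

theorem card_ker {k a b : Fin 3 → ℕ} (t : Sg) (n : ℕ) :
    Nat.card {v : W k a b // ∑ i ∈ Finset.range n, t ^ i • v = 0} =
      ∏ c : Fin 3, (if chi c t = 1 then
          (Nat.gcd n 4 ^ k c * Nat.gcd n 3 ^ a c * Nat.gcd n 7 ^ b c)
        else if n % 2 = 0 then 4 ^ k c * 3 ^ a c * 7 ^ b c else 1) := by
  have e : {v : W k a b // ∑ i ∈ Finset.range n, t ^ i • v = 0} ≃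
      ∀ c : Fin 3, {x : Pc (k c) (a c) (b c) // ∑ i ∈ Finset.range n, (chi c t) ^ i • x = 0} := by
    have key : ∀ (v : W k a b) (c : Fin 3),
        (∑ i ∈ Finset.range n, t ^ i • v) c = ∑ i ∈ Finset.range n, (chi c t) ^ i • v c := by
      intro v c
      rw [sum_apply]
      refine Finset.sum_congr rfl fun i _ => ?_
      rw [smul_apply, chi_pow]
    refine ⟨fun v c => ⟨v.1 c, ?_⟩, fun f => ⟨fun c => (f c).1, ?_⟩, fun v => rfl, fun f => rfl⟩
    · rw [← key, v.2]; rfl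
    · funext c
      exact (key _ c).trans (f c).2
  rw [Nat.card_congr e, Nat.card_pi]
  refine Finset.prod_congr rfl fun c _ => ?_
  split_ifs with h1 h2
  · rw [← cntA_Pc]
    unfold cntA
    exact Nat.card_congr (Equiv.subtypeEquivRight fun x => by rw [sum_units, if_pos h1])
  · rw [← card_Pc]
    refine Nat.card_congr (Equiv.subtypeUnivEquiv fun x => ?_)
    rw [sum_units, if_neg h1, if_pos h2]
  · have : Unique {x : Pc (k c) (a c) (b c) // ∑ i ∈ Finset.range n, (chi c t) ^ i • x = 0} :=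
      ⟨⟨⟨0, by simp⟩⟩, fun x => by
        have := x.2
        rw [sum_units, if_neg h1, if_neg h2] at this
        exact Subtype.ext this⟩
    exact Nat.card_unique

/-- fixed-point factor -/
def kp (k a b : Fin 3 → ℕ) (n : ℕ) (c : Fin 3) : ℕ :=
  Nat.gcd n 4 ^ k c * Nat.gcd n 3 ^ a c * Nat.gcd n 7 ^ b c
/-- inverted factor -/
def km (k a b : Fin 3 → ℕ) (c : Fin 3) : ℕ := 4 ^ k c * 3 ^ a c * 7 ^ b c

/-- closed formula for the number of solutions -/
def FF (k a b : Fin 3 → ℕ) (n : ℕ) : ℕ :=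
  if n % 2 = 0 then
    kp k a b n 0 * kp k a b n 1 * kp k a b n 2 + kp k a b n 0 * km k a b 1 * km k a b 2 +
    km k a b 0 * kp k a b n 1 * km k a b 2 + km k a b 0 * km k a b 1 * kp k a b n 2
  else kp k a b n 0 * kp k a b n 1 * kp k a b n 2

theorem sum_Sg (f : Sg → ℕ) : ∑ t : Sg, f t = f (1, 1) + f (1, -1) + f (-1, 1) + f (-1, -1) := by
  rw [Fintype.sum_prod_type]
  simp [UnitsInt.univ, add_assoc]

theorem cnt_GG (k a b : Fin 3 → ℕ) (n : ℕ) : cnt (GG k a b) n = FF k a b n := by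
  rw [Aff.cnt_eq]
  simp only [card_ker]
  rw [sum_Sg]
  have hne : ¬ ((-1 : ℤˣ) = 1) := by decide
  rcases Nat.mod_two_eq_zero_or_one n with h2 | h2
  · have h3 : (-1 : ℤˣ) ^ n = 1 := Even.neg_one_pow (Nat.even_iff.2 h2)
    have e1 : ((1, 1) : Sg) ^ n = 1 := by ext <;> simp
    have e2 : ((1, -1) : Sg) ^ n = 1 := by ext <;> simp [h3]
    have e3 : ((-1, 1) : Sg) ^ n = 1 := by ext <;> simp [h3]
    have e4 : ((-1, -1) : Sg) ^ n = 1 := by ext <;> simp [h3]
    rw [if_pos e1, if_pos e2, if_pos e3, if_pos e4]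
    simp only [Fin.prod_univ_three, chi, FF, kp, km, h2, hne, mul_one, if_true, if_false, mul_neg, neg_neg, reduceIte]
  · have h3 : (-1 : ℤˣ) ^ n = -1 := Odd.neg_one_pow (Nat.odd_iff.2 h2)
    have e1 : ((1, 1) : Sg) ^ n = 1 := by ext <;> simp
    have e2 : ¬ ((1, -1) : Sg) ^ n = 1 := by
      intro h
      have := congrArg Prod.snd h
      simp only [Prod.pow_snd, h3] at this
      exact hne this
    have e3 : ¬ ((-1, 1) : Sg) ^ n = 1 := by
      intro h
      have := congrArg Prod.fst h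
      simp only [Prod.pow_fst, h3] at this
      exact hne this
    have e4 : ¬ ((-1, -1) : Sg) ^ n = 1 := by
      intro h
      have := congrArg Prod.fst h
      simp only [Prod.pow_fst, h3] at this
      exact hne this
    rw [if_pos e1, if_neg e2, if_neg e3, if_neg e4]
    simp only [Fin.prod_univ_three, chi, FF, kp, km, h2, mul_one, if_true, reduceIte, one_ne_zero, add_zero]

theorem gcd_gcd_84 (n m : ℕ) (h : m ∣ 84) : Nat.gcd (Nat.gcd n 84) m = Nat.gcd n m := by
  rw [Nat.gcd_assoc, Nat.gcd_eq_right h]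

theorem FF_gcd (k a b : Fin 3 → ℕ) (n : ℕ) : FF k a b n = FF k a b (Nat.gcd n 84) := by
  have h4 := gcd_gcd_84 n 4 (by norm_num)
  have h3 := gcd_gcd_84 n 3 (by norm_num)
  have h7 := gcd_gcd_84 n 7 (by norm_num)
  have h2 : (Nat.gcd n 84) % 2 = 0 ↔ n % 2 = 0 := by
    rw [← Nat.dvd_iff_mod_eq_zero, ← Nat.dvd_iff_mod_eq_zero, Nat.dvd_gcd_iff]
    exact ⟨fun h => h.1, fun h => ⟨h, by norm_num⟩⟩
  unfold FF kp
  rw [h4, h3, h7]
  simp only [h2]

end H75.OT
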