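import Mathlib
import Cfsg.Agent.Lib.H75.PH2
import Cfsg.Agent.S0058

set_option autoImplicit false
set_option linter.all false

/-! Inverted elements, coprime generation, `Ω₁(Z(P))` (towards S3258). -/

namespace H75.PH

open Subgroup

universe u

section inv

variable {G : Type u} [Group G] [Finite G] {π : Set ℕ} {H K T : Subgroup G}

theorem sq_of_order {t : G} (h : orderOf t = 2) : t * t = 1 := by
  have := pow_orderOf_eq_one t
  rw [h, pow_two] at this; exact this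

theorem order_of_sq {t : G} (h : t * t = 1) (h1 : t ≠ 1) : orderOf t = 2 :=
  orderOf_eq_prime (by rw [pow_two]; exact h) h1

/-- the subgroup `⟨y, t⟩` -/
def dih (y t : G) (ht : t * t = 1) (hyt : t * y * t⁻¹ = y⁻¹) : Subgroup G where
  carrier := {x | ∃ i : ℤ, x = y ^ i ∨ x = y ^ i * t}
  one_mem' := ⟨0, Or.inl (by simp)⟩
  mul_mem' := by
    have hti : t⁻¹ = t := inv_eq_of_mul_eq_one_left ht
    have key : ∀ j : ℤ, t * y ^ j = y ^ (-j) * t := by
      intro j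
      have h1 : t * y ^ j * t⁻¹ = (t * y * t⁻¹) ^ j := by
        rw [conj_zpow]
      rw [hyt, inv_zpow', mul_inv_eq_iff_eq_mul] at h1
      exact h1
    rintro a b ⟨i, rfl | rfl⟩ ⟨j, rfl | rfl⟩
    · exact ⟨i + j, Or.inl (zpow_add y i j).symm⟩
    · exact ⟨i + j, Or.inr (by rw [zpow_add, mul_assoc])⟩
    · exact ⟨i - j, Or.inr (by rw [mul_assoc, key, ← mul_assoc, ← zpow_add, sub_eq_add_neg])⟩
    · refine ⟨i - j, Or.inl ?_⟩
      calc y ^ i * t * (y ^ j * t) = y ^ i * (t * y ^ j) * t := by group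
        _ = y ^ i * (y ^ (-j) * t) * t := by rw [key]
        _ = y ^ i * y ^ (-j) * (t * t) := by group
        _ = y ^ (i - j) := by rw [ht, mul_one, ← zpow_add, sub_eq_add_neg]
  inv_mem' := by
    have hti : t⁻¹ = t := inv_eq_of_mul_eq_one_left ht
    rintro a ⟨i, rfl | rfl⟩
    · exact ⟨-i, Or.inl (by rw [zpow_neg])⟩
    · refine ⟨i, Or.inr ?_⟩
      have h1 : t * y ^ (-i) * t⁻¹ = (t * y * t⁻¹) ^ (-i) := by rw [conj_zpow]
      rw [hyt, inv_zpow', neg_neg, mul_inv_eq_iff_eq_mul] at h1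
      rw [mul_inv_rev, ← zpow_neg, hti, h1]

theorem mul_self_dih {y t : G} (ht : t * t = 1) (hyt : t * y * t⁻¹ = y⁻¹) (i : ℤ) :
    y ^ i * t * (y ^ i * t) = 1 := by
  have h1 : t * y ^ i * t⁻¹ = (t * y * t⁻¹) ^ i := by rw [conj_zpow]
  have hti : t⁻¹ = t := inv_eq_of_mul_eq_one_left ht
  rw [hyt, inv_zpow', hti] at h1
  calc y ^ i * t * (y ^ i * t) = y ^ i * (t * y ^ i * t) := by group
    _ = 1 := by rw [h1, ← zpow_add]; simp

/-- an element of odd order inverted by an involution is a `π'`-element -/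
theorem no_inv (hP : PCl π G) (h2 : 2 ∈ π) {y t : G} (ht : t * t = 1) (ht1 : t ≠ 1)
    (hyt : t * y * t⁻¹ = y⁻¹) (hodd : Odd (orderOf y)) : Pd π (orderOf y) := by
  intro p hp hd hpπ
  have hp2 : p ≠ 2 := by
    rintro rfl
    rw [← Nat.not_even_iff_odd, even_iff_two_dvd] at hodd
    exact hodd hd
  obtain ⟨k, hk⟩ := hd
  have hpos : 0 < orderOf y := orderOf_pos y
  have hk0 : 0 < k := by
    rcases Nat.eq_zero_or_pos k with e | e
    · rw [e, mul_zero] at hk; omega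
    · exact e
  set z := y ^ k with hz
  have hzo : orderOf z = p := by
    rw [hz, orderOf_pow_of_dvd hk0.ne' ⟨p, by rw [hk, mul_comm]⟩, hk, Nat.mul_div_cancel _ hk0]
  have hzt : t * z * t⁻¹ = z⁻¹ := by
    rw [hz, ← conj_pow, hyt, inv_pow]
  set D := dih z t ht hzt with hD
  have hel : ∀ x ∈ D, orderOf x ∣ p ∨ orderOf x ∣ 2 := by
    rintro x ⟨i, rfl | rfl⟩
    · left
      rw [← hzo]
      exact orderOf_dvd_of_mem_zpowers ⟨i, rfl⟩
    · right
      exact orderOf_dvd_of_pow_eq_one (by rw [pow_two]; exact mul_self_dih ht hzt i)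
  have hDpi : Pi π (Nat.card D) := by
    intro q hq hqd
    haveI : Fact q.Prime := ⟨hq⟩
    obtain ⟨x, hx⟩ := exists_prime_orderOf_dvd_card' (G := D) q hqd
    have h3 := hel x x.2
    rw [Subgroup.orderOf_coe, hx] at h3
    rcases h3 with h3 | h3
    · rw [(Nat.prime_dvd_prime_iff_eq hq hp).1 h3]; exact hpπ
    · rw [(Nat.prime_dvd_prime_iff_eq hq Nat.prime_two).1 h3]; exact h2
  have hzD : z ∈ D := ⟨1, Or.inl (by simp)⟩
  have htD : t ∈ D := ⟨0, Or.inr (by simp)⟩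
  have ht2 : IsPGroup 2 (zpowers t) := by
    apply IsPGroup.of_card (n := 1)
    rw [Nat.card_zpowers, order_of_sq ht ht1, pow_one]
  obtain ⟨S, hS, hSD⟩ := exists_syl (A := zpowers t) (H := D) (by rw [zpowers_le]; exact htD) ht2
  have htS : t ∈ S := hS (mem_zpowers t)
  have h4 := pcl_syl hP hDpi hSD hzD
  have h5 : z * t * z⁻¹ ∈ S := by
    have := conj_mem_cj (g := z) htS
    rwa [h4] at this
  have h6 : z * z ∈ S := by
    have h7 : z * t * z⁻¹ * t⁻¹ ∈ S := mul_mem h5 (inv_mem htS)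
    have h8 : z * t * z⁻¹ * t⁻¹ = z * z := by
      have : t * z⁻¹ * t⁻¹ = z := by
        have e : t * z⁻¹ * t⁻¹ = (t * z * t⁻¹)⁻¹ := by group
        rw [e, hzt, inv_inv]
      calc z * t * z⁻¹ * t⁻¹ = z * (t * z⁻¹ * t⁻¹) := by group
        _ = z * z := by rw [this]
    rwa [h8] at h7
  obtain ⟨j, hj⟩ := IsPGroup.iff_orderOf.1 hSD.2.1 ⟨_, h6⟩
  rw [Subgroup.orderOf_mk] at hj
  have h9 : orderOf (z * z) ∣ p := by
    rw [← hzo, ← pow_two]; exact orderOf_pow_dvd 2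
  rw [hj] at h9
  rcases (Nat.dvd_prime hp).1 h9 with h10 | h10
  · rw [h10, orderOf_eq_one_iff, ← pow_two] at hj
    have := orderOf_dvd_of_pow_eq_one hj
    rw [hzo] at this
    exact hp2 ((Nat.prime_dvd_prime_iff_eq hp Nat.prime_two).1 this)
  · have h11 : j ≠ 0 := by
      rintro rfl
      rw [pow_zero] at h10
      exact hp.ne_one h10.symm
    have : 2 ∣ p := by rw [← h10]; exact dvd_pow_self 2 h11
    exact hp2 ((Nat.prime_dvd_prime_iff_eq Nat.prime_two hp).1 this).symm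

theorem comm_of_sq {F : Subgroup G} (hF : ∀ a ∈ F, a * a = 1) {a b : G} (ha : a ∈ F) (hb : b ∈ F) : a * b = b * a := by
  have h1 := hF _ (mul_mem ha hb)
  have h2 := hF a ha
  have h3 := hF b hb
  have h4 : a⁻¹ = a := inv_eq_of_mul_eq_one_left h2
  have h5 : b⁻¹ = b := inv_eq_of_mul_eq_one_left h3
  have h6 : (a * b)⁻¹ = a * b := inv_eq_of_mul_eq_one_left h1
  rw [mul_inv_rev, h4, h5] at h6
  exact h6.symm

theorem two_group_of_sq {F : Subgroup G} (hF : ∀ a ∈ F, a * a = 1) : IsPGroup 2 F := by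
  intro x
  refine ⟨1, Subtype.ext ?_⟩
  rw [pow_one, pow_two]
  exact hF x x.2

theorem not_cyclic_of_sq {F : Subgroup G} (hF : ∀ a ∈ F, a * a = 1) (h4 : 3 ≤ Nat.card F) : ¬ IsCyclic F := by
  intro hc
  obtain ⟨g, hg⟩ := IsCyclic.exists_ofOrder_eq_natCard (α := F)
  have h1 : orderOf g ∣ 2 := orderOf_dvd_of_pow_eq_one (by
    rw [pow_two]; exact Subtype.ext (hF g g.2))
  rw [hg] at h1
  have := Nat.le_of_dvd (by norm_num) h1
  omega

/-- coprime generation -/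
theorem gen {F O K : Subgroup G} (hF : ∀ a ∈ F, a * a = 1) (h4 : 3 ≤ Nat.card F)
    (hn : F ≤ normalizer (O : Set G)) (hO : ¬ 2 ∣ Nat.card O)
    (h : ∀ a ∈ F, a ≠ 1 → O ⊓ centralizer {a} ≤ K) : O ≤ K := by
  haveI : IsMulCommutative F := ⟨⟨fun a b => Subtype.ext (comm_of_sq hF a.2 b.2)⟩⟩
  have hcop : (Nat.card F).Coprime (Nat.card O) := by
    obtain ⟨n, hn⟩ := IsPGroup.iff_card.1 (two_group_of_sq hF)
    rw [hn]
    exact Nat.Coprime.pow_left _ ((Nat.Prime.coprime_iff_not_dvd Nat.prime_two).2 hO)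
  rw [← Cfsg.Agent.S0058.result F O (not_cyclic_of_sq hF h4) hn hcop]
  refine iSup₂_le fun a ha => h a ha.1 ha.2

/-- `Ω₁(Z(R))` -/
def Om (R : Subgroup G) : Subgroup G where
  carrier := {x | x ∈ R ∧ x * x = 1 ∧ ∀ y ∈ R, x * y = y * x}
  one_mem' := ⟨one_mem R, one_mul 1, fun y _ => by simp⟩
  mul_mem' := by
    rintro a b ⟨ha, ha1, ha2⟩ ⟨hb, hb1, hb2⟩
    refine ⟨mul_mem ha hb, ?_, fun y hy => ?_⟩
    · calc a * b * (a * b) = a * (b * a) * b := by group
        _ = a * (a * b) * b := by rw [hb2 a ha]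
        _ = (a * a) * (b * b) := by group
        _ = 1 := by rw [ha1, hb1, one_mul]
    · rw [mul_assoc, hb2 y hy, ← mul_assoc, ha2 y hy, mul_assoc]
  inv_mem' := by
    rintro a ⟨ha, ha1, ha2⟩
    rw [show a⁻¹ = a from inv_eq_of_mul_eq_one_left ha1]
    exact ⟨ha, ha1, ha2⟩

theorem mem_Om {R : Subgroup G} {x : G} : x ∈ Om R ↔ x ∈ R ∧ x * x = 1 ∧ ∀ y ∈ R, x * y = y * x := Iff.rfl

theorem Om_le (R : Subgroup G) : Om R ≤ R := fun x hx => hx.1

theorem Om_sq {R : Subgroup G} {x : G} (hx : x ∈ Om R) : x * x = 1 := hx.2.1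

theorem cj_Om_le (g : G) (R : Subgroup G) : cj g (Om R) ≤ Om (cj g R) := by
  rw [cj_le_iff]
  rintro x ⟨h1, h2, h3⟩
  refine ⟨conj_mem_cj h1, ?_, fun y hy => ?_⟩
  · calc g * x * g⁻¹ * (g * x * g⁻¹) = g * (x * x) * g⁻¹ := by group
      _ = 1 := by rw [h2]; group
  · rw [mem_cj] at hy
    have := h3 _ hy
    calc g * x * g⁻¹ * y = g * (x * (g⁻¹ * y * g)) * g⁻¹ := by group
      _ = g * (g⁻¹ * y * g * x) * g⁻¹ := by rw [this]
      _ = y * (g * x * g⁻¹) := by group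

theorem cj_Om (g : G) (R : Subgroup G) : cj g (Om R) = Om (cj g R) := by
  apply le_antisymm (cj_Om_le g R)
  have h1 := cj_Om_le g⁻¹ (cj g R)
  rw [cj_inv_cj] at h1
  have h2 := cj_mono (g := g) h1
  rwa [cj_cj_inv] at h2

theorem cj_Om_of {g : G} {R : Subgroup G} (h : cj g R = R) : cj g (Om R) = Om R := by
  rw [cj_Om, h]

theorem exists_Om {R : Subgroup G} (hR : IsPGroup 2 R) (h1 : R ≠ ⊥) : ∃ z ∈ Om R, z ≠ 1 := by
  haveI : Nontrivial R := (nontrivial_iff_ne_bot R).2 h1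
  haveI := hR.center_nontrivial
  have hc : IsPGroup 2 (center R) := hR.to_subgroup _
  have h2 : 2 ∣ Nat.card (center R) := by
    obtain ⟨n, hn⟩ := IsPGroup.iff_card.1 hc
    rw [hn]
    apply dvd_pow_self
    rintro rfl
    rw [pow_zero] at hn
    have := Finite.one_lt_card (α := center R)
    omega
  obtain ⟨x, hx⟩ := exists_prime_orderOf_dvd_card' (G := center R) 2 h2
  have hx2 := sq_of_order hx
  refine ⟨((x : R) : G), ⟨(x : R).2, ?_, fun y hy => ?_⟩, ?_⟩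
  · have := congrArg (fun w : center R => ((w : R) : G)) hx2
    simpa using this
  · have := (mem_center_iff.1 x.2) ⟨y, hy⟩
    exact (congrArg (fun w : R => (w : G)) this).symm
  · intro e
    have : x = 1 := Subtype.ext (Subtype.ext e)
    rw [this, orderOf_one] at hx
    omega

end inv

/-- Glauberman's `Z*`-theorem -/
def ZS : Prop := ∀ (G : Type u) [Group G] [Finite G] (P : Sylow 2 G) (u : G), orderOf u = 2 → u ∈ P →
  (∀ g : G, g * u * g⁻¹ ∈ P → g * u * g⁻¹ = u) →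
    ∃ N : Subgroup G, N.Normal ∧ Odd (Nat.card N) ∧ ∀ g : G, (u * g * u⁻¹ * g⁻¹) ∈ N

section ctx

variable {G : Type u} [Group G] [Finite G] {π : Set ℕ} {H K T : Subgroup G}

theorem Ctx.noFix (C : Ctx π G) (Z : ZS.{u}) (P : Sylow 2 G) {z : G} (hz : z ∈ (P : Subgroup G)) (hz2 : z * z = 1)
    (hz1 : z ≠ 1) : ∃ m : G, cj m (P : Subgroup G) = P ∧ m * z * m⁻¹ ≠ z := by
  by_contra! hcon
  have hiso : ∀ g : G, g * z * g⁻¹ ∈ P → g * z * g⁻¹ = z := by
    intro g hg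
    obtain ⟨m, hm, hm'⟩ := C.control P _ (zpowers z) rfl (by rw [zpowers_le]; exact hz) g (by
      rw [cj_le_iff]
      rintro x ⟨i, rfl⟩
      have : g * z ^ i * g⁻¹ = (g * z * g⁻¹) ^ i := by rw [conj_zpow]
      show g * z ^ i * g⁻¹ ∈ _
      rw [this]; exact zpow_mem hg i)
    rw [← hm' z (mem_zpowers z)]
    exact hcon m hm
  obtain ⟨N, hN, hodd, hcomm⟩ := Z G P z (order_of_sq hz2 hz1) hz hiso
  rcases C.normal hN with h | h
  · apply hz1
    have : z ∈ Subgroup.center G := by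
      rw [mem_center_iff]
      intro g
      have := hcomm g
      rw [h, mem_bot] at this
      have h2 := mul_inv_eq_one.1 this
      rw [mul_inv_eq_iff_eq_mul] at h2
      exact h2.symm
    rw [C.cen] at this
    exact mem_bot.1 this
  · rw [h, Subgroup.card_top] at hodd
    exact (Nat.not_even_iff_odd.2 hodd) (even_iff_two_dvd.2 C.even)

theorem Ctx.sylow_ne_bot (C : Ctx π G) (P : Sylow 2 G) : (P : Subgroup G) ≠ ⊥ := by
  intro h
  have h1 := P.not_dvd_index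
  rw [h, Subgroup.index_bot] at h1
  exact h1 C.even

theorem Ctx.exists_two (C : Ctx π G) (Z : ZS.{u}) (P : Sylow 2 G) :
    ∃ z ∈ Om (P : Subgroup G), ∃ w ∈ Om (P : Subgroup G), z ≠ 1 ∧ w ≠ 1 ∧ z ≠ w := by
  obtain ⟨z, hz, hz1⟩ := exists_Om P.2 (C.sylow_ne_bot P)
  obtain ⟨m, hm, hm'⟩ := C.noFix Z P hz.1 hz.2.1 hz1
  refine ⟨z, hz, m * z * m⁻¹, ?_, hz1, ?_, Ne.symm hm'⟩
  · have := conj_mem_cj (g := m) hz
    rwa [cj_Om_of hm] at this
  · intro e
    apply hz1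
    have : z = m⁻¹ * (m * z * m⁻¹) * m := by group
    rw [this, e]; group

theorem Ctx.card_Om (C : Ctx π G) (Z : ZS.{u}) (P : Sylow 2 G) : 3 ≤ Nat.card (Om (P : Subgroup G)) := by
  classical
  obtain ⟨z, hz, w, hw, h1, h2, h3⟩ := C.exists_two Z P
  have h4 : ({(⟨1, one_mem _⟩ : Om (P : Subgroup G)), ⟨z, hz⟩, ⟨w, hw⟩} : Finset (Om (P : Subgroup G))).card = 3 := by
    rw [Finset.card_eq_three]
    refine ⟨_, _, _, ?_, ?_, ?_, rfl⟩
    · intro e; exact h1 (congrArg Subtype.val e).symm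
    · intro e; exact h2 (congrArg Subtype.val e).symm
    · intro e; exact h3 (congrArg Subtype.val e)
  letI := Fintype.ofFinite (Om (P : Subgroup G))
  rw [← h4, Nat.card_eq_fintype_card]
  exact Finset.card_le_univ _

end ctx

end H75.PH
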