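import Mathlib
import Cfsg.Agent.Lib.H75.PH3
import Cfsg.Agent.S0217

set_option autoImplicit false
set_option linter.all false

/-! 2-rank at least three: a subgroup containing the centralizers of involutions (towards S3258). -/

namespace H75.PH

open Subgroup

universe u

variable {G : Type u} [Group G] [Finite G] {π : Set ℕ}

/-- the group generated by the `θ(f)` -/
def WW (π : Set ℕ) (F : Subgroup G) : Subgroup G :=
  ⨆ a : {a : G // a ∈ F ∧ a ≠ 1}, Oc π (centralizer ({(a : G)} : Set G))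

theorem le_WW {F : Subgroup G} {a : G} (ha : a ∈ F) (h1 : a ≠ 1) :
    Oc π (centralizer ({a} : Set G)) ≤ WW π F :=
  le_iSup (fun a : {a : G // a ∈ F ∧ a ≠ 1} => Oc π (centralizer ({(a : G)} : Set G))) ⟨a, ha, h1⟩

theorem WW_le {F K : Subgroup G} (h : ∀ a ∈ F, a ≠ 1 → Oc π (centralizer ({a} : Set G)) ≤ K) : WW π F ≤ K :=
  iSup_le fun a => h a a.2.1 a.2.2

theorem cj_Oc_le (g : G) (H : Subgroup G) : cj g (Oc π H) ≤ Oc π (cj g H) := by
  unfold Oc
  rw [cj, MonoidHom.map_closure]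
  apply Subgroup.closure_mono
  rintro _ ⟨x, ⟨hx1, hx2⟩, rfl⟩
  refine ⟨conj_mem_cj hx1, ?_⟩
  have : orderOf ((MulAut.conj g).toMonoidHom x) = orderOf x := orderOf_conj g x
  rw [this]; exact hx2

theorem cj_Oc (g : G) (H : Subgroup G) : cj g (Oc π H) = Oc π (cj g H) := by
  apply le_antisymm (cj_Oc_le g H)
  have h1 := cj_Oc_le (π := π) g⁻¹ (cj g H)
  rw [cj_inv_cj] at h1
  have h2 := cj_mono (g := g) h1
  rwa [cj_cj_inv] at h2

theorem cj_WW_le (g : G) (F : Subgroup G) : cj g (WW π F) ≤ WW π (cj g F) := by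
  have : WW π F ≤ cj g⁻¹ (WW π (cj g F)) := by
    apply WW_le
    intro a ha h1
    have h2 : Oc π (centralizer ({g * a * g⁻¹} : Set G)) ≤ WW π (cj g F) :=
      le_WW (conj_mem_cj ha) (fun e => h1 (by
        have : a = g⁻¹ * (g * a * g⁻¹) * g := by group
        rw [this, e]; group))
    have h3 := cj_mono (g := g⁻¹) h2
    rw [← cj_cent, ← cj_Oc, cj_inv_cj] at h3
    exact h3
  have h2 := cj_mono (g := g) this
  rwa [cj_cj_inv] at h2

theorem cj_WW (g : G) (F : Subgroup G) : cj g (WW π F) = WW π (cj g F) := by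
  apply le_antisymm (cj_WW_le g F)
  have h1 := cj_WW_le (π := π) g⁻¹ (cj g F)
  rw [cj_inv_cj] at h1
  have h2 := cj_mono (g := g) h1
  rwa [cj_cj_inv] at h2

theorem Ctx.clc (C : Ctx π G) {a : G} (ha : a ≠ 1) : Cl π (centralizer ({a} : Set G)) := C.sub _ (C.cent_ne_top ha)

theorem Ctx.Oc_le_WW (C : Ctx π G) {a : G} (ha1 : a ≠ 1) {F : Subgroup G} (hF : ∀ a ∈ F, a * a = 1)
    (h3 : 3 ≤ Nat.card F) (hFa : F ≤ centralizer ({a} : Set G)) : Oc π (centralizer ({a} : Set G)) ≤ WW π F := by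
  refine gen hF h3 ?_ ((card_Oc (C.clc ha1)).not_two C.two) ?_
  · intro f hf
    rw [mem_normalizer_iff_cj, cj_Oc, cj_of_mem (hFa hf)]
  · intro f hf hf1 x hx
    rw [mem_inf, mem_Oc (C.clc ha1)] at hx
    exact le_WW hf hf1 ((mem_Oc (C.clc hf1)).2 ⟨hx.2, hx.1.2⟩)

theorem Ctx.exists_se (C : Ctx π G) (Z : ZS.{u}) (P : Sylow 2 G) {A : Subgroup G} (hAP : A ≤ P)
    (hEA : Om (P : Subgroup G) ≤ A) (hA : ∀ a ∈ A, a * a = 1) (h8 : 8 ≤ Nat.card A) :
    ∃ M : Subgroup G, M ≠ ⊤ ∧ (∀ m, cj m (P : Subgroup G) = P → m ∈ M) ∧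
      ∀ t ∈ (P : Subgroup G), t * t = 1 → t ≠ 1 → centralizer ({t} : Set G) ≤ M := by
  set E := Om (P : Subgroup G) with hE
  have hE3 : 3 ≤ Nat.card E := C.card_Om Z P
  have hEsq : ∀ e ∈ E, e * e = 1 := fun e he => he.2.1
  have hEP : E ≤ P := Om_le _
  have hEc : ∀ t ∈ (P : Subgroup G), E ≤ centralizer ({t} : Set G) := fun t ht e he =>
    mem_cent_iff.2 (he.2.2 t ht)
  have hE2 : IsPGroup 2 E := two_group_of_sq hEsq
  have hWA : ¬ 2 ∣ Nat.card (WW π A) := by
    refine (Cfsg.Agent.S0217.result (p := 2) A (fun a ha b hb => comm_of_sq hA ha hb)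
      (fun a ha => by rw [pow_two]; exact hA a ha) (by norm_num; exact h8)
      (fun a => Oc π (centralizer ({a} : Set G))) (fun a _ _ => Oc_le _)
      (fun a _ h1 => (card_Oc (C.clc h1)).not_two C.two) ?_ ?_ ?_).1
    · intro a ha h1 b hb x hx
      exact conj_mem_Oc (C.clc h1) (le_normalizer (mem_cent_iff.2 (comm_of_sq hA hb ha))) hx
    · intro a _ h1
      exact C.ft _ ((card_Oc (C.clc h1)).odd C.two)
    · intro a _ h1 b _ h2 x hx
      rw [mem_inf, mem_Oc (C.clc h1)] at hx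
      exact (mem_Oc (C.clc h2)).2 ⟨hx.2, hx.1.2⟩
  set W := WW π E with hW
  have hWodd : ¬ 2 ∣ Nat.card W := fun h => hWA (h.trans (card_dvd_of_le
    (WW_le fun a ha h1 => le_WW (hEA ha) h1)))
  have key : ∀ t ∈ (P : Subgroup G), t * t = 1 → t ≠ 1 → ∃ R, Syl R (centralizer ({t} : Set G)) ∧ E ≤ R ∧ t ∈ R ∧
      (∀ g, R ≤ cj g (P : Subgroup G) → cj g E ≤ Om R) ∧ WW π (Om R) = W := by
    intro t ht ht2 ht1
    obtain ⟨R, hAR, hR⟩ := exists_syl (A := (P : Subgroup G) ⊓ centralizer ({t} : Set G))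
      (H := centralizer ({t} : Set G)) inf_le_right (P.2.to_le inf_le_left)
    have hER : E ≤ R := (le_inf hEP (hEc t ht)).trans hAR
    have htR : t ∈ R := hAR ⟨ht, mem_cent_iff.2 rfl⟩
    have h1 : ∀ g, R ≤ cj g (P : Subgroup G) → cj g E ≤ Om R := by
      intro g hg
      rw [hE, cj_Om]
      have hle : Om (cj g (P : Subgroup G)) ⊔ R = R := by
        apply hR.max le_sup_right
        · refine sup_le ?_ hR.1
          intro x hx
          exact mem_cent_iff.2 (hx.2.2 t (hg htR))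
        · exact (isPGroup_cj P.2).to_le (sup_le (Om_le _) hg)
      intro x hx
      have hxR : x ∈ R := by rw [← hle]; exact le_sup_left (a := Om (cj g (P : Subgroup G))) hx
      exact ⟨hxR, hx.2.1, fun y hy => hx.2.2 y (hg hy)⟩
    obtain ⟨h, -, hh⟩ := (syl_top P).conj_le (A := R) le_top hR.2.1
    have hh' : R ≤ cj h⁻¹ (P : Subgroup G) := by
      have := cj_mono (g := h⁻¹) hh
      rwa [cj_inv_cj] at this
    have h3 : 3 ≤ Nat.card (Om R) := by
      refine hE3.trans ?_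
      rw [← card_cj h⁻¹ E]
      exact card_le_of_le (h1 _ hh')
    refine ⟨R, hR, hER, htR, h1, le_antisymm ?_ ?_⟩
    · apply WW_le
      intro f hf hf1
      exact C.Oc_le_WW hf1 hEsq hE3 fun e he => mem_cent_iff.2 (hf.2.2 e (hER he)).symm
    · apply WW_le
      intro e he he1
      exact C.Oc_le_WW he1 (fun a ha => ha.2.1) h3 fun f hf => mem_cent_iff.2 (hf.2.2 e (hER he))
  by_cases hWb : W = ⊥
  · -- all centralizers are 2-closed
    have hOc : ∀ t ∈ (P : Subgroup G), t ≠ 1 → Oc π (centralizer ({t} : Set G)) = ⊥ := fun t ht h1 =>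
      le_bot_iff.1 (hWb ▸ C.Oc_le_WW h1 hEsq hE3 (hEc t ht))
    have hPne := C.sylow_ne_bot P
    refine ⟨normalizer ((P : Subgroup G) : Set G), C.norm_ne_top hPne (C.ne_top P.2),
      fun m hm => mem_normalizer_iff_cj.2 hm, ?_⟩
    intro t ht ht2 ht1 c hc
    obtain ⟨R, hR, hER, htR, hR1, -⟩ := key t ht ht2 ht1
    have hnorm : ∀ e ∈ E, e ≠ 1 → ∀ x ∈ centralizer ({e} : Set G), cj x (P : Subgroup G) = P := by
      intro e he he1 x hx
      have hPC : (P : Subgroup G) ≤ centralizer ({e} : Set G) := fun y hy =>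
        mem_cent_iff.2 (he.2.2 y hy).symm
      obtain ⟨n, hn, hnP, o, ho, rfl⟩ := factor C.cl C.two (C.clc he1)
        ((syl_top P).mono hPC le_top) hx
      rw [hOc e (hEP he) he1, mem_bot] at ho
      rw [ho, mul_one]; exact hnP
    obtain ⟨z, hz, w, hw, hz1, hw1, hzw⟩ := C.exists_two Z P
    have hstar : ∀ g, R ≤ cj g (P : Subgroup G) → cj g (P : Subgroup G) = P := by
      intro g hg
      have hE' := hR1 g hg
      have hzC : cj g E ≤ centralizer ({z} : Set G) := fun x hx =>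
        mem_cent_iff.2 ((hE' hx).2.2 z (hER hz))
      have hPC : (P : Subgroup G) ≤ centralizer ({z} : Set G) := fun y hy =>
        mem_cent_iff.2 (hz.2.2 y hy).symm
      have hPS := (syl_top P).mono hPC le_top
      have hEP' : cj g E ≤ P := by
        obtain ⟨c, hc, hcE⟩ := hPS.conj_le hzC (isPGroup_cj hE2)
        have h4 := cj_mono (g := c⁻¹) hcE
        rw [cj_inv_cj] at h4
        rwa [hnorm z hz hz1 c⁻¹ (inv_mem hc)] at h4
      obtain ⟨m, hm, hm'⟩ := C.control P _ E rfl hEP g hEP'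
      have hgE : cj g E = E := by
        apply cj_eq_of_le
        rw [cj_le_iff]
        intro x hx
        rw [← hm' x hx]
        have := conj_mem_cj (g := m) hx
        rwa [hE, cj_Om_of hm] at this
      have hPC' : cj g (P : Subgroup G) ≤ centralizer ({z} : Set G) := by
        intro y hy
        have h5 : z ∈ Om (cj g (P : Subgroup G)) := by rw [← cj_Om, ← hE, hgE]; exact hz
        exact mem_cent_iff.2 (h5.2.2 y hy).symm
      have hPS' : Syl (cj g (P : Subgroup G)) (centralizer ({z} : Set G)) :=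
        ((syl_top P).cj (mem_top g)).mono hPC' le_top
      obtain ⟨c, hc, hcP⟩ := hPS.conj hPS'
      have h6 := congrArg (cj c⁻¹) hcP
      rw [cj_inv_cj, hnorm z hz hz1 c⁻¹ (inv_mem hc)] at h6
      exact h6
    obtain ⟨n, hn, hnR, o, ho, rfl⟩ := factor C.cl C.two (C.clc ht1) hR hc
    rw [hOc t ht ht1, mem_bot] at ho
    subst ho
    rw [mul_one]
    obtain ⟨h, -, hh⟩ := (syl_top P).conj_le (A := R) le_top hR.2.1
    have hh' : R ≤ cj h⁻¹ (P : Subgroup G) := by
      have := cj_mono (g := h⁻¹) hh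
      rwa [cj_inv_cj] at this
    have hRP : R ≤ P := by rw [hstar _ hh'] at hh'; exact hh'
    rw [mem_normalizer_iff_cj]
    apply hstar
    have := cj_mono (g := n) hRP
    rwa [hnR] at this
  · refine ⟨normalizer (W : Set G), C.norm_ne_top hWb ?_, ?_, ?_⟩
    · intro e
      rw [e, Subgroup.card_top] at hWodd
      exact hWodd C.even
    · intro m hm
      rw [mem_normalizer_iff_cj, hW, cj_WW, hE, cj_Om_of hm]
    · intro t ht ht2 ht1 c hc
      obtain ⟨R, hR, hER, htR, hR1, hRW⟩ := key t ht ht2 ht1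
      obtain ⟨n, hn, hnR, o, ho, rfl⟩ := factor C.cl C.two (C.clc ht1) hR hc
      refine mul_mem ?_ (le_normalizer (C.Oc_le_WW ht1 hEsq hE3 (hEc t ht) ho))
      rw [mem_normalizer_iff_cj, ← hRW, cj_WW, cj_Om_of hnR]

end H75.PH
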