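import Mathlib
import Cfsg.Agent.Lib.H75.PH4

set_option autoImplicit false
set_option linter.all false

/-! The strongly embedded case is impossible (towards S3258). -/

namespace H75.PH

open Subgroup

universe u

/-- consequence of Bender's theorem -/
def BenderQ : Prop := ∀ (G : Type u) [Group G] [Finite G] [IsSimpleGroup G] (M : Subgroup G), M ≠ ⊤ →
  2 ∣ Nat.card M → (∀ g, g ∉ M → ¬ 2 ∣ Nat.card (M ⊓ cj g M : Subgroup G)) →
  (∃ v w : G, v ≠ w ∧ orderOf v = 2 ∧ orderOf w = 2 ∧ v * w = w * v) →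
  ∃ Q : Subgroup G, Q ≤ M ∧ (∀ h ∈ M, ∀ q ∈ Q, h * q * h⁻¹ ∈ Q) ∧
    (∀ g, g ∉ M → ∀ u ∈ Q, g⁻¹ * u * g ∈ M → u = 1) ∧ (∀ t ∈ M, orderOf t = 2 → t ∈ Q) ∧ IsPGroup 2 Q

variable {G : Type u} [Group G] [Finite G] {π : Set ℕ}

theorem inv_aux {a b : G} (ha : a * a = 1) (hb : b * b = 1) : a * (a⁻¹ * b) * a⁻¹ = (a⁻¹ * b)⁻¹ := by
  have hai : a⁻¹ = a := inv_eq_of_mul_eq_one_left ha
  have hbi : b⁻¹ = b := inv_eq_of_mul_eq_one_left hb
  rw [mul_inv_rev, inv_inv, hbi, mul_inv_cancel_left, hai]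

/-- counting: some involution outside `M` inverts a nontrivial element of `M` -/
theorem exists_inverted {M Q : Subgroup G} (hM : M ≠ ⊤) (hQM : Q ≤ M)
    (hreg : ∀ g, g ∉ M → ∀ u ∈ Q, g⁻¹ * u * g ∈ M → u = 1)
    (hcore : ∀ h ∈ M, ∀ q ∈ Q, h * q * h⁻¹ ∈ Q)
    {z w : G} (hz : z ∈ Q) (hw : w ∈ Q) (hz2 : z * z = 1) (hw2 : w * w = 1) (hz1 : z ≠ 1) (hw1 : w ≠ 1) (hzw : z ≠ w) :
    ∃ t y : G, t ∉ M ∧ t * t = 1 ∧ t ≠ 1 ∧ y ∈ M ∧ y ≠ 1 ∧ t * y * t⁻¹ = y⁻¹ := by
  classical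
  letI : Fintype (G ⧸ M) := Fintype.ofFinite _
  obtain ⟨g0, hg0⟩ : ∃ g : G, g ∉ M := by
    by_contra! h
    exact hM (eq_top_iff.2 fun x _ => h x)
  let o : G ⧸ M := QuotientGroup.mk 1
  let Ω := {c : G ⧸ M // c ≠ o}
  haveI : Nonempty Ω := ⟨⟨QuotientGroup.mk g0, by
    intro e
    apply hg0
    have := QuotientGroup.eq.1 e.symm
    simpa using this⟩⟩
  have hout : ∀ c : Ω, c.1.out ∉ M := by
    intro c hc
    apply c.2
    rw [← QuotientGroup.out_eq' c.1]
    exact QuotientGroup.eq.2 (by rw [mul_one]; exact inv_mem hc)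
  let u : Bool → G := fun b => if b then z else w
  have hu : ∀ b, u b ∈ Q ∧ u b * u b = 1 ∧ u b ≠ 1 := by
    intro b; cases b
    · exact ⟨hw, hw2, hw1⟩
    · exact ⟨hz, hz2, hz1⟩
  let f : Ω × Bool → G := fun x => x.1.1.out * u x.2 * x.1.1.out⁻¹
  have hfM : ∀ x, f x ∉ M := by
    intro x hx
    apply (hu x.2).2.2
    apply hreg (x.1.1.out⁻¹) (fun h => hout x.1 (by simpa using inv_mem h)) _ (hu x.2).1
    rw [inv_inv]; exact hx
  have hf2 : ∀ x, f x * f x = 1 := by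
    intro x
    calc f x * f x = x.1.1.out * (u x.2 * u x.2) * x.1.1.out⁻¹ := by show _ * _ * _ * (_ * _ * _) = _; group
      _ = 1 := by rw [(hu x.2).2.1]; group
  have hf1 : ∀ x, f x ≠ 1 := fun x e => hfM x (e ▸ one_mem M)
  have hfinj : Function.Injective f := by
    rintro ⟨c, b⟩ ⟨c', b'⟩ e
    have e' : c.1.out * u b * c.1.out⁻¹ = c'.1.out * u b' * c'.1.out⁻¹ := e
    have hcc : c = c' := by
      by_contra hne
      have hn : c'.1.out⁻¹ * c.1.out ∉ M := by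
        intro h
        apply hne
        apply Subtype.ext
        rw [← QuotientGroup.out_eq' c.1, ← QuotientGroup.out_eq' c'.1]
        exact (QuotientGroup.eq.2 h).symm
      have h1 := hreg _ hn (u b') (hu b').1 (by
        have e3 : (c'.1.out⁻¹ * c.1.out)⁻¹ * u b' * (c'.1.out⁻¹ * c.1.out) = u b := by
          calc (c'.1.out⁻¹ * c.1.out)⁻¹ * u b' * (c'.1.out⁻¹ * c.1.out)
              = c.1.out⁻¹ * (c'.1.out * u b' * c'.1.out⁻¹) * c.1.out := by group
            _ = u b := by rw [← e']; group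
        rw [e3]; exact hQM (hu b).1)
      exact (hu b').2.2 h1
    subst hcc
    have h2 : u b = u b' := by
      have := congrArg (fun x => c.1.out⁻¹ * x * c.1.out) e'
      simpa [mul_assoc] using this
    have h3 : b = b' := by
      cases b <;> cases b'
      · rfl
      · exact absurd h2.symm hzw
      · exact absurd h2 hzw
      · rfl
    rw [h3]
  let φ : Ω × Bool → Ω := fun x => ⟨QuotientGroup.mk (f x), by
    intro e
    apply hfM x
    have := QuotientGroup.eq.1 e.symm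
    simpa using this⟩
  have hni : ¬ Function.Injective φ := by
    intro hi
    have h1 := Fintype.card_le_of_injective φ hi
    rw [Fintype.card_prod, Fintype.card_bool] at h1
    have h2 : 0 < Fintype.card Ω := Fintype.card_pos
    omega
  rw [Function.not_injective_iff] at hni
  obtain ⟨x, x', he, hne⟩ := hni
  have he' : (QuotientGroup.mk (f x) : G ⧸ M) = QuotientGroup.mk (f x') := congrArg Subtype.val he
  have hy := QuotientGroup.eq.1 he'
  have hxi : (f x)⁻¹ = f x := inv_eq_of_mul_eq_one_left (hf2 x)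
  have hxi' : (f x')⁻¹ = f x' := inv_eq_of_mul_eq_one_left (hf2 x')
  refine ⟨f x, (f x)⁻¹ * f x', hfM x, hf2 x, hf1 x, hy, ?_, ?_⟩
  · intro e
    apply hne
    apply hfinj
    have := inv_mul_eq_one.1 e
    exact this
  · exact inv_aux (hf2 x) (hf2 x')

/-- the contradiction -/
theorem Ctx.tic (C : Ctx π G) (B : BenderQ.{u}) {P : Subgroup G} (hP : Syl P ⊤) {M : Subgroup G} (hM : M ≠ ⊤)
    (hN : ∀ m, cj m P = P → m ∈ M)
    (hctl : ∀ t ∈ P, ∀ g : G, g * t * g⁻¹ ∈ P → ∃ m : G, cj m P = P ∧ m * t * m⁻¹ = g * t * g⁻¹)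
    (hc : ∀ t ∈ P, t * t = 1 → t ≠ 1 → centralizer ({t} : Set G) ≤ M)
    {z w : G} (hz : z ∈ Om P) (hw : w ∈ Om P) (hz1 : z ≠ 1) (hw1 : w ≠ 1) (hzw : z ≠ w) : False := by
  haveI := C.simple
  have hPM : P ≤ M := fun x hx => hN x (cj_of_mem hx)
  have hPSM : Syl P M := hP.mono hPM le_top
  -- involutions of `M` are conjugate into `P`
  have hinv : ∀ t ∈ M, t * t = 1 → ∃ m ∈ M, m * t * m⁻¹ ∈ P := by
    intro t ht ht2
    obtain ⟨m, hm, hmt⟩ := hPSM.conj_le (A := zpowers t) (by rw [zpowers_le]; exact ht) (by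
      by_cases h1 : t = 1
      · rw [h1, zpowers_one_eq_bot]; exact IsPGroup.of_bot
      · apply IsPGroup.of_card (n := 1)
        rw [Nat.card_zpowers, order_of_sq ht2 h1, pow_one])
    exact ⟨m, hm, cj_le_iff.1 hmt t (mem_zpowers t)⟩
  have hcM : ∀ t ∈ M, t * t = 1 → t ≠ 1 → centralizer ({t} : Set G) ≤ M := by
    intro t ht ht2 ht1
    obtain ⟨m, hm, hmt⟩ := hinv t ht ht2
    have h1 := hc _ hmt (by
      calc m * t * m⁻¹ * (m * t * m⁻¹) = m * (t * t) * m⁻¹ := by group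
        _ = 1 := by rw [ht2]; group) (fun e => ht1 (by
        have : t = m⁻¹ * (m * t * m⁻¹) * m := by group
        rw [this, e]; group))
    have h2 := cj_mono (g := m⁻¹) h1
    rw [← cj_cent, cj_inv_cj, cj_of_mem (inv_mem hm)] at h2
    exact h2
  -- fusion
  have hfus : ∀ g t : G, t ∈ M → g * t * g⁻¹ ∈ M → t * t = 1 → t ≠ 1 → g ∈ M := by
    intro g t ht hgt ht2 ht1
    obtain ⟨m, hm, hmt⟩ := hinv t ht ht2
    have hgt2 : g * t * g⁻¹ * (g * t * g⁻¹) = 1 := by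
      calc g * t * g⁻¹ * (g * t * g⁻¹) = g * (t * t) * g⁻¹ := by group
        _ = 1 := by rw [ht2]; group
    obtain ⟨n, hn, hnt⟩ := hinv _ hgt hgt2
    have e1 : n * (g * t * g⁻¹) * n⁻¹ = (n * g * m⁻¹) * (m * t * m⁻¹) * (n * g * m⁻¹)⁻¹ := by group
    rw [e1] at hnt
    obtain ⟨k, hk, hk'⟩ := hctl _ hmt _ hnt
    have h3 : k⁻¹ * (n * g * m⁻¹) ∈ centralizer ({m * t * m⁻¹} : Set G) := by
      rw [mem_cent_iff]
      calc k⁻¹ * (n * g * m⁻¹) * (m * t * m⁻¹)
          = k⁻¹ * ((n * g * m⁻¹) * (m * t * m⁻¹) * (n * g * m⁻¹)⁻¹) * (n * g * m⁻¹) := by group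
        _ = k⁻¹ * (k * (m * t * m⁻¹) * k⁻¹) * (n * g * m⁻¹) := by rw [hk']
        _ = m * t * m⁻¹ * (k⁻¹ * (n * g * m⁻¹)) := by group
    have h4 := hc _ hmt (by
      calc m * t * m⁻¹ * (m * t * m⁻¹) = m * (t * t) * m⁻¹ := by group
        _ = 1 := by rw [ht2]; group) (fun e => ht1 (by
        have : t = m⁻¹ * (m * t * m⁻¹) * m := by group
        rw [this, e]; group)) h3
    have h5 : g = n⁻¹ * (k * (k⁻¹ * (n * g * m⁻¹))) * m := by group
    rw [h5]
    exact mul_mem (mul_mem (inv_mem hn) (mul_mem (hN k hk) h4)) hm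
  -- strongly embedded
  have hzP : z ∈ P := hz.1
  have hz2 := hz.2.1
  obtain ⟨Q, hQM, hQn, hreg, hQinv, hQ2⟩ := B G M hM (by
    have h1 : orderOf z = 2 := order_of_sq hz2 hz1
    have h2 : orderOf (⟨z, hPM hzP⟩ : M) = 2 := by rw [Subgroup.orderOf_mk]; exact h1
    rw [← h2]; exact orderOf_dvd_natCard _) (by
    intro g hg h2
    apply hg
    obtain ⟨x, hx⟩ := exists_prime_orderOf_dvd_card' (G := (M ⊓ cj g M : Subgroup G)) 2 h2
    have hx' : orderOf (x : G) = 2 := by rw [Subgroup.orderOf_coe, hx]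
    have hxM := x.2.1
    have hxM' := mem_cj.1 x.2.2
    have hx1 : (x : G) ≠ 1 := by
      intro e; rw [e, orderOf_one] at hx'; omega
    have hx2 := sq_of_order hx'
    refine hfus g (g⁻¹ * x * g) hxM' ?_ ?_ ?_
    · have : g * (g⁻¹ * (x : G) * g) * g⁻¹ = x := by group
      rw [this]; exact hxM
    · calc g⁻¹ * (x : G) * g * (g⁻¹ * x * g) = g⁻¹ * ((x : G) * x) * g := by group
        _ = 1 := by rw [hx2]; group
    · intro e
      apply hx1
      have : (x : G) = g * (g⁻¹ * x * g) * g⁻¹ := by group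
      rw [this, e]; group) ⟨z, w, hzw, order_of_sq hz2 hz1, order_of_sq hw.2.1 hw1, hz.2.2 w hw.1⟩
  have hzQ := hQinv z (hPM hzP) (order_of_sq hz2 hz1)
  have hwQ := hQinv w (hPM hw.1) (order_of_sq hw.2.1 hw1)
  obtain ⟨t, y, htM, ht2, ht1, hyM, hy1, hty⟩ := exists_inverted hM hQM hreg hQn hzQ hwQ hz2 hw.2.1 hz1 hw1 hzw
  -- `y` has odd order
  have hyodd : Odd (orderOf y) := by
    rw [← Nat.not_even_iff_odd]
    intro hev
    obtain ⟨k, hk⟩ := even_iff_two_dvd.1 hev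
    have hpos := orderOf_pos y
    have hk0 : 0 < k := by omega
    have hxo : orderOf (y ^ k) = 2 := by
      rw [orderOf_pow_of_dvd hk0.ne' ⟨2, by rw [hk, mul_comm]⟩, hk, Nat.mul_div_cancel _ hk0]
    have hx2 := sq_of_order hxo
    have hx1 : y ^ k ≠ 1 := by intro e; rw [e, orderOf_one] at hxo; omega
    apply htM
    apply hcM _ (pow_mem hyM k) hx2 hx1
    rw [mem_cent_iff]
    have h1 : t * y ^ k * t⁻¹ = (y ^ k)⁻¹ := by rw [← conj_pow, hty, inv_pow]
    rw [inv_eq_of_mul_eq_one_left hx2, mul_inv_eq_iff_eq_mul] at h1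
    exact h1
  have hyPd := no_inv C.cl C.two ht2 ht1 hty hyodd
  have hMc := C.sub M hM
  have hyO : y ∈ Oc π M := (mem_Oc hMc).2 ⟨hyM, hyPd⟩
  -- `y` centralizes `Q`
  have hyQ : ∀ q ∈ Q, y * q = q * y := by
    intro q hq
    have h3 : y * q * y⁻¹ * q⁻¹ ∈ Q := mul_mem (hQn y hyM q hq) (inv_mem hq)
    have h4 : y * q * y⁻¹ * q⁻¹ ∈ Oc π M := by
      have : y * q * y⁻¹ * q⁻¹ = y * (q * y⁻¹ * q⁻¹) := by group
      rw [this]
      exact mul_mem hyO (conj_mem_Oc hMc (le_normalizer (hQM hq)) (inv_mem hyO))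
    have h5 : y * q * y⁻¹ * q⁻¹ = 1 := by
      obtain ⟨k, hk⟩ := IsPGroup.iff_orderOf.1 hQ2 ⟨_, h3⟩
      rw [Subgroup.orderOf_mk] at hk
      have h6 := ((mem_Oc hMc).1 h4).2
      rw [hk] at h6
      rw [← orderOf_eq_one_iff, hk]
      exact eq_one_of_both (Pi.pow Nat.prime_two C.two k) h6
    have := mul_inv_eq_one.1 h5
    rw [mul_inv_eq_iff_eq_mul] at this
    exact this
  set X := centralizer ({y} : Set G) with hX
  have hXc := C.clc hy1
  have hQX : Q ≤ X := fun q hq => mem_cent_iff.2 (hyQ q hq).symm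
  obtain ⟨S, hQS, hS⟩ := exists_syl hQX hQ2
  -- `X ≤ M`
  have hXM : X ≤ M := by
    have hOM : Oc π X ≤ M := by
      have hF : ∀ a ∈ Om P, a * a = 1 := fun a ha => ha.2.1
      have hFQ : Om P ≤ Q := by
        intro a ha
        by_cases h1 : a = 1
        · rw [h1]; exact one_mem Q
        · exact hQinv a (hPM ha.1) (order_of_sq ha.2.1 h1)
      refine gen hF ?_ ?_ ((card_Oc hXc).not_two C.two) ?_
      · classical
        have h4 : ({(⟨1, one_mem _⟩ : Om P), ⟨z, hz⟩, ⟨w, hw⟩} : Finset (Om P)).card = 3 := by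
          rw [Finset.card_eq_three]
          refine ⟨_, _, _, ?_, ?_, ?_, rfl⟩
          · intro e; exact hz1 (congrArg Subtype.val e).symm
          · intro e; exact hw1 (congrArg Subtype.val e).symm
          · intro e; exact hzw (congrArg Subtype.val e)
        letI := Fintype.ofFinite (Om P)
        rw [← h4, Nat.card_eq_fintype_card]
        exact Finset.card_le_univ _
      · intro f hf
        rw [mem_normalizer_iff_cj, cj_Oc, cj_of_mem (hQX (hFQ hf))]
      · intro a ha h1 x hx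
        exact hc a ha.1 ha.2.1 h1 hx.2
    have hSne : S ≠ ⊥ := by
      intro e
      apply hz1
      have := hQS hzQ
      rwa [e, mem_bot] at this
    obtain ⟨s, hs, hs1⟩ := exists_Om hS.2.1 hSne
    have hsM : s ∈ M := hcM z (hPM hzP) hz2 hz1 (mem_cent_iff.2 (hs.2.2 z (hQS hzQ)))
    have hSM : S ≤ M := fun x hx => hcM s hsM hs.2.1 hs1 (mem_cent_iff.2 (hs.2.2 x hx).symm)
    intro x hx
    obtain ⟨n, hn, hnS, o, ho, rfl⟩ := factor C.cl C.two hXc hS hx
    refine mul_mem ?_ (hOM ho)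
    apply hfus n s hsM _ hs.2.1 hs1
    apply hSM
    have := conj_mem_cj (g := n) hs.1
    rwa [hnS] at this
  -- contradiction
  apply hz1
  have hti : t⁻¹ = t := inv_eq_of_mul_eq_one_left ht2
  apply hreg t htM z hzQ
  apply hXM
  rw [mem_cent_iff]
  have h7 : t * y * t = y⁻¹ := by rw [hti] at hty; exact hty
  have h8 : t * z * t * y⁻¹ = y⁻¹ * (t * z * t) := by
    calc t * z * t * y⁻¹ = t * z * t * (t * y * t) := by rw [h7]
      _ = t * z * (t * t) * y * t := by group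
      _ = t * (z * y) * t := by rw [ht2]; group
      _ = t * (y * z) * t := by rw [hyQ z hzQ]
      _ = t * y * (t * t) * z * t := by rw [ht2]; group
      _ = (t * y * t) * (t * z * t) := by group
      _ = y⁻¹ * (t * z * t) := by rw [h7]
  rw [hti]
  have h9 : y * (t * z * t * y⁻¹) * y = y * (y⁻¹ * (t * z * t)) * y := by rw [h8]
  calc t * z * t * y = y * (y⁻¹ * (t * z * t)) * y := by group
    _ = y * (t * z * t * y⁻¹) * y := by rw [← h9]
    _ = y * (t * z * t) := by group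

theorem Ctx.no_rank_three (C : Ctx π G) (Z : ZS.{u}) (B : BenderQ.{u}) (P : Sylow 2 G) {A : Subgroup G} (hAP : A ≤ P)
    (hEA : Om (P : Subgroup G) ≤ A) (hA : ∀ a ∈ A, a * a = 1) (h8 : 8 ≤ Nat.card A) : False := by
  obtain ⟨M, hM, hN, hc⟩ := C.exists_se Z P hAP hEA hA h8
  obtain ⟨z, hz, w, hw, h1, h2, h3⟩ := C.exists_two Z P
  refine C.tic B (syl_top P) hM hN ?_ hc hz hw h1 h2 h3
  intro t ht g hg
  obtain ⟨m, hm, hm'⟩ := C.control P _ (zpowers t) rfl (by rw [zpowers_le]; exact ht) g (by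
      rw [cj_le_iff]
      rintro x ⟨i, rfl⟩
      have : g * t ^ i * g⁻¹ = (g * t * g⁻¹) ^ i := by rw [conj_zpow]
      show g * t ^ i * g⁻¹ ∈ _
      rw [this]; exact zpow_mem hg i)
  exact ⟨m, hm, hm' t (mem_zpowers t)⟩

end H75.PH
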