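import Mathlib
import Cfsg.Agent.Lib.H26.U34

set_option autoImplicit false
set_option linter.all false

/-! Sylow 2-subgroups of `PSU₃(4)`: every centralizer of a noncentral element has index 4. -/

namespace H75.PHU

open Subgroup Cfsg H26.U34 H24.U3Syl
open scoped commutatorElement

/-- strong form of the data -/
structure UDat (H : Type*) [Group H] : Prop where
  data : Data H
  csurj : ∀ x : H, x ∉ Subgroup.center H → ∀ z ∈ Subgroup.center H, ∃ y : H, ⁅x, y⁆ = z

theorem UDat.of_equiv {H H' : Type*} [Group H] [Group H'] (e : H ≃* H') (h : UDat H') : UDat H := by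
  have hc : ∀ x : H, x ∈ Subgroup.center H ↔ e x ∈ Subgroup.center H' := by
    intro x
    rw [Subgroup.mem_center_iff, Subgroup.mem_center_iff]
    constructor
    · intro hx y
      obtain ⟨y, rfl⟩ := e.surjective y
      rw [← map_mul, ← map_mul, hx]
    · intro hx y
      apply e.injective
      rw [map_mul, map_mul, hx]
  refine ⟨h.data.of_equiv e, ?_⟩
  intro x hx z hz
  obtain ⟨y, hy⟩ := h.csurj (e x) (fun h => hx ((hc x).2 h)) (e z) ((hc z).1 hz)
  obtain ⟨y, rfl⟩ := e.surjective y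
  refine ⟨y, e.injective ?_⟩
  rw [map_commutatorElement]; exact hy

variable {K : Type*} [Field K] [Fintype K]

theorem udat_U (two : (2 : K) = 0) (hK : Fintype.card K = 4 ^ 2) : UDat (U two hK) := by
  refine ⟨data_U two hK, ?_⟩
  have hmem : ∀ {a b : K} (h : Good 4 a b),
      (⟨u 4 a b, a, b, h, rfl⟩ : U two hK) ∈ Subgroup.center (U two hK) ↔ a = 0 := by
    intro a b h
    rw [← central_iff two hK h, Subgroup.mem_center_iff]
    constructor
    · intro hc c d hcd
      exact (congrArg Subtype.val (hc ⟨u 4 c d, c, d, hcd, rfl⟩)).symm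
    · rintro hc ⟨_, c, d, hcd, rfl⟩
      exact Subtype.ext (hc c d hcd).symm
  have hcomm : ∀ a b c d : K, u 4 a b * u 4 c d * (u 4 a b)⁻¹ * (u 4 c d)⁻¹ =
      u 4 0 (a ^ 4 * c + c ^ 4 * a) := by
    intro a b c d
    rw [mul_assoc, ← mul_inv_rev, mul_inv_eq_iff_eq_mul, u_mul hK, u_mul hK, u_mul hK]
    congr 1
    · ring
    · rw [H7.QuadExt.zero_pow_q hK]
      linear_combination (-(c ^ 4 * a)) * two
  rintro ⟨_, a, b, h, rfl⟩ hx ⟨_, a', z, h', rfl⟩ hz
  rw [hmem h] at hx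
  rw [hmem h'] at hz
  subst hz
  rw [good_zero two] at h'
  obtain ⟨c, hc⟩ := H7.QuadExt.exists_trace_eq hK h'
  obtain ⟨d, hd⟩ := exists_gt two hK (c * (a ^ 4)⁻¹)
  refine ⟨⟨u 4 (c * (a ^ 4)⁻¹) d, _, d, hd, rfl⟩, ?_⟩
  apply Subtype.ext
  change u 4 a b * u 4 (c * (a ^ 4)⁻¹) d * (u 4 a b)⁻¹ * (u 4 (c * (a ^ 4)⁻¹) d)⁻¹ = u 4 0 z
  rw [hcomm]
  congr 1
  have h15 : a ^ 15 = 1 := by
    have := FiniteField.pow_card_sub_one_eq_one a hx
    rw [hK] at this
    exact this
  have h16 : (a ^ 16)⁻¹ * a = 1 := by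
    have : a ^ 16 = a := by
      calc a ^ 16 = a ^ 15 * a := by ring
        _ = a := by rw [h15, one_mul]
    rw [this, inv_mul_cancel₀ hx]
  have ha4 : a ^ 4 * (a ^ 4)⁻¹ = 1 := mul_inv_cancel₀ (pow_ne_zero _ hx)
  have e1 : (c * (a ^ 4)⁻¹) ^ 4 * a = c ^ 4 * ((a ^ 16)⁻¹ * a) := by
    rw [mul_pow, inv_pow, ← pow_mul]; ring
  rw [e1, h16, mul_one, ← hc]
  linear_combination c * ha4

theorem udat_sylow (hF : Fintype.card K = 16) (S : Sylow 2 (PSU 3 K 4)) : UDat S := by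
  have two := two_eq_zero hF
  have hK : Fintype.card K = 4 ^ 2 := by rw [hF]; norm_num
  obtain ⟨e⟩ := H24.U3Syl.main two hK (n := 2) le_rfl (by norm_num) S
  exact (udat_U two hK).of_equiv e

end H75.PHU
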