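import Mathlib
import Cfsg.Agent.Lib.H75.PH5
import Cfsg.Agent.Lib.H75.PH6
import Cfsg.Agent.S1237
import Cfsg.Agent.S0949
import Cfsg.Agent.Lib.H71.Basic

set_option autoImplicit false
set_option linter.all false

/-! 2-rank two (towards S3258). -/

namespace H75.PH

open Subgroup

universe u

variable {G : Type u} [Group G] [Finite G] {π : Set ℕ}

theorem mem_of_norm {P : Subgroup G} (hP : Syl P ⊤) {x : G} (hx : IsPGroup 2 (zpowers x)) (h : cj x P = P) : x ∈ P := by
  have hxN : zpowers x ≤ normalizer (P : Set G) := by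
    rw [zpowers_le]; exact mem_normalizer_iff_cj.2 h
  obtain ⟨c, hc, hle⟩ := (hP.mono (H := normalizer (P : Set G)) le_normalizer le_top).conj_le hxN hx
  have h1 := cj_mono (g := c⁻¹) hle
  rw [cj_inv_cj] at h1
  have h2 : cj c⁻¹ P = P := mem_normalizer_iff_cj.1 (inv_mem hc)
  rw [h2] at h1
  exact h1 (mem_zpowers x)

theorem two_el {x : G} (h : ∃ k : ℕ, orderOf x = 2 ^ k) : IsPGroup 2 (zpowers x) := by
  obtain ⟨k, hk⟩ := h
  exact IsPGroup.of_card (by rw [Nat.card_zpowers, hk])

/-- decomposition of an element normalizing `P` -/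
theorem norm_decomp {P : Subgroup G} (hP : Syl P ⊤) {m : G} (hm : cj m P = P) :
    ∃ x y : G, x ∈ P ∧ y ∈ zpowers m ∧ m = x * y ∧ Odd (orderOf y) ∧ cj y P = P := by
  obtain ⟨x, y, h1, h2, h3, h4, h5, h6, -⟩ := H71.Basic.exists_pPart m (isOfFinOrder_of_finite m) 2 Nat.prime_two
  have hz : ∀ w ∈ zpowers m, cj w P = P := by
    intro w hw
    have : zpowers m ≤ normalizer (P : Set G) := by
      rw [zpowers_le]; exact mem_normalizer_iff_cj.2 hm
    exact mem_normalizer_iff_cj.1 (this hw)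
  refine ⟨x, y, mem_of_norm hP (two_el h5) (hz x h1), h2, h3.symm, ?_, hz y h2⟩
  rw [← Nat.not_even_iff_odd, even_iff_two_dvd]; exact h6

/-- an odd order element commutes with whatever its square commutes with -/
theorem odd_comm {s z : G} (hs : Odd (orderOf s)) (h : s * s * z * (s * s)⁻¹ = z) : s * z * s⁻¹ = z := by
  obtain ⟨k, hk⟩ := hs
  have h1 : Commute (s * s) z := by
    rw [mul_inv_eq_iff_eq_mul] at h; exact h
  have h2 : (s * s) ^ (k + 1) = s := by
    rw [← pow_two, ← pow_mul]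
    have : 2 * (k + 1) = orderOf s + 1 := by omega
    rw [this, pow_succ, pow_orderOf_eq_one, one_mul]
  have h3 := h1.pow_left (k + 1)
  rw [h2] at h3
  rw [h3.eq]; group

theorem four {E : Subgroup G} (h4 : Nat.card E = 4) {a b c : G} (ha : a ∈ E) (hb : b ∈ E) (hc : c ∈ E)
    (ha1 : a ≠ 1) (hb1 : b ≠ 1) (hc1 : c ≠ 1) (hab : a ≠ b) (hac : a ≠ c) (hbc : b ≠ c) {x : G} (hx : x ∈ E) :
    x = 1 ∨ x = a ∨ x = b ∨ x = c := by
  classical
  letI := Fintype.ofFinite E
  have h1 : ({⟨1, one_mem _⟩, ⟨a, ha⟩, ⟨b, hb⟩, ⟨c, hc⟩} : Finset E).card = 4 := by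
    rw [Finset.card_insert_of_notMem, Finset.card_insert_of_notMem, Finset.card_insert_of_notMem,
      Finset.card_singleton]
    · simpa using hbc
    · simp [hab, hac]
    · simp [ha1.symm, hb1.symm, hc1.symm]
  have h2 : ({⟨1, one_mem _⟩, ⟨a, ha⟩, ⟨b, hb⟩, ⟨c, hc⟩} : Finset E) = Finset.univ := by
    apply Finset.eq_univ_of_card
    rw [h1, ← Nat.card_eq_fintype_card, h4]
  have h3 : (⟨x, hx⟩ : E) ∈ ({⟨1, one_mem _⟩, ⟨a, ha⟩, ⟨b, hb⟩, ⟨c, hc⟩} : Finset E) := by
    rw [h2]; exact Finset.mem_univ _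
  simp only [Finset.mem_insert, Finset.mem_singleton, Subtype.mk.injEq] at h3
  exact h3

theorem card_pow_two {E : Subgroup G} (hE : IsPGroup 2 E) : ∃ n : ℕ, Nat.card E = 2 ^ n := IsPGroup.iff_card.1 hE

theorem Ctx.rank2 (C : Ctx π G) (Z : ZS.{u}) (B : BenderQ.{u}) (P : Sylow 2 G) :
    Nat.card (Om (P : Subgroup G)) = 4 ∧ ∀ x ∈ (P : Subgroup G), x * x = 1 → x ∈ Om (P : Subgroup G) := by
  have hno : ∀ A : Subgroup G, A ≤ P → Om (P : Subgroup G) ≤ A → (∀ a ∈ A, a * a = 1) → Nat.card A < 8 := by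
    intro A h1 h2 h3
    by_contra h
    exact C.no_rank_three Z B P h1 h2 h3 (not_lt.1 h)
  have hsq : ∀ a ∈ Om (P : Subgroup G), a * a = 1 := fun a ha => ha.2.1
  have h3 := C.card_Om Z P
  have h8 := hno (Om (P : Subgroup G)) (Om_le _) le_rfl hsq
  obtain ⟨n, hn⟩ := card_pow_two (two_group_of_sq hsq)
  have h4 : Nat.card (Om (P : Subgroup G)) = 4 := by
    rw [hn] at h3 h8 ⊢
    have h5 : n < 3 := by
      by_contra h
      have := Nat.pow_le_pow_right (n := 2) (by norm_num) (not_lt.1 h)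
      omega
    interval_cases n <;> simp_all
  refine ⟨h4, fun x hx hx2 => ?_⟩
  by_contra hxE
  set E := Om (P : Subgroup G) with hE
  let A : Subgroup G :=
    { carrier := {y | y ∈ E ∨ ∃ e ∈ E, y = e * x}
      one_mem' := Or.inl (one_mem E)
      mul_mem' := by
        rintro a b (ha | ⟨e, he, rfl⟩) (hb | ⟨f, hf, rfl⟩)
        · exact Or.inl (mul_mem ha hb)
        · exact Or.inr ⟨a * f, mul_mem ha hf, by rw [mul_assoc]⟩
        · exact Or.inr ⟨e * b, mul_mem he hb, by rw [mul_assoc, ← hb.2.2 x hx, mul_assoc]⟩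
        · refine Or.inl ?_
          have : e * x * (f * x) = e * f := by
            calc e * x * (f * x) = e * (x * f) * x := by group
              _ = e * (f * x) * x := by rw [hf.2.2 x hx]
              _ = e * f * (x * x) := by group
              _ = e * f := by rw [hx2, mul_one]
          rw [this]; exact mul_mem he hf
      inv_mem' := by
        rintro a (ha | ⟨e, he, rfl⟩)
        · exact Or.inl (inv_mem ha)
        · refine Or.inr ⟨e⁻¹, inv_mem he, ?_⟩
          rw [mul_inv_rev, inv_eq_of_mul_eq_one_left hx2]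
          exact ((inv_mem he).2.2 x hx).symm }
  have hmem : ∀ y, y ∈ A ↔ (y ∈ E ∨ ∃ e ∈ E, y = e * x) := fun y => Iff.rfl
  have hAP : A ≤ P := by
    rintro y (hy | ⟨e, he, rfl⟩)
    · exact hy.1
    · exact mul_mem he.1 hx
  have hEA : E ≤ A := fun y hy => Or.inl hy
  have hAsq : ∀ a ∈ A, a * a = 1 := by
    rintro y (hy | ⟨e, he, rfl⟩)
    · exact hsq y hy
    · calc e * x * (e * x) = e * (x * e) * x := by group
        _ = e * (e * x) * x := by rw [he.2.2 x hx]
        _ = (e * e) * (x * x) := by group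
        _ = 1 := by rw [hsq e he, hx2, one_mul]
  have hlt : E < A := lt_of_le_of_ne hEA fun h => hxE (by rw [h]; exact Or.inr ⟨1, one_mem E, by rw [one_mul]⟩)
  have h9 := card_lt hlt
  have h10 := hno A hAP hEA hAsq
  obtain ⟨k, hk⟩ := card_pow_two (two_group_of_sq hAsq)
  rw [h4, hk] at h9
  rw [hk] at h10
  have h5 : k < 3 := by
    by_contra h
    have := Nat.pow_le_pow_right (n := 2) (by norm_num) (not_lt.1 h)
    omega
  interval_cases k <;> simp_all

theorem Ctx.exists_s (C : Ctx π G) (Z : ZS.{u}) (P : Sylow 2 G) (h4 : Nat.card (Om (P : Subgroup G)) = 4) :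
    ∃ s : G, cj s (P : Subgroup G) = P ∧ Odd (orderOf s) ∧ ∀ e ∈ Om (P : Subgroup G), e ≠ 1 → s * e * s⁻¹ ≠ e := by
  obtain ⟨z, hz, w, hw, hz1, hw1, hzw⟩ := C.exists_two Z P
  obtain ⟨m, hm, hmz⟩ := C.noFix Z P hz.1 hz.2.1 hz1
  obtain ⟨x, s, hx, -, rfl, hs, hsP⟩ := norm_decomp (syl_top P) hm
  refine ⟨s, hsP, hs, ?_⟩
  have hsE : ∀ e ∈ Om (P : Subgroup G), s * e * s⁻¹ ∈ Om (P : Subgroup G) := by
    intro e he
    have := conj_mem_cj (g := s) he
    rwa [cj_Om_of hsP] at this
  have hsz : s * z * s⁻¹ ≠ z := by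
    intro e
    apply hmz
    calc x * s * z * (x * s)⁻¹ = x * (s * z * s⁻¹) * x⁻¹ := by group
      _ = x * z * x⁻¹ := by rw [e]
      _ = z * x * x⁻¹ := by rw [hz.2.2 x hx]
      _ = z := by group
  intro e he he1 hse
  have hez : e ≠ z := by rintro rfl; exact hsz hse
  have hze : z * e ∈ Om (P : Subgroup G) := mul_mem hz he
  have hze1 : z * e ≠ 1 := by
    intro h
    apply hez
    have := hz.2.1
    exact mul_left_cancel (h.trans this.symm)
  have hz' := hsE z hz
  rcases four h4 hz he hze hz1 he1 hze1 hez.symm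
    (fun h => he1 (by simpa using h)) (fun h => hz1 (by simpa using h)) hz' with h | h | h | h
  · apply hz1
    have : z = s⁻¹ * (s * z * s⁻¹) * s := by group
    rw [this, h]; group
  · exact hsz h
  · apply hez
    have h5 : s * z * s⁻¹ = s * e * s⁻¹ := by rw [h, hse]
    have : e = s⁻¹ * (s * e * s⁻¹) * s := by group
    rw [this, ← h5]; group
  · apply hsz
    apply odd_comm hs
    calc s * s * z * (s * s)⁻¹ = s * (s * z * s⁻¹) * s⁻¹ := by group
      _ = s * (z * e) * s⁻¹ := by rw [h]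
      _ = (s * z * s⁻¹) * (s * e * s⁻¹) := by group
      _ = z * e * e := by rw [h, hse]
      _ = z := by rw [mul_assoc, he.2.1, mul_one]

/-- conjugation as an automorphism of `P` -/
def conjAut {P : Subgroup G} {s : G} (h : cj s P = P) : MulAut P where
  toFun x := ⟨s * x * s⁻¹, by have := conj_mem_cj (g := s) x.2; rwa [h] at this⟩
  invFun x := ⟨s⁻¹ * x * s, by
    have h1 : (x : G) ∈ cj s P := by rw [h]; exact x.2
    exact mem_cj.1 h1⟩
  left_inv x := Subtype.ext (by show s⁻¹ * (s * x * s⁻¹) * s = x; group)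
  right_inv x := Subtype.ext (by show s * (s⁻¹ * x * s) * s⁻¹ = x; group)
  map_mul' x y := Subtype.ext (by
    show s * (x * y) * s⁻¹ = s * x * s⁻¹ * (s * y * s⁻¹); group)

theorem conjAut_apply {P : Subgroup G} {s : G} (h : cj s P = P) (x : P) : (conjAut h x : G) = s * x * s⁻¹ := rfl

theorem Ctx.rank2_cases (C : Ctx π G) (Z : ZS.{u}) (B : BenderQ.{u}) (P : Sylow 2 G) :
    Nat.card (P : Subgroup G) = 4 ∨ H75.PHU.UDat (P : Subgroup G) := by
  obtain ⟨h4, hom⟩ := C.rank2 Z B P
  obtain ⟨s, hsP, hs, hfix⟩ := C.exists_s Z P h4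
  set E := Om (P : Subgroup G) with hE
  have hsE : ∀ e ∈ E, s * e * s⁻¹ ∈ E := by
    intro e he
    have := conj_mem_cj (g := s) he
    rwa [hE, cj_Om_of hsP] at this
  have hr2 : Cfsg.PRankLE 2 2 (P : Subgroup G) := by
    intro A _ hA
    have h1 : A.map (P : Subgroup G).subtype ≤ E := by
      rintro _ ⟨a, ha, rfl⟩
      apply hom _ a.2
      have := hA a ha
      rw [pow_two] at this
      exact congrArg Subtype.val this
    have h2 := card_le_of_le h1
    rw [h4] at h2
    have h3 : Nat.card (A.map (P : Subgroup G).subtype) = Nat.card A :=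
      Nat.card_congr (A.equivMapOfInjective _ (P : Subgroup G).subtype_injective).symm.toEquiv
    rw [h3] at h2
    exact h2
  have hr1 : ¬ Cfsg.PRankLE 2 1 (P : Subgroup G) := by
    intro h
    have hEP : E ≤ P := Om_le _
    have h1 := h (E.subgroupOf P) ⟨⟨fun a b => Subtype.ext (Subtype.ext
      (comm_of_sq (fun x hx => hx.2.1) (F := E) a.2 b.2))⟩⟩ (fun a ha => by
        rw [pow_two]; exact Subtype.ext (Om_sq (R := (P : Subgroup G)) ha))
    rw [Nat.card_congr (subgroupOfEquivOfLe hEP).toEquiv, h4] at h1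
    norm_num at h1
  haveI : Fact (Nat.Prime 2) := ⟨Nat.prime_two⟩
  letI : Fintype (GaloisField 2 4) := Fintype.ofFinite _
  have hF : Fintype.card (GaloisField 2 4) = 16 := by
    rw [← Nat.card_eq_fintype_card, GaloisField.card 2 4 (by norm_num)]; norm_num
  let Q : Sylow 2 (Cfsg.PSU 3 (GaloisField 2 4) 4) := default
  rcases Cfsg.Agent.S1237.result (T := (P : Subgroup G)) P.2 hr2 hr1 (conjAut hsP) (by
    intro a b ha hb
    have haE : (a : G) ∈ E := hom _ a.2 (congrArg Subtype.val (sq_of_order ha))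
    have hbE : (b : G) ∈ E := hom _ b.2 (congrArg Subtype.val (sq_of_order hb))
    have ha1 : (a : G) ≠ 1 := by
      intro e
      have : a = 1 := Subtype.ext e
      rw [this, orderOf_one] at ha; omega
    have hb1 : (b : G) ≠ 1 := by
      intro e
      have : b = 1 := Subtype.ext e
      rw [this, orderOf_one] at hb; omega
    have inj : ∀ x : G, x ≠ 1 → s * x * s⁻¹ ≠ 1 := by
      intro x hx e
      apply hx
      have : x = s⁻¹ * (s * x * s⁻¹) * s := by group
      rw [this, e]; group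
    have n1 := hfix _ haE ha1
    have n2 := hfix _ (hsE _ haE) (inj _ ha1)
    rcases four h4 haE (hsE _ haE) (hsE _ (hsE _ haE)) ha1 (inj _ ha1) (inj _ (inj _ ha1)) n1.symm
      (fun e => by
        apply n1
        apply odd_comm hs
        have : s * s * (a : G) * (s * s)⁻¹ = s * (s * a * s⁻¹) * s⁻¹ := by group
        rw [this]; exact e.symm) n2.symm hbE with h | h | h | h
    · exact absurd h hb1
    · exact ⟨0, Subtype.ext (by rw [pow_zero]; exact h.symm)⟩
    · exact ⟨1, Subtype.ext (by rw [pow_one, conjAut_apply]; exact h.symm)⟩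
    · exact ⟨2, Subtype.ext (by rw [pow_two, MulAut.mul_apply, conjAut_apply, conjAut_apply]; exact h.symm)⟩)
    hF Q with ⟨n, hn, ⟨e⟩⟩ | he
  · left
    by_cases h2 : 2 ≤ n
    · exfalso
      have hO : ∀ N : Subgroup G, N.Normal → Odd (Nat.card N) → N = ⊥ := by
        intro N hN hodd
        rcases C.normal hN with h | h
        · exact h
        · exfalso
          rw [h, Subgroup.card_top] at hodd
          exact (Nat.not_even_iff_odd.2 hodd) (even_iff_two_dvd.2 C.even)
      have h3 := (Cfsg.Agent.S0949.result P n h2 e hO).1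
      rcases C.normal h3 with h | h
      · exact C.sylow_ne_bot P h
      · exact C.ne_top P.2 h
    · have : n = 1 := by omega
      subst this
      rw [Nat.card_congr e.toEquiv, Nat.card_congr Multiplicative.toAdd, Nat.card_prod, Nat.card_zmod]
      norm_num
  · right
    obtain ⟨e⟩ := he
    exact (H75.PHU.udat_sylow hF Q).of_equiv e

end H75.PH
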