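import Mathlib
import Cfsg.Agent.Lib.H75.PH7

set_option autoImplicit false
set_option linter.all false

/-! `PSU₃(4)` type: rigidity of the action (towards S3258). -/

namespace H75.PH

open Subgroup

universe u

variable {G : Type u} [Group G] [Finite G] {π : Set ℕ}

/-- the `PSU₃(4)` type situation -/
structure U4 (π : Set ℕ) (P : Sylow 2 G) (s : G) : Prop where
  C : Ctx π G
  cardP : Nat.card (P : Subgroup G) = 64
  cardE : Nat.card (Om (P : Subgroup G)) = 4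
  sq : ∀ x ∈ (P : Subgroup G), x * x ∈ Om (P : Subgroup G)
  om : ∀ x ∈ (P : Subgroup G), x * x = 1 → x ∈ Om (P : Subgroup G)
  comm : ∀ x ∈ (P : Subgroup G), ∀ y ∈ (P : Subgroup G), x * y * x⁻¹ * y⁻¹ ∈ Om (P : Subgroup G)
  csurj : ∀ x ∈ (P : Subgroup G), x ∉ Om (P : Subgroup G) → ∀ z ∈ Om (P : Subgroup G),
    ∃ y ∈ (P : Subgroup G), x * y * x⁻¹ * y⁻¹ = z
  sP : cj s (P : Subgroup G) = P
  sodd : Odd (orderOf s)
  sfix : ∀ e ∈ Om (P : Subgroup G), e ≠ 1 → s * e * s⁻¹ ≠ e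

theorem Ctx.u4 (C : Ctx π G) (Z : ZS.{u}) (B : BenderQ.{u}) (P : Sylow 2 G) (U : H75.PHU.UDat (P : Subgroup G)) :
    ∃ s, U4 π P s := by
  obtain ⟨h4, hom⟩ := C.rank2 Z B P
  obtain ⟨s, hsP, hs, hfix⟩ := C.exists_s Z P h4
  have hc : ∀ x : (P : Subgroup G), x ∈ Subgroup.center (P : Subgroup G) ↔ (x : G) ∈ Om (P : Subgroup G) := by
    intro x
    constructor
    · intro h
      refine ⟨x.2, congrArg Subtype.val ((U.data.sq_iff x).2 h), fun y hy => ?_⟩
      exact (congrArg Subtype.val ((mem_center_iff.1 h) ⟨y, hy⟩)).symm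
    · intro h
      rw [mem_center_iff]
      intro y
      exact Subtype.ext (h.2.2 y y.2).symm
  refine ⟨s, C, U.data.card, h4, ?_, hom, ?_, ?_, hsP, hs, hfix⟩
  · intro x hx
    exact (hc (⟨x, hx⟩ * ⟨x, hx⟩)).1 (U.data.sq_mem _)
  · intro x hx y hy
    exact (hc _).1 (U.data.comm_mem ⟨x, hx⟩ ⟨y, hy⟩)
  · intro x hx hxE z hz
    obtain ⟨y, hy⟩ := U.csurj ⟨x, hx⟩ (fun h => hxE ((hc _).1 h)) ⟨z, hz.1⟩ ((hc _).2 hz)
    exact ⟨y, y.2, congrArg Subtype.val hy⟩

theorem fix_of_mod {n v e : G} (ho : Odd (orderOf n)) (h : n * v * n⁻¹ = v * e) (hne : n * e * n⁻¹ = e)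
    (he4 : e * e * (e * e) = 1) : n * v * n⁻¹ = v := by
  have h2 : n * n * v * (n * n)⁻¹ = v * (e * e) := by
    calc n * n * v * (n * n)⁻¹ = n * (n * v * n⁻¹) * n⁻¹ := by group
      _ = n * (v * e) * n⁻¹ := by rw [h]
      _ = (n * v * n⁻¹) * (n * e * n⁻¹) := by group
      _ = v * e * e := by rw [h, hne]
      _ = v * (e * e) := by group
  have hee : n * n * (e * e) * (n * n)⁻¹ = e * e := by
    have hc : Commute n e := by
      rw [mul_inv_eq_iff_eq_mul] at hne; exact hne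
    have hc2 : Commute (n * n) (e * e) := (hc.mul_left hc).mul_right (hc.mul_left hc)
    rw [hc2.eq]; group
  have h4 : n * n * (n * n) * v * (n * n * (n * n))⁻¹ = v := by
    calc n * n * (n * n) * v * (n * n * (n * n))⁻¹ = n * n * (n * n * v * (n * n)⁻¹) * (n * n)⁻¹ := by group
      _ = n * n * (v * (e * e)) * (n * n)⁻¹ := by rw [h2]
      _ = (n * n * v * (n * n)⁻¹) * (n * n * (e * e) * (n * n)⁻¹) := by group
      _ = v * (e * e) * (e * e) := by rw [h2, hee]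
      _ = v * (e * e * (e * e)) := by group
      _ = v := by rw [he4, mul_one]
  have ho2 : Odd (orderOf (n * n)) := by
    rw [← pow_two]
    exact ho.of_dvd_nat (orderOf_pow_dvd 2)
  exact odd_comm ho (odd_comm ho2 h4)

/-- `y ↦ [v, y]` -/
def bet {P : Sylow 2 G} {s : G} (U : U4 π P s) {v : G} (hv : v ∈ (P : Subgroup G)) :
    (P : Subgroup G) →* Om (P : Subgroup G) where
  toFun y := ⟨v * y * v⁻¹ * (y : G)⁻¹, U.comm v hv y y.2⟩
  map_one' := Subtype.ext (by simp)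
  map_mul' x y := Subtype.ext (by
    have h := (U.comm v hv y y.2).2.2 _ (inv_mem x.2)
    show v * (x * y) * v⁻¹ * ((x : G) * y)⁻¹ = v * x * v⁻¹ * (x : G)⁻¹ * (v * y * v⁻¹ * (y : G)⁻¹)
    calc v * (x * y) * v⁻¹ * ((x : G) * y)⁻¹ = v * x * v⁻¹ * ((v * y * v⁻¹ * (y : G)⁻¹) * (x : G)⁻¹) := by group
      _ = v * x * v⁻¹ * ((x : G)⁻¹ * (v * y * v⁻¹ * (y : G)⁻¹)) := by rw [h]
      _ = _ := by group)

theorem U4.card_cent {P : Sylow 2 G} {s : G} (U : U4 π P s) {v : G} (hv : v ∈ (P : Subgroup G))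
    (hvE : v ∉ Om (P : Subgroup G)) : Nat.card ((P : Subgroup G) ⊓ centralizer ({v} : Set G) : Subgroup G) = 16 := by
  have h1 : (bet U hv).ker = ((P : Subgroup G) ⊓ centralizer ({v} : Set G)).subgroupOf P := by
    ext y
    rw [MonoidHom.mem_ker, mem_subgroupOf, mem_inf, mem_cent_iff]
    constructor
    · intro h
      have h2 : v * y * v⁻¹ * (y : G)⁻¹ = 1 := congrArg Subtype.val h
      have h3 := mul_inv_eq_one.1 h2
      rw [mul_inv_eq_iff_eq_mul] at h3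
      exact ⟨y.2, h3.symm⟩
    · rintro ⟨-, h⟩
      apply Subtype.ext
      show v * y * v⁻¹ * (y : G)⁻¹ = 1
      rw [← h]; group
  have h2 : Function.Surjective (bet U hv) := by
    rintro ⟨z, hz⟩
    obtain ⟨y, hy, e⟩ := U.csurj v hv hvE z hz
    exact ⟨⟨y, hy⟩, Subtype.ext e⟩
  have h3 := Subgroup.card_mul_index (bet U hv).ker
  rw [Subgroup.index_ker, MonoidHom.range_eq_top.2 h2, Subgroup.card_top, U.cardE, U.cardP, h1,
    Nat.card_congr (subgroupOfEquivOfLe inf_le_left).toEquiv] at h3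
  omega

theorem four' {Q : Type u} [Group Q] [Finite Q] (h4 : Nat.card Q = 4) {a b : Q}
    (ha1 : a ≠ 1) (hb1 : b ≠ 1) (hab : a ≠ b) (hab1 : a * b ≠ 1) (x : Q) :
    x = 1 ∨ x = a ∨ x = b ∨ x = a * b := by
  have h4' : Nat.card (⊤ : Subgroup Q) = 4 := by rw [Subgroup.card_top, h4]
  exact four h4' (mem_top a) (mem_top b) (mem_top (a * b)) ha1 hb1 hab1 hab
    (fun e => hb1 (by simpa using e)) (fun e => ha1 (by simpa using e)) (mem_top x)

/-- an odd order element of `N(P) ∩ C(E)` fixing a coset of `E` centralizes `P` -/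
theorem U4.rigid {P : Sylow 2 G} {s : G} (U : U4 π P s) {n : G} (hn : cj n (P : Subgroup G) = P)
    (ho : Odd (orderOf n)) (hnE : ∀ e ∈ Om (P : Subgroup G), n * e * n⁻¹ = e) {v : G} (hv : v ∈ (P : Subgroup G))
    (hvE : v ∉ Om (P : Subgroup G)) (hfix : v⁻¹ * (n * v * n⁻¹) ∈ Om (P : Subgroup G)) :
    ∀ w ∈ (P : Subgroup G), n * w * n⁻¹ = w := by
  set E := Om (P : Subgroup G) with hE
  have hEP : E ≤ P := Om_le _
  have hnP : ∀ w ∈ (P : Subgroup G), n * w * n⁻¹ ∈ (P : Subgroup G) := by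
    intro w hw
    have := conj_mem_cj (g := n) hw
    rwa [hn] at this
  have hE4 : ∀ e ∈ E, e * e * (e * e) = 1 := fun e he => by rw [he.2.1, one_mul]
  have hP4 : ∀ w ∈ (P : Subgroup G), w * w * (w * w) = 1 := fun w hw => (U.sq w hw).2.1
  -- step a
  have ha : n * v * n⁻¹ = v := fix_of_mod ho (by group) (hnE _ hfix) (hE4 _ hfix)
  have ha' : n⁻¹ * v * n = v := by
    have : n⁻¹ * (n * v * n⁻¹) * n = v := by group
    rwa [ha] at this
  -- step b
  have hb : ∀ w ∈ (P : Subgroup G), w⁻¹ * (n * w * n⁻¹) ∈ (P : Subgroup G) ⊓ centralizer ({v} : Set G) := by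
    intro w hw
    refine Subgroup.mem_inf.2 ⟨Subgroup.mul_mem _ (Subgroup.inv_mem _ hw) (hnP w hw), mem_cent_iff.2 ?_⟩
    set c := v * w * v⁻¹ * w⁻¹ with hcd
    have hc : c ∈ E := U.comm v hv w hw
    have h1 : v * w * v⁻¹ = c * w := by rw [hcd]; group
    have h2 : v * (n * w * n⁻¹) * v⁻¹ = c * (n * w * n⁻¹) := by
      have h3 : v * n = n * v := by
        rw [mul_inv_eq_iff_eq_mul] at ha; exact ha.symm
      calc v * (n * w * n⁻¹) * v⁻¹ = v * n * w * (v * n)⁻¹ := by group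
        _ = n * (v * w * v⁻¹) * n⁻¹ := by rw [h3]; group
        _ = n * (c * w) * n⁻¹ := by rw [h1]
        _ = (n * c * n⁻¹) * (n * w * n⁻¹) := by group
        _ = c * (n * w * n⁻¹) := by rw [hnE c hc]
    have h4 : v * (w⁻¹ * (n * w * n⁻¹)) * v⁻¹ = w⁻¹ * (n * w * n⁻¹) := by
      calc v * (w⁻¹ * (n * w * n⁻¹)) * v⁻¹ = (v * w * v⁻¹)⁻¹ * (v * (n * w * n⁻¹) * v⁻¹) := by group
        _ = (c * w)⁻¹ * (c * (n * w * n⁻¹)) := by rw [h1, h2]
        _ = _ := by group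
    rw [mul_inv_eq_iff_eq_mul] at h4
    exact h4.symm
  set A := (P : Subgroup G) ⊓ centralizer ({v} : Set G) with hA
  have hEA : E ≤ A := fun e he => ⟨he.1, mem_cent_iff.2 (he.2.2 v hv)⟩
  have hvA : v ∈ A := ⟨hv, mem_cent_iff.2 rfl⟩
  have hcA : Nat.card A = 16 := U.card_cent hv hvE
  haveI : (E.subgroupOf A).Normal := ⟨fun e he g => by
    rw [mem_subgroupOf] at he ⊢
    have : ((g * e * g⁻¹ : A) : G) = e := by
      show (g : G) * e * (g : G)⁻¹ = e
      rw [← he.2.2 g g.2.1]; group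
    rw [this]; exact he⟩
  have hcQ : Nat.card (A ⧸ E.subgroupOf A) = 4 := by
    have h1 := Subgroup.card_eq_card_quotient_mul_card_subgroup (E.subgroupOf A)
    rw [hcA, Nat.card_congr (subgroupOfEquivOfLe hEA).toEquiv, U.cardE] at h1
    omega
  -- step c
  have hc : ∀ a ∈ A, n * a * n⁻¹ = a := by
    intro a haA
    by_cases haE : a ∈ E
    · exact hnE a haE
    by_cases hvaE : v⁻¹ * a ∈ E
    · have h1 : a = v * (v⁻¹ * a) := by group
      calc n * a * n⁻¹ = n * (v * (v⁻¹ * a)) * n⁻¹ := by rw [← h1]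
        _ = (n * v * n⁻¹) * (n * (v⁻¹ * a) * n⁻¹) := by group
        _ = v * (v⁻¹ * a) := by rw [ha, hnE _ hvaE]
        _ = a := by group
    have hbA : n * a * n⁻¹ ∈ A := by
      refine ⟨hnP a haA.1, mem_cent_iff.2 ?_⟩
      have h1 := mem_cent_iff.1 haA.2
      calc n * a * n⁻¹ * v = n * (a * (n⁻¹ * v * n)) * n⁻¹ := by group
        _ = n * (a * v) * n⁻¹ := by rw [ha']
        _ = n * (v * a) * n⁻¹ := by rw [h1]
        _ = (n * v * n⁻¹) * (n * a * n⁻¹) := by group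
        _ = v * (n * a * n⁻¹) := by rw [ha]
    let q : A → A ⧸ E.subgroupOf A := fun x => QuotientGroup.mk x
    have hq1 : ∀ x : A, q x = 1 ↔ (x : G) ∈ E := by
      intro x
      show (QuotientGroup.mk x : A ⧸ E.subgroupOf A) = 1 ↔ _
      rw [QuotientGroup.eq_one_iff, mem_subgroupOf]
    have hqe : ∀ x y : A, q x = q y ↔ (x : G)⁻¹ * y ∈ E := by
      intro x y
      show (QuotientGroup.mk x : A ⧸ E.subgroupOf A) = QuotientGroup.mk y ↔ _
      rw [QuotientGroup.eq, mem_subgroupOf]; rfl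
    have key := four' hcQ (a := q ⟨v, hvA⟩) (b := q ⟨a, haA⟩) (fun h => hvE ((hq1 _).1 h))
      (fun h => haE ((hq1 _).1 h)) (fun h => hvaE ((hqe _ _).1 h)) (fun h => by
        have h0 : q ((⟨v, hvA⟩ : A) * ⟨a, haA⟩) = 1 := h
        have h1 : v * a ∈ E := (hq1 _).1 h0
        apply hvaE
        have h2 : v⁻¹ * a = (v * v)⁻¹ * (v * a) := by group
        rw [h2]
        exact mul_mem (inv_mem (U.sq v hv)) h1) (q ⟨n * a * n⁻¹, hbA⟩)
    have hcase : a⁻¹ * (n * a * n⁻¹) ∈ E ∨ v⁻¹ * (a⁻¹ * (n * a * n⁻¹)) ∈ E := by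
      rcases key with h | h | h | h
      · exfalso
        apply haE
        have h1 : n * a * n⁻¹ ∈ E := (hq1 _).1 h
        have h2 := hnE _ h1
        have h3 : a = n⁻¹ * (n * a * n⁻¹) * n := by group
        have h4 : n⁻¹ * (n * a * n⁻¹) * n = n * a * n⁻¹ := by
          have : n⁻¹ * (n * (n * a * n⁻¹) * n⁻¹) * n = n * a * n⁻¹ := by group
          rwa [h2] at this
        rw [h3, h4]; exact h1
      · exfalso
        apply hvaE
        have h1 : v⁻¹ * (n * a * n⁻¹) ∈ E := by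
          have := (hqe _ _).1 h.symm
          exact this
        have h2 := hnE _ h1
        have h3 : n * (v⁻¹ * a) * n⁻¹ = v⁻¹ * (n * a * n⁻¹) := by
          calc n * (v⁻¹ * a) * n⁻¹ = (n * v * n⁻¹)⁻¹ * (n * a * n⁻¹) := by group
            _ = _ := by rw [ha]
        have h4 : v⁻¹ * a = n⁻¹ * (v⁻¹ * (n * a * n⁻¹)) * n := by rw [← h3]; group
        have h5 : n⁻¹ * (v⁻¹ * (n * a * n⁻¹)) * n = v⁻¹ * (n * a * n⁻¹) := by
          have : n⁻¹ * (n * (v⁻¹ * (n * a * n⁻¹)) * n⁻¹) * n = v⁻¹ * (n * a * n⁻¹) := by group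
          rwa [h2] at this
        rw [h4, h5]; exact h1
      · left
        exact (hqe _ _).1 h.symm
      · right
        have h0 : q ((⟨v, hvA⟩ : A) * ⟨a, haA⟩) = q ⟨n * a * n⁻¹, hbA⟩ := h.symm
        have h1 : (v * a)⁻¹ * (n * a * n⁻¹) ∈ E := (hqe _ _).1 h0
        have h2 := mem_cent_iff.1 haA.2
        have h3 : v⁻¹ * (a⁻¹ * (n * a * n⁻¹)) = (v * a)⁻¹ * (n * a * n⁻¹) := by
          rw [← h2]; group
        rw [h3]; exact h1
    have he : n * (a⁻¹ * (n * a * n⁻¹)) * n⁻¹ = a⁻¹ * (n * a * n⁻¹) := by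
      rcases hcase with h | h
      · exact hnE _ h
      · set d := v⁻¹ * (a⁻¹ * (n * a * n⁻¹)) with hd
        have h1 : a⁻¹ * (n * a * n⁻¹) = v * d := by rw [hd]; group
        rw [h1]
        calc n * (v * d) * n⁻¹ = (n * v * n⁻¹) * (n * d * n⁻¹) := by group
          _ = v * d := by rw [ha, hnE d h]
    exact fix_of_mod ho (by group) he (hP4 _ (mul_mem (inv_mem haA.1) (hnP a haA.1)))
  intro w hw
  exact fix_of_mod ho (by group) (hc _ (hb w hw)) (hP4 _ (hb w hw).1)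

end H75.PH
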