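import Mathlib
import Cfsg.Agent.Lib.H75.PH8

set_option autoImplicit false
set_option linter.all false

/-! `PSU₃(4)` type: the action of `N(P)` on `P/E` (towards S3258). -/

namespace H75.PH

open Subgroup

universe u

variable {G : Type u} [Group G] [Finite G] {π : Set ℕ}

/-- the quotient `P/E` -/
abbrev VV (P : Sylow 2 G) : Type u := (P : Subgroup G) ⧸ (Om (P : Subgroup G)).subgroupOf (P : Subgroup G)

/-- the trivial coset -/
def v0 (P : Sylow 2 G) : VV P := QuotientGroup.mk 1

theorem norm_mem {P : Subgroup G} {n w : G} (hn : n ∈ normalizer (P : Set G)) (hw : w ∈ P) : n * w * n⁻¹ ∈ P :=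
  (mem_normalizer_iff.1 hn w).1 hw

theorem norm_Om {P : Subgroup G} {n e : G} (hn : n ∈ normalizer (P : Set G)) (he : e ∈ Om P) : n * e * n⁻¹ ∈ Om P := by
  have := conj_mem_cj (g := n) he
  rwa [cj_Om_of (mem_normalizer_iff_cj.1 hn)] at this

/-- the action on `P/E` -/
def rho (P : Sylow 2 G) : normalizer ((P : Subgroup G) : Set G) →* Equiv.Perm (VV P) :=
  MonoidHom.toHomPerm
    { toFun := fun n => Quotient.map' (fun w : (P : Subgroup G) => (⟨(n : G) * w * (n : G)⁻¹, norm_mem n.2 w.2⟩ : (P : Subgroup G))) (by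
        intro a b hab
        rw [QuotientGroup.leftRel_apply, mem_subgroupOf] at hab ⊢
        have h1 := norm_Om n.2 hab
        have h2 : (n : G) * ((a⁻¹ * b : (P : Subgroup G)) : G) * (n : G)⁻¹ =
          (((⟨(n : G) * a * (n : G)⁻¹, norm_mem n.2 a.2⟩ : (P : Subgroup G))⁻¹ * ⟨(n : G) * b * (n : G)⁻¹, norm_mem n.2 b.2⟩ : (P : Subgroup G)) : G) := by
          show (n : G) * ((a : G)⁻¹ * b) * (n : G)⁻¹ = ((n : G) * a * (n : G)⁻¹)⁻¹ * ((n : G) * b * (n : G)⁻¹)
          group
        rwa [h2] at h1)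
      map_one' := by
        funext v
        induction v using Quotient.inductionOn' with
        | h w =>
          show (QuotientGroup.mk _ : VV P) = QuotientGroup.mk w
          congr 1
          exact Subtype.ext (by show (1 : G) * w * (1 : G)⁻¹ = w; group)
      map_mul' := by
        intro a b
        funext v
        induction v using Quotient.inductionOn' with
        | h w =>
          show (QuotientGroup.mk _ : VV P) = QuotientGroup.mk _
          congr 1
          exact Subtype.ext (by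
            show ((a : G) * b) * w * ((a : G) * b)⁻¹ = (a : G) * ((b : G) * w * (b : G)⁻¹) * (a : G)⁻¹
            group) }

theorem rho_mk (P : Sylow 2 G) (n : normalizer ((P : Subgroup G) : Set G)) (w : (P : Subgroup G)) :
    rho P n (QuotientGroup.mk w) = QuotientGroup.mk (⟨(n : G) * w * (n : G)⁻¹, norm_mem n.2 w.2⟩ : (P : Subgroup G)) := rfl

theorem mk_eq_iff {P : Sylow 2 G} {a b : (P : Subgroup G)} :
    (QuotientGroup.mk a : VV P) = QuotientGroup.mk b ↔ (a : G)⁻¹ * b ∈ Om (P : Subgroup G) := by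
  rw [QuotientGroup.eq, mem_subgroupOf]; rfl

variable {P : Sylow 2 G} {s : G}

theorem U4.EP (U : U4 π P s) : (P : Subgroup G) ≤ normalizer ((P : Subgroup G) : Set G) := le_normalizer

theorem rho_eq_one_iff {n : normalizer ((P : Subgroup G) : Set G)} :
    rho P n = 1 ↔ ∀ w ∈ (P : Subgroup G), w⁻¹ * ((n : G) * w * (n : G)⁻¹) ∈ Om (P : Subgroup G) := by
  constructor
  · intro h w hw
    have h1 := congrArg (fun f : Equiv.Perm (VV P) => f (QuotientGroup.mk ⟨w, hw⟩)) h
    have h2 : (QuotientGroup.mk (⟨w, hw⟩ : (P : Subgroup G)) : VV P) =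
      QuotientGroup.mk (⟨(n : G) * w * (n : G)⁻¹, norm_mem n.2 hw⟩ : (P : Subgroup G)) := h1.symm
    exact mk_eq_iff.1 h2
  · intro h
    ext v
    induction v using Quotient.inductionOn' with
    | h w =>
      show (QuotientGroup.mk _ : VV P) = QuotientGroup.mk w
      exact (mk_eq_iff.2 (h w w.2)).symm

theorem U4.rho_P (U : U4 π P s) {n : normalizer ((P : Subgroup G) : Set G)} (hn : (n : G) ∈ (P : Subgroup G)) :
    rho P n = 1 := by
  rw [rho_eq_one_iff]
  intro w hw
  have h1 := U.comm n hn w hw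
  have h2 := (U.comm n hn w hw).2.2 w hw
  have h3 : w⁻¹ * ((n : G) * w * (n : G)⁻¹) = (n : G) * w * (n : G)⁻¹ * w⁻¹ := by
    calc w⁻¹ * ((n : G) * w * (n : G)⁻¹) = w⁻¹ * (((n : G) * w * (n : G)⁻¹ * w⁻¹) * w) := by group
      _ = w⁻¹ * (w * ((n : G) * w * (n : G)⁻¹ * w⁻¹)) := by rw [h2]
      _ = _ := by group
  rw [h3]; exact h1

theorem rho_cent {n : normalizer ((P : Subgroup G) : Set G)} (hn : ∀ w ∈ (P : Subgroup G), (n : G) * w * (n : G)⁻¹ = w) :
    rho P n = 1 := by
  rw [rho_eq_one_iff]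
  intro w hw
  rw [hn w hw]
  have : w⁻¹ * w = 1 := by group
  rw [this]; exact one_mem _

/-- elements fixing a coset act trivially -/
theorem U4.rho_one (U : U4 π P s) {n : normalizer ((P : Subgroup G) : Set G)}
    (hnE : ∀ e ∈ Om (P : Subgroup G), (n : G) * e * (n : G)⁻¹ = e) {y : VV P} (hy : y ≠ v0 P) (h : rho P n y = y) :
    rho P n = 1 := by
  obtain ⟨a, b, ha, hb, hab, hodd, hbP⟩ := norm_decomp (syl_top P) (mem_normalizer_iff_cj.1 n.2)
  have haN : a ∈ normalizer ((P : Subgroup G) : Set G) := le_normalizer ha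
  have hbN : b ∈ normalizer ((P : Subgroup G) : Set G) := mem_normalizer_iff_cj.2 hbP
  have hn : n = ⟨a, haN⟩ * ⟨b, hbN⟩ := Subtype.ext hab
  have h1 : rho P n = rho P ⟨b, hbN⟩ := by
    rw [hn, map_mul, U.rho_P (n := ⟨a, haN⟩) ha, one_mul]
  rw [h1] at h ⊢
  have hbE : ∀ e ∈ Om (P : Subgroup G), b * e * b⁻¹ = e := by
    have h2 : zpowers (n : G) ≤ centralizer ((Om (P : Subgroup G) : Subgroup G) : Set G) := by
      rw [zpowers_le, mem_centralizer_iff]
      intro e he
      have := hnE e he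
      rw [mul_inv_eq_iff_eq_mul] at this
      exact this.symm
    intro e he
    rw [mul_inv_eq_iff_eq_mul]
    exact (mem_centralizer_iff.1 (h2 hb) e he).symm
  induction y using Quotient.inductionOn' with
  | h w =>
    have h3 : (QuotientGroup.mk (⟨b * w * b⁻¹, norm_mem hbN w.2⟩ : (P : Subgroup G)) : VV P) = QuotientGroup.mk w := h
    have h4 := mk_eq_iff.1 h3.symm
    have h5 : (w : G) ∉ Om (P : Subgroup G) := by
      intro h6
      apply hy
      show (QuotientGroup.mk w : VV P) = QuotientGroup.mk 1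
      rw [mk_eq_iff]
      simpa using inv_mem h6
    exact rho_cent (U.rigid hbP hodd hbE w.2 h5 h4)

/-- squaring -/
def U4.sqm (U : U4 π P s) : VV P → Om (P : Subgroup G) :=
  Quotient.lift (fun w : (P : Subgroup G) => (⟨(w : G) * w, U.sq w w.2⟩ : Om (P : Subgroup G))) (by
    intro a b hab
    have h1 : (a : G)⁻¹ * b ∈ Om (P : Subgroup G) := mk_eq_iff.1 (Quotient.sound hab)
    apply Subtype.ext
    show (a : G) * a = b * b
    set e := (a : G)⁻¹ * b with he
    have h2 : (b : G) = a * e := by rw [he]; group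
    have h3 := h1.2.2 a a.2
    have h4 := h1.2.1
    calc (a : G) * a = a * a * (e * e) := by rw [h4, mul_one]
      _ = a * (a * e) * e := by group
      _ = a * (e * a) * e := by rw [h3]
      _ = (a * e) * (a * e) := by group
      _ = b * b := by rw [← h2])

theorem U4.sqm_mk (U : U4 π P s) (w : (P : Subgroup G)) : (U.sqm (QuotientGroup.mk w) : G) = w * w := rfl

theorem U4.sqm_one_iff (U : U4 π P s) (y : VV P) : U.sqm y = 1 ↔ y = v0 P := by
  induction y using Quotient.inductionOn' with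
  | h w =>
    constructor
    · intro h
      have h1 : (w : G) * w = 1 := congrArg Subtype.val h
      have h2 := U.om w w.2 h1
      show (QuotientGroup.mk w : VV P) = QuotientGroup.mk 1
      rw [mk_eq_iff]
      simpa using inv_mem h2
    · intro h
      rw [h]
      apply Subtype.ext
      show (1 : G) * 1 = 1
      simp

theorem U4.sqm_rho (U : U4 π P s) (n : normalizer ((P : Subgroup G) : Set G)) (y : VV P) :
    (U.sqm (rho P n y) : G) = (n : G) * (U.sqm y) * (n : G)⁻¹ := by
  induction y using Quotient.inductionOn' with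
  | h w =>
    show ((n : G) * w * (n : G)⁻¹) * ((n : G) * w * (n : G)⁻¹) = (n : G) * ((w : G) * w) * (n : G)⁻¹
    group

theorem U4.card_V (U : U4 π P s) : Nat.card (VV P) = 16 := by
  have h1 := Subgroup.card_eq_card_quotient_mul_card_subgroup ((Om (P : Subgroup G)).subgroupOf (P : Subgroup G))
  rw [U.cardP, Nat.card_congr (subgroupOfEquivOfLe (Om_le _)).toEquiv, U.cardE] at h1
  show Nat.card ((P : Subgroup G) ⧸ (Om (P : Subgroup G)).subgroupOf (P : Subgroup G)) = 16
  omega

theorem U4.s_mem (U : U4 π P s) : s ∈ normalizer ((P : Subgroup G) : Set G) := mem_normalizer_iff_cj.2 U.sP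

/-- the fibres of squaring have 5 elements -/
theorem U4.fibre (U : U4 π P s) {z : Om (P : Subgroup G)} (hz : z ≠ 1) : Nat.card {y : VV P // U.sqm y = z} = 5 := by
  classical
  letI := Fintype.ofFinite (VV P)
  letI := Fintype.ofFinite (Om (P : Subgroup G))
  let f : Om (P : Subgroup G) → ℕ := fun z => Nat.card {y : VV P // U.sqm y = z}
  have hf : ∀ z : Om (P : Subgroup G), f ⟨s * z * s⁻¹, norm_Om U.s_mem z.2⟩ = f z := by
    intro z
    refine (Nat.card_congr ((rho P ⟨s, U.s_mem⟩).subtypeEquiv fun y => ?_)).symm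
    constructor
    · intro h
      apply Subtype.ext
      rw [U.sqm_rho, h]
    · intro h
      have h1 := U.sqm_rho ⟨s, U.s_mem⟩ y
      rw [h] at h1
      apply Subtype.ext
      have h2 : s * (z : G) * s⁻¹ = s * (U.sqm y : G) * s⁻¹ := h1
      exact (mul_left_cancel (mul_right_cancel h2)).symm
  have h1 : f 1 = 1 := by
    show Nat.card {y : VV P // U.sqm y = 1} = 1
    rw [Nat.card_eq_one_iff_unique]
    refine ⟨⟨fun a b => Subtype.ext ?_⟩, ⟨⟨v0 P, (U.sqm_one_iff _).2 rfl⟩⟩⟩
    rw [(U.sqm_one_iff a.1).1 a.2, (U.sqm_one_iff b.1).1 b.2]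
  have hsum : ∑ z : Om (P : Subgroup G), f z = 16 := by
    rw [← U.card_V, Nat.card_eq_fintype_card, ← Finset.card_univ,
      Finset.card_eq_sum_card_fiberwise (f := U.sqm) (t := Finset.univ) (fun _ _ => Finset.mem_univ _)]
    refine Finset.sum_congr rfl fun z _ => ?_
    show Nat.card {y : VV P // U.sqm y = z} = _
    rw [Nat.card_eq_fintype_card, Fintype.card_subtype]
  set z1 : Om (P : Subgroup G) := ⟨s * z * s⁻¹, norm_Om U.s_mem z.2⟩ with hz1
  set z2 : Om (P : Subgroup G) := ⟨s * z1 * s⁻¹, norm_Om U.s_mem z1.2⟩ with hz2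
  have inj : ∀ x : G, x ≠ 1 → s * x * s⁻¹ ≠ 1 := by
    intro x hx e
    apply hx
    have : x = s⁻¹ * (s * x * s⁻¹) * s := by group
    rw [this, e]; group
  have hzG : (z : G) ≠ 1 := fun e => hz (Subtype.ext e)
  have hz1G : (z1 : G) ≠ 1 := inj _ hzG
  have hz2G : (z2 : G) ≠ 1 := inj _ hz1G
  have n1 : (z : G) ≠ z1 := fun e => U.sfix z z.2 hzG e.symm
  have n2 : (z1 : G) ≠ z2 := fun e => U.sfix z1 z1.2 hz1G e.symm
  have n3 : (z : G) ≠ z2 := by
    intro e
    apply U.sfix z z.2 hzG
    apply odd_comm U.sodd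
    have : s * s * (z : G) * (s * s)⁻¹ = z2 := by
      show _ = s * (s * z * s⁻¹) * s⁻¹
      group
    rw [this]; exact e.symm
  have huniv : (Finset.univ : Finset (Om (P : Subgroup G))) = {1, z, z1, z2} := by
    symm
    apply Finset.eq_univ_iff_forall.2
    intro x
    have := four U.cardE z.2 z1.2 z2.2 hzG hz1G hz2G n1 n3 n2 x.2
    simp only [Finset.mem_insert, Finset.mem_singleton]
    rcases this with h | h | h | h
    · exact Or.inl (Subtype.ext h)
    · exact Or.inr (Or.inl (Subtype.ext h))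
    · exact Or.inr (Or.inr (Or.inl (Subtype.ext h)))
    · exact Or.inr (Or.inr (Or.inr (Subtype.ext h)))
  have g1 : (1 : Om (P : Subgroup G)) ≠ z := fun e => hz e.symm
  have g2 : (1 : Om (P : Subgroup G)) ≠ z1 := fun e => hz1G (congrArg Subtype.val e).symm
  have g3 : (1 : Om (P : Subgroup G)) ≠ z2 := fun e => hz2G (congrArg Subtype.val e).symm
  have g4 : z ≠ z1 := fun e => n1 (congrArg Subtype.val e)
  have g5 : z ≠ z2 := fun e => n3 (congrArg Subtype.val e)
  have g6 : z1 ≠ z2 := fun e => n2 (congrArg Subtype.val e)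
  rw [huniv, Finset.sum_insert (by simp [g1, g2, g3]), Finset.sum_insert (by simp [g4, g5]),
    Finset.sum_insert (by simp [g6]), Finset.sum_singleton, h1] at hsum
  have e1 : f z1 = f z := hf z
  have e2 : f z2 = f z1 := hf z1
  show f z = 5
  omega

end H75.PH
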