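import Mathlib
import Cfsg.Agent.Lib.H75.PH9

set_option autoImplicit false
set_option linter.all false

/-! `PSU₃(4)` type: the case of a nontrivial automizer of `P/E` over `E` (towards S3258). -/

namespace H75.PH

open Subgroup

universe u

theorem primary {X : Type u} [Group X] [Finite X] {Y : Type*} [Group Y] (f : X →* Y) :
    ∀ (k : ℕ) (n : X), orderOf n = k → f n ≠ 1 →
      ∃ q : ℕ, q.Prime ∧ ∃ x ∈ zpowers n, (∃ j : ℕ, orderOf x = q ^ j) ∧ f x ≠ 1 := by
  intro k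
  induction k using Nat.strong_induction_on with
  | _ k ih =>
  intro n hn hf
  have hn1 : orderOf n ≠ 1 := by
    rw [Ne, orderOf_eq_one_iff]
    rintro rfl
    exact hf (map_one f)
  obtain ⟨q, hq, hqd⟩ := Nat.exists_prime_and_dvd hn1
  obtain ⟨a, b, h1, h2, h3, h4, h5, h6, h7, -⟩ := H71.Basic.exists_pPart n (isOfFinOrder_of_finite n) q hq
  by_cases hfa : f a = 1
  · have hfb : f b ≠ 1 := by
      intro e
      apply hf
      rw [← h3, map_mul, hfa, e, one_mul]
    have hlt : orderOf b < k := by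
      rw [← hn]
      refine lt_of_le_of_ne (Nat.le_of_dvd (orderOf_pos n) h7) fun e => h6 (by rw [e]; exact hqd)
    obtain ⟨q', hq', x, hx, h8, h9⟩ := ih _ hlt b rfl hfb
    refine ⟨q', hq', x, ?_, h8, h9⟩
    exact (by rw [zpowers_le]; exact h2 : zpowers b ≤ zpowers n) hx
  · exact ⟨q, hq, a, h1, h5, hfa⟩

theorem zmod5 : (∀ a : ZMod 5, a ≠ 0 → a ^ 4 = 1) ∧ (∀ a : ZMod 5, a ^ 3 = 1 → a = 1) := by decide

theorem commutes_of_five {Q : Type*} [Group Q] {g x : Q} (hx : orderOf x = 5) {i : ℤ}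
    (h : g * x * g⁻¹ = x ^ i) {k : ℕ} (hk : Odd k) (hg : g ^ k = 1) : g * x * g⁻¹ = x := by
  have key : ∀ j : ℕ, g ^ j * x * (g ^ j)⁻¹ = x ^ (i ^ j) := by
    intro j
    induction j with
    | zero => simp
    | succ j ihj =>
      calc g ^ (j + 1) * x * (g ^ (j + 1))⁻¹ = g * (g ^ j * x * (g ^ j)⁻¹) * g⁻¹ := by
            rw [pow_succ']; group
        _ = g * x ^ (i ^ j) * g⁻¹ := by rw [ihj]
        _ = (g * x * g⁻¹) ^ (i ^ j) := by rw [conj_zpow]
        _ = x ^ (i ^ (j + 1)) := by rw [h, ← zpow_mul, pow_succ']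
  have h1 := key k
  rw [hg] at h1
  have h2 : x ^ (i ^ k - 1) = 1 := by
    rw [zpow_sub, ← h1]; group
  have h3 := orderOf_dvd_iff_zpow_eq_one.2 h2
  rw [hx] at h3
  have h4 : ((i : ZMod 5)) ^ k = 1 := by
    have := (ZMod.intCast_zmod_eq_zero_iff_dvd (i ^ k - 1) 5).2 (by exact_mod_cast h3)
    push_cast at this
    exact sub_eq_zero.1 this
  have hi0 : (i : ZMod 5) ≠ 0 := by
    intro e
    rw [e, zero_pow hk.pos.ne'] at h4
    exact absurd h4 (by decide)
  have h5 : (i : ZMod 5) = 1 := by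
    have h6 : (i : ZMod 5) ^ k = (i : ZMod 5) ^ (k % 4) := by
      conv_lhs => rw [← Nat.div_add_mod k 4, pow_add, pow_mul, zmod5.1 _ hi0, one_pow, one_mul]
    rw [h6] at h4
    have h7 : k % 4 = 1 ∨ k % 4 = 3 := by
      obtain ⟨l, hl⟩ := hk
      omega
    rcases h7 with h7 | h7
    · rw [h7, pow_one] at h4; exact h4
    · rw [h7] at h4; exact zmod5.2 _ h4
  have h8 : (5 : ℤ) ∣ i - 1 := by
    have := (ZMod.intCast_zmod_eq_zero_iff_dvd (i - 1) 5).1 (by push_cast; rw [h5, sub_self])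
    exact_mod_cast this
  rw [h]
  have h9 : x ^ (i - 1) = 1 := by
    rw [← orderOf_dvd_iff_zpow_eq_one, hx]; exact_mod_cast h8
  rw [zpow_sub, zpow_one, mul_inv_eq_one] at h9
  exact h9

variable {G : Type u} [Group G] [Finite G] {π : Set ℕ} {P : Sylow 2 G} {s : G}

/-- `n` centralizes `E` -/
def CE (P : Sylow 2 G) (n : G) : Prop := ∀ e ∈ Om (P : Subgroup G), n * e * n⁻¹ = e

theorem CE.mul {a b : G} (ha : CE P a) (hb : CE P b) : CE P (a * b) := fun e he => by
  calc a * b * e * (a * b)⁻¹ = a * (b * e * b⁻¹) * a⁻¹ := by group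
    _ = e := by rw [hb e he, ha e he]

theorem CE.inv {a : G} (ha : CE P a) : CE P a⁻¹ := fun e he => by
  have h := ha e he
  have : a⁻¹ * (a * e * a⁻¹) * a⁻¹⁻¹ = e := by group
  rwa [h] at this

theorem CE.zpowers {a x : G} (ha : CE P a) (hx : x ∈ zpowers a) : CE P x := by
  have h2 : Subgroup.zpowers a ≤ centralizer ((Om (P : Subgroup G) : Subgroup G) : Set G) := by
    rw [zpowers_le, mem_centralizer_iff]
    intro e he
    have := ha e he
    rw [mul_inv_eq_iff_eq_mul] at this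
    exact this.symm
  intro e he
  rw [mul_inv_eq_iff_eq_mul]
  exact (mem_centralizer_iff.1 (h2 hx) e he).symm

theorem CE.conj {a n : G} (ha : CE P a) (hn : n ∈ normalizer ((P : Subgroup G) : Set G)) : CE P (n * a * n⁻¹) := fun e he => by
  have h1 : n⁻¹ * e * n⁻¹⁻¹ ∈ Om (P : Subgroup G) := norm_Om (inv_mem hn) he
  have h2 := ha _ h1
  calc n * a * n⁻¹ * e * (n * a * n⁻¹)⁻¹ = n * (a * (n⁻¹ * e * n⁻¹⁻¹) * a⁻¹) * n⁻¹ := by group
    _ = n * (n⁻¹ * e * n⁻¹⁻¹) * n⁻¹ := by rw [h2]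
    _ = e := by group

theorem U4.exists_z (U : U4 π P s) : ∃ z : Om (P : Subgroup G), z ≠ 1 := by
  haveI : Nontrivial (Om (P : Subgroup G)) := by
    apply Finite.one_lt_card_iff_nontrivial.1
    rw [U.cardE]; norm_num
  exact exists_ne 1

/-- the structure of the automizer of `P/E` over `E` when it is nontrivial -/
theorem U4.five (U : U4 π P s) {n : normalizer ((P : Subgroup G) : Set G)} (hn : CE P n) (hn1 : rho P n ≠ 1) :
    ∃ x : normalizer ((P : Subgroup G) : Set G), (∃ j : ℕ, orderOf x = 5 ^ j) ∧ CE P x ∧ rho P x ≠ 1 ∧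
      ∀ m : normalizer ((P : Subgroup G) : Set G), CE P m → ∀ k : normalizer ((P : Subgroup G) : Set G),
        rho P k * rho P m * (rho P k)⁻¹ = rho P m := by
  classical
  letI := Fintype.ofFinite (VV P)
  obtain ⟨q, hq, x, hxn, ⟨j, hj⟩, hx1⟩ := primary (rho P) _ n rfl hn1
  haveI : Fact q.Prime := ⟨hq⟩
  have hxE : CE P (x : G) := by
    apply CE.zpowers hn
    obtain ⟨i, hi⟩ := hxn
    exact ⟨i, by rw [← hi]; rfl⟩
  obtain ⟨z, hz⟩ := U.exists_z
  have hpres : ∀ m : normalizer ((P : Subgroup G) : Set G), CE P m → ∀ y : VV P, U.sqm (rho P m y) = U.sqm y := by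
    intro m hm y
    apply Subtype.ext
    rw [U.sqm_rho]
    exact hm _ (U.sqm y).2
  have hy0 : ∀ y : VV P, U.sqm y = z → y ≠ v0 P := by
    intro y hy e
    apply hz
    rw [← hy, (U.sqm_one_iff y).2 e]
  let Y := {y : VV P // U.sqm y = z}
  have hcY : Fintype.card Y = 5 := by
    rw [← Nat.card_eq_fintype_card]; exact U.fibre hz
  let σ : Equiv.Perm Y := (rho P x).subtypePerm fun y => by rw [hpres x hxE y]
  have hσ : ∀ y : Y, ((σ y : Y) : VV P) = rho P x y := fun y => rfl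
  have hσk : ∀ (k : ℕ) (y : Y), (((σ ^ k) y : Y) : VV P) = (rho P x ^ k) y := by
    intro k
    induction k with
    | zero => intro y; rfl
    | succ k ih =>
      intro y
      rw [pow_succ', pow_succ', Equiv.Perm.mul_apply, Equiv.Perm.mul_apply, hσ, ih]
  have hσfix : ∀ y : Y, σ y ≠ y := by
    intro y e
    apply hx1
    apply U.rho_one hxE (hy0 y y.2)
    rw [← hσ, e]
  have hxq : (rho P x) ^ (q ^ j) = 1 := by
    rw [← map_pow, ← hj, pow_orderOf_eq_one, map_one]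
  have hσq : σ ^ (q ^ j) = 1 := by
    ext y
    rw [hσk, hxq]; rfl
  -- q = 5
  have hqG : IsPGroup q (zpowers σ) := by
    have h1 : orderOf σ ∣ q ^ j := orderOf_dvd_of_pow_eq_one hσq
    obtain ⟨i, -, hi⟩ := (Nat.dvd_prime_pow hq).1 h1
    exact IsPGroup.of_card (by rw [Nat.card_zpowers, hi])
  have hmod := hqG.card_modEq_card_fixedPoints Y
  have hfp : Nat.card (MulAction.fixedPoints (zpowers σ) Y) = 0 := by
    rw [Nat.card_eq_zero]
    left
    refine ⟨fun y => hσfix y.1 ?_⟩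
    exact y.2 ⟨σ, mem_zpowers σ⟩
  rw [hfp, Nat.card_eq_fintype_card, hcY] at hmod
  have hq5 : q = 5 := by
    have : q ∣ 5 := (Nat.modEq_zero_iff_dvd).1 hmod
    exact (Nat.prime_dvd_prime_iff_eq hq (by norm_num)).1 this
  subst hq5
  -- order of σ
  obtain ⟨z0⟩ : Nonempty Y := by
    rw [← Fintype.card_pos_iff, hcY]; norm_num
  have hσ1 : σ ≠ 1 := by
    intro e
    apply hσfix z0
    rw [e]; rfl
  have hσo : orderOf σ = 5 := by
    have h1 : orderOf σ ∣ 5 ^ j := orderOf_dvd_of_pow_eq_one hσq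
    obtain ⟨i, -, hi⟩ := (Nat.dvd_prime_pow (by norm_num : Nat.Prime 5)).1 h1
    have h2 : orderOf σ ∣ Fintype.card (Equiv.Perm Y) := orderOf_dvd_card
    rw [Fintype.card_perm, hcY, hi] at h2
    have h3 : i ≠ 0 := by
      rintro rfl
      rw [pow_zero, orderOf_eq_one_iff] at hi
      exact hσ1 hi
    have h4 : i < 2 := by
      by_contra h
      have h5 : 5 ^ 2 ∣ 5 ^ i := pow_dvd_pow 5 (not_lt.1 h)
      have h6 := h5.trans h2
      have h7 : Nat.factorial 5 = 120 := by rfl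
      rw [h7] at h6
      omega
    have : i = 1 := by omega
    rw [hi, this, pow_one]
  have hx5 : rho P x ^ 5 = 1 := by
    have h1 : (rho P x ^ 5) z0 = z0 := by
      rw [← hσk 5 z0, ← hσo, pow_orderOf_eq_one]; rfl
    rw [← map_pow] at h1 ⊢
    apply U.rho_one (n := x ^ 5) _ (hy0 z0 z0.2) h1
    apply CE.zpowers hxE
    rw [SubmonoidClass.coe_pow]
    exact npow_mem_zpowers _ 5
  have hxo : orderOf (rho P x) = 5 := by
    haveI : Fact (Nat.Prime 5) := ⟨by norm_num⟩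
    exact orderOf_eq_prime hx5 hx1
  have hcyc : σ.IsCycle := by
    apply Equiv.Perm.isCycle_of_prime_order'' (by rw [hcY]; norm_num) (by rw [hcY]; exact hσo)
  have hσz : ∀ (i : ℤ) (y : Y), (((σ ^ i) y : Y) : VV P) = (rho P x ^ i) y := by
    intro i
    obtain ⟨k, rfl | rfl⟩ := i.eq_nat_or_neg
    · intro y; rw [zpow_natCast, zpow_natCast]; exact hσk k y
    · intro y
      rw [zpow_neg, zpow_neg, zpow_natCast, zpow_natCast, Equiv.Perm.eq_inv_iff_eq, ← hσk]
      have : (σ ^ k) ((σ ^ k)⁻¹ y) = y := by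
        rw [← Equiv.Perm.mul_apply, mul_inv_cancel]; rfl
      rw [this]
  -- S1
  have hS1 : ∀ m : normalizer ((P : Subgroup G) : Set G), CE P m → ∃ i : ℤ, rho P m = rho P x ^ i := by
    intro m hm
    let y1 : Y := ⟨rho P m z0, by rw [hpres m hm]; exact z0.2⟩
    obtain ⟨i, hi⟩ := hcyc.exists_zpow_eq (hσfix z0) (hσfix y1)
    refine ⟨i, ?_⟩
    have h1 : (rho P x ^ i) z0 = rho P m z0 := by rw [← hσz, hi]
    have h2 : rho P ((x ^ i)⁻¹ * m) = 1 := by
      apply U.rho_one _ (hy0 z0 z0.2)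
      · rw [map_mul, map_inv, map_zpow, Equiv.Perm.mul_apply, ← h1, ← Equiv.Perm.mul_apply, inv_mul_cancel]
        rfl
      · have h3 : CE P ((x ^ i : normalizer ((P : Subgroup G) : Set G)) : G) := by
          apply CE.zpowers hxE
          exact ⟨i, by rw [SubgroupClass.coe_zpow]⟩
        exact CE.mul (CE.inv h3) hm
    rw [map_mul, map_inv, map_zpow] at h2
    exact (inv_mul_eq_one.1 h2).symm
  refine ⟨x, ⟨j, hj⟩, hxE, hx1, ?_⟩
  intro m hm k
  -- odd power of `rho k`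
  obtain ⟨a, b, ha, hb, hab, hodd, hbP⟩ := norm_decomp (syl_top P) (mem_normalizer_iff_cj.1 k.2)
  have haN : a ∈ normalizer ((P : Subgroup G) : Set G) := le_normalizer ha
  have hbN : b ∈ normalizer ((P : Subgroup G) : Set G) := mem_normalizer_iff_cj.2 hbP
  have hk : k = ⟨a, haN⟩ * ⟨b, hbN⟩ := Subtype.ext hab
  have h1 : rho P k = rho P ⟨b, hbN⟩ := by
    rw [hk, map_mul, U.rho_P (n := ⟨a, haN⟩) ha, one_mul]
  have h2 : rho P k ^ orderOf b = 1 := by
    rw [h1, ← map_pow]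
    have : (⟨b, hbN⟩ : normalizer ((P : Subgroup G) : Set G)) ^ orderOf b = 1 := by
      apply Subtype.ext
      rw [SubmonoidClass.coe_pow]
      exact pow_orderOf_eq_one b
    rw [this, map_one]
  have hkx : rho P k * rho P x * (rho P k)⁻¹ = rho P x := by
    obtain ⟨i, hi⟩ := hS1 (k * x * k⁻¹) (CE.conj hxE k.2)
    rw [map_mul, map_mul, map_inv] at hi
    exact commutes_of_five hxo hi hodd h2
  obtain ⟨i, hi⟩ := hS1 m hm
  rw [hi]
  have h3 : rho P k * rho P x ^ i * (rho P k)⁻¹ = (rho P k * rho P x * (rho P k)⁻¹) ^ i := by rw [conj_zpow]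
  rw [h3, hkx]

end H75.PH
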