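import Mathlib
import Cfsg.Agent.Lib.H75.PH10

set_option autoImplicit false
set_option linter.all false

/-! `PSU₃(4)` type: transfer at the prime 5 (towards S3258). -/

namespace H75.PH

open Subgroup
open scoped commutatorElement

universe u

variable {G : Type u} [Group G] [Finite G] {π : Set ℕ} {P : Sylow 2 G} {s : G}

theorem cj_eq_of_card {g : G} {A B : Subgroup G} (h : cj g A ≤ B) (hc : Nat.card A = Nat.card B) : cj g A = B :=
  Subgroup.eq_of_le_of_card_ge h (by rw [card_cj, hc])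

theorem U4.cj_E_of (U : U4 π P s) {g : G} (h : cj g (Om (P : Subgroup G)) ≤ P) :
    cj g (Om (P : Subgroup G)) = Om (P : Subgroup G) := by
  apply cj_eq_of_le
  rw [cj_le_iff] at h ⊢
  intro x hx
  apply U.om _ (h x hx)
  calc g * x * g⁻¹ * (g * x * g⁻¹) = g * (x * x) * g⁻¹ := by group
    _ = 1 := by rw [hx.2.1]; group

theorem U4.inv_mem (U : U4 π P s) {S : Subgroup G} (hS : IsPGroup 2 S) (hES : Om (P : Subgroup G) ≤ S) {t : G}
    (ht : t ∈ S) (ht2 : t * t = 1) : t ∈ Om (P : Subgroup G) := by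
  obtain ⟨h, -, hh⟩ := (syl_top P).conj_le (A := S) le_top hS
  have h1 := U.cj_E_of ((cj_mono hES).trans hh)
  have h2 : h * t * h⁻¹ ∈ Om (P : Subgroup G) := by
    apply U.om _ (cj_le_iff.1 hh t ht)
    calc h * t * h⁻¹ * (h * t * h⁻¹) = h * (t * t) * h⁻¹ := by group
      _ = 1 := by rw [ht2]; group
  rw [← h1, mem_cj] at h2
  have : h⁻¹ * (h * t * h⁻¹) * h = t := by group
  rwa [this] at h2

theorem U4.E2 (U : U4 π P s) : IsPGroup 2 (Om (P : Subgroup G)) := P.2.to_le (Om_le _)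

theorem U4.EA (U : U4 π P s) {X : Subgroup G} (hEX : Om (P : Subgroup G) ≤ X) {g : G}
    (hg : cj g (Om (P : Subgroup G)) ≤ X) : ∃ c ∈ X, cj g (Om (P : Subgroup G)) = cj c (Om (P : Subgroup G)) := by
  obtain ⟨S, hES, hS⟩ := exists_syl hEX U.E2
  obtain ⟨c, hc, hle⟩ := hS.conj_le hg (isPGroup_cj U.E2)
  have h1 : cj c (cj g (Om (P : Subgroup G))) = Om (P : Subgroup G) := by
    rw [← cj_mul] at hle ⊢
    apply cj_eq_of_le
    rw [cj_le_iff] at hle ⊢
    intro x hx
    apply U.inv_mem hS.2.1 hES (hle x hx)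
    calc c * g * x * (c * g)⁻¹ * (c * g * x * (c * g)⁻¹) = c * g * (x * x) * (c * g)⁻¹ := by group
      _ = 1 := by rw [hx.2.1]; group
  refine ⟨c⁻¹, Subgroup.inv_mem _ hc, ?_⟩
  rw [← h1, cj_inv_cj]; rw [h1]

theorem U4.E_ne (U : U4 π P s) : Om (P : Subgroup G) ≠ ⊥ := by
  intro e
  have := U.cardE
  rw [e, Subgroup.card_bot] at this
  omega

theorem U4.NE_ne (U : U4 π P s) : normalizer ((Om (P : Subgroup G) : Subgroup G) : Set G) ≠ ⊤ :=
  U.C.norm_ne_top U.E_ne (U.C.ne_top U.E2)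

theorem U4.NP_le (U : U4 π P s) : normalizer ((P : Subgroup G) : Set G) ≤
    normalizer ((Om (P : Subgroup G) : Subgroup G) : Set G) := fun n hn =>
  mem_normalizer_iff_cj.2 (cj_Om_of (mem_normalizer_iff_cj.1 hn))

theorem U4.NP_ne (U : U4 π P s) : normalizer ((P : Subgroup G) : Set G) ≠ ⊤ :=
  U.C.norm_ne_top (U.C.sylow_ne_bot P) (U.C.ne_top P.2)

theorem U4.NEfac (U : U4 π P s) {h : G} (hh : h ∈ normalizer ((Om (P : Subgroup G) : Subgroup G) : Set G)) :
    ∃ n ∈ normalizer ((P : Subgroup G) : Set G), ∃ o ∈ Oc π (normalizer ((Om (P : Subgroup G) : Subgroup G) : Set G)),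
      h = n * o := by
  have hS : Syl (P : Subgroup G) (normalizer ((Om (P : Subgroup G) : Subgroup G) : Set G)) :=
    (syl_top P).mono (le_normalizer.trans U.NP_le) le_top
  obtain ⟨n, -, hn, o, ho, e⟩ := factor U.C.cl U.C.two (U.C.sub _ U.NE_ne) hS hh
  exact ⟨n, mem_normalizer_iff_cj.2 hn, o, ho, e⟩

theorem ce_norm {x : G} (hx : CE P x) : x ∈ normalizer ((Om (P : Subgroup G) : Subgroup G) : Set G) := by
  rw [mem_normalizer_iff_cj]
  apply cj_eq_of_le
  rw [cj_le_iff]
  intro e he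
  rw [hx e he]; exact he

/-- fusion of elements centralizing `E` -/
theorem U4.fus (U : U4 π P s)
    (hcomm : ∀ m : normalizer ((P : Subgroup G) : Set G), CE P m → ∀ k : normalizer ((P : Subgroup G) : Set G),
        rho P k * rho P m * (rho P k)⁻¹ = rho P m)
    {x y : normalizer ((P : Subgroup G) : Set G)} (hx : CE P x) (hy : CE P y) (hy1 : (y : G) ≠ 1) {g : G}
    (hg : g * x * g⁻¹ = y) : rho P x = rho P y := by
  have hEX : Om (P : Subgroup G) ≤ centralizer ({(y : G)} : Set G) := by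
    intro e he
    have := hy e he
    rw [mul_inv_eq_iff_eq_mul] at this
    exact mem_cent_iff.2 this.symm
  have hgE : cj g (Om (P : Subgroup G)) ≤ centralizer ({(y : G)} : Set G) := by
    rw [cj_le_iff]
    intro e he
    have := hx e he
    rw [mul_inv_eq_iff_eq_mul] at this
    rw [mem_cent_iff, ← hg]
    calc g * e * g⁻¹ * (g * x * g⁻¹) = g * (e * x) * g⁻¹ := by group
      _ = g * (x * e) * g⁻¹ := by rw [this]
      _ = g * x * g⁻¹ * (g * e * g⁻¹) := by group
  obtain ⟨c, hc, hcE⟩ := U.EA hEX hgE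
  have hh : c⁻¹ * g ∈ normalizer ((Om (P : Subgroup G) : Subgroup G) : Set G) := by
    rw [mem_normalizer_iff_cj, cj_mul, hcE, cj_inv_cj]
  obtain ⟨n, hn, o, ho, e⟩ := U.NEfac hh
  have h1 : (c⁻¹ * g) * x * (c⁻¹ * g)⁻¹ = y := by
    have h2 := mem_cent_iff.1 hc
    calc (c⁻¹ * g) * x * (c⁻¹ * g)⁻¹ = c⁻¹ * (g * x * g⁻¹) * c := by group
      _ = c⁻¹ * (y * c) := by rw [hg]; group
      _ = y := by rw [← h2]; group
  rw [e] at h1
  have hNEc := U.C.sub _ U.NE_ne
  have hNPc := U.C.sub _ U.NP_ne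
  set w := o * (x : G) * o⁻¹ with hw
  have hwn : n * w * n⁻¹ = y := by rw [← h1, hw]; group
  have hwN : w ∈ normalizer ((P : Subgroup G) : Set G) := by
    have : w = n⁻¹ * y * n := by rw [← hwn]; group
    rw [this]
    exact mul_mem (mul_mem (Subgroup.inv_mem _ hn) y.2) hn
  have hd : (x : G)⁻¹ * w ∈ Oc π (normalizer ((Om (P : Subgroup G) : Subgroup G) : Set G)) := by
    have h3 := conj_mem_Oc hNEc (le_normalizer (Subgroup.inv_mem _ (ce_norm hx))) ho
    have h4 : (x : G)⁻¹ * w = (x : G)⁻¹ * o * (x : G)⁻¹⁻¹ * o⁻¹ := by rw [hw]; group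
    rw [h4]
    exact mul_mem h3 (Subgroup.inv_mem _ ho)
  have hdN : (x : G)⁻¹ * w ∈ normalizer ((P : Subgroup G) : Set G) := mul_mem (Subgroup.inv_mem _ x.2) hwN
  have hdP : ∀ t ∈ (P : Subgroup G), ((x : G)⁻¹ * w) * t * ((x : G)⁻¹ * w)⁻¹ = t := by
    intro t ht
    have hdO : (x : G)⁻¹ * w ∈ Oc π (normalizer ((P : Subgroup G) : Set G)) :=
      (mem_Oc hNPc).2 ⟨hdN, ((mem_Oc hNEc).1 hd).2⟩
    have h5 := comm_Oc U.C.two P.2 hNPc le_rfl le_normalizer ht hdO
    rw [h5]; group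
  have h6 : rho P (⟨(x : G)⁻¹ * w, hdN⟩ : normalizer ((P : Subgroup G) : Set G)) = 1 := rho_cent hdP
  have h7 : rho P ⟨w, hwN⟩ = rho P x := by
    have : (⟨w, hwN⟩ : normalizer ((P : Subgroup G) : Set G)) = x * ⟨(x : G)⁻¹ * w, hdN⟩ :=
      Subtype.ext (by show w = (x : G) * ((x : G)⁻¹ * w); group)
    rw [this, map_mul, h6, mul_one]
  have h8 : y = ⟨n, hn⟩ * ⟨w, hwN⟩ * ⟨n, hn⟩⁻¹ := Subtype.ext hwn.symm
  rw [h8, map_mul, map_mul, map_inv, h7]
  exact (hcomm x hx ⟨n, hn⟩).symm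

theorem relIndex_dvd {K H O : Subgroup G} (hK : K ≤ H) (hO : O ≤ H) (h : ∀ x ∈ H, ∃ k ∈ K, ∃ o ∈ O, x = k * o) :
    K.relIndex H ∣ Nat.card O := by
  have h1 : Nat.card (O ⧸ K.subgroupOf O) = Nat.card (H ⧸ K.subgroupOf H) := by
    apply Nat.card_eq_of_bijective (Subgroup.quotientSubgroupOfEmbeddingOfLE K hO)
    refine ⟨(Subgroup.quotientSubgroupOfEmbeddingOfLE K hO).injective, ?_⟩
    intro q
    induction q using QuotientGroup.induction_on with
    | H x =>
      obtain ⟨k, hk, o, ho, e⟩ := h _ (Subgroup.inv_mem _ x.2)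
      refine ⟨QuotientGroup.mk ⟨o⁻¹, Subgroup.inv_mem _ ho⟩, ?_⟩
      show (QuotientGroup.mk (⟨o⁻¹, hO (Subgroup.inv_mem _ ho)⟩ : H) : H ⧸ K.subgroupOf H) = QuotientGroup.mk x
      rw [QuotientGroup.eq, mem_subgroupOf]
      show (o⁻¹)⁻¹ * (x : G) ∈ K
      have : (o⁻¹)⁻¹ * (x : G) = k⁻¹ := by
        have : (x : G) = (k * o)⁻¹ := by rw [← e, inv_inv]
        rw [this]; group
      rw [this]; exact Subgroup.inv_mem _ hk
  have h2 : K.relIndex H = K.relIndex O := h1.symm
  rw [h2]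
  exact (K.subgroupOf O).index_dvd_card

/-- primes from the action -/
theorem mem_pi_of {H : Subgroup G} (hom : Pi π ((centralizer (H : Set G)).relIndex (normalizer (H : Set G)))) {g : G}
    (hg : g ∈ normalizer (H : Set G)) (hgc : g ∉ centralizer (H : Set G)) {p j : ℕ} (hp : p.Prime)
    (ho : orderOf g = p ^ j) : p ∈ π := by
  by_contra hpπ
  haveI : ((centralizer (H : Set G)).subgroupOf (normalizer (H : Set G))).Normal := ⟨fun c hc k => by
    rw [mem_subgroupOf] at hc ⊢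
    rw [mem_centralizer_iff] at hc ⊢
    intro x hx
    have h1 : (k : G)⁻¹ * x * (k : G) ∈ H := by
      have := (mem_normalizer_iff.1 (Subgroup.inv_mem _ k.2) x).1 hx
      simpa using this
    have h2 := hc _ h1
    show x * ((k : G) * c * (k : G)⁻¹) = (k : G) * c * (k : G)⁻¹ * x
    calc x * ((k : G) * c * (k : G)⁻¹) = (k : G) * (((k : G)⁻¹ * x * k) * c) * (k : G)⁻¹ := by group
      _ = (k : G) * (c * ((k : G)⁻¹ * x * k)) * (k : G)⁻¹ := by rw [h2]
      _ = _ := by group⟩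
  apply hgc
  set n := (centralizer (H : Set G)).relIndex (normalizer (H : Set G)) with hn
  have h1 : (⟨g, hg⟩ : normalizer (H : Set G)) ^ n ∈ (centralizer (H : Set G)).subgroupOf (normalizer (H : Set G)) :=
    Subgroup.pow_index_mem _ _
  rw [mem_subgroupOf] at h1
  have h2 : g ^ n ∈ centralizer (H : Set G) := h1
  have hcop : n.Coprime (orderOf g) := by
    rw [ho]
    exact coprime_of hom (Pd.pow hp hpπ j)
  obtain ⟨m, hm⟩ := exists_pow_eq_self_of_coprime hcop
  rw [← hm]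
  exact pow_mem h2 m

theorem U4.five_ce (U : U4 π P s) {r : G} (hr : r ∈ normalizer ((P : Subgroup G) : Set G)) {j : ℕ}
    (ho : orderOf r = 5 ^ j) : CE P r := by
  haveI : Fact (Nat.Prime 5) := ⟨by norm_num⟩
  have hrE : cj r (Om (P : Subgroup G)) = Om (P : Subgroup G) := cj_Om_of (mem_normalizer_iff_cj.1 hr)
  set f := conjAut hrE with hf
  have hk : ∀ (k : ℕ) (e : Om (P : Subgroup G)), ((f ^ k) e : G) = r ^ k * e * (r ^ k)⁻¹ := by
    intro k
    induction k with
    | zero => intro e; simp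
    | succ k ih =>
      intro e
      rw [pow_succ', MulAut.mul_apply, hf, conjAut_apply, ← hf, ih, pow_succ']
      group
  have hf1 : f ^ (5 ^ j) = 1 := by
    ext e
    rw [hk, ← ho, pow_orderOf_eq_one]; simp
  have hp : IsPGroup 5 (zpowers f) := by
    obtain ⟨i, -, hi⟩ := (Nat.dvd_prime_pow (by norm_num : Nat.Prime 5)).1 (orderOf_dvd_of_pow_eq_one hf1)
    exact IsPGroup.of_card (by rw [Nat.card_zpowers, hi])
  have hmod := hp.card_modEq_card_fixedPoints (Om (P : Subgroup G))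
  rw [U.cardE] at hmod
  have hle : Nat.card (MulAction.fixedPoints (zpowers f) (Om (P : Subgroup G))) ≤ 4 := by
    rw [← U.cardE]
    exact Nat.card_le_card_of_injective _ Subtype.val_injective
  have h4 : Nat.card (MulAction.fixedPoints (zpowers f) (Om (P : Subgroup G))) = 4 := by
    have : 4 % 5 = Nat.card (MulAction.fixedPoints (zpowers f) (Om (P : Subgroup G))) % 5 := hmod
    omega
  intro e he
  have huniv : MulAction.fixedPoints (zpowers f) (Om (P : Subgroup G)) = Set.univ := by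
    apply Set.eq_univ_of_univ_subset
    apply (Set.eq_of_subset_of_ncard_le (Set.subset_univ _) _).ge
    rw [Set.ncard_univ, U.cardE, ← Nat.card_coe_set_eq, h4]
  have h5 : (⟨e, he⟩ : Om (P : Subgroup G)) ∈ MulAction.fixedPoints (zpowers f) (Om (P : Subgroup G)) := by
    rw [huniv]; trivial
  have h6 : f ⟨e, he⟩ = ⟨e, he⟩ := h5 ⟨f, mem_zpowers f⟩
  exact congrArg Subtype.val h6

theorem U4.norm_cent_fac (U : U4 π P s) {R : Subgroup G} (hR1 : R ≠ ⊥) (hRE : ∀ r ∈ R, CE P r) :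
    ∀ g ∈ normalizer (R : Set G), ∃ k ∈ normalizer ((Om (P : Subgroup G) : Subgroup G) : Set G) ⊓ normalizer (R : Set G),
      ∃ o ∈ Oc π (centralizer (R : Set G)), g = k * o := by
  intro g hg
  set X := centralizer (R : Set G) with hX
  obtain ⟨r0, hr0, hr01⟩ : ∃ r ∈ R, r ≠ 1 := by
    by_contra! h
    exact hR1 ((eq_bot_iff_forall _).2 h)
  have hXt : X ≠ ⊤ := by
    intro e
    apply U.C.cent_ne_top hr01
    rw [eq_top_iff]
    intro x _
    have : x ∈ X := by rw [e]; trivial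
    rw [mem_cent_iff]
    exact (mem_centralizer_iff.1 this r0 hr0).symm
  have hXc := U.C.sub X hXt
  have hEX : Om (P : Subgroup G) ≤ X := by
    intro e he
    rw [hX, mem_centralizer_iff]
    intro r hr
    have := hRE r hr e he
    rw [mul_inv_eq_iff_eq_mul] at this
    exact this
  have hgX : ∀ g ∈ normalizer (R : Set G), ∀ x ∈ X, g * x * g⁻¹ ∈ X := by
    intro g hg x hx
    rw [hX, mem_centralizer_iff] at hx ⊢
    intro r hr
    have h1 : g⁻¹ * r * g ∈ R := by
      have := (mem_normalizer_iff.1 (Subgroup.inv_mem _ hg) r).1 hr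
      simpa using this
    have h2 := hx _ h1
    calc r * (g * x * g⁻¹) = g * ((g⁻¹ * r * g) * x) * g⁻¹ := by group
      _ = g * (x * (g⁻¹ * r * g)) * g⁻¹ := by rw [h2]
      _ = _ := by group
  have hgE : cj g (Om (P : Subgroup G)) ≤ X := by
    rw [cj_le_iff]
    intro e he
    exact hgX g hg e (hEX he)
  obtain ⟨c, hc, hcE⟩ := U.EA hEX hgE
  have hXN : X ≤ normalizer (R : Set G) := by
    intro x hx
    rw [mem_normalizer_iff_cj]
    apply cj_eq_of_le
    rw [cj_le_iff]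
    intro r hr
    have h1 := mem_centralizer_iff.1 hx r hr
    rw [← h1]
    have : r * x * x⁻¹ = r := by group
    rw [this]; exact hr
  obtain ⟨S, hES, hS⟩ := exists_syl hEX U.E2
  obtain ⟨n, hn, hnS, o, ho, rfl⟩ := factor U.C.cl U.C.two hXc hS hc
  have hnE : n ∈ normalizer ((Om (P : Subgroup G) : Subgroup G) : Set G) := by
    rw [mem_normalizer_iff_cj]
    apply cj_eq_of_le
    rw [cj_le_iff]
    intro e he
    apply U.inv_mem hS.2.1 hES
    · have := conj_mem_cj (g := n) (hES he)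
      rwa [hnS] at this
    · calc n * e * n⁻¹ * (n * e * n⁻¹) = n * (e * e) * n⁻¹ := by group
        _ = 1 := by rw [he.2.1]; group
  set h := (n * o)⁻¹ * g with hh
  have hhE : h ∈ normalizer ((Om (P : Subgroup G) : Subgroup G) : Set G) := by
    rw [mem_normalizer_iff_cj, hh, cj_mul, hcE, cj_inv_cj]
  have hhR : h ∈ normalizer (R : Set G) := mul_mem (Subgroup.inv_mem _ (hXN hc)) hg
  refine ⟨n * h, ⟨mul_mem hnE hhE, mul_mem (hXN hn) hhR⟩, h⁻¹ * o * h⁻¹⁻¹, ?_, by rw [hh]; group⟩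
  apply conj_mem_Oc hXc _ ho
  rw [mem_normalizer_iff_cj]
  apply cj_eq_of_le
  rw [cj_le_iff]
  exact hgX _ (Subgroup.inv_mem _ hhR)

theorem U4.no_five (U : U4 π P s) (n : normalizer ((P : Subgroup G) : Set G)) (hn : CE P n) : rho P n = 1 := by
  by_contra hn1
  haveI : Fact (Nat.Prime 5) := ⟨by norm_num⟩
  obtain ⟨x, ⟨j, hj⟩, hxE, hx1, hcomm⟩ := U.five hn hn1
  have hxG : orderOf (x : G) = 5 ^ j := by rw [Subgroup.orderOf_coe, hj]
  -- 5 ∈ π
  have hPpi : Pi π (Nat.card (P : Subgroup G)) := by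
    obtain ⟨k, hk⟩ := card_pow_two P.2
    rw [hk]; exact Pi.pow Nat.prime_two U.C.two k
  have h5 : 5 ∈ π := by
    apply mem_pi_of (U.C.hom _ (U.C.sylow_ne_bot P) hPpi) x.2 _ (by norm_num) hxG
    intro hc
    apply hx1
    apply rho_cent
    intro w hw
    rw [mul_inv_eq_iff_eq_mul]
    exact (mem_centralizer_iff.1 hc w hw).symm
  have hPd5 : ∀ m, Pd π m → ¬ 5 ∣ m := fun m hm hd => hm 5 (by norm_num) hd h5
  -- Sylow 5-subgroup
  have hzx : IsPGroup 5 (zpowers x) := IsPGroup.of_card (by rw [Nat.card_zpowers, hj])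
  obtain ⟨R0, hR0⟩ := hzx.exists_le_sylow
  set R := (R0 : Subgroup (normalizer ((P : Subgroup G) : Set G))).map (normalizer ((P : Subgroup G) : Set G)).subtype with hR
  have hRN : R ≤ normalizer ((P : Subgroup G) : Set G) := map_subtype_le _
  have hRp : IsPGroup 5 R := R0.2.map _
  have hxR : (x : G) ∈ R := ⟨x, hR0 (mem_zpowers x), rfl⟩
  have hRE : ∀ r ∈ R, CE P r := by
    intro r hr
    obtain ⟨k, hk⟩ := IsPGroup.iff_orderOf.1 hRp ⟨r, hr⟩
    rw [Subgroup.orderOf_mk] at hk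
    exact U.five_ce (hRN hr) hk
  have hR1 : R ≠ ⊥ := by
    intro e
    rw [e, mem_bot] at hxR
    apply hx1
    have : x = 1 := Subtype.ext hxR
    rw [this, map_one]
  have i1 : ¬ 5 ∣ R.relIndex (normalizer ((P : Subgroup G) : Set G)) := by
    rw [Subgroup.relIndex, hR, Subgroup.subgroupOf, Subgroup.comap_map_eq_self_of_injective (Subgroup.subtype_injective _)]
    exact R0.not_dvd_index
  have i2 : ¬ 5 ∣ (normalizer ((P : Subgroup G) : Set G)).relIndex (normalizer ((Om (P : Subgroup G) : Subgroup G) : Set G)) := by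
    intro hd
    exact hPd5 _ (card_Oc (U.C.sub _ U.NE_ne)) (hd.trans (relIndex_dvd U.NP_le (Oc_le _) fun h hh => U.NEfac hh))
  have i3 : ¬ 5 ∣ R.relIndex (normalizer ((Om (P : Subgroup G) : Subgroup G) : Set G)) := by
    rw [← Subgroup.relIndex_mul_relIndex R _ _ hRN U.NP_le, (by norm_num : Nat.Prime 5).dvd_mul]
    rintro (h | h)
    · exact i1 h
    · exact i2 h
  have hRK : R ≤ normalizer ((Om (P : Subgroup G) : Subgroup G) : Set G) ⊓ normalizer (R : Set G) :=
    le_inf (hRN.trans U.NP_le) le_normalizer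
  have i4 : ¬ 5 ∣ R.relIndex (normalizer ((Om (P : Subgroup G) : Subgroup G) : Set G) ⊓ normalizer (R : Set G)) := by
    intro hd
    apply i3
    rw [← Subgroup.relIndex_mul_relIndex R _ _ hRK inf_le_left]
    exact hd.mul_right _
  have hXR : Cl π (centralizer (R : Set G)) := by
    apply (U.C.clc (a := (x : G)) (by
      intro e
      apply hx1
      have : x = 1 := Subtype.ext e
      rw [this, map_one])).mono
    intro y hy
    rw [mem_cent_iff]
    exact (mem_centralizer_iff.1 hy x hxR).symm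
  have i5 : ¬ 5 ∣ (normalizer ((Om (P : Subgroup G) : Subgroup G) : Set G) ⊓ normalizer (R : Set G)).relIndex (normalizer (R : Set G)) := by
    intro hd
    refine hPd5 _ (card_Oc hXR) (hd.trans (relIndex_dvd inf_le_right ?_ (U.norm_cent_fac hR1 hRE)))
    refine (Oc_le _).trans ?_
    intro y hy
    rw [mem_normalizer_iff_cj]
    apply cj_eq_of_le
    rw [cj_le_iff]
    intro r hr
    have h1 := mem_centralizer_iff.1 hy r hr
    rw [← h1]
    have : r * y * y⁻¹ = r := by group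
    rw [this]; exact hr
  have i6 : ¬ 5 ∣ R.relIndex (normalizer (R : Set G)) := by
    rw [← Subgroup.relIndex_mul_relIndex R _ _ hRK inf_le_right, (by norm_num : Nat.Prime 5).dvd_mul]
    rintro (h | h)
    · exact i4 h
    · exact i5 h
  have i7 : ¬ 5 ∣ R.index := by
    intro hd
    obtain ⟨k, hk⟩ := IsPGroup.iff_card.1 hRp
    have h1 := Sylow.card_quotient_normalizer_modEq_card_quotient hk
    apply i6
    have h2 : (5 : ℕ) ∣ Nat.card (G ⧸ R) := hd
    have h3 := (Nat.modEq_zero_iff_dvd.2 h2)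
    exact Nat.modEq_zero_iff_dvd.1 (h1.trans h3)
  -- transfer
  let R1 : Sylow 5 G := hRp.toSylow i7
  have hR1' : (R1 : Subgroup G) = R := rfl
  have hfoc := Subgroup.commutator_inf_eq_focalSubgroup R1
  have hperf : _root_.commutator G = ⊤ := by
    rcases U.C.normal (H := _root_.commutator G) inferInstance with h | h
    · exfalso
      apply U.C.nab
      intro a b
      have : ⁅a, b⁆ ∈ _root_.commutator G := Subgroup.commutator_mem_commutator (mem_top a) (mem_top b)
      rw [h, mem_bot, commutatorElement_eq_one_iff_mul_comm] at this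
      exact this
    · exact h
  rw [hperf, top_inf_eq] at hfoc
  -- the kernel of the action on `R`
  have hker : R ≤ ((rho P).ker).map (normalizer ((P : Subgroup G) : Set G)).subtype := by
    have h1 : (R1 : Subgroup G).focalSubgroup ≤ ((rho P).ker).map (normalizer ((P : Subgroup G) : Set G)).subtype := by
      rw [Subgroup.focalSubgroup_def, closure_le]
      rintro g ⟨hgR, y, hyR, v, rfl⟩
      have hyR' : y⁻¹ ∈ R := Subgroup.inv_mem _ hyR
      have h2 : v * y⁻¹ * v⁻¹ ∈ R := by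
        have : v * y⁻¹ * v⁻¹ = y⁻¹ * ⁅y, v⁆ := by rw [commutatorElement_def]; group
        rw [this]
        exact mul_mem hyR' hgR
      have h3 : rho P ⟨y⁻¹, hRN hyR'⟩ = rho P ⟨v * y⁻¹ * v⁻¹, hRN h2⟩ := by
        by_cases hy1 : y = 1
        · subst hy1
          congr 1
          apply Subtype.ext
          show (1 : G)⁻¹ = v * (1 : G)⁻¹ * v⁻¹
          group
        · refine U.fus hcomm (g := v) (hRE _ hyR') (hRE _ h2) ?_ rfl
          intro e
          apply hy1
          have e' : v * y⁻¹ * v⁻¹ = 1 := e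
          have : y = (v⁻¹ * (v * y⁻¹ * v⁻¹) * v)⁻¹ := by group
          rw [this, e']; group
      refine ⟨⟨⁅y, v⁆, hRN hgR⟩, ?_, rfl⟩
      show (⟨⁅y, v⁆, hRN hgR⟩ : normalizer ((P : Subgroup G) : Set G)) ∈ (rho P).ker
      rw [MonoidHom.mem_ker]
      have h4 : (⟨⁅y, v⁆, hRN hgR⟩ : normalizer ((P : Subgroup G) : Set G)) =
          ⟨y⁻¹, hRN hyR'⟩⁻¹ * ⟨v * y⁻¹ * v⁻¹, hRN h2⟩ := Subtype.ext (by
        show ⁅y, v⁆ = (y⁻¹)⁻¹ * (v * y⁻¹ * v⁻¹)
        rw [commutatorElement_def]; group)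
      rw [h4, map_mul, map_inv, h3, inv_mul_cancel]
    rw [← hfoc] at h1
    exact h1
  obtain ⟨y, hy, hyx⟩ := hker hxR
  apply hx1
  have : y = x := Subtype.ext hyx
  rw [← this]
  exact MonoidHom.mem_ker.1 hy

end H75.PH
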