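import Mathlib
import Cfsg.Agent.Lib.H75.PH11
import Cfsg.Agent.Lib.H81.Pu4d

set_option autoImplicit false
set_option linter.all false

/-! `PSU₃(4)` type: contradiction (towards S3258). -/

namespace H75.PH

open Subgroup

universe u

section nil

variable {G : Type u} [Group G] [Finite G] {π : Set ℕ}

/-- a criterion for 2-nilpotency -/
theorem nil (hP : PCl π G) (h2 : 2 ∈ π) {H T : Subgroup G} (hH : Cl π H) (hT : Syl T H)
    (hcent : ∀ n ∈ H, cj n T = T → Odd (orderOf n) → ∀ t ∈ T, n * t * n⁻¹ = t) :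
    ∃ D : Subgroup G, D ≤ H ∧ (∀ h ∈ H, ∀ d ∈ D, h * d * h⁻¹ ∈ D) ∧ ¬ 2 ∣ Nat.card D ∧ D.relIndex H = Nat.card T := by
  set M := normalizer (T : Set G) ⊓ H with hM
  have hTM : T ≤ M := le_inf le_normalizer hT.1
  have hMH : M ≤ H := inf_le_right
  have hTMs : Syl T M := hT.mono hTM hMH
  haveI : (T.subgroupOf M).Normal := ⟨fun t ht g => by
    rw [mem_subgroupOf] at ht ⊢
    exact (mem_normalizer_iff.1 (Subgroup.mem_inf.1 g.2).1 t).1 ht⟩
  have hcT : Nat.card (T.subgroupOf M) = Nat.card T := Nat.card_congr (subgroupOfEquivOfLe hTM).toEquiv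
  obtain ⟨kT, hkT⟩ := card_pow_two hT.2.1
  have hcop : (Nat.card (T.subgroupOf M)).Coprime (T.subgroupOf M).index := by
    rw [hcT, hkT]
    exact Nat.Coprime.pow_left _ ((Nat.Prime.coprime_iff_not_dvd Nat.prime_two).2 hTMs.2.2)
  obtain ⟨K', hK'⟩ := Subgroup.exists_right_complement'_of_coprime hcop
  set K := K'.map M.subtype with hK
  have hcK : Nat.card K = T.relIndex M := by
    have h1 : Nat.card K = Nat.card K' := Nat.card_congr (K'.equivMapOfInjective _ M.subtype_injective).symm.toEquiv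
    rw [h1, Subgroup.relIndex, hK'.symm.index_eq_card]
  have hKodd : ¬ 2 ∣ Nat.card K := by rw [hcK]; exact hTMs.2.2
  have hKM : K ≤ M := map_subtype_le _
  have hdec : ∀ x ∈ M, ∃ t ∈ T, ∃ k ∈ K, x = t * k := by
    intro x hx
    obtain ⟨⟨a, b⟩, hab, -⟩ := (isComplement_iff_existsUnique.1 hK') (⟨x, hx⟩ : M)
    exact ⟨((a : M) : G), a.2, ((b : M) : G), ⟨b, b.2, rfl⟩, (congrArg Subtype.val hab).symm⟩
  have hKT : ∀ k ∈ K, ∀ t ∈ T, k * t * k⁻¹ = t := by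
    intro k hk
    refine hcent k (hMH (hKM hk)) (mem_normalizer_iff_cj.1 (hKM hk).1) ?_
    rw [← Nat.not_even_iff_odd, even_iff_two_dvd]
    intro hd
    apply hKodd
    have h1 : orderOf (⟨k, hk⟩ : K) ∣ Nat.card K := orderOf_dvd_natCard _
    rw [Subgroup.orderOf_mk] at h1
    exact hd.trans h1
  set O := Oc π H with hO
  have hOodd : ¬ 2 ∣ Nat.card O := (card_Oc hH).not_two h2
  have hOn : ∀ h ∈ H, ∀ o ∈ O, h * o * h⁻¹ ∈ O := fun h hh o ho => conj_mem_Oc hH (le_normalizer hh) ho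
  let D : Subgroup G :=
    { carrier := {x | ∃ k ∈ K, ∃ o ∈ O, x = k * o}
      one_mem' := ⟨1, one_mem K, 1, one_mem O, by simp⟩
      mul_mem' := by
        rintro _ _ ⟨k, hk, o, ho, rfl⟩ ⟨k', hk', o', ho', rfl⟩
        refine ⟨k * k', mul_mem hk hk', k'⁻¹ * o * k'⁻¹⁻¹ * o', mul_mem ?_ ho', by group⟩
        exact hOn _ (Subgroup.inv_mem _ (hMH (hKM hk'))) o ho
      inv_mem' := by
        rintro _ ⟨k, hk, o, ho, rfl⟩
        exact ⟨k⁻¹, inv_mem hk, k * o⁻¹ * k⁻¹, hOn _ (hMH (hKM hk)) _ (Subgroup.inv_mem _ ho), by group⟩ }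
  have hmemD : ∀ x, x ∈ D ↔ ∃ k ∈ K, ∃ o ∈ O, x = k * o := fun x => Iff.rfl
  have hDH : D ≤ H := by
    rintro _ ⟨k, hk, o, ho, rfl⟩
    exact mul_mem (hMH (hKM hk)) (Oc_le H ho)
  have hKD : K ≤ D := fun k hk => ⟨k, hk, 1, one_mem O, by simp⟩
  have hOD : O ≤ D := fun o ho => ⟨1, one_mem K, o, ho, by simp⟩
  have hfac : ∀ h ∈ H, ∃ t ∈ T, ∃ d ∈ D, h = t * d := by
    intro h hh
    obtain ⟨n, hn, hnT, o, ho, rfl⟩ := factor hP h2 hH hT hh
    obtain ⟨t, ht, k, hk, rfl⟩ := hdec n ⟨mem_normalizer_iff_cj.2 hnT, hn⟩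
    exact ⟨t, ht, k * o, ⟨k, hk, o, ho, rfl⟩, by group⟩
  have hDn : ∀ h ∈ H, ∀ d ∈ D, h * d * h⁻¹ ∈ D := by
    intro h hh d hd
    obtain ⟨t, ht, e, he, rfl⟩ := hfac h hh
    have h3 : e * d * e⁻¹ ∈ D := mul_mem (mul_mem he hd) (Subgroup.inv_mem _ he)
    obtain ⟨k, hk, o, ho, h4⟩ := h3
    have h5 : t * e * d * (t * e)⁻¹ = k * (t * o * t⁻¹) := by
      have h6 := hKT k hk t⁻¹ (inv_mem ht)
      calc t * e * d * (t * e)⁻¹ = t * (e * d * e⁻¹) * t⁻¹ := by group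
        _ = t * (k * o) * t⁻¹ := by rw [h4]
        _ = t * (k * t⁻¹ * k⁻¹) * k * (t * o * t⁻¹) := by group
        _ = t * t⁻¹ * k * (t * o * t⁻¹) := by rw [h6]
        _ = k * (t * o * t⁻¹) := by group
    rw [h5]
    exact ⟨k, hk, _, hOn t (hT.1 ht) o ho, rfl⟩
  have hDodd : ¬ 2 ∣ Nat.card D := by
    have h3 : O.relIndex D ∣ Nat.card K := relIndex_dvd hOD hKD (by
      rintro _ ⟨k, hk, o, ho, rfl⟩
      exact ⟨k * o * k⁻¹, hOn k (hMH (hKM hk)) o ho, k, hk, by group⟩)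
    have h4 : Nat.card D = Nat.card O * O.relIndex D := by
      have := (O.subgroupOf D).card_mul_index
      rw [Nat.card_congr (subgroupOfEquivOfLe hOD).toEquiv] at this
      exact this.symm
    rw [h4, Nat.prime_two.dvd_mul]
    rintro (h | h)
    · exact hOodd h
    · exact hKodd (h.trans h3)
  refine ⟨D, hDH, hDn, hDodd, ?_⟩
  apply Nat.dvd_antisymm
  · apply relIndex_dvd hDH hT.1
    intro h hh
    obtain ⟨t, ht, d, hd, rfl⟩ := hfac h hh
    exact ⟨t * d * t⁻¹, hDn t (hT.1 ht) d hd, t, ht, by group⟩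
  · have h4 : Nat.card H = Nat.card D * D.relIndex H := by
      have := (D.subgroupOf H).card_mul_index
      rw [Nat.card_congr (subgroupOfEquivOfLe hDH).toEquiv] at this
      exact this.symm
    have h5 : Nat.card T ∣ Nat.card D * D.relIndex H := by
      rw [← h4]; exact card_dvd_of_le hT.1
    refine Nat.Coprime.dvd_of_dvd_mul_left ?_ h5
    rw [hkT]
    exact Nat.Coprime.pow_left _ ((Nat.Prime.coprime_iff_not_dvd Nat.prime_two).2 hDodd)

/-- the index of the 2'-core -/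
theorem core_index {X : Type u} [Group X] [Finite X] {D : Subgroup X} (hn : D.Normal) (hD : ¬ 2 ∣ Nat.card D) {k : ℕ}
    (hi : D.index = 2 ^ k) : (Cfsg.pPrimeCore 2 X).index = 2 ^ k := by
  have hle : D ≤ Cfsg.pPrimeCore 2 X :=
    le_sSup ⟨hn, ((Nat.Prime.coprime_iff_not_dvd Nat.prime_two).2 hD).symm⟩
  have h1 : ¬ 2 ∣ Nat.card (Cfsg.pPrimeCore 2 X) := H20.Col2.not_dvd_card_pPrimeCore
  have h2 := D.card_mul_index
  have h3 := (Cfsg.pPrimeCore 2 X).card_mul_index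
  have h4 : (Cfsg.pPrimeCore 2 X).index ∣ D.index := Subgroup.index_dvd_of_le hle
  apply Nat.dvd_antisymm
  · rw [← hi]; exact h4
  · have h5 : 2 ^ k ∣ Nat.card (Cfsg.pPrimeCore 2 X) * (Cfsg.pPrimeCore 2 X).index := by
      rw [h3, ← h2, hi]; exact dvd_mul_left _ _
    exact Nat.Coprime.dvd_of_dvd_mul_left
      (Nat.Coprime.pow_left _ ((Nat.Prime.coprime_iff_not_dvd Nat.prime_two).2 h1)) h5

theorem core_of_nil (hP : PCl π G) (h2 : 2 ∈ π) {H T : Subgroup G} (hH : Cl π H) (hT : Syl T H)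
    (hcent : ∀ n ∈ H, cj n T = T → Odd (orderOf n) → ∀ t ∈ T, n * t * n⁻¹ = t) :
    (Cfsg.pPrimeCore 2 H).index = Nat.card T := by
  obtain ⟨D, hDH, hDn, hDo, hDi⟩ := nil hP h2 hH hT hcent
  obtain ⟨k, hk⟩ := card_pow_two hT.2.1
  rw [hk]
  apply core_index (D := D.subgroupOf H)
  · exact ⟨fun d hd g => by
      rw [mem_subgroupOf] at hd ⊢
      exact hDn g g.2 d hd⟩
  · rw [Nat.card_congr (subgroupOfEquivOfLe hDH).toEquiv]; exact hDo
  · rw [← hk, ← hDi]; rfl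

end nil

end H75.PH
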