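import Mathlib
import Cfsg.Agent.Lib.H75.PH12
import Cfsg.Agent.Lib.H79.PslPi

set_option autoImplicit false
set_option linter.all false

/-! The minimal situation is impossible (towards S3258). -/

namespace H75.PH

open Subgroup
open scoped commutatorElement

universe u

variable {G : Type u} [Group G] [Finite G] {π : Set ℕ} {P : Sylow 2 G} {s : G}

/-- an odd order element centralizing `E` and `v`, and normalizing `C_P(v)`, centralizes `C_P(v)` -/
theorem U4.stepc (U : U4 π P s) {n : G} (ho : Odd (orderOf n)) (hnE : CE P n) {v : G} (hv : v ∈ (P : Subgroup G))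
    (hvE : v ∉ Om (P : Subgroup G)) (ha : n * v * n⁻¹ = v)
    (hnA : ∀ a ∈ (P : Subgroup G) ⊓ centralizer ({v} : Set G), n * a * n⁻¹ ∈ (P : Subgroup G) ⊓ centralizer ({v} : Set G)) :
    ∀ a ∈ (P : Subgroup G) ⊓ centralizer ({v} : Set G), n * a * n⁻¹ = a := by
  set E := Om (P : Subgroup G) with hE
  have hEP : E ≤ P := Om_le _
  have hP4 : ∀ w ∈ (P : Subgroup G), w * w * (w * w) = 1 := fun w hw => (U.sq w hw).2.1
  set A := (P : Subgroup G) ⊓ centralizer ({v} : Set G) with hA
  have hEA : E ≤ A := fun e he => ⟨he.1, mem_cent_iff.2 (he.2.2 v hv)⟩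
  have hvA : v ∈ A := ⟨hv, mem_cent_iff.2 rfl⟩
  have hcA : Nat.card A = 16 := U.card_cent hv hvE
  haveI : (E.subgroupOf A).Normal := ⟨fun e he g => by
    rw [mem_subgroupOf] at he ⊢
    have : ((g * e * g⁻¹ : A) : G) = e := by
      show (g : G) * e * (g : G)⁻¹ = e
      rw [← he.2.2 g g.2.1]; group
    rw [this]; exact he⟩
  have hcQ : Nat.card (A ⧸ E.subgroupOf A) = 4 := by
    have h1 := Subgroup.card_eq_card_quotient_mul_card_subgroup (E.subgroupOf A)
    rw [hcA, Nat.card_congr (subgroupOfEquivOfLe hEA).toEquiv, U.cardE] at h1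
    omega
  intro a haA
  by_cases haE : a ∈ E
  · exact hnE a haE
  by_cases hvaE : v⁻¹ * a ∈ E
  · have h1 : a = v * (v⁻¹ * a) := by group
    calc n * a * n⁻¹ = n * (v * (v⁻¹ * a)) * n⁻¹ := by rw [← h1]
      _ = (n * v * n⁻¹) * (n * (v⁻¹ * a) * n⁻¹) := by group
      _ = v * (v⁻¹ * a) := by rw [ha, hnE _ hvaE]
      _ = a := by group
  have hbA := hnA a haA
  let q : A → A ⧸ E.subgroupOf A := fun x => QuotientGroup.mk x
  have hq1 : ∀ x : A, q x = 1 ↔ (x : G) ∈ E := by
    intro x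
    show (QuotientGroup.mk x : A ⧸ E.subgroupOf A) = 1 ↔ _
    rw [QuotientGroup.eq_one_iff, mem_subgroupOf]
  have hqe : ∀ x y : A, q x = q y ↔ (x : G)⁻¹ * y ∈ E := by
    intro x y
    show (QuotientGroup.mk x : A ⧸ E.subgroupOf A) = QuotientGroup.mk y ↔ _
    rw [QuotientGroup.eq, mem_subgroupOf]; rfl
  have key := four' hcQ (a := q ⟨v, hvA⟩) (b := q ⟨a, haA⟩) (fun h => hvE ((hq1 _).1 h))
    (fun h => haE ((hq1 _).1 h)) (fun h => hvaE ((hqe _ _).1 h)) (fun h => by
      have h0 : q ((⟨v, hvA⟩ : A) * ⟨a, haA⟩) = 1 := h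
      have h1 : v * a ∈ E := (hq1 _).1 h0
      apply hvaE
      have h2 : v⁻¹ * a = (v * v)⁻¹ * (v * a) := by group
      rw [h2]
      exact mul_mem (Subgroup.inv_mem _ (U.sq v hv)) h1) (q ⟨n * a * n⁻¹, hbA⟩)
  have hcase : a⁻¹ * (n * a * n⁻¹) ∈ E ∨ v⁻¹ * (a⁻¹ * (n * a * n⁻¹)) ∈ E := by
    rcases key with h | h | h | h
    · exfalso
      apply haE
      have h1 : n * a * n⁻¹ ∈ E := (hq1 _).1 h
      have h2 := hnE _ h1
      have h3 : a = n⁻¹ * (n * a * n⁻¹) * n := by group
      have h4 : n⁻¹ * (n * a * n⁻¹) * n = n * a * n⁻¹ := by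
        have : n⁻¹ * (n * (n * a * n⁻¹) * n⁻¹) * n = n * a * n⁻¹ := by group
        rwa [h2] at this
      rw [h3, h4]; exact h1
    · exfalso
      apply hvaE
      have h1 : v⁻¹ * (n * a * n⁻¹) ∈ E := by
        have := (hqe _ _).1 h.symm
        exact this
      have h2 := hnE _ h1
      have h3 : n * (v⁻¹ * a) * n⁻¹ = v⁻¹ * (n * a * n⁻¹) := by
        calc n * (v⁻¹ * a) * n⁻¹ = (n * v * n⁻¹)⁻¹ * (n * a * n⁻¹) := by group
          _ = _ := by rw [ha]
      have h4 : v⁻¹ * a = n⁻¹ * (v⁻¹ * (n * a * n⁻¹)) * n := by rw [← h3]; group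
      have h5 : n⁻¹ * (v⁻¹ * (n * a * n⁻¹)) * n = v⁻¹ * (n * a * n⁻¹) := by
        have : n⁻¹ * (n * (v⁻¹ * (n * a * n⁻¹)) * n⁻¹) * n = v⁻¹ * (n * a * n⁻¹) := by group
        rwa [h2] at this
      rw [h4, h5]; exact h1
    · left
      exact (hqe _ _).1 h.symm
    · right
      have h0 : q ((⟨v, hvA⟩ : A) * ⟨a, haA⟩) = q ⟨n * a * n⁻¹, hbA⟩ := h.symm
      have h1 : (v * a)⁻¹ * (n * a * n⁻¹) ∈ E := (hqe _ _).1 h0
      have h2 := mem_cent_iff.1 haA.2
      have h3 : v⁻¹ * (a⁻¹ * (n * a * n⁻¹)) = (v * a)⁻¹ * (n * a * n⁻¹) := by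
        rw [← h2]; group
      rw [h3]; exact h1
  have he : n * (a⁻¹ * (n * a * n⁻¹)) * n⁻¹ = a⁻¹ * (n * a * n⁻¹) := by
    rcases hcase with h | h
    · exact hnE _ h
    · set d := v⁻¹ * (a⁻¹ * (n * a * n⁻¹)) with hd
      have h1 : a⁻¹ * (n * a * n⁻¹) = v * d := by rw [hd]; group
      rw [h1]
      calc n * (v * d) * n⁻¹ = (n * v * n⁻¹) * (n * d * n⁻¹) := by group
        _ = v * d := by rw [ha, hnE d h]
  exact fix_of_mod ho (by group) he (hP4 _ (mul_mem (Subgroup.inv_mem _ haA.1) hbA.1))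

theorem U4.exists_v (U : U4 π P s) : ∃ v ∈ (P : Subgroup G), v ∉ Om (P : Subgroup G) := by
  by_contra! h
  have h1 := card_le_of_le (show (P : Subgroup G) ≤ Om (P : Subgroup G) from h)
  rw [U.cardP, U.cardE] at h1
  omega

theorem inj_conj {g x : G} (hx : x ≠ 1) : g * x * g⁻¹ ≠ 1 := by
  intro e
  apply hx
  have : x = g⁻¹ * (g * x * g⁻¹) * g := by group
  rw [this, e]; group

/-- the four group as an orbit -/
theorem U4.orbit (U : U4 π P s) {z : G} (hz : z ∈ Om (P : Subgroup G)) (hz1 : z ≠ 1) {x : G}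
    (hx : x ∈ Om (P : Subgroup G)) : x = 1 ∨ x = z ∨ x = s * z * s⁻¹ ∨ x = s * (s * z * s⁻¹) * s⁻¹ := by
  have hsE : ∀ e ∈ Om (P : Subgroup G), s * e * s⁻¹ ∈ Om (P : Subgroup G) := fun e he => norm_Om U.s_mem he
  have n1 := U.sfix z hz hz1
  have n2 := U.sfix _ (hsE z hz) (inj_conj hz1)
  refine four U.cardE hz (hsE z hz) (hsE _ (hsE z hz)) hz1 (inj_conj hz1) (inj_conj (inj_conj hz1)) n1.symm
    (fun e => ?_) n2.symm hx
  apply n1
  apply odd_comm U.sodd
  have : s * s * z * (s * s)⁻¹ = s * (s * z * s⁻¹) * s⁻¹ := by group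
  rw [this]; exact e.symm

/-- an odd order element normalizing `E` and fixing an involution of `E` centralizes `E` -/
theorem U4.ce_of_fix (U : U4 π P s) {n : G} (ho : Odd (orderOf n))
    (hn : ∀ e ∈ Om (P : Subgroup G), n * e * n⁻¹ ∈ Om (P : Subgroup G)) {z : G} (hz : z ∈ Om (P : Subgroup G))
    (hz1 : z ≠ 1) (hfix : n * z * n⁻¹ = z) : CE P n := by
  have hsz := norm_Om U.s_mem hz
  set w := s * z * s⁻¹ with hw
  have hw1 : w ≠ 1 := inj_conj hz1
  have hwz : z ≠ w := (U.sfix z hz hz1).symm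
  have hzw : z * w ∈ Om (P : Subgroup G) := mul_mem hz hsz
  have hzw1 : z * w ≠ 1 := fun e => hwz (mul_left_cancel (e.trans hz.2.1.symm)).symm
  have hnw : n * w * n⁻¹ = w := by
    rcases four U.cardE hz hsz hzw hz1 hw1 hzw1 hwz (fun h => hw1 (by simpa using h)) (fun h => hz1 (by simpa using h))
      (hn w hsz) with h | h | h | h
    · exact absurd h (inj_conj hw1)
    · exfalso
      apply hwz
      have h2 : n * w * n⁻¹ = n * z * n⁻¹ := by rw [h, hfix]
      have : w = n⁻¹ * (n * w * n⁻¹) * n := by group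
      rw [this, h2]; group
    · exact h
    · apply odd_comm ho
      calc n * n * w * (n * n)⁻¹ = n * (n * w * n⁻¹) * n⁻¹ := by group
        _ = n * (z * w) * n⁻¹ := by rw [h]
        _ = (n * z * n⁻¹) * (n * w * n⁻¹) := by group
        _ = z * (z * w) := by rw [hfix, h]
        _ = w := by rw [← mul_assoc, hz.2.1, one_mul]
  intro e he
  rcases four U.cardE hz hsz hzw hz1 hw1 hzw1 hwz (fun h => hw1 (by simpa using h)) (fun h => hz1 (by simpa using h))
      he with h | h | h | h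
  · rw [h]; group
  · rw [h]; exact hfix
  · rw [h]; exact hnw
  · rw [h]
    calc n * (z * w) * n⁻¹ = (n * z * n⁻¹) * (n * w * n⁻¹) := by group
      _ = z * w := by rw [hfix, hnw]

theorem U4.ce_of_fix' (U : U4 π P s) {n : G} (hn : n ∈ normalizer ((P : Subgroup G) : Set G)) {z : G}
    (hz : z ∈ Om (P : Subgroup G)) (hz1 : z ≠ 1) (hfix : n * z * n⁻¹ = z) : CE P n := by
  obtain ⟨a, b, ha, -, rfl, hodd, hbP⟩ := norm_decomp (syl_top P) (mem_normalizer_iff_cj.1 hn)
  have haE : CE P a := fun e he => by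
    rw [← he.2.2 a ha]; group
  have hbN : b ∈ normalizer ((P : Subgroup G) : Set G) := mem_normalizer_iff_cj.2 hbP
  have hbE : CE P b := by
    refine U.ce_of_fix hodd (fun e he => norm_Om hbN he) hz hz1 ?_
    have h1 : b * z * b⁻¹ = a⁻¹ * (a * b * z * (a * b)⁻¹) * a⁻¹⁻¹ := by group
    rw [h1, hfix]
    exact CE.inv haE z hz
  exact CE.mul haE hbE

/-- odd order elements of `N(P)` centralizing `E` centralize `P` -/
theorem U4.cent_P (U : U4 π P s) {n : G} (hn : n ∈ normalizer ((P : Subgroup G) : Set G)) (ho : Odd (orderOf n))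
    (hE : CE P n) : ∀ w ∈ (P : Subgroup G), n * w * n⁻¹ = w := by
  obtain ⟨v, hv, hvE⟩ := U.exists_v
  have h1 := U.no_five ⟨n, hn⟩ hE
  exact U.rigid (mem_normalizer_iff_cj.1 hn) ho hE hv hvE (rho_eq_one_iff.1 h1 v hv)

theorem U4.false (U : U4 π P s) : False := by
  have hs3E : CE P (s * (s * s)) := by
    obtain ⟨z, hz⟩ := U.exists_z
    have hzG : (z : G) ≠ 1 := fun e => hz (Subtype.ext e)
    have hsN : s * (s * s) ∈ normalizer ((P : Subgroup G) : Set G) := mul_mem U.s_mem (mul_mem U.s_mem U.s_mem)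
    refine U.ce_of_fix' hsN z.2 hzG ?_
    have e1 : s * (s * s) * (z : G) * (s * (s * s))⁻¹ = s * (s * (s * z * s⁻¹) * s⁻¹) * s⁻¹ := by group
    have h1 : s * (s * (s * z * s⁻¹) * s⁻¹) * s⁻¹ ∈ Om (P : Subgroup G) :=
      norm_Om U.s_mem (norm_Om U.s_mem (norm_Om U.s_mem z.2))
    rw [e1]
    rcases U.orbit z.2 hzG h1 with h | h | h | h
    · exact absurd h (inj_conj (inj_conj (inj_conj hzG)))
    · exact h
    · exfalso
      apply U.sfix _ z.2 hzG
      apply odd_comm U.sodd
      have : s * s * (z : G) * (s * s)⁻¹ = s⁻¹ * (s * (s * (s * z * s⁻¹) * s⁻¹) * s⁻¹) * s := by group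
      rw [this, h]; group
    · exfalso
      apply U.sfix _ z.2 hzG
      have : s * (z : G) * s⁻¹ = s⁻¹ * (s⁻¹ * (s * (s * (s * z * s⁻¹) * s⁻¹) * s⁻¹) * s) * s := by group
      rw [this, h]; group
  have hs3o : Odd (orderOf (s * (s * s))) := by
    have : s * (s * s) = s ^ 3 := by rw [pow_succ, pow_two]; group
    rw [this]
    exact U.sodd.of_dvd_nat (orderOf_pow_dvd 3)
  have hs3 : ∀ w ∈ (P : Subgroup G), s * (s * s) * w * (s * (s * s))⁻¹ = w :=
    U.cent_P (mul_mem U.s_mem (mul_mem U.s_mem U.s_mem)) hs3o hs3E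
  let E : Subgroup (P : Subgroup G) := (Om (P : Subgroup G)).subgroupOf (P : Subgroup G)
  let σ : (P : Subgroup G) ≃* (P : Subgroup G) := conjAut U.sP
  have hσ : ∀ x : (P : Subgroup G), (σ x : G) = s * x * s⁻¹ := fun x => rfl
  have hEm : ∀ x : (P : Subgroup G), x ∈ E ↔ (x : G) ∈ Om (P : Subgroup G) := fun x => mem_subgroupOf
  have hD : H81.Pu4.Dat E σ := by
    refine ⟨U.cardP, ?_, ?_, ?_, ?_, ?_, ?_, ?_⟩
    · rw [Nat.card_congr (subgroupOfEquivOfLe (Om_le _)).toEquiv, U.cardE]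
    · intro e he x
      exact Subtype.ext (((hEm e).1 he).2.2 x x.2)
    · intro x; exact U.sq x x.2
    · intro x hx; exact U.om x x.2 (congrArg Subtype.val hx)
    · intro x hx; exact Subtype.ext ((hEm x).1 hx).2.1
    · intro x
      apply Subtype.ext
      rw [hσ, hσ, hσ]
      have := hs3 x x.2
      calc s * (s * (s * (x : G) * s⁻¹) * s⁻¹) * s⁻¹ = s * (s * s) * (x : G) * (s * (s * s))⁻¹ := by group
        _ = x := this
    · intro x hx hσx
      by_contra hx1
      exact U.sfix x ((hEm x).1 hx) (fun e => hx1 (Subtype.ext e)) (congrArg Subtype.val hσx)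
  refine H81.Pu4.not_perfect P E σ hD ?_ ?_ ?_ ?_ ?_
  · -- fusion in `E`
    intro e he he1 y
    rw [hEm] at he
    have heG : (e : G) ≠ 1 := fun h => he1 (Subtype.ext h)
    rw [hEm]
    constructor
    · intro h
      obtain ⟨g, hg⟩ := isConj_iff.1 h
      constructor
      · apply U.om _ y.2
        rw [← hg]
        calc g * (e : G) * g⁻¹ * (g * e * g⁻¹) = g * ((e : G) * e) * g⁻¹ := by group
          _ = 1 := by rw [he.2.1]; group
      · intro h1
        apply inj_conj (g := g) heG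
        rw [hg, h1]; rfl
    · rintro ⟨hy, hy1⟩
      have hyG : (y : G) ≠ 1 := fun h => hy1 (Subtype.ext h)
      rcases U.orbit he heG hy with h | h | h | h
      · exact absurd h hyG
      · rw [h]
      · rw [h]; exact isConj_iff.2 ⟨s, rfl⟩
      · rw [h]; exact isConj_iff.2 ⟨s * s, by group⟩
  · -- fusion outside `E`
    intro x hx y
    rw [hEm] at hx
    have hcl : ∀ a b : (P : Subgroup G), (a : G) ∉ Om (P : Subgroup G) → a⁻¹ * b ∈ E → IsConj (a : G) b := by
      intro a b ha hab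
      rw [hEm] at hab
      have hai : (a : G)⁻¹ ∉ Om (P : Subgroup G) := fun h => ha (by simpa using Subgroup.inv_mem _ h)
      obtain ⟨y', hy', e⟩ := U.csurj _ (Subgroup.inv_mem _ a.2) hai _ hab
      refine isConj_iff.2 ⟨y', ?_⟩
      have e' : (a : G)⁻¹ * y' * (a : G)⁻¹⁻¹ * y'⁻¹ = (a : G)⁻¹ * b := e
      calc y' * (a : G) * y'⁻¹ = (a : G) * ((a : G)⁻¹ * y' * (a : G)⁻¹⁻¹ * y'⁻¹) := by group
        _ = b := by rw [e']; group
    have hnot : ∀ a : (P : Subgroup G), (a : G) ∉ Om (P : Subgroup G) → (σ a : G) ∉ Om (P : Subgroup G) := by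
      intro a ha h
      apply ha
      have h2 := norm_Om (Subgroup.inv_mem _ U.s_mem) h
      rw [hσ] at h2
      have : s⁻¹ * (s * (a : G) * s⁻¹) * s⁻¹⁻¹ = a := by group
      rwa [this] at h2
    have hconj : ∀ a : (P : Subgroup G), IsConj (a : G) (σ a : G) := fun a => isConj_iff.2 ⟨s, rfl⟩
    constructor
    · intro h
      obtain ⟨g, hg⟩ := isConj_iff.1 h
      have hgP : cj g (zpowers (x : G)) ≤ P := by
        rw [cj_le_iff]
        rintro w ⟨i, rfl⟩
        have : g * (x : G) ^ i * g⁻¹ = (g * x * g⁻¹) ^ i := by rw [conj_zpow]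
        show g * (x : G) ^ i * g⁻¹ ∈ _
        rw [this, hg]; exact zpow_mem y.2 i
      obtain ⟨m, hm, hm'⟩ := U.C.control P _ (zpowers (x : G)) rfl (by rw [zpowers_le]; exact x.2) g hgP
      have hmx := hm' _ (mem_zpowers (x : G))
      rw [hg] at hmx
      have hmN : m ∈ normalizer ((P : Subgroup G) : Set G) := mem_normalizer_iff_cj.2 hm
      obtain ⟨z, hz⟩ := U.exists_z
      have hzG : (z : G) ≠ 1 := fun e => hz (Subtype.ext e)
      have key : ∀ t ∈ normalizer ((P : Subgroup G) : Set G), m * z * m⁻¹ = t * z * t⁻¹ →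
          (t * x * t⁻¹)⁻¹ * y ∈ Om (P : Subgroup G) := by
        intro t ht e
        have h1 : CE P (t⁻¹ * m) := by
          refine U.ce_of_fix' (mul_mem (Subgroup.inv_mem _ ht) hmN) z.2 hzG ?_
          calc t⁻¹ * m * (z : G) * (t⁻¹ * m)⁻¹ = t⁻¹ * (m * z * m⁻¹) * t := by group
            _ = z := by rw [e]; group
        have h2 := rho_eq_one_iff.1 (U.no_five ⟨t⁻¹ * m, mul_mem (Subgroup.inv_mem _ ht) hmN⟩ h1) x x.2
        have h3 := norm_Om ht h2
        have h4 : (t * x * t⁻¹)⁻¹ * y = t * ((x : G)⁻¹ * (t⁻¹ * m * x * (t⁻¹ * m)⁻¹)) * t⁻¹ := by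
          rw [← hmx]; group
        rw [h4]; exact h3
      rcases U.orbit z.2 hzG (norm_Om hmN z.2) with h | h | h | h
      · exact absurd h (inj_conj hzG)
      · left
        rw [hEm]
        have := key 1 (one_mem _) (by rw [h]; group)
        have e2 : ((1 : G) * x * (1 : G)⁻¹)⁻¹ * y = (x : G)⁻¹ * y := by group
        rw [e2] at this
        exact this
      · right; left
        rw [hEm]
        exact key s U.s_mem h
      · right; right
        rw [hEm]
        have := key (s * s) (mul_mem U.s_mem U.s_mem) (by rw [h]; group)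
        have e2 : (s * s * x * (s * s)⁻¹)⁻¹ * y = (s * (s * x * s⁻¹) * s⁻¹)⁻¹ * y := by group
        rw [e2] at this
        exact this
    · rintro (h | h | h)
      · exact hcl x y hx h
      · exact (hconj x).trans (hcl _ y (hnot x hx) h)
      · exact ((hconj x).trans (hconj (σ x))).trans (hcl _ y (hnot _ (hnot x hx)) h)
  · -- centralizers of involutions
    intro x hx hx1
    rw [hEm] at hx
    have hxG : (x : G) ≠ 1 := fun h => hx1 (Subtype.ext h)
    have hPC : (P : Subgroup G) ≤ centralizer ({(x : G)} : Set G) := fun y hy => mem_cent_iff.2 (hx.2.2 y hy).symm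
    have hS := (syl_top P).mono hPC le_top
    rw [core_of_nil U.C.cl U.C.two (U.C.clc hxG) hS, U.cardP]
    intro n hn hnP ho t ht
    have hnN : n ∈ normalizer ((P : Subgroup G) : Set G) := mem_normalizer_iff_cj.2 hnP
    refine U.cent_P hnN ho (U.ce_of_fix ho (fun e he => norm_Om hnN he) hx hxG ?_) t ht
    have := mem_cent_iff.1 hn
    rw [this]; group
  · -- centralizers of elements of order 4
    intro x hx
    rw [hEm] at hx
    have hxG : (x : G) ≠ 1 := fun h => hx (by rw [h]; exact one_mem _)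
    set A := (P : Subgroup G) ⊓ centralizer ({(x : G)} : Set G) with hA
    have hcA : Nat.card A = 16 := U.card_cent x.2 hx
    have hEA : Om (P : Subgroup G) ≤ A := fun e he => ⟨he.1, mem_cent_iff.2 (he.2.2 x x.2)⟩
    have hxA : (x : G) ∈ A := ⟨x.2, mem_cent_iff.2 rfl⟩
    obtain ⟨T, hAT, hT⟩ := exists_syl (A := A) (H := centralizer ({(x : G)} : Set G)) inf_le_right (P.2.to_le inf_le_left)
    have hTA : T = A := by
      obtain ⟨h, -, hh⟩ := (syl_top P).conj_le (A := T) le_top hT.2.1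
      symm
      apply Subgroup.eq_of_le_of_card_ge hAT
      have h1 : cj h T ≤ (P : Subgroup G) ⊓ centralizer ({h * (x : G) * h⁻¹} : Set G) := by
        refine le_inf hh ?_
        rw [← cj_cent]
        exact cj_mono hT.1
      have h2 : h * (x : G) * h⁻¹ ∈ (P : Subgroup G) := cj_le_iff.1 hh _ (hAT hxA)
      have h3 : h * (x : G) * h⁻¹ ∉ Om (P : Subgroup G) := by
        intro h4
        apply hx
        apply U.om _ x.2
        have h5 := h4.2.1
        have : (x : G) * x = h⁻¹ * (h * x * h⁻¹ * (h * x * h⁻¹)) * h := by group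
        rw [this, h5]; group
      have h4 := card_le_of_le h1
      rw [U.card_cent h2 h3, card_cj] at h4
      rw [hcA]; exact h4
    rw [core_of_nil U.C.cl U.C.two (U.C.clc hxG) hT, hTA, hcA]
    intro n hn hnT ho t ht
    rw [hTA] at hnT ht
    have hnA : ∀ a ∈ A, n * a * n⁻¹ ∈ A := by
      intro a ha
      have := conj_mem_cj (g := n) ha
      rwa [hnT] at this
    have hnx : n * (x : G) * n⁻¹ = x := by
      have := mem_cent_iff.1 hn
      rw [this]; group
    have hnE : CE P n := by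
      refine U.ce_of_fix ho ?_ (U.sq x x.2) (fun h => hx (U.om x x.2 h)) ?_
      · intro e he
        apply U.om _ (hnA e (hEA he)).1
        calc n * e * n⁻¹ * (n * e * n⁻¹) = n * (e * e) * n⁻¹ := by group
          _ = 1 := by rw [he.2.1]; group
      · calc n * ((x : G) * x) * n⁻¹ = (n * x * n⁻¹) * (n * x * n⁻¹) := by group
          _ = x * x := by rw [hnx]
    exact U.stepc ho hnE x.2 hx hnx hnA t ht
  · -- perfect
    rcases U.C.normal (H := _root_.commutator G) inferInstance with h | h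
    · exfalso
      apply U.C.nab
      intro a b
      have : ⁅a, b⁆ ∈ _root_.commutator G :=
        Subgroup.commutator_mem_commutator (mem_top a) (mem_top b)
      rw [h, mem_bot, commutatorElement_eq_one_iff_mul_comm] at this
      exact this
    · exact h

end H75.PH
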