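import Mathlib
import Cfsg.Agent.Lib.H75.PH13

set_option autoImplicit false
set_option linter.all false

/-! The minimal situation is impossible (S3258). -/

namespace H75.PH

open Subgroup

universe u

/-- simple groups with Sylow 2-subgroups of order 4 -/
def GWH : Prop := ∀ (X : Type u) [Group X] [Finite X], IsSimpleGroup X →
  (∃ S : Sylow 2 X, Nat.card (S : Subgroup X) = 4) →
  ∃ (F : Type) (_ : Field F) (_ : Fintype F), (Fintype.card F % 8 = 3 ∨ Fintype.card F % 8 = 5) ∧
    3 < Fintype.card F ∧ Nonempty (X ≃* Matrix.ProjectiveSpecialLinearGroup (Fin 2) F)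

variable {G : Type u} [Group G] [Finite G] {π : Set ℕ}

theorem pow_relIndex_mem {H : Subgroup G} {g : G} (hg : g ∈ normalizer (H : Set G)) :
    g ^ ((centralizer (H : Set G)).relIndex (normalizer (H : Set G))) ∈ centralizer (H : Set G) := by
  haveI : ((centralizer (H : Set G)).subgroupOf (normalizer (H : Set G))).Normal := ⟨fun c hc k => by
    rw [mem_subgroupOf] at hc ⊢
    rw [mem_centralizer_iff] at hc ⊢
    intro x hx
    have h1 : (k : G)⁻¹ * x * (k : G) ∈ H := by
      have := (mem_normalizer_iff.1 (Subgroup.inv_mem _ k.2) x).1 hx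
      simpa using this
    have h2 := hc _ h1
    show x * ((k : G) * c * (k : G)⁻¹) = (k : G) * c * (k : G)⁻¹ * x
    calc x * ((k : G) * c * (k : G)⁻¹) = (k : G) * (((k : G)⁻¹ * x * k) * c) * (k : G)⁻¹ := by group
      _ = (k : G) * (c * ((k : G)⁻¹ * x * k)) * (k : G)⁻¹ := by rw [h2]
      _ = _ := by group⟩
  have h1 : (⟨g, hg⟩ : normalizer (H : Set G)) ^ ((centralizer (H : Set G)).relIndex (normalizer (H : Set G))) ∈
      (centralizer (H : Set G)).subgroupOf (normalizer (H : Set G)) :=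
    Subgroup.pow_index_mem _ _
  rw [mem_subgroupOf] at h1
  exact h1

theorem mem_pi_of' {H : Subgroup G} (hom : Pi π ((centralizer (H : Set G)).relIndex (normalizer (H : Set G)))) {g : G}
    (hg : g ∈ normalizer (H : Set G)) (hgc : g ∉ centralizer (H : Set G)) {p : ℕ} (hp : p.Prime)
    (ho : g ^ p ∈ centralizer (H : Set G)) : p ∈ π := by
  by_contra hpπ
  apply hgc
  set n := (centralizer (H : Set G)).relIndex (normalizer (H : Set G)) with hn
  have h1 : g ^ n ∈ centralizer (H : Set G) := pow_relIndex_mem hg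
  have hcop : Nat.Coprime n p := by
    rw [Nat.coprime_comm]
    exact (Nat.Prime.coprime_iff_not_dvd hp).2 fun hd => hpπ (hom p hp hd)
  have h2 := Nat.gcd_eq_gcd_ab n p
  rw [hcop] at h2
  have h3 : g = (g ^ n) ^ (Nat.gcdA n p) * (g ^ p) ^ (Nat.gcdB n p) := by
    rw [← zpow_natCast, ← zpow_natCast, ← zpow_mul, ← zpow_mul, ← zpow_add, ← h2]; simp
  rw [h3]
  exact mul_mem (zpow_mem h1 _) (zpow_mem ho _)

theorem cube_fix {E : Subgroup G} (h4 : Nat.card E = 4) {s : G} (hs : Odd (orderOf s))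
    (hsE : ∀ e ∈ E, s * e * s⁻¹ ∈ E) (hfix : ∀ e ∈ E, e ≠ 1 → s * e * s⁻¹ ≠ e) {e : G} (he : e ∈ E) :
    s ^ 3 * e * (s ^ 3)⁻¹ = e := by
  by_cases he1 : e = 1
  · rw [he1]; group
  have n1 := hfix e he he1
  have n2 := hfix _ (hsE e he) (inj_conj he1)
  have n3 : e ≠ s * (s * e * s⁻¹) * s⁻¹ := by
    intro h
    apply n1
    apply odd_comm hs
    have : s * s * e * (s * s)⁻¹ = s * (s * e * s⁻¹) * s⁻¹ := by group
    rw [this]; exact h.symm
  have e1 : s ^ 3 * e * (s ^ 3)⁻¹ = s * (s * (s * e * s⁻¹) * s⁻¹) * s⁻¹ := by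
    rw [pow_succ, pow_two]; group
  rw [e1]
  rcases four h4 he (hsE e he) (hsE _ (hsE e he)) he1 (inj_conj he1) (inj_conj (inj_conj he1)) n1.symm n3 n2.symm
    (hsE _ (hsE _ (hsE e he))) with h | h | h | h
  · exact absurd h (inj_conj (inj_conj (inj_conj he1)))
  · exact h
  · exfalso
    apply n3
    have : s * (s * e * s⁻¹) * s⁻¹ = s⁻¹ * (s * (s * (s * e * s⁻¹) * s⁻¹) * s⁻¹) * s := by group
    rw [this, h]; group
  · exfalso
    apply n1
    have : s * e * s⁻¹ = s⁻¹ * (s⁻¹ * (s * (s * (s * e * s⁻¹) * s⁻¹) * s⁻¹) * s) * s := by group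
    rw [this, h]; group

theorem Ctx.false (C : Ctx π G) (Z : ZS.{u}) (B : BenderQ.{u}) (W : GWH.{u}) : False := by
  let P : Sylow 2 G := default
  rcases C.rank2_cases Z B P with h | h
  · obtain ⟨F, i1, i2, hF, hF3, ⟨e⟩⟩ := W G C.simple ⟨P, h⟩
    obtain ⟨h4, hom⟩ := C.rank2 Z B P
    obtain ⟨s, hsP, hs, hfix⟩ := C.exists_s Z P h4
    have hsN : s ∈ normalizer ((P : Subgroup G) : Set G) := mem_normalizer_iff_cj.2 hsP
    have hsE : ∀ e ∈ Om (P : Subgroup G), s * e * s⁻¹ ∈ Om (P : Subgroup G) := fun e he => norm_Om hsN he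
    have hEne : Om (P : Subgroup G) ≠ ⊥ := by
      intro e
      rw [e, Subgroup.card_bot] at h4
      omega
    have h3 : 3 ∈ π := by
      apply mem_pi_of' (H := Om (P : Subgroup G)) (C.hom _ hEne _) (g := s) _ _ Nat.prime_three
      · rw [mem_centralizer_iff]
        intro e he
        have := cube_fix h4 hs hsE hfix he
        rw [mul_inv_eq_iff_eq_mul] at this
        exact this.symm
      · rw [h4]; exact Pi.pow Nat.prime_two C.two 2
      · rw [mem_normalizer_iff_cj]
        exact cj_Om_of hsP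
      · intro hc
        obtain ⟨z, hz, hz1⟩ := exists_Om P.2 (C.sylow_ne_bot P)
        apply hfix z hz hz1
        have := mem_centralizer_iff.1 hc z hz
        rw [← this]; group
    exact H79.PslPi.main e (by rw [Nat.card_eq_fintype_card]; exact hF) (by rw [Nat.card_eq_fintype_card]; exact hF3)
      C.two h3 C.cl C.hom
  · obtain ⟨s, U⟩ := C.u4 Z B P h
    exact U.false

end H75.PH
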