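import Mathlib
import Cfsg.Agent.Lib.H75.PH14
import Cfsg.Agent.Lib.H37.RedPi
import Cfsg.Agent.Lib.H83.BdC2

set_option autoImplicit false
set_option linter.all false

/-! S3258, from Bender's theorem, the four-group case of the dihedral theorem and the odd order theorem. -/

namespace H75.PH

open Subgroup H57.Bd H16.BD

universe u

theorem zs : ZS.{u} := fun G _ _ P z hz hzP hiso => H5.ZStar5.sylow_form H5.ZStar.zhyp P z hz hzP hiso

theorem core_bot {G : Type u} [Group G] [Finite G] [IsSimpleGroup G] {H : Subgroup G} (hH : H ≠ ⊤) : H.normalCore = ⊥ := by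
  rcases (Subgroup.normalCore_normal H).eq_bot_or_eq_top with h | h
  · exact h
  · exfalso
    apply hH
    rw [eq_top_iff, ← h]
    exact H.normalCore_le

theorem benderQ (main : BenderThm.{u, u}) : BenderQ.{u} := by
  intro G _ _ _ M hM h2 hodd ⟨v, w, hvw, hv, hw, hc⟩
  have hSE : Cfsg.IsStronglyEmbedded M := by
    refine ⟨hM, even_iff_two_dvd.2 h2, fun g hg => ?_⟩
    rw [← Nat.not_even_iff_odd, even_iff_two_dvd]
    exact hodd g hg
  obtain ⟨Q, h1, h2, h3, h4, h5, h6, h7⟩ := H83.BdC.exists_Q (H83.BdC.beta_of_se main hSE ⟨v, w, hvw, hv, hw, hc⟩)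
  refine ⟨Q, h2, h3, ?_, h6, ?_⟩
  · intro g hg u hu hgu
    have := h5 g hg u hu (by rw [← mul_assoc]; exact hgu)
    rw [core_bot hM] at this
    exact Subgroup.mem_bot.1 this
  · intro q
    obtain ⟨k, hk⟩ := h7 q q.2
    rw [core_bot hM, Subgroup.mem_bot] at hk
    exact ⟨k, Subtype.ext hk⟩

theorem final (main : BenderThm.{u, u}) (gw : GWH.{u})
    (ft : ∀ (X : Type u) [Group X] [Finite X], Odd (Nat.card X) → Group.IsSolvable X)
    {G : Type u} [Group G] [Finite G] (π : Set ℕ) (h2 : 2 ∈ π)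
    (hcl : ∀ H : Subgroup G, (∀ p : ℕ, p.Prime → p ∣ Nat.card ↥H → p ∈ π) → ∀ P : Sylow 2 ↥H, (P : Subgroup ↥H).Normal) :
    (∃ K : Subgroup G, ∀ x : G, x ∈ K ↔ ∀ p : ℕ, p.Prime → p ∣ orderOf x → p ∉ π) ↔
      (∀ H : Subgroup G, H ≠ ⊥ → (∀ p : ℕ, p.Prime → p ∣ Nat.card ↥H → p ∈ π) →
        ∀ p : ℕ, p.Prime → p ∣ (Subgroup.centralizer (H : Set G)).relIndex (Subgroup.normalizer (H : Set G)) → p ∈ π) :=
  H37.RedPi.red h2 ft (fun X _ _ hs hn hc hh hsub =>
    (Ctx.mk h2 hc hh hs hn hsub ft : Ctx π X).false zs (benderQ main) gw) hcl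

end H75.PH
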