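import Mathlib

set_option autoImplicit false

/-! Permutation groups with all orbits of length at most four are solvable. -/

namespace H75.PermFour

/-- membership test in the normal four-group -/
def isV (σ : Equiv.Perm (Fin 4)) : Bool :=
  decide (σ * σ = 1) && (decide (σ = 1) || decide (∀ x : Fin 4, σ x ≠ x))

theorem V_mul : ∀ a b : Equiv.Perm (Fin 4), isV a = true → isV b = true → isV (a * b) = true := by
  decide +kernel

theorem V_inv : ∀ a : Equiv.Perm (Fin 4), isV a = true → isV a⁻¹ = true := by
  decide +kernel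

theorem V_one : isV 1 = true := by
  decide +kernel

/-- The normal Klein four-subgroup of `S_4`. -/
def V : Subgroup (Equiv.Perm (Fin 4)) where
  carrier := {σ | isV σ = true}
  one_mem' := V_one
  mul_mem' := fun {a b} ha hb => V_mul a b ha hb
  inv_mem' := fun {a} ha => V_inv a ha

theorem mem_V (σ : Equiv.Perm (Fin 4)) : σ ∈ V ↔ isV σ = true := Iff.rfl

theorem comm1 : ∀ a b : Equiv.Perm (Fin 4), Equiv.Perm.sign (a * b * a⁻¹ * b⁻¹) = 1 := by
  intro a b
  rw [Equiv.Perm.sign_mul, Equiv.Perm.sign_mul, Equiv.Perm.sign_mul, Equiv.Perm.sign_inv, Equiv.Perm.sign_inv]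
  rcases Int.units_eq_one_or (Equiv.Perm.sign a) with h | h <;>
  rcases Int.units_eq_one_or (Equiv.Perm.sign b) with h' | h' <;> simp [h, h']

theorem comm2 : ∀ a b : Equiv.Perm (Fin 4), Equiv.Perm.sign a = 1 → Equiv.Perm.sign b = 1 →
    isV (a * b * a⁻¹ * b⁻¹) = true := by
  decide +kernel

theorem comm3 : ∀ a b : Equiv.Perm (Fin 4), isV a = true → isV b = true → a * b * a⁻¹ * b⁻¹ = 1 := by
  decide +kernel

theorem derived_eq_bot : derivedSeries (Equiv.Perm (Fin 4)) 3 = ⊥ := by
  have h1 : derivedSeries (Equiv.Perm (Fin 4)) 1 ≤ alternatingGroup (Fin 4) := by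
    rw [derivedSeries_succ, Subgroup.commutator_le]
    intro a _ b _
    rw [Equiv.Perm.mem_alternatingGroup]
    exact comm1 a b
  have h2 : derivedSeries (Equiv.Perm (Fin 4)) 2 ≤ V := by
    rw [derivedSeries_succ, Subgroup.commutator_le]
    intro a ha b hb
    rw [mem_V]
    exact comm2 a b (Equiv.Perm.mem_alternatingGroup.1 (h1 ha)) (Equiv.Perm.mem_alternatingGroup.1 (h1 hb))
  rw [eq_bot_iff, derivedSeries_succ, Subgroup.commutator_le]
  intro a ha b hb
  rw [Subgroup.mem_bot]
  exact comm3 a b (h2 ha) (h2 hb)

/-- derived series and injective homs -/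
theorem derived_of_injective {G H : Type*} [Group G] [Group H] (f : G →* H) (hf : Function.Injective f) (n : ℕ)
    (h : derivedSeries H n = ⊥) : derivedSeries G n = ⊥ := by
  have h1 := map_derivedSeries_le_derivedSeries (f := f) n
  rw [h, le_bot_iff, Subgroup.map_eq_bot_iff_of_injective _ hf] at h1
  exact h1

theorem derived_perm_of_card_le {α : Type*} [Finite α] (h : Nat.card α ≤ 4) :
    derivedSeries (Equiv.Perm α) 3 = ⊥ := by
  classical
  have : Fintype α := Fintype.ofFinite α
  have hcard : Fintype.card α ≤ Fintype.card (Fin 4) := by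
    rw [Nat.card_eq_fintype_card] at h; simpa using h
  obtain ⟨e⟩ := Function.Embedding.nonempty_of_card_le hcard
  exact derived_of_injective (Equiv.Perm.viaEmbeddingHom e) (Equiv.Perm.viaEmbeddingHom_injective e) 3 derived_eq_bot

/-- A group acting faithfully with all orbits of length at most four is solvable. -/
theorem isSolvable_of_orbits {G α : Type*} [Group G] [MulAction G α] [FaithfulSMul G α] [Finite α]
    (h : ∀ x : α, Nat.card (MulAction.orbit G x) ≤ 4) : Group.IsSolvable G := by
  refine ⟨3, ?_⟩
  rw [eq_bot_iff]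
  intro g hg
  rw [Subgroup.mem_bot]
  apply FaithfulSMul.eq_of_smul_eq_smul (α := α)
  intro x
  have h1 : MulAction.toPermHom G (MulAction.orbit G x) g ∈ derivedSeries (Equiv.Perm (MulAction.orbit G x)) 3 :=
    map_derivedSeries_le_derivedSeries (f := MulAction.toPermHom G (MulAction.orbit G x)) 3 ⟨g, hg, rfl⟩
  rw [derived_perm_of_card_le (h x), Subgroup.mem_bot] at h1
  have h2 := congrArg (fun σ : Equiv.Perm (MulAction.orbit G x) => ((σ ⟨x, MulAction.mem_orbit_self x⟩ : MulAction.orbit G x) : α)) h1
  simpa using h2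


/-- Orbits of a group generated by `m` transpositions have length at most `m + 1`. -/
theorem card_orbit_le {α : Type*} [Finite α] [DecidableEq α] {m : ℕ} (t : Fin m → Equiv.Perm α) (ht : ∀ i, (t i).IsSwap)
    (x : α) : Nat.card (MulAction.orbit (Subgroup.closure (Set.range t)) x) ≤ m + 1 := by
  classical
  set H := Subgroup.closure (Set.range t) with hH
  set O := MulAction.orbit H x with hO
  have : Fintype α := Fintype.ofFinite α
  have : Fintype O := Fintype.ofFinite O
  choose a b hab hs using ht
  have hclosed : ∀ g ∈ H, ∀ y, g y ∈ O ↔ y ∈ O := by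
    intro g hg y
    have h1 : (⟨g, hg⟩ : H) • y ∈ MulAction.orbit H x ↔ y ∈ MulAction.orbit H x := by
      constructor
      · intro h
        have := MulAction.mem_orbit_of_mem_orbit (⟨g, hg⟩⁻¹ : H) h
        rwa [inv_smul_smul] at this
      · exact MulAction.mem_orbit_of_mem_orbit (⟨g, hg⟩ : H)
    exact h1
  let E : (O → ℚ) → (α → ℚ) := fun f y => if h : y ∈ O then f ⟨y, h⟩ else 0
  let L : (O → ℚ) →ₗ[ℚ] (Fin m → ℚ) :=
    { toFun := fun f i => E f (a i) - E f (b i)
      map_add' := by
        intro f g
        funext i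
        simp only [E, Pi.add_apply]
        split_ifs <;> ring
      map_smul' := by
        intro c f
        funext i
        simp only [E, Pi.smul_apply, smul_eq_mul, RingHom.id_apply]
        split_ifs <;> ring }
  have hker : LinearMap.ker L ≤ Submodule.span ℚ {(fun _ => 1 : O → ℚ)} := by
    intro f hf
    rw [LinearMap.mem_ker] at hf
    have h1 : ∀ i, E f (a i) = E f (b i) := by
      intro i
      have := congrFun hf i
      exact sub_eq_zero.1 this
    have h2 : ∀ g ∈ H, ∀ y, E f (g y) = E f y := by
      intro g hg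
      induction hg using Subgroup.closure_induction with
      | mem g hg =>
        obtain ⟨i, rfl⟩ := hg
        intro x
        rw [hs i]
        rcases eq_or_ne x (a i) with rfl | hxa
        · rw [Equiv.swap_apply_left]; exact (h1 i).symm
        · rcases eq_or_ne x (b i) with rfl | hxb
          · rw [Equiv.swap_apply_right]; exact h1 i
          · rw [Equiv.swap_apply_of_ne_of_ne hxa hxb]
      | one => intro x; rfl
      | mul g h _ _ hg hh => intro x; rw [Equiv.Perm.mul_apply, hg, hh]
      | inv g _ hg =>
        intro x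
        have := hg (g⁻¹ x)
        rw [Equiv.Perm.inv_def, Equiv.apply_symm_apply] at this
        exact this.symm
    rw [Submodule.mem_span_singleton]
    refine ⟨f ⟨x, MulAction.mem_orbit_self x⟩, ?_⟩
    funext y
    obtain ⟨y, hy⟩ := y
    obtain ⟨g, hg⟩ := hy
    have h3 := h2 g g.2 x
    have hgy : (g : Equiv.Perm α) x = y := hg
    have hxO : x ∈ O := MulAction.mem_orbit_self x
    have hyO : y ∈ O := ⟨g, hg⟩
    have e1 : E f x = f ⟨x, hxO⟩ := by simp only [E, dif_pos hxO]
    have e2 : E f y = f ⟨y, hyO⟩ := by simp only [E, dif_pos hyO]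
    rw [hgy, e1, e2] at h3
    simp only [Pi.smul_apply, smul_eq_mul, mul_one]
    exact h3.symm
  have h3 := LinearMap.finrank_range_add_finrank_ker L
  have h4 : Module.finrank ℚ (LinearMap.range L) ≤ m := by
    have := Submodule.finrank_le (LinearMap.range L)
    simpa using this
  have h5 : Module.finrank ℚ (LinearMap.ker L) ≤ 1 := by
    refine (Submodule.finrank_mono hker).trans ?_
    exact (finrank_span_le_card (R := ℚ) ({(fun _ => 1 : O → ℚ)} : Set (O → ℚ))).trans (by simp)
  have h6 : Module.finrank ℚ (O → ℚ) = Fintype.card O := by simp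
  rw [Nat.card_eq_fintype_card]
  omega

end H75.PermFour
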